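import Mathlib
import Cfsg.Agent.Lib.ClassSize
import Cfsg.Agent.FGSev.PElem

set_option autoImplicit false

/-! Isaacs' theorem on the subgroup generated by the elements of smallest class size. -/

namespace Cfsg.Agent.FGSev

open scoped commutatorElement

variable {G : Type*} [Group G] [Finite G]

/-- If `x` has smallest noncentral class size and `A` is a normal abelian subgroup, then all
`[a, x]` are central. -/
theorem comm_mem_center_of_minimal (A : Subgroup G) [hAn : A.Normal] (hA : IsMulCommutative A)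
    {m : ℕ} {x : G} (hx : (Subgroup.centralizer ({x} : Set G)).index = m)
    (hmin : ∀ y : G, 1 < (Subgroup.centralizer ({y} : Set G)).index →
      m ≤ (Subgroup.centralizer ({y} : Set G)).index)
    {a : G} (ha : a ∈ A) : a * x * a⁻¹ * x⁻¹ ∈ Subgroup.center G := by
  classical
  set y := a * x * a⁻¹ * x⁻¹ with hy
  have hyA : y ∈ A := by
    have := mul_mem ha (hAn.conj_mem _ (inv_mem ha) x)
    simpa [hy, mul_assoc] using this
  by_cases hy1 : y = 1
  · rw [hy1]; exact one_mem _
  set C := Subgroup.centralizer ({x} : Set G) with hC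
  set D := Subgroup.centralizer ({y} : Set G) with hD
  have hcomm : ∀ u ∈ A, ∀ v ∈ A, u * v = v * u := fun u hu v hv =>
    congrArg Subtype.val (hA.is_comm.comm (⟨u, hu⟩ : A) ⟨v, hv⟩)
  have hAD : A ≤ D := fun u hu => Subgroup.mem_centralizer_singleton_iff.mpr (hcomm u hu y hyA)
  let B : Set G := {z | ∃ b ∈ A, z = b * x * b⁻¹ * x⁻¹}
  -- the conjugates of `y` under `C` avoid the identity and stay inside `B`
  have hS' : Nat.card {z : G // ∃ s ∈ C, z = s * y * s⁻¹} ≤ B.ncard - 1 := by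
    rw [← Set.ncard_diff_singleton_of_mem (show (1 : G) ∈ B from ⟨1, one_mem A, by simp⟩)]
    rw [← Nat.card_coe_set_eq]
    exact Nat.card_le_card_of_injective
      (fun z => (⟨z.1, by
        refine ⟨?_, ?_⟩
        · obtain ⟨s, hs, hz⟩ := z.2
          refine ⟨s * a * s⁻¹, hAn.conj_mem a ha s, ?_⟩
          have hsx : s * x = x * s := Subgroup.mem_centralizer_singleton_iff.mp hs
          have e : s * x * s⁻¹ = x := by rw [hsx, mul_inv_cancel_right]
          calc z.1 = s * a * s⁻¹ * (s * x * s⁻¹) * (s * a * s⁻¹)⁻¹ * (s * x * s⁻¹)⁻¹ := by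
                rw [hz, hy]; group
            _ = _ := by rw [e]
        · obtain ⟨s, hs, hz⟩ := z.2
          rw [Set.mem_singleton_iff, hz, conj_eq_one_iff]
          exact hy1⟩ : ↥(B \ {1})))
      (fun z w h => Subtype.ext (congrArg Subtype.val h :))
  have horbC := Cfsg.Agent.FGSev.card_conj_mul_card_centralizer C y
  rw [← hD] at horbC
  -- the size of `B`
  have hB : B.ncard * Nat.card ↥(A ⊓ C) = Nat.card A := by
    rw [← Cfsg.Agent.FGSev.card_conj_mul_card_centralizer A x, ← hC]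
    congr 1
    rw [← Nat.card_coe_set_eq]
    refine Nat.card_congr ((Equiv.mulRight x).subtypeEquiv fun z => ?_)
    show (∃ b ∈ A, z = b * x * b⁻¹ * x⁻¹) ↔ ∃ b ∈ A, z * x = b * x * b⁻¹
    exact exists_congr fun b => and_congr_right fun _ => eq_mul_inv_iff_mul_eq
  -- a lower bound for the centralizer of `y`
  have hprod : Nat.card A * Nat.card ↥(C ⊓ D) ≤ Nat.card D * Nat.card ↥(A ⊓ C) := by
    rw [← Nat.card_prod, ← Nat.card_prod]
    let r : D → A × ↥(C ⊓ D) := fun d =>
      if h : ∃ z : A × ↥(C ⊓ D), (z.1 : G) * z.2 = d then h.choose else (1, 1)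
    refine Nat.card_le_card_of_injective
      (fun z : A × ↥(C ⊓ D) => ((⟨(z.1 : G) * z.2, mul_mem (hAD z.1.2) z.2.2.2⟩ : D),
        (⟨((r ⟨(z.1 : G) * z.2, mul_mem (hAD z.1.2) z.2.2.2⟩).1 : G)⁻¹ * z.1, ?_⟩ : ↥(A ⊓ C)))) ?_
    · refine Subgroup.mem_inf.mpr ⟨mul_mem (inv_mem (Subtype.prop _)) z.1.2, ?_⟩
      set d : D := ⟨(z.1 : G) * z.2, mul_mem (hAD z.1.2) z.2.2.2⟩
      have hex : ∃ w : A × ↥(C ⊓ D), (w.1 : G) * w.2 = d := ⟨z, rfl⟩
      have hr : ((r d).1 : G) * (r d).2 = (z.1 : G) * z.2 := by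
        simp only [r, dif_pos hex]
        exact hex.choose_spec
      have e : ((r d).1 : G)⁻¹ * z.1 = ((r d).2 : G) * (z.2 : G)⁻¹ := by
        calc ((r d).1 : G)⁻¹ * z.1 = ((r d).1 : G)⁻¹ * ((z.1 : G) * z.2) * (z.2 : G)⁻¹ := by group
          _ = _ := by rw [← hr]; group
      rw [e]
      exact mul_mem (Subgroup.mem_inf.mp (r d).2.2).1 (inv_mem (Subgroup.mem_inf.mp z.2.2).1)
    · rintro z w h
      obtain ⟨h1, h2⟩ := Prod.ext_iff.mp h
      have h1' : (z.1 : G) * z.2 = (w.1 : G) * w.2 := congrArg Subtype.val h1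
      have h2' := congrArg Subtype.val h2
      simp only at h2'
      have he : (⟨(z.1 : G) * z.2, mul_mem (hAD z.1.2) z.2.2.2⟩ : D) =
          ⟨(w.1 : G) * w.2, mul_mem (hAD w.1.2) w.2.2.2⟩ := Subtype.ext h1'
      rw [he] at h2'
      have h3 := mul_left_cancel h2'
      refine Prod.ext (Subtype.ext h3) (Subtype.ext ?_)
      rw [h3] at h1'
      exact mul_left_cancel h1'
  -- compare
  by_contra hcen
  have hidx : 1 < D.index := by
    refine lt_of_le_of_ne (Nat.one_le_iff_ne_zero.mpr Subgroup.index_ne_zero_of_finite) fun h => hcen ?_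
    exact (ClassSize.index_centralizer_eq_one_iff y).mp h.symm
  have h1 : m ≤ D.index := hmin y hidx
  have h2 : Nat.card D ≤ Nat.card C := by
    have e1 := D.card_mul_index
    have e2 := C.card_mul_index
    rw [hx] at e2
    rw [← e2] at e1
    have hm : 0 < m := hx ▸ Nat.pos_of_ne_zero Subgroup.index_ne_zero_of_finite
    exact Nat.le_of_mul_le_mul_right ((Nat.mul_le_mul_left _ h1).trans e1.le) hm
  have hBpos : 0 < B.ncard := (Set.ncard_pos (Set.toFinite _)).mpr ⟨1, 1, one_mem A, by simp⟩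
  have hposA : 0 < Nat.card ↥(A ⊓ C) := Nat.card_pos
  have hposD : 0 < Nat.card ↥(C ⊓ D) := Nat.card_pos
  -- `|C| = orbit * |C ⊓ D| < |B| * |C ⊓ D| = |A| |C ⊓ D| / |A ⊓ C| ≤ |D|`
  have h3 : Nat.card C * Nat.card ↥(A ⊓ C) < Nat.card D * Nat.card ↥(A ⊓ C) := by
    refine lt_of_lt_of_le ?_ hprod
    rw [← horbC, ← hB, mul_right_comm]
    refine Nat.mul_lt_mul_of_pos_right ?_ hposD
    exact Nat.mul_lt_mul_of_pos_right (by omega) hposA
  exact absurd (Nat.lt_of_mul_lt_mul_right h3) h2.not_gt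

/-- Isaacs: with a self-centralising normal abelian subgroup, the elements of the two smallest
class sizes generate a subgroup of class at most three. -/
theorem lowerCentralSeries_small_class_eq_bot (A : Subgroup G) [A.Normal] (hA : IsMulCommutative A)
    (hCA : Subgroup.centralizer (A : Set G) = A) (S : Set G)
    (hS : ∀ x ∈ S, ∀ a ∈ A, a * x * a⁻¹ * x⁻¹ ∈ Subgroup.center G) :
    (Subgroup.closure S).lowerCentralSeries 3 = ⊥ := by
  set M := Subgroup.closure S
  have hAM : ⁅A, M⁆ ≤ Subgroup.center G := by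
    rw [Subgroup.commutator_le]
    intro a ha b hb
    induction hb using Subgroup.closure_induction with
    | mem x hx => exact hS x hx a ha
    | one => simp
    | mul u v _ _ hu hv =>
      have e : ⁅a, u * v⁆ = ⁅a, u⁆ * (u * ⁅a, v⁆ * u⁻¹) := by simp [commutatorElement_def, mul_assoc]
      rw [e]
      exact mul_mem hu ((inferInstance : (Subgroup.center G).Normal).conj_mem _ hv u)
    | inv u _ hu =>
      have e : ⁅a, u⁻¹⁆ = u⁻¹ * ⁅a, u⁆⁻¹ * u⁻¹⁻¹ := by simp [commutatorElement_def, mul_assoc]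
      rw [e]
      exact (inferInstance : (Subgroup.center G).Normal).conj_mem _ (inv_mem hu) _
  have h1 : ⁅⁅A, M⁆, M⁆ = ⊥ := by
    rw [Subgroup.commutator_eq_bot_iff_le_centralizer]
    exact hAM.trans (Subgroup.center_le_centralizer _)
  have h2 : ⁅⁅M, A⁆, M⁆ = ⊥ := by rwa [Subgroup.commutator_comm M A]
  have h3 : ⁅⁅M, M⁆, A⁆ = ⊥ := Subgroup.commutator_commutator_eq_bot_of_rotate h2 h1
  have h4 : ⁅M, M⁆ ≤ A := by
    rw [← hCA]; exact Subgroup.commutator_eq_bot_iff_le_centralizer.mp h3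
  exact Subgroup.lowerCentralSeries_succ_eq_bot M
    (le_trans (Subgroup.commutator_mono h4 le_rfl) hAM)

end Cfsg.Agent.FGSev
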