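import Cfsg.Agent.FGSev.PElem
import Cfsg.Agent.FGSev.TwoPrimeDegrees
import Cfsg.Agent.S4169
import Cfsg.Agent.Coprime.Generation
import Cfsg.Agent.Lib.FrobeniusComplement
import Cfsg.Agent.Lib.ClassSize
import Cfsg.Agent.Lib.Element

/-!
Groups with two conjugacy class sizes (Itô).
-/

namespace Cfsg.Agent.FGSev

open Subgroup

variable {G : Type*} [Group G] [Finite G]

/-- A noncentral element has a noncentral prime-power part. -/
theorem exists_noncentral_primePow {x : G} (hx : x ∉ center G) :
    ∃ w ∈ zpowers x, w ∉ center G ∧ ∃ (q : ℕ) (k : ℕ), q.Prime ∧ orderOf w = q ^ k := by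
  by_contra hcon
  push Not at hcon
  apply hx
  have hle : closure {g : zpowers x | ∃ q k : ℕ, q.Prime ∧ orderOf g = q ^ k} ≤
      (center G).subgroupOf (zpowers x) := by
    rw [closure_le]
    rintro g ⟨q, k, hq, hg⟩
    by_contra hgc
    exact hcon g g.2 hgc q k hq (by rwa [Subgroup.orderOf_coe])
  rw [Element.closure_primePow_orderOf] at hle
  exact hle (mem_top ⟨x, mem_zpowers x⟩)

omit [Finite G] in
theorem centralizer_le_of_mem_zpowers {x w : G} (hw : w ∈ zpowers x) :
    centralizer ({x} : Set G) ≤ centralizer ({w} : Set G) := by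
  intro g hg
  rw [mem_centralizer_singleton_iff] at hg ⊢
  obtain ⟨i, rfl⟩ := hw
  exact (Commute.zpow_right hg i).eq

omit [Finite G] in
theorem mem_centralizer_self (x : G) : x ∈ centralizer ({x} : Set G) :=
  mem_centralizer_singleton_iff.2 rfl

omit [Finite G] in
theorem not_mem_center_iff_exists {x : G} : x ∉ center G ↔ ∃ g, g * x ≠ x * g := by
  rw [mem_center_iff]; push Not; rfl

/-- A noncentral `q`-element in a subgroup over the centre makes `q` divide its index. -/
theorem prime_dvd_relIndex {C : Subgroup G} {q k : ℕ} (hq : q.Prime) {y : G} (hyC : y ∈ C)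
    (hyZ : y ∉ center G) (hy : orderOf y = q ^ k) : q ∣ (center G).relIndex C := by
  haveI : ((center G).subgroupOf C).Normal := inferInstance
  have h1 : orderOf (QuotientGroup.mk' ((center G).subgroupOf C) ⟨y, hyC⟩) ∣ q ^ k := by
    rw [← hy]
    refine (orderOf_map_dvd _ _).trans (by rw [orderOf_mk])
  obtain ⟨i, -, hi⟩ := (Nat.dvd_prime_pow hq).1 h1
  have hi0 : i ≠ 0 := by
    rintro rfl
    rw [pow_zero, orderOf_eq_one_iff] at hi
    exact hyZ ((QuotientGroup.eq_one_iff (N := (center G).subgroupOf C) ⟨y, hyC⟩).1 hi)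
  have h2 := orderOf_dvd_natCard (QuotientGroup.mk' ((center G).subgroupOf C) ⟨y, hyC⟩)
  rw [hi] at h2
  exact (dvd_pow_self q hi0).trans h2

/-- Conversely a prime divisor of the index is witnessed by a noncentral element. -/
theorem exists_noncentral_of_dvd {C : Subgroup G} {q : ℕ} (hq : q.Prime)
    (hd : q ∣ (center G).relIndex C) : ∃ y ∈ C, y ∉ center G ∧ ∃ k, orderOf y = q ^ k := by
  haveI := Fact.mk hq
  haveI : ((center G).subgroupOf C).Normal := inferInstance
  obtain ⟨b, hb⟩ := exists_prime_orderOf_dvd_card' (G := C ⧸ (center G).subgroupOf C) q hd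
  obtain ⟨a, rfl⟩ := QuotientGroup.mk'_surjective _ b
  obtain ⟨i, hi⟩ : ∃ i, orderOf (Element.pPart q a) = q ^ i :=
    ⟨_, Element.orderOf_pPart_eq_pow hq a⟩
  refine ⟨(Element.pPart q a : C), (Element.pPart q a).2, fun hc => ?_, _, by
    rw [Subgroup.orderOf_coe]; exact hi⟩
  have hm := Element.map_pPart hq (QuotientGroup.mk' ((center G).subgroupOf C)) a
  rw [(Element.pPart_eq_self hq (k := 1) (g := QuotientGroup.mk' ((center G).subgroupOf C) a)
    (by rw [hb, pow_one])).1] at hm
  have h1 : QuotientGroup.mk' ((center G).subgroupOf C) (Element.pPart q a) = 1 :=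
    (QuotientGroup.eq_one_iff _).2 hc
  rw [h1] at hm
  rw [← hm.1, orderOf_one] at hb
  exact hq.one_lt.ne hb

section

variable {n : ℕ}
  (h : ∀ x : G, (centralizer ({x} : Set G)).index = 1 ∨ (centralizer ({x} : Set G)).index = n)

include h

theorem index_eq {x : G} (hx : x ∉ center G) : (centralizer ({x} : Set G)).index = n :=
  (h x).resolve_left fun e => hx ((ClassSize.index_centralizer_eq_one_iff x).1 e)

theorem centralizer_eq_of_le {x y : G} (hx : x ∉ center G) (hy : y ∉ center G)
    (hle : centralizer ({x} : Set G) ≤ centralizer ({y} : Set G)) :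
    centralizer ({x} : Set G) = centralizer ({y} : Set G) := by
  refine eq_of_le_of_card_ge hle (le_of_eq ?_)
  apply Nat.eq_of_mul_eq_mul_right (m := n) ?_
  · conv_lhs => rw [← index_eq h hy, card_mul_index]
    conv_rhs => rw [← index_eq h hx, card_mul_index]
  · rw [← index_eq h hx]; exact Nat.pos_of_ne_zero index_ne_zero_of_finite

theorem relIndex_center_eq {x y : G} (hx : x ∉ center G) (hy : y ∉ center G) :
    (center G).relIndex (centralizer ({x} : Set G)) =
      (center G).relIndex (centralizer ({y} : Set G)) := by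
  have e1 := relIndex_mul_index (center_le_centralizer ({x} : Set G))
  have e2 := relIndex_mul_index (center_le_centralizer ({y} : Set G))
  rw [index_eq h hx] at e1
  rw [index_eq h hy, ← e1] at e2
  exact (Nat.eq_of_mul_eq_mul_right (by
    rw [← index_eq h hx]; exact Nat.pos_of_ne_zero index_ne_zero_of_finite) e2).symm

/-- If two primes carry noncentral elements, all proper centralisers are abelian. -/
theorem abelian_centralizer
    (hmulti : ∀ p : ℕ, p.Prime → ∃ (q : ℕ) (y : G), q.Prime ∧ q ≠ p ∧ y ∉ center G ∧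
      ∃ k, orderOf y = q ^ k)
    {x : G} (hx : x ∉ center G) :
    ∀ a ∈ centralizer ({x} : Set G), ∀ b ∈ centralizer ({x} : Set G), a * b = b * a := by
  obtain ⟨w, hwx, hw, p, k, hp, hwk⟩ := exists_noncentral_primePow hx
  rw [centralizer_eq_of_le h hx hw (centralizer_le_of_mem_zpowers hwx)]
  -- a noncentral element of another prime order in the centraliser
  obtain ⟨q, y, hq, hqp, hy, l, hyl⟩ := hmulti p hp
  have hd : q ∣ (center G).relIndex (centralizer ({w} : Set G)) := by
    rw [relIndex_center_eq h hw hy]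
    exact prime_dvd_relIndex hq (mem_centralizer_self y) hy hyl
  obtain ⟨v, hvC, hv, m, hvm⟩ := exists_noncentral_of_dvd hq hd
  have hwv : Commute v w := mem_centralizer_singleton_iff.1 hvC
  have key : ∀ {r s : G} {d e : ℕ}, r ∉ center G → Commute r s → orderOf r = d → orderOf s = e →
      d.Coprime e → ∀ t, Commute t r → Commute t s → centralizer ({r} : Set G) ≤ centralizer ({s} : Set G) := by
    intro r s d e hr hrs hd he hde t _ _
    have hle : centralizer ({r * s} : Set G) ≤ centralizer ({r} : Set G) ⊓ centralizer ({s} : Set G) := by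
      rw [Element.centralizer_mul_of_coprime hrs (by rw [hd, he]; exact hde)]
    have hrsn : r * s ∉ center G := fun hc => hr (by
      have h1 : centralizer ({r} : Set G) = ⊤ := top_le_iff.1 (by
        rw [← centralizer_eq_top_iff_subset.2 (Set.singleton_subset_iff.2 hc)]
        exact hle.trans inf_le_left)
      exact Set.singleton_subset_iff.1 (centralizer_eq_top_iff_subset.1 h1))
    rw [← centralizer_eq_of_le h hrsn hr (hle.trans inf_le_left)]
    exact hle.trans inf_le_right
  intro a ha b hb
  -- `a` is central in `C(w)`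
  suffices hcen : ∀ b ∈ centralizer ({w} : Set G), Commute a b from (hcen b hb).eq
  intro b hb
  have hawc : Commute a w := mem_centralizer_singleton_iff.1 ha
  have hCwv : centralizer ({w} : Set G) = centralizer ({v} : Set G) :=
    centralizer_eq_of_le h hw hv (key hw hwv.symm hwk hvm
      (Nat.Coprime.pow k m ((Nat.coprime_primes hp hq).2 (Ne.symm hqp))) w (Commute.refl w) hwv.symm)
  have hbv : Commute b v := mem_centralizer_singleton_iff.1 (hCwv ▸ hb)
  have hav : Commute a v := mem_centralizer_singleton_iff.1 (hCwv ▸ ha)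
  -- the `p'`-part
  have h1 : centralizer ({w} : Set G) ≤ centralizer ({Element.pComplPart p a} : Set G) :=
    key hw (Element.commute_pComplPart hawc.symm) hwk rfl
      ((Element.coprime_orderOf_pComplPart hp a).symm.pow_left k) w (Commute.refl w)
      (Element.commute_pComplPart hawc.symm)
  -- the `p`-part
  obtain ⟨i, hi⟩ : ∃ i, orderOf (Element.pPart p a) = p ^ i :=
    ⟨_, Element.orderOf_pPart_eq_pow hp a⟩
  have h2 : centralizer ({v} : Set G) ≤ centralizer ({Element.pPart p a} : Set G) :=
    key hv (Element.commute_pPart hav.symm) hvm hi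
      (Nat.Coprime.pow m i ((Nat.coprime_primes hq hp).2 hqp)) v (Commute.refl v)
      (Element.commute_pPart hav.symm)
  have hb1 : Commute b (Element.pComplPart p a) := mem_centralizer_singleton_iff.1 (h1 hb)
  have hb2 : Commute b (Element.pPart p a) :=
    mem_centralizer_singleton_iff.1 (h2 (hCwv ▸ hb))
  rw [← Element.pPart_mul_pComplPart p a]
  exact (hb2.mul_right hb1).symm

/-- The partition of the noncentral elements gives a congruence. -/
theorem sub_dvd_card
    (hab : ∀ x : G, x ∉ center G →
      ∀ a ∈ centralizer ({x} : Set G), ∀ b ∈ centralizer ({x} : Set G), a * b = b * a)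
    {x : G} (hx : x ∉ center G) :
    Nat.card (centralizer ({x} : Set G)) - Nat.card (center G) ∣
      Nat.card G - Nat.card (center G) := by
  classical
  haveI : Fintype G := Fintype.ofFinite G
  let T : Finset G := Finset.univ.filter fun y => y ∉ center G
  have hT : T.card = Nat.card G - Nat.card (center G) := by
    show (Finset.univ.filter fun y => y ∉ center G).card = _
    rw [Finset.filter_not, Finset.card_sdiff_of_subset (Finset.filter_subset _ _), Finset.card_univ,
      Nat.card_eq_fintype_card, Nat.card_eq_fintype_card (α := center G), Fintype.card_subtype]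
  rw [← hT, Finset.card_eq_sum_card_image (fun y => centralizer ({y} : Set G)) T]
  refine Finset.dvd_sum fun C hC => ?_
  obtain ⟨y, hy, rfl⟩ := Finset.mem_image.1 hC
  have hyZ : y ∉ center G := (Finset.mem_filter.1 hy).2
  have hset : T.filter (fun z => centralizer ({z} : Set G) = centralizer ({y} : Set G)) =
      (Finset.univ.filter fun z => z ∈ centralizer ({y} : Set G)) \
        (Finset.univ.filter fun z => z ∈ center G) := by
    ext z
    simp only [T, Finset.mem_filter, Finset.mem_univ, true_and, Finset.mem_sdiff]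
    constructor
    · rintro ⟨hz, he⟩
      exact ⟨he ▸ mem_centralizer_self z, hz⟩
    · rintro ⟨hzC, hz⟩
      refine ⟨hz, (centralizer_eq_of_le h hyZ hz ?_).symm⟩
      intro b hb
      exact mem_centralizer_singleton_iff.2 (hab y hyZ b hb z hzC)
  rw [hset, Finset.card_sdiff_of_subset (fun z => by
      simp only [Finset.mem_filter, Finset.mem_univ, true_and]
      exact fun hz => center_le_centralizer _ hz),
    ← Fintype.card_subtype, ← Fintype.card_subtype, ← Nat.card_eq_fintype_card,
    ← Nat.card_eq_fintype_card]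
  have e1 : Nat.card {z // z ∈ centralizer ({y} : Set G)} = Nat.card (centralizer ({x} : Set G)) := by
    apply Nat.eq_of_mul_eq_mul_right (m := n)
    · rw [← index_eq h hx]; exact Nat.pos_of_ne_zero index_ne_zero_of_finite
    · conv_lhs => rw [← index_eq h hyZ]; erw [card_mul_index]
      conv_rhs => rw [← index_eq h hx, card_mul_index]
  rw [e1]

/-- The normaliser action on an abelian centraliser bounds the `p`-part of the class size. -/
theorem factorization_le_one (hn : 1 < n)
    (hmulti : ∀ p : ℕ, p.Prime → ∃ (q : ℕ) (y : G), q.Prime ∧ q ≠ p ∧ y ∉ center G ∧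
      ∃ k, orderOf y = q ^ k)
    {p : ℕ} [hp : Fact p.Prime] (hdvd : p ∣ (center G).index) :
    n.factorization p ≤ 1 ∧ ∃ x w : G, x ∉ center G ∧
      (n.factorization p = 1 → w ∉ centralizer ({x} : Set G) ∧ (∃ k, orderOf w = p ^ k) ∧
        ∀ a ∈ centralizer ({x} : Set G), w * a * w⁻¹ ∈ centralizer ({x} : Set G)) := by
  classical
  have hab := fun (x : G) hx => abelian_centralizer h hmulti (x := x) hx
  -- a noncentral `p`-element, and the Sylow subgroup modulo the centre
  obtain ⟨P⟩ : Nonempty (Sylow p G) := inferInstance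
  obtain ⟨y, -, hy, k, hyk⟩ := exists_noncentral_of_dvd (G := G) (C := ⊤) hp.out
    (by rwa [relIndex_top_right])
  obtain ⟨g, hg⟩ := pElem_conj_mem P ⟨k, hyk⟩
  let π := QuotientGroup.mk' (center G)
  set Q := (P : Subgroup G).map π with hQ
  have hQne : Nontrivial Q := by
    refine (Q.bot_or_nontrivial).resolve_left fun e => hy ?_
    have h1 : π (g⁻¹ * y * g) ∈ Q := ⟨_, hg, rfl⟩
    rw [e, mem_bot] at h1
    have h2 : g⁻¹ * y * g ∈ center G := (QuotientGroup.eq_one_iff _).1 h1
    have h3 := (center G).mul_mem h2 (one_mem (center G))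
    have h4 := (inferInstance : (center G).Normal).conj_mem _ h2 g
    simpa [mul_assoc] using h4
  have : Nontrivial (center Q) := (nontrivial_iff_ne_bot _).mpr (P.2.map π).bot_lt_center.ne'
  obtain ⟨z, hz⟩ := exists_prime_orderOf_dvd_card' (G := center Q) p (by
    obtain ⟨j, hj⟩ := IsPGroup.iff_card.mp ((P.2.map π).to_subgroup (center Q))
    rw [hj]
    refine dvd_pow_self p ?_
    rintro rfl
    exact (Finite.one_lt_card (α := center Q)).ne' (by rw [hj, pow_zero]))
  obtain ⟨x, hxP, hxz⟩ := (z : Q).2
  have hxo : orderOf (π x) = p := by rw [hxz, Subgroup.orderOf_coe, Subgroup.orderOf_coe, hz]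
  have hxZ : x ∉ center G := fun hc => hp.out.one_lt.ne (by
    rw [← hxo, show π x = 1 from (QuotientGroup.eq_one_iff x).2 hc, orderOf_one])
  have hxp : x ^ p ∈ center G := (QuotientGroup.eq_one_iff _).1 (by
    show π (x ^ p) = 1
    rw [map_pow, ← hxo, pow_orderOf_eq_one])
  have hcomm : ∀ w ∈ (P : Subgroup G), x * w * x⁻¹ * w⁻¹ ∈ center G := by
    intro w hw
    have h1 := mem_center_iff.1 z.2 ⟨π w, w, hw, rfl⟩
    have h2 : π w * π x = π x * π w := by rw [hxz]; exact congrArg Subtype.val h1
    apply (QuotientGroup.eq_one_iff _).1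
    show π (x * w * x⁻¹ * w⁻¹) = 1
    simp only [map_mul, map_inv]
    rw [← h2]; group
  set A := centralizer ({x} : Set G) with hA
  have hAab := hab x hxZ
  -- `P` normalises `A`
  have hnorm : ∀ w ∈ (P : Subgroup G), ∀ a ∈ A, w * a * w⁻¹ ∈ A := by
    intro w hw a ha
    have hc := mem_center_iff.1 (hcomm w⁻¹ (inv_mem hw))
    rw [hA, mem_centralizer_singleton_iff] at ha ⊢
    set c := x * w⁻¹ * x⁻¹ * w⁻¹⁻¹ with hcdef
    have e1 : w⁻¹ * x * w = c⁻¹ * x := by rw [hcdef]; group
    have hc' : ∀ t, t * c⁻¹ = c⁻¹ * t := fun t => by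
      rw [eq_inv_mul_iff_mul_eq, ← mul_assoc, ← hc t, mul_inv_cancel_right]
    calc w * a * w⁻¹ * x = w * (a * (w⁻¹ * x * w)) * w⁻¹ := by group
      _ = w * (a * (c⁻¹ * x)) * w⁻¹ := by rw [e1]
      _ = w * ((c⁻¹ * x) * a) * w⁻¹ := by
        rw [← mul_assoc a, hc' a, mul_assoc c⁻¹, ha, ← mul_assoc c⁻¹]
      _ = w * (w⁻¹ * x * w * a) * w⁻¹ := by rw [e1]
      _ = x * (w * a * w⁻¹) := by group
  -- `P / (P ∩ A)` has exponent `p`
  have hwp : ∀ w ∈ (P : Subgroup G), w ^ p ∈ A := by
    intro w hw
    have hc := mem_center_iff.1 (hcomm w hw)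
    set c := x * w * x⁻¹ * w⁻¹ with hcdef
    have hcw : Commute c w := (hc w).symm
    have hpow : ∀ j : ℕ, x ^ j * w * (x ^ j)⁻¹ = c ^ j * w := by
      intro j
      induction j with
      | zero => simp
      | succ j ih =>
        rw [show x ^ (j + 1) * w * (x ^ (j + 1))⁻¹ = x * (x ^ j * w * (x ^ j)⁻¹) * x⁻¹ by
          rw [pow_succ']; group, ih]
        have hcx : Commute x (c ^ j) := Commute.pow_right (hc x) j
        calc x * (c ^ j * w) * x⁻¹ = c ^ j * (x * w * x⁻¹) := by
              rw [← mul_assoc, hcx.eq]; group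
          _ = c ^ j * (c * w) := by rw [hcdef]; group
          _ = c ^ (j + 1) * w := by rw [pow_succ]; group
    have hcp : c ^ p = 1 := by
      have h1 := hpow p
      rw [← mem_center_iff.1 hxp w, mul_inv_cancel_right] at h1
      exact mul_eq_right.1 h1.symm
    rw [hA, mem_centralizer_singleton_iff]
    have h2 : x * w ^ p * x⁻¹ = w ^ p := by
      rw [← conj_pow, show x * w * x⁻¹ = c * w by rw [hcdef]; group, hcw.mul_pow, hcp, one_mul]
    exact (mul_inv_eq_iff_eq_mul.1 h2).symm
  -- the index of `P ∩ A` in `P`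
  set PA := ((P : Subgroup G) ⊓ A) with hPA
  have hidx : A.relIndex (P : Subgroup G) ≤ p := by
    obtain ⟨q, yq, hq, hqp, hyq, l, hyl⟩ := hmulti p hp.out
    haveI := Fact.mk hq
    obtain ⟨a₀, ha₀A, ha₀, m, ha₀m⟩ := exists_noncentral_of_dvd (C := A) hq (by
      rw [hA, relIndex_center_eq h hxZ hyq]
      exact prime_dvd_relIndex hq (mem_centralizer_self yq) hyq hyl)
    let W : Subgroup G :=
      { carrier := {a | a ∈ A ∧ ∃ j : ℕ, j.Coprime q ∧ a ^ j ∈ center G}
        one_mem' := ⟨one_mem A, 1, Nat.coprime_one_left q, by rw [one_pow]; exact one_mem _⟩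
        mul_mem' := by
          rintro a b ⟨ha, i, hi, hai⟩ ⟨hb, j, hj, hbj⟩
          refine ⟨mul_mem ha hb, i * j, hi.mul_left hj, ?_⟩
          rw [(show Commute a b from hAab a ha b hb).mul_pow, pow_mul a, mul_comm i j, pow_mul b]
          exact mul_mem (pow_mem hai j) (pow_mem hbj i)
        inv_mem' := by
          rintro a ⟨ha, i, hi, hai⟩
          exact ⟨inv_mem ha, i, hi, by rw [inv_pow]; exact inv_mem hai⟩ }
    let L := normalizer (A : Set G)
    have hWn : (W.subgroupOf L).Normal := by
      refine ⟨fun a ha g => ?_⟩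
      obtain ⟨ha, i, hi, hai⟩ := ha
      refine ⟨(mem_normalizer_iff.1 g.2 _).1 ha, i, hi, ?_⟩
      show ((g : G) * (a : G) * (g : G)⁻¹) ^ i ∈ center G
      rw [conj_pow]
      exact (inferInstance : (center G).Normal).conj_mem _ hai _
    haveI := hWn
    have hPL : (P : Subgroup G) ≤ L := fun w hw => mem_normalizer_iff.2 fun a =>
      ⟨hnorm w hw a, fun h' => by
        have := hnorm w⁻¹ (inv_mem hw) _ h'
        simpa [mul_assoc] using this⟩
    let ρ := QuotientGroup.mk' (W.subgroupOf L)
    let φ : (P : Subgroup G) →* L ⧸ W.subgroupOf L := ρ.comp (inclusion hPL)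
    have hker : ∀ w : (P : Subgroup G), φ w = 1 ↔ (w : G) ∈ A := by
      intro w
      show ρ _ = 1 ↔ _
      rw [QuotientGroup.mk'_apply, QuotientGroup.eq_one_iff, mem_subgroupOf]
      refine ⟨fun h' => h'.1, fun h' => ?_⟩
      obtain ⟨j, hj⟩ := pElem_of_mem P.2 w.2
      refine ⟨h', orderOf (w : G), ?_, ?_⟩
      · rw [hj]
        exact ((Nat.coprime_primes hp.out hq).2 (Ne.symm hqp)).pow_left j
      · show (w : G) ^ orderOf (w : G) ∈ center G
        rw [pow_orderOf_eq_one]; exact one_mem _
    have hφc : IsMulCommutative φ.range := by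
      refine ⟨⟨?_⟩⟩
      rintro ⟨_, u, rfl⟩ ⟨_, v, rfl⟩
      apply Subtype.ext
      show φ u * φ v = φ v * φ u
      rw [← map_mul, ← map_mul]
      apply mul_inv_eq_one.1
      rw [← map_inv, ← map_mul, hker]
      have hc := mem_center_iff.1 (hcomm u u.2)
      have hd := mem_center_iff.1 (hcomm v v.2)
      rw [hA, mem_centralizer_singleton_iff]
      push_cast
      set c := x * (u : G) * x⁻¹ * (u : G)⁻¹
      set d := x * (v : G) * x⁻¹ * (v : G)⁻¹
      let δ : Commute x c ∧ Commute x d := ⟨hc x, hd x⟩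
      have e1 : x * (u : G) * x⁻¹ = c * u := by simp only [c]; group
      have e2 : x * (v : G) * x⁻¹ = d * v := by simp only [d]; group
      have hcu : Commute c (v : G) := (hc v).symm
      have hdu : Commute d (u : G) := (hd u).symm
      have hcd : Commute c d := (hc d).symm
      have e3 : x * ((u : G) * v * ((v : G) * u)⁻¹) * x⁻¹ =
          (c * u) * (d * v) * ((d * v) * (c * u))⁻¹ := by
        rw [← e1, ← e2]; group
      have e4 : (c * u) * (d * v) * ((d * v) * (c * u))⁻¹ = (u : G) * v * ((v : G) * u)⁻¹ := by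
        have a1 : c * u * (d * v) = (c * d) * (u * v) := by
          rw [mul_assoc, ← mul_assoc (u : G), ← hdu.eq]; group
        have a2 : d * v * (c * u) = (c * d) * (v * u) := by
          rw [mul_assoc, ← mul_assoc (v : G), ← hcu.eq, hcd.eq]; group
        rw [a1, a2, _root_.mul_inv_rev, _root_.mul_inv_rev]
        have hcdc : Commute (c * d) ((u : G) * v * ((v : G) * u)⁻¹) :=
          Commute.mul_left (hc _).symm (hd _).symm
        calc c * d * ((u : G) * v) * (((u : G)⁻¹ * (v : G)⁻¹) * (c * d)⁻¹)
            = c * d * ((u : G) * v * ((v : G) * u)⁻¹) * (c * d)⁻¹ := by group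
          _ = (u : G) * v * ((v : G) * u)⁻¹ := by rw [hcdc.eq, mul_inv_cancel_right]
          _ = _ := by group
      rw [e4] at e3
      exact (mul_inv_eq_iff_eq_mul.1 e3).symm
    -- the image of `A`
    have hAL : A ≤ L := le_normalizer
    let V := (A.subgroupOf L).map ρ
    have hVn : φ.range ≤ normalizer (V : Set (L ⧸ W.subgroupOf L)) := by
      haveI : (A.subgroupOf L).Normal := normal_in_normalizer
      haveI : V.Normal := Subgroup.Normal.map inferInstance ρ (QuotientGroup.mk'_surjective _)
      rw [normalizer_eq_top]; exact le_top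
    have hVp : ¬ p ∣ Nat.card V := by
      intro hd
      obtain ⟨⟨_, a, ha, rfl⟩, hb⟩ := exists_prime_orderOf_dvd_card' (G := V) p hd
      rw [← Subgroup.orderOf_coe] at hb
      change orderOf (ρ a) = p at hb
      have h1 : ρ (a ^ p) = 1 := by rw [map_pow, ← hb, pow_orderOf_eq_one]
      rw [QuotientGroup.mk'_apply, QuotientGroup.eq_one_iff, mem_subgroupOf] at h1
      obtain ⟨-, i, hi, hai⟩ := h1
      have h2 : ρ a = 1 := by
        rw [QuotientGroup.mk'_apply, QuotientGroup.eq_one_iff, mem_subgroupOf]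
        refine ⟨ha, p * i, ((Nat.coprime_primes hp.out hq).2 (Ne.symm hqp)).mul_left hi, ?_⟩
        rw [pow_mul]
        exact hai
      rw [h2, orderOf_one] at hb
      exact hp.out.one_lt.ne hb
    have hcop : (Nat.card φ.range).Coprime (Nat.card V) := by
      obtain ⟨j, hj⟩ := IsPGroup.iff_card.1 (P.2.of_surjective φ.rangeRestrict φ.rangeRestrict_surjective)
      rw [hj]
      exact (hp.out.coprime_iff_not_dvd.2 hVp).pow_left j
    have hVne : V ≠ ⊥ := by
      intro e
      have h1 : ρ ⟨a₀, hAL ha₀A⟩ ∈ V := ⟨_, ha₀A, rfl⟩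
      rw [e, mem_bot, QuotientGroup.mk'_apply, QuotientGroup.eq_one_iff, mem_subgroupOf] at h1
      obtain ⟨-, i, hi, hai⟩ := h1
      obtain ⟨s, hs⟩ := exists_pow_eq_self_of_coprime (x := a₀) (n := i)
        (by rw [ha₀m]; exact hi.pow_right m)
      apply ha₀
      rw [← hs]
      exact pow_mem hai s
    haveI := hφc
    have hcyc : IsCyclic φ.range := by
      by_contra hnc
      apply hVne
      rw [← Coprime.iSup_centralizer_eq hnc hVn hcop, eq_bot_iff]
      refine iSup₂_le ?_
      rintro _ ⟨⟨w, rfl⟩, hw1⟩ _ ⟨⟨a, ha, rfl⟩, hc⟩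
      replace hc : ρ a * φ w = φ w * ρ a := mem_centralizer_singleton_iff.1 hc
      rw [mem_bot]
      -- replace `a` by its `q`-part
      set a' : L := Element.pPart q a with ha'def
      have ha'A : (a' : G) ∈ A := by
        have hz : a' ∈ A.subgroupOf L :=
          zpowers_le.2 (show a ∈ A.subgroupOf L from ha) (Element.pPart_mem_zpowers q a)
        exact hz
      have hρ : ρ a = ρ a' := by
        have h1 : ρ (Element.pComplPart q a) = 1 := by
          rw [QuotientGroup.mk'_apply, QuotientGroup.eq_one_iff, mem_subgroupOf]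
          refine ⟨zpowers_le.2 (show a ∈ A.subgroupOf L from ha)
            (Element.pComplPart_mem_zpowers q a), orderOf ((Element.pComplPart q a : L) : G), ?_, ?_⟩
          · rw [Subgroup.orderOf_coe]; exact Element.coprime_orderOf_pComplPart hq a
          · rw [pow_orderOf_eq_one]; exact one_mem _
        conv_lhs => rw [← Element.pPart_mul_pComplPart q a]
        rw [map_mul, h1, mul_one]
      rw [hρ] at hc ⊢
      obtain ⟨j, hj⟩ : ∃ j, orderOf (a' : G) = q ^ j :=
        ⟨_, by rw [Subgroup.orderOf_coe]; exact Element.orderOf_pPart_eq_pow hq a⟩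
      have hwA : (w : G) ∉ A := fun h' => hw1 ((hker w).2 h')
      have hker2 : ρ (a' * inclusion hPL w * (inclusion hPL w * a')⁻¹) = 1 := by
        rw [map_mul, map_mul, map_inv, map_mul]
        exact mul_inv_eq_one.2 hc
      rw [QuotientGroup.mk'_apply, QuotientGroup.eq_one_iff, mem_subgroupOf] at hker2
      obtain ⟨-, i, hi, hai⟩ := hker2
      set b := (w : G) * (a' : G)⁻¹ * (w : G)⁻¹ with hb
      have hbA : b ∈ A := hnorm w w.2 _ (inv_mem ha'A)
      set c := (a' : G) * b with hcdef
      have hab' : Commute (a' : G) b := hAab _ ha'A _ hbA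
      have hd : c ^ i ∈ center G := by
        rw [hcdef, hb]
        simpa [mul_assoc] using hai
      have hbo : orderOf b = q ^ j := by
        rw [hb, ← MulAut.conj_apply, MulEquiv.orderOf_eq, orderOf_inv, hj]
      have hcq : c ^ (q ^ j) = 1 := by
        rw [hcdef, hab'.mul_pow]
        conv_lhs => arg 1; rw [← hj, pow_orderOf_eq_one]
        conv_lhs => arg 2; rw [← hbo, pow_orderOf_eq_one]
        rw [one_mul]
      have hcop2 : i.Coprime (orderOf c) :=
        (hi.pow_right j).coprime_dvd_right (orderOf_dvd_of_pow_eq_one hcq)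
      obtain ⟨s, hs⟩ := exists_pow_eq_self_of_coprime hcop2
      have hcZ : c ∈ center G := hs ▸ pow_mem hd s
      have hcc := mem_center_iff.1 hcZ
      have e1 : (a' : G) * (w : G) * (a' : G)⁻¹ = c * w := by rw [hcdef, hb]; group
      have k1 : c ^ orderOf (w : G) = 1 := by
        have h5 : ((a' : G) * (w : G) * (a' : G)⁻¹) ^ orderOf (w : G) = 1 := by
          rw [conj_pow, pow_orderOf_eq_one]; group
        rwa [e1, Commute.mul_pow (hcc w).symm, pow_orderOf_eq_one, mul_one] at h5
      obtain ⟨r, hr⟩ := pElem_of_mem P.2 w.2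
      rw [hr] at k1
      have hc1 : c = 1 := by
        have h1 := (pow_gcd_eq_one (m := p ^ r) (n := q ^ j)).2 ⟨k1, hcq⟩
        rwa [Nat.Coprime.pow r j ((Nat.coprime_primes hp.out hq).2 (Ne.symm hqp)), pow_one] at h1
      rw [hc1, one_mul] at e1
      have hcw : (a' : G) * w = w * a' := mul_inv_eq_iff_eq_mul.1 e1
      by_contra hne
      by_cases hz' : (a' : G) ∈ center G
      · apply hne
        rw [QuotientGroup.mk'_apply, QuotientGroup.eq_one_iff, mem_subgroupOf]
        exact ⟨ha'A, 1, Nat.coprime_one_left q, by rw [pow_one]; exact hz'⟩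
      · have hsub := centralizer_eq_of_le h hxZ hz' (fun t ht =>
          mem_centralizer_singleton_iff.2 (hAab t ht a' ha'A))
        apply hwA
        rw [hA, hsub]
        exact mem_centralizer_singleton_iff.2 hcw.symm
    obtain ⟨⟨_, w₀, rfl⟩, hgen⟩ := hcyc.exists_generator
    have hcr : Nat.card φ.range ≤ p := by
      rw [← orderOf_eq_card_of_forall_mem_zpowers hgen, ← Subgroup.orderOf_coe]
      change orderOf (φ w₀) ≤ p
      refine Nat.le_of_dvd hp.out.pos (orderOf_dvd_iff_pow_eq_one.2 ?_)
      rw [← map_pow, hker]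
      exact hwp w₀ w₀.2
    rw [← Subgroup.index_ker φ] at hcr
    refine le_trans (le_of_eq ?_) hcr
    show (A.subgroupOf (P : Subgroup G)).index = _
    congr 1
    ext w
    rw [MonoidHom.mem_ker, hker, mem_subgroupOf]
  -- compare with the class size
  have hnA : A.index = n := index_eq h hxZ
  have hPfac : n.factorization p ≤ (A.relIndex (P : Subgroup G)).factorization p := by
    have e1 : Nat.card ↥((P : Subgroup G) ⊓ A) * A.relIndex (P : Subgroup G) = Nat.card (P : Subgroup G) := by
      rw [inf_comm, ← relIndex_bot_left, ← inf_relIndex_right A, ← relIndex_bot_left,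
        relIndex_mul_relIndex _ _ _ bot_le inf_le_right]
    have e2 := congrArg (fun k : ℕ => k.factorization p) e1
    rw [Nat.factorization_mul Nat.card_pos.ne'
      (show A.relIndex (P : Subgroup G) ≠ 0 from (A.subgroupOf (P : Subgroup G)).index_ne_zero_of_finite),
      Finsupp.add_apply] at e2
    have e3 : (Nat.card ↥((P : Subgroup G) ⊓ A)).factorization p ≤ (Nat.card A).factorization p :=
      (Nat.factorization_le_iff_dvd Nat.card_pos.ne' Nat.card_pos.ne').2
        (card_dvd_of_le inf_le_right) p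
    have e4 : (Nat.card (P : Subgroup G)).factorization p =
        (Nat.card A).factorization p + n.factorization p := by
      rw [P.card_eq_multiplicity, hp.out.factorization_pow, Finsupp.single_eq_same,
        ← A.card_mul_index, hnA, Nat.factorization_mul Nat.card_pos.ne' (by omega), Finsupp.add_apply]
    omega
  have hle1 : n.factorization p ≤ 1 := by
    refine hPfac.trans ?_
    by_contra hlt
    push Not at hlt
    have hd := (hp.out.pow_dvd_iff_le_factorization
      (A.subgroupOf (P : Subgroup G)).index_ne_zero_of_finite).2 (show 2 ≤ _ from hlt)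
    have := Nat.le_of_dvd (Nat.pos_of_ne_zero (A.subgroupOf (P : Subgroup G)).index_ne_zero_of_finite) hd
    have h2 := hp.out.two_le
    have : p * p ≤ p := by
      rw [← pow_two]; exact this.trans hidx
    nlinarith
  by_cases hex : ∃ w ∈ (P : Subgroup G), w ∉ A
  · obtain ⟨w, hw, hwA⟩ := hex
    exact ⟨hle1, x, w, hxZ, fun _ => ⟨hwA, pElem_of_mem P.2 hw, hnorm w hw⟩⟩
  · refine ⟨hle1, x, x, hxZ, fun h1 => ?_⟩
    push Not at hex
    have h0 : A.relIndex (P : Subgroup G) = 1 := relIndex_eq_one.2 hex
    rw [h0, Nat.factorization_one, Finsupp.coe_zero, Pi.zero_apply] at hPfac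
    omega

/-- Itô: only one prime carries noncentral elements. -/
theorem center_index_isPrimePow (hn : 1 < n) {x : G} (hx : x ∉ center G) :
    ∃ p : ℕ, p.Prime ∧ ∀ q : ℕ, q.Prime → q ∣ (center G).index → q = p := by
  classical
  by_contra hcon
  push Not at hcon
  have hmulti : ∀ p : ℕ, p.Prime → ∃ (q : ℕ) (y : G), q.Prime ∧ q ≠ p ∧ y ∉ center G ∧
      ∃ k, orderOf y = q ^ k := by
    intro p hp
    obtain ⟨q, hq, hqd, hqp⟩ := hcon p hp
    obtain ⟨y, -, hy, hyk⟩ := exists_noncentral_of_dvd (G := G) (C := ⊤) hq (by rwa [relIndex_top_right])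
    exact ⟨q, y, hq, hqp, hy, hyk⟩
  have hab := fun (x : G) hx => abelian_centralizer h hmulti (x := x) hx
  set c := (center G).relIndex (centralizer ({x} : Set G)) with hc
  have hcn : c * n = (center G).index := by
    rw [hc, ← index_eq h hx]; exact relIndex_mul_index (center_le_centralizer _)
  have hcpos : c ≠ 0 := fun e => by
    rw [e, zero_mul] at hcn; exact index_ne_zero_of_finite hcn.symm
  have hdiv : ∀ q : ℕ, q.Prime → q ∣ (center G).index → q ∣ c := by
    intro q hq hd
    obtain ⟨y, -, hy, k, hk⟩ := exists_noncentral_of_dvd (G := G) (C := ⊤) hq (by rwa [relIndex_top_right])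
    rw [hc, relIndex_center_eq h hx hy]
    exact prime_dvd_relIndex hq (mem_centralizer_self y) hy hk
  have hsq : ∀ q : ℕ, q.Prime → n.factorization q ≤ 1 := by
    intro q hq
    haveI := Fact.mk hq
    by_cases hd : q ∣ n
    · exact (factorization_le_one h hn hmulti (p := q) (hcn ▸ dvd_mul_of_dvd_right hd c)).1
    · rw [Nat.factorization_eq_zero_of_not_dvd hd]; exact Nat.zero_le _
  have hndc : n ∣ c := by
    refine (Nat.factorization_le_iff_dvd (by omega) hcpos).1 fun q => ?_
    by_cases hq : q.Prime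
    · by_cases hd : q ∣ n
      · exact (hsq q hq).trans
          ((hq.dvd_iff_one_le_factorization hcpos).1 (hdiv q hq (hcn ▸ dvd_mul_of_dvd_right hd c)))
      · rw [Nat.factorization_eq_zero_of_not_dvd hd]; exact Nat.zero_le _
    · rw [Nat.factorization_eq_zero_of_not_prime n hq]; exact Nat.zero_le _
  have hA : Nat.card (centralizer ({x} : Set G)) = Nat.card (center G) * c := by
    rw [hc, ← relIndex_bot_left, ← relIndex_bot_left,
      relIndex_mul_relIndex _ _ _ bot_le (center_le_centralizer _)]
  have hdvd := sub_dvd_card h hab hx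
  rw [hA, ← (center G).card_mul_index, ← hcn] at hdvd
  nth_rewrite 2 [← mul_one (Nat.card (center G))] at hdvd
  nth_rewrite 4 [← mul_one (Nat.card (center G))] at hdvd
  rw [← Nat.mul_sub, ← Nat.mul_sub, Nat.mul_dvd_mul_iff_left Nat.card_pos] at hdvd
  have hnle : n ≤ c := Nat.le_of_dvd (Nat.pos_of_ne_zero hcpos) hndc
  have hceq : c = n := by
    have e : c * n - 1 = (c - 1) * n + (n - 1) := by
      have h1 : c * n = (c - 1) * n + n := by
        rw [← Nat.succ_mul, Nat.succ_eq_add_one, Nat.sub_add_cancel (Nat.one_le_iff_ne_zero.2 hcpos)]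
      omega
    rw [e, Nat.dvd_add_right (dvd_mul_right _ _)] at hdvd
    have := Nat.le_of_dvd (by omega) hdvd
    omega
  -- two primes `q < p`
  obtain ⟨p, q, hp, hq, hqp, hpd, hqd⟩ : ∃ p q : ℕ, p.Prime ∧ q.Prime ∧ q < p ∧
      p ∣ (center G).index ∧ q ∣ (center G).index := by
    obtain ⟨r, hr, hrd, -⟩ := hcon 2 Nat.prime_two
    obtain ⟨s, hs, hsd, hsr⟩ := hcon r hr
    rcases lt_or_gt_of_ne hsr with hlt | hlt
    · exact ⟨r, s, hr, hs, hlt, hrd, hsd⟩
    · exact ⟨s, r, hs, hr, hlt, hsd, hrd⟩
  haveI := Fact.mk hp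
  haveI := Fact.mk hq
  have hfone : ∀ r : ℕ, r.Prime → r ∣ (center G).index → n.factorization r = 1 := fun r hr hrd =>
    le_antisymm (hsq r hr)
      ((hr.dvd_iff_one_le_factorization (by omega)).1 (hceq ▸ hdiv r hr hrd))
  obtain ⟨-, u, w, hu, hw⟩ := factorization_le_one h hn hmulti (p := p) hpd
  obtain ⟨hwA, ⟨k, hwk⟩, hwn⟩ := hw (hfone p hp hpd)
  set A := centralizer ({u} : Set G) with hAdef
  obtain ⟨a, haA, ha, l, hal⟩ := exists_noncentral_of_dvd (C := A) hq (by
    rw [hAdef, relIndex_center_eq h hu hx, ← hc]; exact hdiv q hq hqd)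
  let π := QuotientGroup.mk' (center G)
  set D := A.map π with hD
  haveI hDc : IsMulCommutative D := by
    refine ⟨⟨?_⟩⟩
    rintro ⟨_, ⟨r, hr, rfl⟩⟩ ⟨_, ⟨s, hs, rfl⟩⟩
    apply Subtype.ext
    show π r * π s = π s * π r
    rw [← map_mul, ← map_mul, hab u hu r hr s hs]
  have hDcard : Nat.card D = n := by
    have h1 : (center G).relIndex A = Nat.card D := by
      conv_lhs => rw [← QuotientGroup.ker_mk' (center G)]
      exact relIndex_ker π (K := A)
    rw [← h1, hAdef, relIndex_center_eq h hu hx, ← hc, hceq]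
  haveI : IsZGroup D := IsZGroup.of_squarefree (by
    rw [hDcard, Nat.squarefree_iff_factorization_le_one (by omega)]
    intro r
    by_cases hr : r.Prime
    · exact hsq r hr
    · rw [Nat.factorization_eq_zero_of_not_prime n hr]; exact Nat.zero_le _)
  haveI : Group.IsNilpotent D := ⟨⟨1, by
    rw [Subgroup.upperCentralSeries_one, eq_top_iff]
    exact fun s _ => mem_center_iff.2 fun t => hDc.is_comm.comm t s⟩⟩
  haveI : IsCyclic D := inferInstance
  have hao : orderOf (π a) = q := by
    have h1 : orderOf (π a) ∣ q ^ l := hal ▸ orderOf_map_dvd π a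
    obtain ⟨i, -, hi⟩ := (Nat.dvd_prime_pow hq).1 h1
    have h2 : orderOf (π a) ∣ n := by
      rw [← hDcard]; exact D.orderOf_dvd_natCard ⟨a, haA, rfl⟩
    rw [hi] at h2 ⊢
    have h3 := (hq.pow_dvd_iff_le_factorization (by omega)).1 h2
    have h4 := hsq q hq
    have h0 : i ≠ 0 := by
      rintro rfl
      rw [pow_zero, orderOf_eq_one_iff] at hi
      exact ha ((QuotientGroup.eq_one_iff a).1 hi)
    rw [show i = 1 by omega, pow_one]
  obtain ⟨r, hr⟩ : ∃ r : ℕ, π w * π a * (π w)⁻¹ = π a ^ r := by
    have hmem : π (w * a * w⁻¹) ∈ D := ⟨_, hwn a haA, rfl⟩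
    have heq : zpowers (⟨_, hmem⟩ : D) = zpowers (⟨π a, a, haA, rfl⟩ : D) :=
      FrobeniusCompl.eq_of_card_eq (by
        rw [Nat.card_zpowers, Nat.card_zpowers]
        simp only [orderOf_mk]
        rw [map_mul, map_mul, map_inv, ← MulAut.conj_apply, MulEquiv.orderOf_eq]
        exact (orderOf_mk _ _).symm)
    have h1 := heq ▸ mem_zpowers (⟨_, hmem⟩ : D)
    rw [← mem_powers_iff_mem_zpowers] at h1
    obtain ⟨r, hr⟩ := h1
    refine ⟨r, ?_⟩
    rw [← map_inv, ← map_mul, ← map_mul]
    exact (congrArg Subtype.val hr).symm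
  have hcq := commute_pow_sub_one_of_conj_eq_pow hq hao hr
  have hcop : (q - 1).Coprime (orderOf (π w)) := by
    refine Nat.Coprime.coprime_dvd_right (hwk ▸ orderOf_map_dvd π w) (Nat.Coprime.pow_right k ?_)
    rw [Nat.coprime_comm, hp.coprime_iff_not_dvd]
    intro hd
    have := Nat.le_of_dvd (by have := hq.two_le; omega) hd
    omega
  obtain ⟨s, hs⟩ := exists_pow_eq_self_of_coprime hcop
  have hcom : Commute (π w) (π a) := hs ▸ hcq.pow_left s
  set d := w * a * w⁻¹ * a⁻¹ with hd
  have hdZ : d ∈ center G := by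
    rw [← QuotientGroup.eq_one_iff]
    show π d = 1
    rw [hd, map_mul, map_mul, map_mul, map_inv, map_inv, hcom.eq, mul_inv_cancel_right,
      mul_inv_cancel]
  have hdc := mem_center_iff.1 hdZ
  have e1 : w * a * w⁻¹ = d * a := by rw [hd]; group
  have k1 : d ^ q ^ l = 1 := by
    have h5 : (w * a * w⁻¹) ^ q ^ l = 1 := by
      rw [conj_pow, ← hal, pow_orderOf_eq_one]; group
    rwa [e1, Commute.mul_pow (hdc a).symm, ← hal, pow_orderOf_eq_one, mul_one, hal] at h5
  have e2 : a * w * a⁻¹ = d⁻¹ * w := by rw [hd]; group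
  have k2 : d⁻¹ ^ p ^ k = 1 := by
    have h5 : (a * w * a⁻¹) ^ p ^ k = 1 := by
      rw [conj_pow, ← hwk, pow_orderOf_eq_one]; group
    rwa [e2, Commute.mul_pow (Commute.inv_left (hdc w).symm), ← hwk, pow_orderOf_eq_one, mul_one,
      hwk] at h5
  rw [inv_pow, inv_eq_one] at k2
  have hd1 : d = 1 := by
    have h1 := (pow_gcd_eq_one (m := q ^ l) (n := p ^ k)).2 ⟨k1, k2⟩
    rwa [Nat.Coprime.pow l k ((Nat.coprime_primes hq hp).2 (Nat.ne_of_lt hqp)), pow_one] at h1
  rw [hd1, one_mul] at e1
  have hsub := centralizer_eq_of_le h hu ha (fun t ht =>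
    mem_centralizer_singleton_iff.2 (hab u hu t ht a haA))
  apply hwA
  rw [hAdef, hsub]
  exact mem_centralizer_singleton_iff.2 (mul_inv_eq_iff_eq_mul.1 e1)

end

/-- In a `p`-group with two class sizes, `P' Z(P)` is abelian and contains all `p`-th powers. -/
theorem exists_abelian_pow_mem {P : Type*} [Group P] [Finite P] {p : ℕ} [hp : Fact p.Prime]
    (hP : IsPGroup p P) {m : ℕ} (hm : 1 < m)
    (h : ∀ x : P, (centralizer ({x} : Set P)).index = 1 ∨ (centralizer ({x} : Set P)).index = m) :
    ∃ A : Subgroup P, A.Normal ∧ IsMulCommutative A ∧ ∀ y : P, y ^ p ∈ A := by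
  classical
  refine ⟨_root_.commutator P ⊔ center P, inferInstance, ?_, ?_⟩
  · have h3 := lowerCentralSeries_eq_bot_iff_upperCentralSeries_eq_top.2
      (S4169.result hP m hm h)
    rw [Subgroup.lowerCentralSeries_succ, Subgroup.lowerCentralSeries_succ,
      top_lowerCentralSeries_one] at h3
    have hD : ⁅⁅(⊤ : Subgroup P), (⊤ : Subgroup P)⁆, _root_.commutator P⁆ = ⊥ := by
      apply commutator_commutator_eq_bot_of_rotate
      · rw [commutator_comm (⊤ : Subgroup P) (_root_.commutator P)]; exact h3
      · exact h3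
    rw [← commutator_def] at hD
    rw [← closure_eq (_root_.commutator P), ← closure_eq (center P), ← Subgroup.closure_union]
    refine isMulCommutative_closure ?_
    rintro x (hx | hx) y (hy | hy)
    · exact commutatorElement_eq_one_iff_mul_comm.1
        (mem_bot.1 (hD ▸ commutator_mem_commutator hx hy))
    · exact mem_center_iff.1 hy x
    · exact (mem_center_iff.1 hx y).symm
    · exact mem_center_iff.1 hy x
  · intro y
    rcases em (∀ t : P, t ∈ center P) with hab | hab
    · exact le_sup_right (a := _root_.commutator P) (hab _)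
    push Not at hab
    obtain ⟨t, ht⟩ := hab
    let π := QuotientGroup.mk' (center P)
    haveI : Nontrivial (P ⧸ center P) := ⟨⟨π t, 1, fun e => ht ((QuotientGroup.eq_one_iff t).1 e)⟩⟩
    have hQ : IsPGroup p (P ⧸ center P) := hP.to_quotient _
    haveI := hQ.center_nontrivial
    obtain ⟨z, hz⟩ := exists_prime_orderOf_dvd_card' (G := center (P ⧸ center P)) p (by
      obtain ⟨j, hj⟩ := IsPGroup.iff_card.mp (hQ.to_subgroup (center (P ⧸ center P)))
      rw [hj]
      refine dvd_pow_self p ?_
      rintro rfl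
      exact (Finite.one_lt_card (α := center (P ⧸ center P))).ne' (by rw [hj, pow_zero]))
    obtain ⟨x, hx⟩ := QuotientGroup.mk'_surjective (center P) (z : P ⧸ center P)
    have hxo : orderOf (π x) = p := by rw [hx, Subgroup.orderOf_coe, hz]
    have hxZ : x ∉ center P := fun hc => hp.out.one_lt.ne (by
      rw [← hxo, show π x = 1 from (QuotientGroup.eq_one_iff x).2 hc, orderOf_one])
    have hxp : x ^ p ∈ center P := (QuotientGroup.eq_one_iff _).1 (by
      show π (x ^ p) = 1
      rw [map_pow, ← hxo, pow_orderOf_eq_one])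
    have hcomm : ∀ w : P, x * w * x⁻¹ * w⁻¹ ∈ center P := by
      intro w
      apply (QuotientGroup.eq_one_iff _).1
      show π (x * w * x⁻¹ * w⁻¹) = 1
      have h2 : π w * π x = π x * π w := by
        have := mem_center_iff.1 z.2 (π w)
        rwa [← hx] at this
      simp only [map_mul, map_inv]
      rw [← h2]; group
    have hout : ∀ w : P, w * x ≠ x * w → w ^ p ∈ center P := by
      intro w hw
      by_contra hwp
      have hc := mem_center_iff.1 (hcomm w)
      set c := x * w * x⁻¹ * w⁻¹ with hcdef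
      have e1 : x * w * x⁻¹ = c * w := by rw [hcdef]; group
      have e2 : w * x * w⁻¹ = c⁻¹ * x := by rw [hcdef]; group
      have hcp : c ^ p = 1 := by
        have h5 : (w * x * w⁻¹) ^ p = x ^ p := by
          rw [conj_pow, mem_center_iff.1 hxp w, mul_inv_cancel_right]
        rw [e2, Commute.mul_pow (Commute.inv_left (hc x).symm)] at h5
        simpa using h5
      have h6 : x * w ^ p * x⁻¹ = w ^ p := by
        rw [← conj_pow, e1, Commute.mul_pow (hc w).symm, hcp, one_mul]
      have hle : centralizer ({w} : Set P) ≤ centralizer ({w ^ p} : Set P) :=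
        centralizer_le_of_mem_zpowers ⟨(p : ℤ), by simp⟩
      have hwn : w ∉ center P := fun hc' => hwp (pow_mem hc' p)
      have heq := centralizer_eq_of_le h hwn hwp hle
      have hxw : x ∈ centralizer ({w ^ p} : Set P) :=
        mem_centralizer_singleton_iff.2 (mul_inv_eq_iff_eq_mul.1 h6)
      rw [← heq, mem_centralizer_singleton_iff] at hxw
      exact hw hxw.symm
    by_cases hy : y * x = x * y
    · obtain ⟨g, hg⟩ := not_mem_center_iff_exists.1 hxZ
      have hgy : g * y * x ≠ x * (g * y) := by
        intro e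
        apply hg
        rw [mul_assoc, hy, ← mul_assoc] at e
        exact mul_right_cancel (e.trans (mul_assoc x g y).symm)
      have hρ := QuotientGroup.eq_one_iff (N := _root_.commutator P ⊔ center P)
      rw [← hρ, QuotientGroup.mk_pow]
      have hcomm' : ∀ a b : P ⧸ (_root_.commutator P ⊔ center P), Commute a b := by
        intro a b
        obtain ⟨a, rfl⟩ := QuotientGroup.mk'_surjective _ a
        obtain ⟨b, rfl⟩ := QuotientGroup.mk'_surjective _ b
        apply commutatorElement_eq_one_iff_mul_comm.1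
        rw [← map_commutatorElement, QuotientGroup.mk'_apply, hρ]
        exact le_sup_left (b := center P) (commutator_mem_commutator (mem_top a) (mem_top b))
      have h7 : ((g * y : P) : P ⧸ (_root_.commutator P ⊔ center P)) ^ p = 1 := by
        rw [← QuotientGroup.mk_pow, hρ]
        exact le_sup_right (a := _root_.commutator P) (hout _ hgy)
      have h8 : (g : P ⧸ (_root_.commutator P ⊔ center P)) ^ p = 1 := by
        rw [← QuotientGroup.mk_pow, hρ]
        exact le_sup_right (a := _root_.commutator P) (hout g hg)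
      rwa [QuotientGroup.mk_mul, (hcomm' _ _).mul_pow, h8, one_mul] at h7
    · exact le_sup_right (a := _root_.commutator P) (hout y hy)

end Cfsg.Agent.FGSev
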