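import Cfsg.Agent.S0042
import Cfsg.Agent.Recog.FrobeniusBasics
import Cfsg.Agent.Signalizer.Functor
import Cfsg.Agent.Coprime.Action
import Mathlib

/-!
A soluble subgroup central in all its soluble overgroups is central.
-/

set_option autoImplicit false

namespace Cfsg.Agent.FGSev

open Subgroup
open scoped Pointwise commutatorElement

theorem isSolvable_center (G : Type*) [Group G] : Group.IsSolvable (center G) :=
  isSolvable_of_comm fun a b => Subtype.ext (mem_center_iff.1 b.2 a)

/-- `A` is central in each of its soluble overgroups. -/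
def CentralInSolvable {G : Type*} [Group G] (A : Subgroup G) : Prop :=
  Group.IsSolvable A ∧
    ∀ S : Subgroup G, A ≤ S → Group.IsSolvable S → ∀ a ∈ A, ∀ s ∈ S, a * s = s * a

theorem isSolvable_sup_zpowers {G : Type*} [Group G] (N : Subgroup G) [N.Normal]
    (hN : Group.IsSolvable N) (g : G) : Group.IsSolvable (N ⊔ zpowers g : Subgroup G) :=
  Signalizer.isSolvable_sup ((le_top : zpowers g ≤ ⊤).trans (normalizer_eq_top N).ge) hN
    (isSolvable_of_comm fun a b => (IsCyclic.commGroup (α := zpowers g)).mul_comm a b)

theorem commute_of_le_normal_solvable {G : Type*} [Group G] {A N : Subgroup G} [N.Normal]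
    (hA : CentralInSolvable A) (hAN : A ≤ N) (hN : Group.IsSolvable N) : A ≤ center G := fun a ha =>
  mem_center_iff.2 fun g => (hA.2 (N ⊔ zpowers g) (hAN.trans le_sup_left)
    (isSolvable_sup_zpowers N hN g) a ha g (mem_sup_right (mem_zpowers g))).symm

theorem CentralInSolvable.commutative {G : Type*} [Group G] {A : Subgroup G}
    (hA : CentralInSolvable A) : ∀ a ∈ A, ∀ b ∈ A, a * b = b * a :=
  fun a ha b hb => hA.2 A le_rfl hA.1 a ha b hb

universe u

theorem le_center_aux (n : ℕ) : ∀ (G : Type u) [Group G] [Finite G], Nat.card G ≤ n →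
    ∀ A : Subgroup G, CentralInSolvable A → A ≤ center G := by
  induction n with
  | zero => intro G _ _ h; exact absurd h (by have := Nat.card_pos (α := G); omega)
  | succ n ih =>
  intro G _ _ hn A hA
  classical
  -- proper overgroups are centralised
  have hsub : ∀ H : Subgroup G, H ≠ ⊤ → A ≤ H → H ≤ centralizer (A : Set G) := by
    intro H hH hAH
    have hlt : Nat.card H < Nat.card G := by
      rcases lt_or_eq_of_le (H.card_le_card_group) with h | h
      · exact h
      · exact absurd (H.eq_top_of_card_eq h) hH
    have hA' : CentralInSolvable (A.subgroupOf H) := by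
      refine ⟨?_, fun S hAS hS a ha s hs => ?_⟩
      · haveI := hA.1
        exact Group.isSolvable_of_isSolvable_injective (f := (subgroupOfEquivOfLe hAH).toMonoidHom)
          (subgroupOfEquivOfLe hAH).injective
      · refine Subtype.ext (hA.2 (S.map H.subtype) ?_ ?_ a ha s ⟨s, hs, rfl⟩)
        · rw [← inf_of_le_left hAH, ← subgroupOf_map_subtype]
          exact map_mono hAS
        · haveI := hS
          exact Group.isSolvable_of_surjective (H.subtype.subgroupMap_surjective S)
    have h1 := ih H (by omega) _ hA'
    intro x hx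
    rw [mem_centralizer_iff]
    intro a ha
    exact (congrArg Subtype.val (mem_center_iff.1 (h1 (show (⟨a, hAH ha⟩ : H) ∈ A.subgroupOf H from ha))
      ⟨x, hx⟩)).symm
  have hab : ∀ a ∈ A, ∀ b ∈ A, a * b = b * a := hA.commutative
  by_cases hbot : A = ⊥
  · rw [hbot]; exact bot_le
  set M := centralizer (A : Set G) with hM
  have hAM : A ≤ M := fun a ha => mem_centralizer_iff.2 fun b hb => hab b hb a ha
  by_cases htop : M = ⊤
  · intro a ha
    exact mem_center_iff.2 fun g =>
      (mem_centralizer_iff.1 (show g ∈ M from htop ▸ mem_top g) a ha).symm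
  by_cases hZ : center G = ⊥
  swap
  · -- pass to the central quotient
    set π := QuotientGroup.mk' (center G)
    have hcard : Nat.card (G ⧸ center G) < Nat.card G := by
      rw [← index_eq_card, ← (center G).index_mul_card]
      exact lt_mul_of_one_lt_right (Nat.pos_of_ne_zero index_ne_zero_of_finite)
        ((center G).one_lt_card_iff_ne_bot.2 hZ)
    have hA' : CentralInSolvable (A.map π) := by
      refine ⟨?_, fun S hAS hS a ha s hs => ?_⟩
      · haveI := hA.1
        exact Group.isSolvable_of_surjective (π.subgroupMap_surjective A)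
      · obtain ⟨a, ha, rfl⟩ := ha
        obtain ⟨s, rfl⟩ := QuotientGroup.mk'_surjective (center G) s
        rw [← map_mul, ← map_mul, hA.2 (S.comap π) (map_le_iff_le_comap.1 hAS) ?_ a ha s hs]
        haveI := hS
        haveI : Group.IsSolvable π.ker := by
          rw [show π.ker = center G from QuotientGroup.ker_mk' _]
          exact isSolvable_center G
        refine Group.isSolvable_of_ker_le_range (Subgroup.inclusion (show π.ker ≤ S.comap π from
          fun x hx => by rw [mem_comap, MonoidHom.mem_ker.1 hx]; exact one_mem S))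
          (π.subgroupComap S) ?_
        intro x hx
        exact ⟨⟨x, congrArg Subtype.val (MonoidHom.mem_ker.1 hx)⟩, rfl⟩
    have h1 := ih (G ⧸ center G) (by omega) _ hA'
    haveI hN : (A ⊔ center G).Normal := by
      refine ⟨fun x hx g => ?_⟩
      obtain ⟨a, ha, z, hz, rfl⟩ := mem_sup_of_normal_right.1 hx
      have h2 : ⁅g, a⁆ ∈ center G := by
        rw [← QuotientGroup.eq_one_iff, ← QuotientGroup.mk'_apply, map_commutatorElement,
          commutatorElement_eq_one_iff_mul_comm]
        exact mem_center_iff.1 (h1 (mem_map_of_mem π ha)) _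
      have h3 : g * (a * z) * g⁻¹ = a * (⁅g, a⁆ * z) := by
        rw [mem_center_iff.1 (mul_mem h2 hz) a, commutatorElement_def]
        have h4 : z * a = a * z := (mem_center_iff.1 hz a).symm
        calc g * (a * z) * g⁻¹ = g * a * (z * g⁻¹) := by group
          _ = g * a * (g⁻¹ * z) := by rw [mem_center_iff.1 hz g⁻¹]
          _ = g * a * g⁻¹ * a⁻¹ * (a * z) := by group
          _ = g * a * g⁻¹ * a⁻¹ * (z * a) := by rw [h4]
          _ = g * a * g⁻¹ * a⁻¹ * z * a := by group
      rw [h3]
      exact mul_mem (mem_sup_left ha) (mem_sup_right (mul_mem h2 hz))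
    exact commute_of_le_normal_solvable hA le_sup_left
      (Signalizer.isSolvable_sup ((center_le_centralizer _).trans (centralizer_le_normalizer _))
        hA.1 (isSolvable_center G))
  -- the centraliser is a Frobenius complement
  have hnorm : ¬ M.Normal := fun hMn => by
    haveI := hMn
    have hc : A ≤ (center M).map M.subtype := fun a ha =>
      ⟨⟨a, hAM ha⟩, mem_center_iff.2 fun y => Subtype.ext
        (mem_centralizer_iff.1 y.2 a ha).symm, rfl⟩
    haveI : ((center M).map M.subtype).Normal := ConjAct.normal_of_characteristic_of_normal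
    haveI := isSolvable_center M
    haveI : Group.IsSolvable ((center M).map M.subtype : Subgroup G) :=
      Group.isSolvable_of_surjective (M.subtype.subgroupMap_surjective (center M))
    exact htop (eq_top_iff.2 fun g _ => mem_centralizer_iff.2 fun a ha =>
      (mem_center_iff.1 (commute_of_le_normal_solvable hA hc inferInstance ha) g).symm)
  have hti : ∀ g : G, g ∉ M → M ⊓ (MulAut.conj g • M) = ⊥ := by
    intro g hg
    by_contra hne
    obtain ⟨d, hd, hd1⟩ := (Subgroup.bot_or_exists_ne_one _).resolve_left hne
    obtain ⟨hdM, hdg⟩ := hd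
    have hd1' : d ≠ 1 := hd1
    have hdg' : g⁻¹ * d * g ∈ M := (Recog.mem_conj_smul_iff g d M).1 hdg
    set H := centralizer ({d} : Set G)
    have hHtop : H ≠ ⊤ := fun e => hd1' (by
      have : d ∈ center G := mem_center_iff.2 fun x =>
        mem_centralizer_singleton_iff.1 (show x ∈ H from e ▸ mem_top x)
      rwa [hZ, mem_bot] at this)
    have hAH : A ≤ H := fun a ha =>
      mem_centralizer_singleton_iff.2 (mem_centralizer_iff.1 hdM a ha)
    have hHM : H ≤ M := hsub H hHtop hAH
    -- the conjugate of `A` lies in `M`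
    set cA := M.comap (MulAut.conj g).toMonoidHom
    have hAc : A ≤ cA := fun a ha => by
      refine hHM (mem_centralizer_singleton_iff.2 ?_)
      show g * a * g⁻¹ * d = d * (g * a * g⁻¹)
      calc g * a * g⁻¹ * d = g * (a * (g⁻¹ * d * g)) * g⁻¹ := by group
        _ = g * ((g⁻¹ * d * g) * a) * g⁻¹ := by rw [mem_centralizer_iff.1 hdg' a ha]
        _ = d * (g * a * g⁻¹) := by group
    have hctop : cA ≠ ⊤ := fun e => htop (eq_top_iff.2 fun x _ => by
      have : g⁻¹ * x * g ∈ cA := e ▸ mem_top _
      simpa [cA, mem_comap, mul_assoc] using this)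
    have hcM : cA ≤ M := hsub cA hctop hAc
    have heq : cA = M := eq_of_le_of_card_ge hcM (le_of_eq (Nat.card_congr
      { toFun := fun x : M => (⟨g⁻¹ * x * g, by simp [cA, mem_comap, mul_assoc]⟩ : cA)
        invFun := fun y : cA => (⟨g * y * g⁻¹, y.2⟩ : M)
        left_inv := fun x => Subtype.ext (by simp [mul_assoc])
        right_inv := fun y => Subtype.ext (by simp [mul_assoc]) }))
    have hgN : g ∈ normalizer (M : Set G) := mem_normalizer_iff.2 fun h => by
      conv_lhs => rw [← heq]
      rfl
    exact hg (hsub _ (fun e => hnorm (normalizer_eq_top_iff.1 e))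
      (hAM.trans Subgroup.le_normalizer) hgN)
  have hFrob : Cfsg.IsFrobeniusComplement M :=
    ⟨fun e => hbot (le_bot_iff.1 (hAM.trans e.le)), htop, hti⟩
  obtain ⟨K, hK, hKn, hKnil⟩ := S0042.result M hFrob
  obtain ⟨-, hcompl⟩ := Recog.kernel_spec hFrob hK
  haveI := hKn
  haveI := hKnil
  have hS : Group.IsSolvable (K ⊔ A : Subgroup G) :=
    Signalizer.isSolvable_sup ((le_top : A ≤ ⊤).trans (normalizer_eq_top K).ge) inferInstance hA.1
  obtain ⟨a, ha, ha1⟩ := (Subgroup.bot_or_exists_ne_one _).resolve_left hbot
  exfalso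
  refine htop (eq_top_iff.2 ?_)
  rw [← hcompl.sup_eq_top]
  refine sup_le (fun k hk => ?_) le_rfl
  have hk1 : k = 1 := Recog.eq_one_of_commute hFrob hK (hAM ha) ha1 hk
    (hA.2 _ le_sup_right hS a ha k (mem_sup_left hk))
  rw [hk1]
  exact one_mem _

theorem le_center_of_centralInSolvable {G : Type*} [Group G] [Finite G] {A : Subgroup G}
    (hA : CentralInSolvable A) : A ≤ center G :=
  le_center_aux _ G le_rfl A hA

end Cfsg.Agent.FGSev
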