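import Cfsg.Agent.Coprime.Action
import Cfsg.Agent.Lib.Element

/-!
The product of the fixed-point counts of the elements of a `p`-group acting coprimely.

For a `p`-group `P` of order `N` acting on a finite group `F` of order prime to `p` we prove
`∏ |C_F(x)| ≤ |C_F(P)| ^ (N - N / p) * |F| ^ (N / p)`.
-/

namespace Cfsg.Agent.FGSev

open Subgroup

universe u

/-- The bound, as a function of the group of fixed points and the whole group. -/
abbrev fixBound (N p c f : ℕ) : ℕ := c ^ (N - N / p) * f ^ (N / p)

theorem fixBound_mono {N c f a b : ℕ} (hc : c ≤ f) (hab : a ≤ b) (hb : b ≤ N) :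
    c ^ (N - a) * f ^ a ≤ c ^ (N - b) * f ^ b := by
  obtain ⟨d, rfl⟩ : ∃ d, b = a + d := ⟨b - a, by omega⟩
  rw [show N - a = (N - (a + d)) + d by omega, pow_add, pow_add, mul_assoc]
  refine Nat.mul_le_mul_left _ ?_
  rw [mul_comm (f ^ a) (f ^ d)]
  exact Nat.mul_le_mul_right _ (Nat.pow_le_pow_left hc d)

section Abelian

variable {P V : Type u} [Group P] [CommGroup V] [Finite V]

/-- The fixed points of an element. -/
def fixHom (ψ : P →* MulAut V) (x : P) : Subgroup V :=
  { carrier := {v | ψ x v = v}
    one_mem' := map_one _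
    mul_mem' := fun {a b} ha hb => by
      show ψ x (a * b) = a * b
      rw [map_mul, show ψ x a = a from ha, show ψ x b = b from hb]
    inv_mem' := fun {a} ha => by
      show ψ x a⁻¹ = a⁻¹
      rw [map_inv, show ψ x a = a from ha] }

omit [Finite V] in
theorem mem_fixHom {ψ : P →* MulAut V} {x : P} {v : V} : v ∈ fixHom ψ x ↔ ψ x v = v := Iff.rfl

/-- Fixed points of a coset of a fixed-point-free element are independent. -/
theorem independent_fix {p : ℕ} (ψ : P →* MulAut V) {x z : P} (hxz : Commute x z)
    {W : Subgroup V} (hxW : ∀ v ∈ W, ψ x v ∈ W) (hzW : ∀ v ∈ W, ψ z v ∈ W)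
    (hz : orderOf z = p) (hp : p.Prime) (hfpf : ∀ v ∈ W, ψ z v = v → v = 1) :
    ∀ (s : Finset ℕ), (∀ i ∈ s, i < p) → ∀ w : ℕ → V,
      (∀ i ∈ s, w i ∈ W ∧ ψ x (ψ (z ^ i) (w i)) = w i) → ∏ i ∈ s, w i = 1 → ∀ i ∈ s, w i = 1 := by
  classical
  intro s
  induction s using Finset.induction_on with
  | empty => simp
  | insert j s hj ih =>
    intro hlt w hw hprod
    have hzWk : ∀ k : ℕ, ∀ v ∈ W, ψ (z ^ k) v ∈ W := by
      intro k
      induction k with
      | zero => intro v hv; simpa using hv
      | succ k ih' => intro v hv; rw [pow_succ', map_mul]; exact hzW _ (ih' v hv)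
    -- apply `(x zʲ - 1)`
    let w' : ℕ → V := fun i => ψ (x * z ^ j) (w i) * (w i)⁻¹
    have hw' : ∀ i ∈ s, w' i ∈ W ∧ ψ x (ψ (z ^ i) (w' i)) = w' i := by
      intro i hi
      obtain ⟨h1, h2⟩ := hw i (Finset.mem_insert_of_mem hi)
      refine ⟨?_, ?_⟩
      · refine mul_mem ?_ (inv_mem h1)
        rw [map_mul]; exact hxW _ (hzWk j _ h1)
      · have h2' : ψ (x * z ^ i) (w i) = w i := by rw [map_mul]; exact h2
        show ψ x (ψ (z ^ i) _) = _
        rw [← MulAut.mul_apply, ← map_mul]
        simp only [w']
        rw [map_mul (ψ (x * z ^ i)), map_inv, h2', ← MulAut.mul_apply, ← map_mul,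
          show x * z ^ i * (x * z ^ j) = x * z ^ j * (x * z ^ i) by
            have hc1 : Commute (x * z ^ i) (x * z ^ j) :=
              (((Commute.refl x).mul_right (hxz.pow_right j))).mul_left
                ((hxz.pow_right i).symm.mul_right ((Commute.refl z).pow_pow i j))
            exact hc1.eq,
          map_mul, MulAut.mul_apply, h2']
    have hprod' : ∏ i ∈ s, w' i = 1 := by
      obtain ⟨-, h2⟩ := hw j (Finset.mem_insert_self j s)
      have h3 : w' j = 1 := by
        simp only [w']
        rw [map_mul, MulAut.mul_apply, h2, mul_inv_cancel]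
      have h4 : ∏ i ∈ insert j s, w' i = 1 := by
        simp only [w']
        rw [Finset.prod_mul_distrib, ← map_prod, Finset.prod_inv_distrib, hprod, map_one, inv_one,
          mul_one]
      rwa [Finset.prod_insert hj, h3, one_mul] at h4
    have hres := ih (fun i hi => hlt i (Finset.mem_insert_of_mem hi)) w' hw' hprod'
    have hzero : ∀ i ∈ s, w i = 1 := by
      intro i hi
      obtain ⟨h1, h2⟩ := hw i (Finset.mem_insert_of_mem hi)
      have h3 : ψ x (ψ (z ^ j) (w i)) = w i := by
        have := hres i hi
        simp only [w'] at this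
        rwa [mul_inv_eq_one, map_mul, MulAut.mul_apply] at this
      -- the powers of `z` agree on `w i`
      have h4 : ψ (z ^ i) (w i) = ψ (z ^ j) (w i) := (ψ x).injective (h2.trans h3.symm)
      have hij : i ≠ j := fun e => hj (e ▸ hi)
      apply hfpf _ h1
      have h5 : ((z ^ i)⁻¹ * z ^ j) ∈ ((MulAction.stabilizer (MulAut V) (w i)).comap ψ) := by
        show ψ ((z ^ i)⁻¹ * z ^ j) (w i) = w i
        rw [map_mul, MulAut.mul_apply, ← h4, ← MulAut.mul_apply, ← map_mul, inv_mul_cancel, map_one,
          MulAut.one_apply]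
      have hne : (z ^ i)⁻¹ * z ^ j ≠ 1 := by
        rw [ne_eq, inv_mul_eq_one]
        intro e
        exact hij (pow_injOn_Iio_orderOf (by rw [hz]; exact hlt i (Finset.mem_insert_of_mem hi))
          (by rw [hz]; exact hlt j (Finset.mem_insert_self j s)) e)
      have hle : zpowers ((z ^ i)⁻¹ * z ^ j) ≤ zpowers z :=
        zpowers_le.2 (mul_mem (inv_mem (pow_mem (mem_zpowers z) _)) (pow_mem (mem_zpowers z) _))
      haveI : Finite (zpowers z) := Nat.finite_of_card_ne_zero (by rw [Nat.card_zpowers, hz]; exact hp.ne_zero)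
      have hd := card_dvd_of_le hle
      rw [Nat.card_zpowers, Nat.card_zpowers, hz] at hd
      have ho := ((Nat.dvd_prime hp).1 hd).resolve_left fun e => hne (orderOf_eq_one_iff.1 e)
      have heq := eq_of_le_of_card_ge hle (by rw [Nat.card_zpowers, Nat.card_zpowers, hz, ho])
      have hmem : z ∈ (MulAction.stabilizer (MulAut V) (w i)).comap ψ :=
        zpowers_le.2 h5 (heq ▸ mem_zpowers z)
      exact hmem
    intro i hi
    rcases Finset.mem_insert.1 hi with rfl | hi'
    · rwa [Finset.prod_insert hj, Finset.prod_eq_one hzero, mul_one] at hprod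
    · exact hzero i hi'

variable [Finite P]

/-- The abelian case. -/
theorem prod_fix_le_abelian_aux {p : ℕ} [hp : Fact p.Prime] (hV : (Nat.card V).Coprime p) :
    ∀ (N : ℕ) (P : Type u) [Group P] [Fintype P], IsPGroup p P → Fintype.card P = N →
      ∀ (ψ : P →* MulAut V), ∏ x : P, Nat.card (fixHom ψ x) ≤
        fixBound N p (Nat.card ↥(⨅ x : P, fixHom ψ x)) (Nat.card V) := by
  classical
  intro N
  induction N using Nat.strong_induction_on generalizing V with
  | _ N ih =>
    intro P _ _ hP hN ψ
    by_cases h1 : N = 1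
    · subst h1
      have hone : ∀ x : P, x = 1 := fun x => Fintype.card_le_one_iff.1 hN.le x 1
      have htop : ∀ x : P, fixHom ψ x = ⊤ := fun x => by
        rw [hone x, eq_top_iff]
        intro v _
        rw [mem_fixHom, map_one, MulAut.one_apply]
      have : (⨅ x : P, fixHom ψ x) = ⊤ := by simp [htop]
      rw [this, Finset.prod_congr rfl (fun x _ => by rw [htop x]), Finset.prod_const,
        Finset.card_univ, hN, fixBound, Subgroup.card_top,
        Nat.div_eq_of_lt hp.out.one_lt]
      simp
    haveI : Nontrivial P := Fintype.one_lt_card_iff_nontrivial.1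
      (by rw [hN]; have := hN ▸ (Fintype.card_pos : 0 < Fintype.card P); omega)
    haveI := hP.center_nontrivial
    obtain ⟨⟨z, hzc⟩, hz⟩ := exists_prime_orderOf_dvd_card' (G := center P) p (by
      obtain ⟨j, hj⟩ := IsPGroup.iff_card.mp (hP.to_subgroup (center P))
      rw [hj]
      refine dvd_pow_self p ?_
      rintro rfl
      exact (Finite.one_lt_card (α := center P)).ne' (by rw [hj, pow_zero]))
    rw [orderOf_mk] at hz
    have hzcom : ∀ y : P, Commute y z := fun y => mem_center_iff.1 hzc y
    -- the norm map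
    let ν : V →* V := MonoidHom.mk' (fun v => ∏ i ∈ Finset.range p, ψ (z ^ i) v) fun a b => by
      rw [← Finset.prod_mul_distrib]
      simp only [map_mul]
    have hνapp : ∀ v, ν v = ∏ i ∈ Finset.range p, ψ (z ^ i) v := fun v => rfl
    have hνfix : ∀ v, ψ z v = v → ν v = v ^ p := fun v hv => by
      rw [hνapp]
      have hall : ∀ i, ψ (z ^ i) v = v := fun i => by
        induction i with
        | zero => simp
        | succ i ih' => rw [pow_succ, map_mul, MulAut.mul_apply, hv, ih']
      rw [Finset.prod_congr rfl (fun i _ => hall i), Finset.prod_const, Finset.card_range]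
    have hνz : ∀ v, ψ z (ν v) = ν v := fun v => by
      rw [hνapp, map_prod]
      have e1 := Finset.prod_range_succ' (fun i => ψ (z ^ i) v) p
      have e2 := Finset.prod_range_succ (fun i => ψ (z ^ i) v) p
      have e3 : ψ (z ^ p) v = ψ (z ^ 0) v := by rw [← hz, pow_orderOf_eq_one, pow_zero]
      rw [e3] at e2
      rw [e2] at e1
      refine Eq.trans (Finset.prod_congr rfl fun i _ => ?_) (mul_right_cancel e1).symm
      rw [pow_succ', map_mul, MulAut.mul_apply]
    let V1 := fixHom ψ z
    let W := ν.ker
    have hcomm_fix : ∀ (y : P) (v : V), ψ y v = v → ψ y (ν v) = ν v := fun y v hv => by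
      rw [hνapp, map_prod]
      refine Finset.prod_congr rfl fun i _ => ?_
      rw [← MulAut.mul_apply, ← map_mul, ((hzcom y).pow_right i).eq, map_mul, MulAut.mul_apply, hv]
    have hWfpf : ∀ v ∈ W, ψ z v = v → v = 1 := fun v hv hfix => by
      rw [MonoidHom.mem_ker, hνfix v hfix] at hv
      rw [← orderOf_eq_one_iff]
      refine Nat.eq_one_of_dvd_coprimes hV (orderOf_dvd_natCard v) ?_
      exact orderOf_dvd_of_pow_eq_one hv
    -- the splitting
    have hsplit : ∀ U : Subgroup V, (∀ v ∈ U, ν v ∈ U) →
        Nat.card U = Nat.card ↥(U ⊓ V1) * Nat.card ↥(U ⊓ W) := by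
      intro U hU
      have hr : U.map ν = U ⊓ V1 := by
        refine le_antisymm ?_ ?_
        · rintro _ ⟨v, hv, rfl⟩
          exact ⟨hU v hv, hνz v⟩
        · rintro v ⟨hvU, hvz⟩
          obtain ⟨m, hm⟩ := exists_pow_eq_self_of_coprime (x := v) (n := p)
            ((hV.coprime_dvd_left (orderOf_dvd_natCard v)).symm)
          refine ⟨v ^ m, U.pow_mem hvU m, ?_⟩
          rw [map_pow, hνfix v hvz, hm]
      rw [← hr, ← relIndex_bot_left (H := U),
        ← relIndex_mul_relIndex ⊥ (U ⊓ W) U bot_le inf_le_left, relIndex_bot_left, mul_comm,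
        inf_comm, inf_relIndex_right]
      congr 1
      exact relIndex_ker (f := ν) (K := U)
    have hfixU : ∀ x : P, Nat.card (fixHom ψ x) =
        Nat.card ↥(fixHom ψ x ⊓ V1) * Nat.card ↥(fixHom ψ x ⊓ W) :=
      fun x => hsplit _ fun v hv => hcomm_fix x v hv
    have hVsplit : Nat.card V = Nat.card V1 * Nat.card W := by
      have := hsplit ⊤ fun v _ => mem_top _
      rwa [top_inf_eq, top_inf_eq, Subgroup.card_top] at this
    set T := ⨅ x : P, fixHom ψ x with hT
    have hTV1 : T ≤ V1 := iInf_le _ z
    set M := N / p with hM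
    have hcardz : Nat.card (zpowers z) = p := by rw [Nat.card_zpowers, hz]
    haveI hZn : (zpowers z).Normal :=
      ⟨fun a ha y => by
        obtain ⟨i, rfl⟩ := ha
        rw [((hzcom y).zpow_right i).eq, mul_inv_cancel_right]
        exact ⟨i, rfl⟩⟩
    let Q := P ⧸ zpowers z
    haveI : Fintype Q := Fintype.ofFinite Q
    have hQcard : Fintype.card Q * p = N := by
      rw [← hN, ← Nat.card_eq_fintype_card, ← Nat.card_eq_fintype_card, ← hcardz,
        Subgroup.card_eq_card_quotient_mul_card_subgroup (zpowers z)]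
    have hMQ : Fintype.card Q = M := by
      rw [hM, ← hQcard, Nat.mul_div_cancel _ hp.out.pos]
    -- reindex by cosets
    let e : Q × Fin p → P := fun t => t.1.out * z ^ (t.2 : ℕ)
    have hebij : Function.Bijective e := by
      refine (Fintype.bijective_iff_injective_and_card e).2 ⟨?_, ?_⟩
      · rintro ⟨a, i⟩ ⟨b, j⟩ h
        have hab : a = b := by
          have h' := congrArg (fun y : P => (y : Q)) (h : e (a, i) = e (b, j))
          simp only [e] at h'
          rwa [QuotientGroup.mk_mul_of_mem _ (pow_mem (mem_zpowers z) _),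
            QuotientGroup.mk_mul_of_mem _ (pow_mem (mem_zpowers z) _), QuotientGroup.out_eq',
            QuotientGroup.out_eq'] at h'
        subst hab
        have h' := mul_left_cancel (h : a.out * z ^ (i : ℕ) = a.out * z ^ (j : ℕ))
        rw [Prod.mk.injEq]
        exact ⟨rfl, Fin.ext (pow_injOn_Iio_orderOf (by rw [hz]; exact i.2) (by rw [hz]; exact j.2) h')⟩
      · rw [Fintype.card_prod, Fintype.card_fin, hN, hQcard]
    have hreindex : ∀ f : P → ℕ, ∏ x, f x = ∏ a : Q, ∏ i : Fin p, f (a.out * z ^ (i : ℕ)) := by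
      intro f
      rw [← Equiv.prod_comp (Equiv.ofBijective e hebij), Fintype.prod_prod_type]
      rfl
    -- the fixed-point-free part
    have hW : ∏ x : P, Nat.card ↥(fixHom ψ x ⊓ W) ≤ Nat.card W ^ M := by
      rw [hreindex, ← hMQ, ← Finset.card_univ, ← Finset.prod_const]
      refine Finset.prod_le_prod' fun a _ => ?_
      rw [← Nat.card_pi]
      refine Nat.card_le_card_of_injective
        (fun w => (⟨∏ i : Fin p, (w i : V), prod_mem fun i _ => (w i).2.2⟩ : W)) fun w w' h => ?_
      have h := congrArg Subtype.val h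
      simp only at h
      let d : ℕ → V := fun i => if hi : i < p then (w ⟨i, hi⟩ : V) * (w' ⟨i, hi⟩ : V)⁻¹ else 1
      have hxW : ∀ y : P, ∀ v ∈ W, ψ y v ∈ W := fun y v hv => by
        rw [MonoidHom.mem_ker, hνapp] at hv ⊢
        refine Eq.trans (Finset.prod_congr rfl fun i _ => ?_)
          ((map_prod (ψ y) _ _).symm.trans ((congrArg (ψ y) hv).trans (map_one _)))
        rw [← MulAut.mul_apply, ← map_mul, ← ((hzcom y).pow_right i).eq, map_mul, MulAut.mul_apply]
      have hd := independent_fix ψ (p := p) (hzcom a.out) (hxW a.out) (hxW z) hz hp.out hWfpf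
        (Finset.range p) (fun i hi => Finset.mem_range.1 hi) d (fun i hi => by
          have hi' := Finset.mem_range.1 hi
          simp only [d, dif_pos hi']
          have hm := (fixHom ψ (a.out * z ^ i) ⊓ W).mul_mem (w ⟨i, hi'⟩).2
            ((fixHom ψ (a.out * z ^ i) ⊓ W).inv_mem (w' ⟨i, hi'⟩).2)
          refine ⟨hm.2, ?_⟩
          have := mem_fixHom.1 hm.1
          rw [map_mul ψ, MulAut.mul_apply] at this
          exact this) (by
          rw [← Fin.prod_univ_eq_prod_range]
          simp only [d, Fin.is_lt, dif_pos]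
          rw [Finset.prod_mul_distrib, Finset.prod_inv_distrib, h, mul_inv_cancel])
      funext i
      have := hd i (Finset.mem_range.2 i.2)
      simp only [d, dif_pos i.2] at this
      exact Subtype.ext (mul_inv_eq_one.1 this)
    -- the part fixed by `z`
    have hV1inv : ∀ (y : P) (v : V), v ∈ V1 → ψ y v ∈ V1 := fun y v hv => by
      rw [mem_fixHom] at hv ⊢
      rw [← MulAut.mul_apply, ← map_mul, ← (hzcom y).eq, map_mul, MulAut.mul_apply, hv]
    let res : P →* MulAut V1 :=
      { toFun := fun y =>
          { toFun := fun v => ⟨ψ y v, hV1inv y v v.2⟩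
            invFun := fun v => ⟨ψ y⁻¹ v, hV1inv y⁻¹ v v.2⟩
            left_inv := fun v => Subtype.ext (by simp)
            right_inv := fun v => Subtype.ext (by simp)
            map_mul' := fun v v' => Subtype.ext (by simp) }
        map_one' := by
          ext v
          simp
        map_mul' := fun y y' => by
          ext v
          simp }
    have hzker : zpowers z ≤ res.ker := zpowers_le.2 (by
      ext v
      exact v.2)
    let ψ' : Q →* MulAut V1 := QuotientGroup.lift (zpowers z) res hzker
    have hQp : IsPGroup p Q := hP.to_quotient _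
    have hlt : Fintype.card Q < N := by
      rw [← hQcard]
      exact lt_mul_of_one_lt_right Fintype.card_pos hp.out.one_lt
    have hIH := ih (Fintype.card Q) hlt (V := V1)
      (hV.coprime_dvd_left (Subgroup.card_subgroup_dvd_card V1)) Q hQp rfl ψ'
    have hfixeq : ∀ y : P, Nat.card ↥(fixHom ψ y ⊓ V1) = Nat.card (fixHom ψ' (y : Q)) := fun y =>
      Nat.card_congr
        { toFun := fun v => ⟨⟨v, v.2.2⟩, Subtype.ext v.2.1⟩
          invFun := fun v => ⟨v.1, congrArg Subtype.val v.2, v.1.2⟩
          left_inv := fun v => rfl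
          right_inv := fun v => rfl }
    have hTeq : Nat.card ↥(⨅ a : Q, fixHom ψ' a) = Nat.card T :=
      Nat.card_congr
        { toFun := fun v => ⟨v.1, mem_iInf.2 fun y => congrArg Subtype.val (mem_iInf.1 v.2 (y : Q))⟩
          invFun := fun v => ⟨⟨v, hTV1 v.2⟩, mem_iInf.2 fun a => by
            induction a using QuotientGroup.induction_on with
            | _ y => exact Subtype.ext (mem_iInf.1 v.2 y)⟩
          left_inv := fun v => rfl
          right_inv := fun v => rfl }
    rw [hTeq] at hIH
    have hV1 : ∏ x : P, Nat.card ↥(fixHom ψ x ⊓ V1) ≤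
        Nat.card T ^ (N - M) * Nat.card V1 ^ M := by
      have h1 : ∏ x : P, Nat.card ↥(fixHom ψ x ⊓ V1) = (∏ a : Q, Nat.card (fixHom ψ' a)) ^ p := by
        rw [hreindex, ← Finset.prod_pow]
        refine Finset.prod_congr rfl fun a _ => ?_
        rw [Finset.prod_congr rfl (fun i _ => ?_), Finset.prod_const, Finset.card_univ,
          Fintype.card_fin]
        rw [hfixeq, QuotientGroup.mk_mul_of_mem _ (pow_mem (mem_zpowers z) _), QuotientGroup.out_eq']
      rw [h1]
      refine (Nat.pow_le_pow_left hIH p).trans ?_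
      rw [fixBound, mul_pow, ← pow_mul, ← pow_mul, hMQ, Nat.sub_mul, show M * p = N by
        rw [← hMQ, hQcard]]
      refine fixBound_mono (Subgroup.card_le_of_le hTV1) ?_ (Nat.div_le_self N p)
      exact Nat.div_mul_le_self M p
    calc ∏ x : P, Nat.card (fixHom ψ x)
        = (∏ x : P, Nat.card ↥(fixHom ψ x ⊓ V1)) * ∏ x : P, Nat.card ↥(fixHom ψ x ⊓ W) := by
          rw [← Finset.prod_mul_distrib]; exact Finset.prod_congr rfl fun x _ => hfixU x
      _ ≤ (Nat.card T ^ (N - M) * Nat.card V1 ^ M) * Nat.card W ^ M := Nat.mul_le_mul hV1 hW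
      _ = _ := by rw [fixBound, hVsplit, mul_pow, mul_assoc]

end Abelian

/-- The case of a target of prime-power order. -/
theorem prod_centralizer_le_pGroup_aux {p r : ℕ} [hp : Fact p.Prime] [hr : Fact r.Prime]
    (hpr : r ≠ p) {P : Type u} [Group P] [Fintype P] (hP : IsPGroup p P) :
    ∀ (n : ℕ) (X : Type u) [Group X] [Finite X] (φ : P →* X) (R : Subgroup X), Nat.card R = n →
      φ.range ≤ normalizer (R : Set X) → IsPGroup r R →
      ∏ x : P, Nat.card ↥(R ⊓ centralizer ({φ x} : Set X)) ≤
        fixBound (Fintype.card P) p (Nat.card ↥(R ⊓ centralizer (φ.range : Set X))) (Nat.card R) := by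
  classical
  intro n
  induction n using Nat.strong_induction_on with
  | _ n ih =>
    intro X _ _ φ R hn hφ hR
    by_cases hab : ∀ a ∈ R, ∀ b ∈ R, a * b = b * a
    · letI : CommGroup R := { (inferInstance : Group R) with
        mul_comm := fun a b => Subtype.ext (hab a a.2 b b.2) }
      let ψ : P →* MulAut R :=
        { toFun := fun y =>
            { toFun := fun v => ⟨φ y * v * (φ y)⁻¹,
                (mem_normalizer_iff.1 (hφ ⟨y, rfl⟩) _).1 v.2⟩
              invFun := fun v => ⟨(φ y)⁻¹ * v * φ y, by
                have := (mem_normalizer_iff.1 ((normalizer (R : Set X)).inv_mem (hφ ⟨y, rfl⟩)) _).1 v.2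
                rwa [inv_inv] at this⟩
              left_inv := fun v => Subtype.ext (by group)
              right_inv := fun v => Subtype.ext (by group)
              map_mul' := fun v v' => Subtype.ext (by
                show φ y * ((v : X) * v') * (φ y)⁻¹ = φ y * v * (φ y)⁻¹ * (φ y * v' * (φ y)⁻¹)
                group) }
          map_one' := by
            ext v
            simp
          map_mul' := fun y y' => by
            ext v
            simp [mul_assoc] }
      have hcop : (Nat.card R).Coprime p := by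
        obtain ⟨k, hk⟩ := IsPGroup.iff_card.1 hR
        rw [hk]
        exact ((Nat.coprime_primes hr.out hp.out).2 hpr).pow_left k
      have h := prod_fix_le_abelian_aux hcop _ P hP rfl ψ
      have e1 : ∀ y : P, Nat.card (fixHom ψ y) = Nat.card ↥(R ⊓ centralizer ({φ y} : Set X)) :=
        fun y => Nat.card_congr
          { toFun := fun v => ⟨v.1, v.1.2, mem_centralizer_singleton_iff.2
              (mul_inv_eq_iff_eq_mul.1 (congrArg Subtype.val v.2)).symm⟩
            invFun := fun v => ⟨⟨v, v.2.1⟩, Subtype.ext (mul_inv_eq_iff_eq_mul.2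
              (mem_centralizer_singleton_iff.1 v.2.2).symm)⟩
            left_inv := fun v => rfl
            right_inv := fun v => rfl }
      have e2 : Nat.card ↥(⨅ y : P, fixHom ψ y) = Nat.card ↥(R ⊓ centralizer (φ.range : Set X)) :=
        Nat.card_congr
          { toFun := fun v => ⟨v.1, v.1.2, mem_centralizer_iff.2 (by
              rintro _ ⟨y, rfl⟩
              exact (mul_inv_eq_iff_eq_mul.1 (congrArg Subtype.val (mem_iInf.1 v.2 y))))⟩
            invFun := fun v => ⟨⟨v, v.2.1⟩, mem_iInf.2 fun y => Subtype.ext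
              (mul_inv_eq_iff_eq_mul.2 (mem_centralizer_iff.1 v.2.2 _ ⟨y, rfl⟩))⟩
            left_inv := fun v => rfl
            right_inv := fun v => rfl }
      rw [← Finset.prod_congr rfl fun y _ => e1 y, ← e2]
      exact h
    -- reduce to the normaliser
    set L := normalizer (R : Set X) with hL
    let φL : P →* L := φ.codRestrict L fun y => hφ ⟨y, rfl⟩
    let RL : Subgroup L := R.subgroupOf L
    haveI hRLn : RL.Normal := normal_in_normalizer
    have hcardRL : Nat.card RL = Nat.card R :=
      Nat.card_congr (subgroupOfEquivOfLe le_normalizer).toEquiv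
    have hmapR : RL.map L.subtype = R := map_subgroupOf_eq_of_le le_normalizer
    have hRLp : IsPGroup r RL := hR.of_equiv (subgroupOfEquivOfLe le_normalizer).symm
    have hcen : ∀ S : Set L, Nat.card ↥(R ⊓ centralizer (L.subtype '' S)) = Nat.card ↥(RL ⊓ centralizer S) := by
      intro S
      refine Nat.card_congr
        { toFun := fun v => ⟨⟨v, le_normalizer v.2.1⟩, v.2.1, mem_centralizer_iff.2 fun s hs =>
            Subtype.ext (mem_centralizer_iff.1 v.2.2 _ ⟨s, hs, rfl⟩)⟩
          invFun := fun v => ⟨(v : L), v.2.1, mem_centralizer_iff.2 (by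
            rintro _ ⟨s, hs, rfl⟩
            exact congrArg Subtype.val (mem_centralizer_iff.1 v.2.2 s hs))⟩
          left_inv := fun v => rfl
          right_inv := fun v => rfl }
    have e1 : ∀ y : P, Nat.card ↥(R ⊓ centralizer ({φ y} : Set X)) =
        Nat.card ↥(RL ⊓ centralizer ({φL y} : Set L)) := fun y => by
      rw [← hcen, Set.image_singleton]; rfl
    have e2 : Nat.card ↥(R ⊓ centralizer (φ.range : Set X)) =
        Nat.card ↥(RL ⊓ centralizer (φL.range : Set L)) := by
      rw [← hcen, show L.subtype '' (φL.range : Set L) = (φ.range : Set X) by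
        rw [MonoidHom.coe_range, MonoidHom.coe_range, ← Set.range_comp]; rfl]
    rw [e2, Finset.prod_congr rfl (fun y _ => e1 y), ← hcardRL]
    -- the centre of `R`
    set C : Subgroup L := (center RL).map RL.subtype with hC
    haveI : C.Normal := inferInstance
    have hCR : C ≤ RL := map_subtype_le _
    have hRne : Nontrivial RL := by
      refine (RL.bot_or_nontrivial).resolve_left fun e => hab fun a ha b hb => ?_
      have ha' : (⟨a, le_normalizer ha⟩ : L) ∈ RL := ha
      rw [e, mem_bot] at ha'
      rw [show a = 1 from congrArg Subtype.val ha', one_mul, mul_one]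
    haveI := hRLp.center_nontrivial
    have hCne : C ≠ ⊥ := by
      rw [hC, Ne, map_eq_bot_iff_of_injective _ RL.subtype_injective]
      exact (nontrivial_iff_ne_bot _).1 inferInstance
    have hCcard : 1 < Nat.card C := by
      haveI := (nontrivial_iff_ne_bot C).2 hCne
      exact Finite.one_lt_card
    have hClt : Nat.card C < Nat.card RL := by
      refine lt_of_le_of_ne (card_le_of_le hCR) fun e => hab fun a ha b hb => ?_
      have heq := eq_of_le_of_card_ge hCR e.ge
      have ha' : (⟨a, le_normalizer ha⟩ : L) ∈ C := heq ▸ (ha : (⟨a, le_normalizer ha⟩ : L) ∈ RL)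
      obtain ⟨c, hc, hce⟩ := ha'
      have := congrArg (fun t : RL => ((t : L) : X))
        (mem_center_iff.1 hc ⟨⟨b, le_normalizer hb⟩, hb⟩)
      have hca : ((c : L) : X) = a := congrArg Subtype.val hce
      simp only [Subgroup.coe_mul, hca] at this
      exact this.symm
    let π := QuotientGroup.mk' C
    have hnC : φL.range ≤ normalizer (C : Set L) := by rw [normalizer_eq_top]; exact le_top
    have hnR : (π.comp φL).range ≤ normalizer ((RL.map π : Subgroup (L ⧸ C)) : Set (L ⧸ C)) := by
      haveI : (RL.map π).Normal := hRLn.map π (QuotientGroup.mk'_surjective C)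
      rw [normalizer_eq_top]; exact le_top
    have hq : Nat.card RL = Nat.card C * Nat.card (RL.map π) := by
      rw [← relIndex_bot_left, ← relIndex_bot_left, ← relIndex_mul_relIndex ⊥ C RL bot_le hCR,
        relIndex_bot_left]
      congr 1
      rw [← relIndex_ker (f := π) (K := RL), QuotientGroup.ker_mk']
    have ihC := ih (Nat.card C) (by rw [← hn, ← hcardRL]; exact hClt) L φL C rfl hnC (hRLp.to_le hCR)
    have ihQ := ih (Nat.card (RL.map π)) (by
        rw [← hn, ← hcardRL, hq]
        exact lt_mul_of_one_lt_left Nat.card_pos hCcard)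
      (L ⧸ C) (π.comp φL) (RL.map π) rfl hnR (hRLp.map π)
    have hsplit : ∀ A : Subgroup L, (Nat.card A).Coprime (Nat.card C) →
        Nat.card ↥(RL ⊓ centralizer (A : Set L)) = Nat.card ↥(C ⊓ centralizer (A : Set L)) *
          Nat.card ↥(RL.map π ⊓ centralizer ((A.map π : Subgroup (L ⧸ C)) : Set (L ⧸ C))) := by
      intro A hA
      have hsC : Group.IsSolvable C := by
        haveI : Group.IsNilpotent C := (hRLp.to_le hCR).isNilpotent
        infer_instance
      rw [Coprime.inf_centralizer_map_mk' A RL C hCR hA (Or.inr hsC)]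
      set D := RL ⊓ centralizer (A : Set L)
      rw [← relIndex_bot_left (H := D), ← relIndex_mul_relIndex ⊥ (C ⊓ D) D bot_le inf_le_right,
        relIndex_bot_left, inf_relIndex_right]
      congr 1
      · rw [show C ⊓ D = C ⊓ centralizer (A : Set L) by
          rw [← inf_assoc, inf_eq_left.2 hCR]]
      · rw [← relIndex_ker (f := π) (K := D), QuotientGroup.ker_mk']
    obtain ⟨kC, hkC⟩ := IsPGroup.iff_card.1 (hRLp.to_le hCR)
    have hcopA : ∀ A : Subgroup L, A ≤ φL.range → (Nat.card A).Coprime (Nat.card C) := by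
      intro A hA
      obtain ⟨j, hj⟩ := IsPGroup.iff_card.1 (hP.of_surjective φL.rangeRestrict φL.rangeRestrict_surjective)
      rw [hkC]
      refine (Nat.Coprime.coprime_dvd_left (card_dvd_of_le hA) ?_)
      rw [hj]
      exact Nat.Coprime.pow j kC ((Nat.coprime_primes hp.out hr.out).2 (Ne.symm hpr))
    have hsingle : ∀ (Y : Type u) [Group Y] (y : Y), centralizer ({y} : Set Y) = centralizer (zpowers y : Set Y) := by
      intro Y _ y
      rw [← centralizer_closure, zpowers_eq_closure]
    have hx : ∀ y : P, Nat.card ↥(RL ⊓ centralizer ({φL y} : Set L)) =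
        Nat.card ↥(C ⊓ centralizer ({φL y} : Set L)) *
          Nat.card ↥(RL.map π ⊓ centralizer ({π.comp φL y} : Set (L ⧸ C))) := by
      intro y
      rw [hsingle L, hsplit _ (hcopA _ (zpowers_le.2 ⟨y, rfl⟩)), hsingle (L ⧸ C),
        MonoidHom.map_zpowers]
      rfl
    rw [Finset.prod_congr rfl (fun y _ => hx y), Finset.prod_mul_distrib, hsplit _ (hcopA _ le_rfl),
      ← MonoidHom.range_comp, hq, fixBound, mul_pow, mul_pow]
    calc _ ≤ _ := Nat.mul_le_mul ihC ihQ
      _ = _ := by simp only [fixBound]; ring

/-- The general case: `∏ |C_F(x)| ≤ |C_F(P)| ^ (N - N / p) |F| ^ (N / p)`. -/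
theorem prod_centralizer_le {p : ℕ} [hp : Fact p.Prime] {P X : Type u} [Group P] [Fintype P]
    (hP : IsPGroup p P) [Group X] [Finite X] (φ : P →* X) (F : Subgroup X) [F.Normal]
    (hF : (Nat.card F).Coprime p) :
    ∏ x : P, Nat.card ↥(F ⊓ centralizer ({φ x} : Set X)) ≤
      fixBound (Fintype.card P) p (Nat.card ↥(F ⊓ centralizer (φ.range : Set X))) (Nat.card F) := by
  classical
  set T := φ.range with hT
  have hTp : IsPGroup p T := hP.of_surjective φ.rangeRestrict φ.rangeRestrict_surjective
  have hTn : Group.IsSolvable T := by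
    haveI : Group.IsNilpotent T := hTp.isNilpotent
    infer_instance
  have hTF : T ≤ normalizer (F : Set X) := by rw [normalizer_eq_top]; exact le_top
  have hcop : (Nat.card T).Coprime (Nat.card F) := by
    obtain ⟨j, hj⟩ := IsPGroup.iff_card.1 hTp
    rw [hj]
    exact hF.symm.pow_left j
  -- the `r`-parts
  have key : ∀ r ∈ (Nat.card F).primeFactors, ∃ R : Subgroup X, T ≤ normalizer (R : Set X) ∧
      IsPGroup r R ∧ Nat.card R = r ^ (Nat.card F).factorization r ∧
      ∀ A : Subgroup X, A ≤ T →
        r ^ (Nat.card ↥(F ⊓ centralizer (A : Set X))).factorization r =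
          Nat.card ↥(R ⊓ centralizer (A : Set X)) := by
    intro r hr
    haveI := Fact.mk (Nat.prime_of_mem_primeFactors hr)
    obtain ⟨R, hR⟩ := Coprime.exists_invariant_sylow r hTF hcop (Or.inl hTn)
    refine ⟨(R : Subgroup F).map F.subtype, hR, R.2.map _, by
      rw [card_map_of_injective F.subtype_injective, R.card_eq_multiplicity], fun A hA => ?_⟩
    set U := F ⊓ centralizer (A : Set X) with hU
    have hAcop : (Nat.card A).Coprime (Nat.card F) := hcop.coprime_dvd_left (card_dvd_of_le hA)
    have hAs : Group.IsSolvable A := by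
      haveI : Group.IsNilpotent A := (hTp.to_le hA).isNilpotent
      infer_instance
    let S : Sylow r U := default
    set S' := (S : Subgroup U).map U.subtype with hS'
    have hS'U : S' ≤ U := map_subtype_le _
    have hAS : A ≤ normalizer (S' : Set X) := by
      refine le_trans (fun a ha => ?_) (centralizer_le_normalizer _)
      rw [mem_centralizer_iff]
      intro s hs
      exact (mem_centralizer_iff.1 (hS'U hs).2 a ha).symm
    obtain ⟨Q, hSQ, hQ⟩ := Coprime.exists_invariant_sylow_ge (hA.trans hTF) hAcop (Or.inl hAs)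
      (hS'U.trans inf_le_left) hAS (S.2.map _)
    obtain ⟨c, hc, hcQ⟩ := Coprime.exists_centralizer_conj_sylow (hA.trans hTF) hAcop (Or.inl hAs)
      Q R hQ (hA.trans hR)
    -- upper bound
    have h1 : Nat.card ↥((R : Subgroup F).map F.subtype ⊓ centralizer (A : Set X)) ≤ r ^ (Nat.card U).factorization r := by
      obtain ⟨j, hj⟩ := IsPGroup.iff_card.1 ((R.2.map F.subtype).to_le (inf_le_left (b := centralizer (A : Set X))))
      rw [hj]
      refine Nat.pow_le_pow_right (Nat.prime_of_mem_primeFactors hr).pos ?_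
      rw [← (Nat.prime_of_mem_primeFactors hr).pow_dvd_iff_le_factorization Nat.card_pos.ne', ← hj]
      exact card_dvd_of_le (inf_le_inf_right _ (map_subtype_le _))
    refine le_antisymm ?_ h1
    have h2 : S'.map (MulAut.conj c).toMonoidHom ≤
        (R : Subgroup F).map F.subtype ⊓ centralizer (A : Set X) := by
      rintro _ ⟨s, hs, rfl⟩
      refine ⟨?_, ?_⟩
      · rw [← hcQ]; exact smul_mem_pointwise_smul _ (MulAut.conj c) _ (hSQ hs)
      · exact (centralizer (A : Set X)).mul_mem ((centralizer (A : Set X)).mul_mem hc.2 (hS'U hs).2)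
          ((centralizer (A : Set X)).inv_mem hc.2)
    refine le_trans (le_of_eq ?_) (card_le_of_le h2)
    rw [card_map_of_injective (MulAut.conj c).injective, hS', card_map_of_injective U.subtype_injective,
      S.card_eq_multiplicity]
  -- assemble
  have hprod : ∀ U : Subgroup X, U ≤ F → Nat.card U =
      ∏ r ∈ (Nat.card F).primeFactors, r ^ (Nat.card U).factorization r := by
    intro U hU
    conv_lhs => rw [← Nat.prod_factorization_pow_eq_self (Nat.card_pos (α := U)).ne']
    exact Finsupp.prod_of_support_subset _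
      (by rw [Nat.support_factorization]; exact Nat.primeFactors_mono (card_dvd_of_le hU) Nat.card_pos.ne')
      _ (fun _ _ => pow_zero _)
  have hsingle : ∀ y : X, centralizer ({y} : Set X) = centralizer (zpowers y : Set X) := fun y => by
    rw [← centralizer_closure, zpowers_eq_closure]
  have hlhs : ∏ x : P, Nat.card ↥(F ⊓ centralizer ({φ x} : Set X)) =
      ∏ r ∈ (Nat.card F).primeFactors, ∏ x : P,
        r ^ (Nat.card ↥(F ⊓ centralizer ({φ x} : Set X))).factorization r := by
    rw [Finset.prod_comm]
    exact Finset.prod_congr rfl fun x _ => hprod _ inf_le_left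
  have hF' := hprod F le_rfl
  calc _ = _ := hlhs
    _ ≤ ∏ r ∈ (Nat.card F).primeFactors,
        ((r ^ (Nat.card ↥(F ⊓ centralizer (T : Set X))).factorization r) ^
            (Fintype.card P - Fintype.card P / p) *
          (r ^ (Nat.card F).factorization r) ^ (Fintype.card P / p)) := ?_
    _ = _ := by
      rw [Finset.prod_mul_distrib, Finset.prod_pow, Finset.prod_pow, ← hprod _ inf_le_left, ← hF']
  refine Finset.prod_le_prod' fun r hr => ?_
  obtain ⟨R, hRT, hRp, hRc, hRA⟩ := key r hr
  haveI := Fact.mk (Nat.prime_of_mem_primeFactors hr)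
  have hrp : r ≠ p := fun e => (hp.out.coprime_iff_not_dvd.1 hF.symm)
    (e ▸ Nat.dvd_of_mem_primeFactors hr)
  rw [hRA T le_rfl, ← hRc, Finset.prod_congr rfl (fun x _ => by
    rw [hsingle (φ x), hRA _ (zpowers_le.2 ⟨x, rfl⟩), ← hsingle (φ x)])]
  exact prod_centralizer_le_pGroup_aux hrp hP _ X φ R rfl hRT hRp

end Cfsg.Agent.FGSev
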