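import Mathlib
import Cfsg.Agent.FGS75.OddReal

/-!
A group with a non-normal Sylow 2-subgroup has a subgroup with two coprime nontrivial class sizes.
-/

set_option autoImplicit false

namespace Cfsg.Agent.FGSev

open Subgroup

theorem sylow_two_normal_of_noncoprime_class_sizes {G : Type*} [Group G] [Finite G]
    (h : ∀ (H : Subgroup G) (x y : H), 1 < (centralizer ({x} : Set H)).index →
      1 < (centralizer ({y} : Set H)).index →
      ¬ ((centralizer ({x} : Set H)).index).Coprime (centralizer ({y} : Set H)).index)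
    (P : Sylow 2 G) : (P : Subgroup G).Normal := by
  classical
  by_contra hP
  obtain ⟨g, a, ha1, haodd, hga⟩ := FGS75.exists_inverted_of_not_normal P hP
  -- replace `g` by a `2`-element inverting `a`
  obtain ⟨e, m, hm, hord⟩ := Nat.exists_eq_two_pow_mul_odd (orderOf_pos g).ne'
  set b := g ^ m with hb
  have hbinv : b * a * b⁻¹ = a⁻¹ := by
    have hpow : ∀ n : ℕ, g ^ n * a * (g ^ n)⁻¹ = if Even n then a else a⁻¹ := by
      intro n
      induction n with
      | zero => simp
      | succ n ih =>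
        have : g ^ (n + 1) * a * (g ^ (n + 1))⁻¹ = g * (g ^ n * a * (g ^ n)⁻¹) * g⁻¹ := by
          rw [pow_succ']; group
        rw [this, ih]
        by_cases hn : Even n
        · simp [hn, Nat.even_add_one, hga]
        · simp only [hn, if_false, Nat.even_add_one, not_false_eq_true, if_true]
          rw [show g * a⁻¹ * g⁻¹ = (g * a * g⁻¹)⁻¹ by group, hga, inv_inv]
    rw [hb, hpow m, if_neg (Nat.not_even_iff_odd.2 hm)]
  have hb2 : orderOf b ∣ 2 ^ e := orderOf_dvd_of_pow_eq_one (by
    rw [hb, ← pow_mul, mul_comm, ← hord, pow_orderOf_eq_one])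
  have haa : a⁻¹ ≠ a := fun he => ha1 (FGS75.eq_one_of_inv_eq_self_of_odd he haodd)
  let H : Subgroup G := zpowers a ⊔ zpowers b
  let A : H := ⟨a, mem_sup_left (mem_zpowers a)⟩
  let B : H := ⟨b, mem_sup_right (mem_zpowers b)⟩
  have hBA : B * A * B⁻¹ = A⁻¹ := Subtype.ext hbinv
  have hAA : A⁻¹ ≠ A := fun he => haa (congrArg Subtype.val he)
  have hgen : zpowers A ⊔ zpowers B = ⊤ := by
    apply map_injective H.subtype_injective
    rw [Subgroup.map_sup, MonoidHom.map_zpowers, MonoidHom.map_zpowers, ← MonoidHom.range_eq_map,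
      range_subtype]
    rfl
  let S : Subgroup H :=
    { carrier := {x | x * A * x⁻¹ = A ∨ x * A * x⁻¹ = A⁻¹}
      one_mem' := Or.inl (by group)
      mul_mem' := fun {x y} hx hy => by
        show x * y * A * (x * y)⁻¹ = A ∨ x * y * A * (x * y)⁻¹ = A⁻¹
        rw [show x * y * A * (x * y)⁻¹ = x * (y * A * y⁻¹) * x⁻¹ by group]
        have hi : x * A⁻¹ * x⁻¹ = (x * A * x⁻¹)⁻¹ := by group
        rcases hx with hx | hx <;> rcases hy with hy | hy <;> simp [hy, hi, hx]
      inv_mem' := fun {x} hx => by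
        show x⁻¹ * A * x⁻¹⁻¹ = A ∨ x⁻¹ * A * x⁻¹⁻¹ = A⁻¹
        rcases hx with hx | hx
        · left
          calc x⁻¹ * A * x⁻¹⁻¹ = x⁻¹ * (x * A * x⁻¹) * x := by rw [hx]; group
            _ = A := by group
        · right
          calc x⁻¹ * A * x⁻¹⁻¹ = (x⁻¹ * A⁻¹ * x)⁻¹ := by group
            _ = (x⁻¹ * (x * A * x⁻¹) * x)⁻¹ := by rw [hx]
            _ = A⁻¹ := by group }
  have hS : ∀ x : H, x * A * x⁻¹ = A ∨ x * A * x⁻¹ = A⁻¹ := by
    intro x
    have hle : (⊤ : Subgroup H) ≤ S := by
      rw [← hgen]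
      exact sup_le (zpowers_le.2 (Or.inl (by group))) (zpowers_le.2 (Or.inr hBA))
    exact hle (mem_top x)
  have hmemA : ∀ x : H, x ∈ centralizer ({A} : Set H) ↔ x * A * x⁻¹ = A := fun x => by
    rw [mem_centralizer_singleton_iff, mul_inv_eq_iff_eq_mul]
  have hA2 : (centralizer ({A} : Set H)).index = 2 := by
    refine index_eq_two_iff.2 ⟨B, fun x => ?_⟩
    rw [hmemA, hmemA, show x * B * A * (x * B)⁻¹ = x * (B * A * B⁻¹) * x⁻¹ by group, hBA,
      show x * A⁻¹ * x⁻¹ = (x * A * x⁻¹)⁻¹ by group]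
    rcases hS x with hx | hx
    · exact Or.inr ⟨hx, by rw [hx]; exact hAA⟩
    · exact Or.inl ⟨by rw [hx, inv_inv], by rw [hx]; exact hAA⟩
  haveI hKn : (zpowers A).Normal := by
    rw [← normalizer_eq_top_iff, eq_top_iff]
    intro x _
    rw [mem_normalizer_iff_map_conj_eq, MonoidHom.map_zpowers]
    show zpowers (x * A * x⁻¹) = zpowers A
    rcases hS x with hx | hx
    · rw [hx]
    · rw [hx, zpowers_inv]
  have hBodd : (centralizer ({B} : Set H)).index ∣ orderOf A := by
    set C := centralizer ({B} : Set H)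
    have h1 : (zpowers A).index ∣ orderOf B := by
      rw [← relIndex_top_right, ← hgen, relIndex_sup_left, ← Nat.card_zpowers]
      exact relIndex_dvd_card _ _
    have h2 : orderOf B ∣ Nat.card C := by
      rw [← Nat.card_zpowers]
      exact card_dvd_of_le (zpowers_le.2 (mem_centralizer_singleton_iff.2 rfl))
    have h3 : C.index * orderOf B ∣ orderOf A * orderOf B := by
      refine (Nat.mul_dvd_mul_left C.index h2).trans ?_
      rw [C.index_mul_card, ← (zpowers A).card_mul_index, Nat.card_zpowers]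
      exact Nat.mul_dvd_mul_left _ h1
    exact (Nat.mul_dvd_mul_iff_right (orderOf_pos B)).1 h3
  have hB1 : (centralizer ({B} : Set H)).index ≠ 1 := fun he => by
    have hAC : A ∈ centralizer ({B} : Set H) := by rw [index_eq_one.1 he]; exact mem_top A
    apply hAA
    rw [← hBA, ← mem_centralizer_singleton_iff.1 hAC]
    group
  refine h H A B (by rw [hA2]; omega) ?_ ?_
  · have : (centralizer ({B} : Set H)).index ≠ 0 := index_ne_zero_of_finite
    omega
  · rw [hA2]
    refine Nat.Coprime.coprime_dvd_right hBodd ?_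
    rw [show orderOf A = orderOf a from (Subgroup.orderOf_coe A).symm]
    exact haodd.coprime_two_left

end Cfsg.Agent.FGSev
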