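import Mathlib

/-!
A proper normal subgroup outside of which all elements have prime power order and maximal
centralisers lies in a soluble group.
-/

set_option autoImplicit false

namespace Cfsg.Agent.FGSev

open Subgroup Finset

theorem card_mul_relIndex_of_le {G : Type*} [Group G] {H K : Subgroup G} (h : H ≤ K) :
    Nat.card H * H.relIndex K = Nat.card K := by
  rw [← relIndex_bot_left H, ← relIndex_bot_left K, relIndex_mul_relIndex ⊥ H K bot_le h]

theorem isPGroup_centralizer_of_prime_pow {G : Type*} [Group G] [Finite G] {N : Subgroup G}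
    (h : ∀ x : G, x ∉ N → IsPrimePow (orderOf x)) {x : G} (hx : x ∉ N) {r k : ℕ} (hr : r.Prime)
    (hk : orderOf x = r ^ k) : IsPGroup r (centralizer ({x} : Set G)) := by
  haveI : Fact r.Prime := ⟨hr⟩
  set C := centralizer ({x} : Set G)
  refine IsPGroup.of_card (n := (Nat.card C).primeFactorsList.length)
    (Nat.eq_prime_pow_of_unique_prime_dvd Nat.card_pos.ne' fun {q} hq hqd => ?_)
  haveI : Fact q.Prime := ⟨hq⟩
  obtain ⟨y, hy⟩ := exists_prime_orderOf_dvd_card' q hqd
  by_contra hne
  have hc : Commute (x : G) (y : G) := (mem_centralizer_singleton_iff.1 y.2).symm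
  have hyo : orderOf (y : G) = q := by rw [Subgroup.orderOf_coe, hy]
  have hcop : (orderOf x).Coprime (orderOf (y : G)) := by
    rw [hk, hyo]
    exact ((Nat.coprime_primes hr hq).2 (Ne.symm hne)).pow_left k
  have hxy : x * y ∉ N := by
    intro hmem
    apply hx
    have h1 : x ^ q ∈ N := by
      have := N.pow_mem hmem q
      rwa [hc.mul_pow, ← hyo, pow_orderOf_eq_one, mul_one, hyo] at this
    obtain ⟨m, hm⟩ := exists_pow_eq_self_of_coprime (x := x) (n := q) (hyo ▸ hcop.symm)
    rw [← hm]
    exact N.pow_mem h1 m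
  have h2 := h _ hxy
  rw [hc.orderOf_mul_eq_mul_orderOf_of_coprime hcop, hk, hyo, isPrimePow_nat_iff] at h2
  obtain ⟨p, j, hp, -, hj⟩ := h2
  have hqp : q = p := (Nat.prime_dvd_prime_iff_eq hq hp).1
    (hq.dvd_of_dvd_pow (hj ▸ dvd_mul_left q (r ^ k)))
  have hk0 : k ≠ 0 := fun e => hx (by
    rw [e, pow_zero, orderOf_eq_one_iff] at hk; exact hk ▸ N.one_mem)
  have hrp : r = p := (Nat.prime_dvd_prime_iff_eq hr hp).1
    (hr.dvd_of_dvd_pow (hj ▸ dvd_mul_of_dvd_left (dvd_pow_self r hk0) q))
  exact hne (hqp.trans hrp.symm)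

theorem isSolvable_of_normal_coatom {G : Type*} [Group G] [Finite G] (P : Subgroup G) [P.Normal]
    (hs : Group.IsSolvable P) (hP : IsCoatom P) : Group.IsSolvable G := by
  obtain ⟨g, hg⟩ := SetLike.exists_not_mem_of_ne_top P hP.1
  have htop : P ⊔ zpowers g = ⊤ := hP.2 _ (lt_of_le_of_ne le_sup_left fun e =>
    hg (e ▸ mem_sup_right (mem_zpowers g)))
  haveI : IsCyclic (G ⧸ P) := by
    refine ⟨⟨QuotientGroup.mk' P g, fun y => ?_⟩⟩
    obtain ⟨z, rfl⟩ := QuotientGroup.mk'_surjective P y
    have hle : (⊤ : Subgroup G) ≤ (zpowers (QuotientGroup.mk' P g)).comap (QuotientGroup.mk' P) := by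
      rw [← htop]
      refine sup_le (fun p hp => ?_) (zpowers_le.2 (mem_zpowers _))
      rw [mem_comap, show QuotientGroup.mk' P p = 1 from (QuotientGroup.eq_one_iff p).2 hp]
      exact one_mem _
    exact hle (mem_top z)
  haveI : Group.IsSolvable (G ⧸ P) := by
    letI : CommGroup (G ⧸ P) := IsCyclic.commGroup
    infer_instance
  exact Group.isSolvable_of_ker_le_range P.subtype (QuotientGroup.mk' P) (by simp)

theorem solvable_of_prime_pow_maximal_centralizers {G : Type*} [Group G] [Finite G]
    (N : Subgroup G) [N.Normal] (hN : N ≠ ⊤)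
    (h : ∀ x : G, x ∉ N → IsPrimePow (orderOf x) ∧ IsCoatom (centralizer ({x} : Set G))) :
    Group.IsSolvable N := by
  classical
  obtain ⟨x₀, hx₀⟩ := SetLike.exists_not_mem_of_ne_top N hN
  obtain ⟨r, k₀, hr, -, hk₀⟩ := (isPrimePow_nat_iff _).1 (h x₀ hx₀).1
  haveI : Fact r.Prime := ⟨hr⟩
  by_cases hG : IsPGroup r G
  · haveI := hG.isNilpotent
    infer_instance
  have hps : ∀ x, x ∉ N → IsPrimePow (orderOf x) := fun x hx => (h x hx).1
  have hC0 : IsPGroup r (centralizer ({x₀} : Set G)) :=
    isPGroup_centralizer_of_prime_pow hps hx₀ hr hk₀.symm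
  set P₀ := centralizer ({x₀} : Set G)
  by_cases hn0 : P₀.Normal
  · haveI := hn0
    haveI := hC0.isNilpotent
    haveI := isSolvable_of_normal_coatom P₀ inferInstance (h x₀ hx₀).2
    infer_instance
  by_cases hNP : N ≤ P₀
  · haveI := (hC0.to_le hNP).isNilpotent
    infer_instance
  have hNP0 : N ⊔ P₀ = ⊤ := (h x₀ hx₀).2.2 _ (lt_of_le_of_ne le_sup_right fun e =>
    hNP (le_sup_left.trans e.ge))
  -- the index of `N` is a power of `r`
  obtain ⟨a, ha⟩ : ∃ a, N.index = r ^ a := by
    obtain ⟨n, hn⟩ := IsPGroup.iff_card.1 hC0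
    have : N.index ∣ r ^ n := by
      rw [← relIndex_top_right, ← hNP0, relIndex_sup_left, ← hn]
      exact relIndex_dvd_card _ _
    obtain ⟨a, -, ha⟩ := (Nat.dvd_prime_pow hr).1 this
    exact ⟨a, ha⟩
  have hsup : ∀ P : Sylow r G, N ⊔ (P : Subgroup G) = ⊤ := by
    intro P
    rw [← index_eq_one]
    refine Nat.eq_one_of_dvd_coprimes
      ((hr.coprime_iff_not_dvd.2 P.not_dvd_index).pow_left a)
      (ha ▸ index_dvd_of_le le_sup_left) (index_dvd_of_le le_sup_right)
  have hsyl : ∀ x : G, x ∉ N → ∃ P : Sylow r G, (P : Subgroup G) = centralizer ({x} : Set G) := by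
    intro x hx
    obtain ⟨q, k, hq, -, hk⟩ := (isPrimePow_nat_iff _).1 (hps x hx)
    have hqr : q = r := by
      by_contra hne
      have h1 : orderOf (x : G ⧸ N) ∣ Nat.card (G ⧸ N) := orderOf_dvd_natCard _
      have h2 : orderOf (x : G ⧸ N) ∣ q ^ k := hk ▸ orderOf_map_dvd (QuotientGroup.mk' N) x
      rw [← index_eq_card, ha] at h1
      exact hx ((QuotientGroup.eq_one_iff x).1 (orderOf_eq_one_iff.1
        (Nat.eq_one_of_dvd_coprimes (((Nat.coprime_primes hq hr).2 hne).pow k a) h2 h1)))
    subst hqr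
    have hC := isPGroup_centralizer_of_prime_pow hps hx hq hk.symm
    obtain ⟨P, hP⟩ := hC.exists_le_sylow
    refine ⟨P, ?_⟩
    rcases eq_or_lt_of_le hP with he | hlt
    · exact he.symm
    · exfalso
      have htop : (P : Subgroup G) = ⊤ := (h x hx).2.2 _ hlt
      have hPp : IsPGroup q (P : Subgroup G) := P.2
      rw [htop] at hPp
      exact hG (hPp.of_equiv Subgroup.topEquiv)
  obtain ⟨Q₀, hQ₀⟩ := hsyl x₀ hx₀
  have hnorm0 : normalizer ((Q₀ : Subgroup G) : Set G) = (Q₀ : Subgroup G) := by
    rw [hQ₀]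
    rcases eq_or_lt_of_le (Subgroup.le_normalizer (H := P₀)) with he | hlt
    · exact he.symm
    · exact absurd (normalizer_eq_top_iff.1 ((h x₀ hx₀).2.2 _ hlt)) hn0
  -- counting
  haveI := Fintype.ofFinite G
  haveI := Fintype.ofFinite (Sylow r G)
  let S : Finset G := univ.filter fun x => x ∉ N
  let f : G → Sylow r G := fun x => if hx : x ∈ N then Q₀ else (hsyl x hx).choose
  have hf : ∀ x : G, x ∉ N → (f x : Subgroup G) = centralizer ({x} : Set G) := by
    intro x hx
    simp only [f, dif_neg hx]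
    exact (hsyl x hx).choose_spec
  have hfmem : ∀ x : G, x ∉ N → x ∈ (f x : Subgroup G) := by
    intro x hx
    rw [hf x hx]
    exact mem_centralizer_singleton_iff.2 rfl
  set c := Nat.card (Q₀ : Subgroup G)
  have hT : ∀ P : Sylow r G, (S.filter fun x => x ∈ (P : Subgroup G)).card * N.index + c =
      c * N.index := by
    intro P
    have hc : Nat.card (P : Subgroup G) = c := by
      rw [P.card_eq_multiplicity, ← Q₀.card_eq_multiplicity]
    have hi : Nat.card (N ⊓ (P : Subgroup G) : Subgroup G) * N.index = c := by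
      rw [← hc, ← relIndex_top_right N, ← hsup P, relIndex_sup_left, ← inf_relIndex_right,
        card_mul_relIndex_of_le inf_le_right]
    have h1 : (S.filter fun x => x ∈ (P : Subgroup G)).card +
        Nat.card (N ⊓ (P : Subgroup G) : Subgroup G) = c := by
      rw [← hc, Nat.card_eq_fintype_card, Nat.card_eq_fintype_card, Fintype.card_subtype,
        Fintype.card_subtype, ← Finset.card_filter_add_card_filter_not
          (s := univ.filter fun x => x ∈ (P : Subgroup G)) (fun x => x ∉ N)]
      congr 1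
      · congr 1
        ext x; simp [S, and_comm]
      · congr 1
        ext x; simp [and_comm]
    calc _ = ((S.filter fun x => x ∈ (P : Subgroup G)).card +
        Nat.card (N ⊓ (P : Subgroup G) : Subgroup G)) * N.index := by rw [add_mul, hi]
      _ = c * N.index := by rw [h1]
  have hS : S.card * N.index + Nat.card G = Nat.card G * N.index := by
    have h1 : S.card + Nat.card N = Nat.card G := by
      rw [Nat.card_eq_fintype_card, Nat.card_eq_fintype_card, Fintype.card_subtype,
        ← Finset.card_univ, ← Finset.card_filter_add_card_filter_not (s := univ) (fun x => x ∉ N)]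
      congr 2
      ext x; simp
    calc _ = (S.card + Nat.card N) * N.index := by rw [add_mul, N.card_mul_index]
      _ = _ := by rw [h1]
  have hn : Nat.card (Sylow r G) * c = Nat.card G := by
    rw [Q₀.card_eq_index_normalizer]
    erw [hnorm0]
    exact index_mul_card _
  have hle : ∀ P : Sylow r G, (S.filter fun x => f x = P).card ≤
      (S.filter fun x => x ∈ (P : Subgroup G)).card := fun P => Finset.card_le_card fun x hx => by
    simp only [Finset.mem_filter, S, Finset.mem_univ, true_and] at hx ⊢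
    exact ⟨hx.1, hx.2 ▸ hfmem x hx.1⟩
  have hsum : ∑ P : Sylow r G, (S.filter fun x => f x = P).card =
      ∑ P : Sylow r G, (S.filter fun x => x ∈ (P : Subgroup G)).card := by
    rw [← Finset.card_eq_sum_card_fiberwise (f := f) (s := S) (fun x _ => Finset.mem_univ _)]
    refine Nat.eq_of_mul_eq_mul_right (Nat.pos_of_ne_zero (index_ne_zero_of_finite (H := N)))
      (Nat.add_right_cancel (m := Nat.card G) ?_)
    rw [hS]
    conv_rhs => rw [← hn, Finset.sum_mul, Nat.card_eq_fintype_card (α := Sylow r G),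
      ← Finset.card_univ, Finset.card_eq_sum_ones, Finset.sum_mul, ← Finset.sum_add_distrib]
    rw [← hn, Nat.card_eq_fintype_card (α := Sylow r G), ← Finset.card_univ,
      Finset.card_eq_sum_ones, Finset.sum_mul, Finset.sum_mul]
    exact Finset.sum_congr rfl fun P _ => by rw [one_mul, hT P]
  have hall : ∀ P : Sylow r G, ∀ x ∈ (P : Subgroup G), x ∉ N →
      (P : Subgroup G) = centralizer ({x} : Set G) := by
    intro P x hxP hxN
    have h1 := (Finset.sum_eq_sum_iff_of_le fun Q _ => hle Q).1 hsum P (Finset.mem_univ P)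
    have h2 : (S.filter fun y => f y = P) = (S.filter fun y => y ∈ (P : Subgroup G)) :=
      Finset.eq_of_subset_of_card_le (fun y hy => by
        simp only [Finset.mem_filter, S, Finset.mem_univ, true_and] at hy ⊢
        exact ⟨hy.1, hy.2 ▸ hfmem y hy.1⟩) h1.ge
    have h3 : x ∈ S.filter fun y => f y = P := by rw [h2]; simp [S, hxP, hxN]
    rw [← (Finset.mem_filter.1 h3).2]
    exact hf x hxN
  -- every Sylow subgroup is an abelian maximal subgroup
  have hx0Q : x₀ ∈ (Q₀ : Subgroup G) := by rw [hQ₀]; exact mem_centralizer_singleton_iff.2 rfl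
  have hQc : (Q₀ : Subgroup G) ≤ centralizer ((Q₀ : Subgroup G) : Set G) := by
    intro y hy
    rw [mem_centralizer_iff]
    intro z hz
    have hcent : ∀ u ∈ (Q₀ : Subgroup G), u ∉ N → z * u = u * z := fun u hu huN => by
      rw [hall Q₀ u hu huN] at hz
      exact mem_centralizer_singleton_iff.1 hz
    by_cases hyN : y ∈ N
    · have h1 : y * x₀ ∉ N := fun hh => hx₀ ((N.mul_mem_cancel_left hyN).1 hh)
      have h2 := hcent _ (mul_mem hy hx0Q) h1
      have h3 := hcent _ hx0Q hx₀
      calc z * y = z * (y * x₀) * x₀⁻¹ := by group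
        _ = y * (x₀ * z) * x₀⁻¹ := by rw [h2]; group
        _ = y * (z * x₀) * x₀⁻¹ := by rw [h3]
        _ = y * z := by group
    · exact hcent y hy hyN
  set M := (MonoidHom.transferSylow Q₀ (hnorm0.le.trans hQc)).ker
  have hM := MonoidHom.ker_transferSylow_isComplement' Q₀ (hnorm0.le.trans hQc)
  have hMne : Nat.card M ≠ 1 := fun e => hG (IsPGroup.of_card (n := _) (by
    rw [← hM.card_mul, e, one_mul, Q₀.card_eq_multiplicity]))
  obtain ⟨s, hs, hsM⟩ := Nat.exists_prime_and_dvd hMne
  haveI : Fact s.Prime := ⟨hs⟩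
  have hrM : ¬ r ∣ Nat.card M := MonoidHom.not_dvd_card_ker_transferSylow Q₀ _
  have hsr : s ≠ r := fun e => hrM (e ▸ hsM)
  obtain ⟨Q⟩ : Nonempty (Sylow s G) := inferInstance
  have hQM : (Q : Subgroup G) ≤ M := by
    rw [← relIndex_eq_one]
    refine Nat.eq_one_of_dvd_coprimes (a := Nat.card (Q₀ : Subgroup G))
      (b := Nat.card (Q : Subgroup G)) ?_ ?_ (relIndex_dvd_card _ _)
    · rw [Q₀.card_eq_multiplicity, Q.card_eq_multiplicity]
      exact ((Nat.coprime_primes hr hs).2 (Ne.symm hsr)).pow _ _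
    · rw [← hM.symm.index_eq_card]
      exact relIndex_dvd_index_of_normal M _
  set K := normalizer ((Q : Subgroup G) : Set G)
  have hK : ¬ r ∣ K.index := by
    intro hd
    apply hrM
    refine hd.trans (Dvd.intro (Nat.card (M ⊓ K : Subgroup G)) ?_)
    have h1 : Nat.card (M ⊓ K : Subgroup G) * M.index = Nat.card K := by
      rw [← relIndex_top_right M, ← (Q.normalizer_sup_eq_top' hQM), sup_comm, relIndex_sup_left,
        ← inf_relIndex_right]
      exact card_mul_relIndex_of_le inf_le_right
    refine Nat.eq_of_mul_eq_mul_right (Nat.pos_of_ne_zero (index_ne_zero_of_finite (H := M))) ?_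
    rw [mul_assoc, h1, index_mul_card, M.card_mul_index]
  obtain ⟨R⟩ : Nonempty (Sylow r K) := inferInstance
  obtain ⟨P, hP⟩ : ∃ P : Sylow r G, (P : Subgroup G) ≤ K := by
    refine ⟨Sylow.ofCard ((R : Subgroup K).map K.subtype) ?_, map_subtype_le _⟩
    rw [card_map_of_injective K.subtype_injective, R.card_eq_multiplicity, ← K.card_mul_index,
      Nat.factorization_mul Nat.card_pos.ne' index_ne_zero_of_finite, Finsupp.add_apply,
      Nat.factorization_eq_zero_of_not_dvd hK, add_zero]
  obtain ⟨x, hxP, hxN⟩ : ∃ x ∈ (P : Subgroup G), x ∉ N := by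
    by_contra hcon
    push Not at hcon
    exact hN (le_antisymm le_top ((hsup P).ge.trans (sup_le le_rfl hcon)))
  have hPmax : IsCoatom (P : Subgroup G) := hall P x hxP hxN ▸ (h x hxN).2
  have hQnot : ¬ (Q : Subgroup G) ≤ (P : Subgroup G) := fun hle => by
    have h1 := card_dvd_of_le hle
    rw [P.card_eq_multiplicity, Q.card_eq_multiplicity] at h1
    have h2 : (Nat.card G).factorization s ≠ 0 :=
      (hs.factorization_pos_of_dvd Nat.card_pos.ne' (hsM.trans (card_subgroup_dvd_card M))).ne'
    exact hsr ((Nat.prime_dvd_prime_iff_eq hs hr).1 (hs.dvd_of_dvd_pow ((dvd_pow_self s h2).trans h1)))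
  haveI hQn : (Q : Subgroup G).Normal := normalizer_eq_top_iff.1
    (hPmax.2 _ (lt_of_le_of_ne hP fun e => hQnot (e ▸ Subgroup.le_normalizer)))
  have htop : (P : Subgroup G) ⊔ (Q : Subgroup G) = ⊤ :=
    hPmax.2 _ (lt_of_le_of_ne le_sup_left fun e => hQnot (e ▸ le_sup_right))
  haveI : Group.IsSolvable G := by
    haveI : Group.IsNilpotent (Q : Subgroup G) := Q.2.isNilpotent
    have hq : IsPGroup r (G ⧸ (Q : Subgroup G)) := by
      refine P.2.of_surjective ((QuotientGroup.mk' (Q : Subgroup G)).comp (P : Subgroup G).subtype) ?_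
      rw [← MonoidHom.range_eq_top, MonoidHom.range_comp, range_subtype]
      refine le_antisymm le_top fun y _ => ?_
      obtain ⟨z, rfl⟩ := QuotientGroup.mk'_surjective (Q : Subgroup G) y
      have hz : z ∈ (Q : Subgroup G) ⊔ (P : Subgroup G) := by rw [sup_comm, htop]; exact mem_top z
      obtain ⟨u, hu, v, hv, rfl⟩ := mem_sup_of_normal_left.1 hz
      refine ⟨v, hv, ?_⟩
      rw [map_mul, show QuotientGroup.mk' (Q : Subgroup G) u = 1 from (QuotientGroup.eq_one_iff u).2 hu,
        one_mul]
    haveI := hq.isNilpotent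
    exact Group.isSolvable_of_ker_le_range (Q : Subgroup G).subtype
      (QuotientGroup.mk' (Q : Subgroup G)) (by simp)
  infer_instance

end Cfsg.Agent.FGSev
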