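import Cfsg.Agent.Lib.ClassSize
import Cfsg.Agent.FGSev.PPowerIndex
import Mathlib.GroupTheory.Transfer

/-!
A finite group without a class size divisible by four is solvable, granted that groups of odd
order are solvable.
-/

namespace Cfsg.Agent.FGSev

open Subgroup
open scoped commutatorElement

universe u

variable {G : Type u} [Group G] [Finite G]

/-- If no class size is divisible by four, every element centralises a subgroup of index at most
two in some conjugate of a Sylow `2`-subgroup. -/
theorem exists_half_centralized (h : ∀ x : G, ¬ 4 ∣ (centralizer ({x} : Set G)).index)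
    (P : Sylow 2 G) (x : G) : ∃ (g : G) (H : Subgroup G), H ≤ (P : Subgroup G) ∧
      H.relIndex (P : Subgroup G) ∣ 2 ∧ ∀ y ∈ H, g⁻¹ * x * g * y = y * (g⁻¹ * x * g) := by
  haveI : Fact (Nat.Prime 2) := ⟨Nat.prime_two⟩
  set C := centralizer ({x} : Set G) with hC
  obtain ⟨S⟩ : Nonempty (Sylow 2 C) := inferInstance
  set S' := (S : Subgroup C).map C.subtype with hS'
  have hS'C : S' ≤ C := map_subtype_le _
  obtain ⟨Q, hQ⟩ := (S.2.map C.subtype).exists_le_sylow
  obtain ⟨g, hg⟩ := MulAction.exists_smul_eq G P Q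
  refine ⟨g, S'.map (MulAut.conj g⁻¹).toMonoidHom, ?_, ?_, ?_⟩
  · rintro _ ⟨s, hs, rfl⟩
    have h1 : s ∈ ((g • P : Sylow 2 G) : Subgroup G) := by rw [hg]; exact hQ hs
    rw [Sylow.coe_subgroup_smul, mem_pointwise_smul_iff_inv_smul_mem] at h1
    simpa using h1
  · -- compare the two-parts
    set H := S'.map (MulAut.conj g⁻¹).toMonoidHom with hH
    have hHP : H ≤ (P : Subgroup G) := by
      rintro _ ⟨s, hs, rfl⟩
      have h1 : s ∈ ((g • P : Sylow 2 G) : Subgroup G) := by rw [hg]; exact hQ hs
      rw [Sylow.coe_subgroup_smul, mem_pointwise_smul_iff_inv_smul_mem] at h1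
      simpa using h1
    have e1 : Nat.card H * H.relIndex (P : Subgroup G) = Nat.card (P : Subgroup G) := by
      rw [← relIndex_bot_left, ← relIndex_bot_left, relIndex_mul_relIndex _ _ _ bot_le hHP]
    have e2 : Nat.card H = 2 ^ (Nat.card C).factorization 2 := by
      rw [hH, card_map_of_injective (MulAut.conj g⁻¹).injective, hS',
        card_map_of_injective C.subtype_injective, S.card_eq_multiplicity]
    have e3 : (Nat.card G).factorization 2 = (Nat.card C).factorization 2 + C.index.factorization 2 := by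
      rw [← C.card_mul_index, Nat.factorization_mul Nat.card_pos.ne' index_ne_zero_of_finite,
        Finsupp.add_apply]
    have e4 : C.index.factorization 2 ≤ 1 := by
      by_contra hlt
      exact h x ((Nat.prime_two.pow_dvd_iff_le_factorization index_ne_zero_of_finite).2
        (show 2 ≤ C.index.factorization 2 by omega))
    rw [P.card_eq_multiplicity, e3, pow_add, e2] at e1
    rw [Nat.eq_of_mul_eq_mul_left (pow_pos two_pos _) e1]
    calc 2 ^ C.index.factorization 2 ∣ 2 ^ 1 := pow_dvd_pow 2 e4
      _ = 2 := pow_one 2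
  · rintro _ ⟨s, hs, rfl⟩
    have hcomm : s * x = x * s := mem_centralizer_singleton_iff.1 (hS'C hs)
    simp only [MulEquiv.coe_toMonoidHom, MulAut.conj_apply, inv_inv]
    calc g⁻¹ * x * g * (g⁻¹ * s * g) = g⁻¹ * (x * s) * g := by group
      _ = g⁻¹ * (s * x) * g := by rw [hcomm]
      _ = g⁻¹ * s * g * (g⁻¹ * x * g) := by group

omit [Finite G] in
/-- An element met by all the centralisers up to conjugation is central. -/
theorem mem_center_of_forall [Finite G] {z : G}
    (h : ∀ x : G, ∃ a : G, a⁻¹ * x * a * z = z * (a⁻¹ * x * a)) : z ∈ center G := by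
  have htop := eq_top_of_forall_conj_mem (centralizer ({z} : Set G)) fun x => by
    obtain ⟨a, ha⟩ := h x
    exact ⟨a, mem_centralizer_singleton_iff.2 ha⟩
  exact Set.singleton_subset_iff.1 (centralizer_eq_top_iff_subset.1 htop)

/-- A simple group in which no class size is divisible by four has odd order or is abelian. -/
theorem isSolvable_of_simple_not_four [IsSimpleGroup G]
    (hodd : Odd (Nat.card G) → Group.IsSolvable G)
    (h : ∀ x : G, ¬ 4 ∣ (centralizer ({x} : Set G)).index) : Group.IsSolvable G := by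
  classical
  haveI : Fact (Nat.Prime 2) := ⟨Nat.prime_two⟩
  by_cases h2 : 2 ∣ Nat.card G
  swap
  · exact hodd (Nat.odd_iff.2 (by omega))
  by_contra hns
  have hZ : center G = ⊥ := by
    rcases IsSimpleGroup.eq_bot_or_eq_top_of_normal (center G) inferInstance with hb | ht
    · exact hb
    · exact absurd (Group.isSolvable_of_comm fun a b => mem_center_iff.1 (ht ▸ mem_top b) a) hns
  obtain ⟨P⟩ : Nonempty (Sylow 2 G) := inferInstance
  -- the Sylow subgroup is abelian
  have hab : ∀ a ∈ (P : Subgroup G), ∀ b ∈ (P : Subgroup G), a * b = b * a := by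
    intro a ha b hb
    rw [← commutatorElement_eq_one_iff_mul_comm, ← mem_bot, ← hZ]
    refine mem_center_of_forall fun x => ?_
    obtain ⟨g, H, hHP, hH, hcomm⟩ := exists_half_centralized h P x
    refine ⟨g, hcomm _ ?_⟩
    rcases (Nat.dvd_prime Nat.prime_two).1 hH with h1 | h1
    · exact relIndex_eq_one.1 h1 (mul_mem (mul_mem (mul_mem ha hb) (inv_mem ha)) (inv_mem hb))
    · have hi : (H.subgroupOf (P : Subgroup G)).index = 2 := h1
      have e : ∀ c : (P : Subgroup G), c * c ∈ H.subgroupOf (P : Subgroup G) := fun c =>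
        Subgroup.mul_self_mem_of_index_two hi c
      have key : (⟨a, ha⟩ : (P : Subgroup G)) * ⟨b, hb⟩ * ⟨a, ha⟩⁻¹ * ⟨b, hb⟩⁻¹ ∈
          H.subgroupOf (P : Subgroup G) := by
        have hm := Subgroup.mul_mem_iff_of_index_two hi
          (a := (⟨a, ha⟩ : (P : Subgroup G)) * ⟨b, hb⟩) (b := ⟨a, ha⟩⁻¹ * ⟨b, hb⟩⁻¹)
        rw [mul_assoc, hm, Subgroup.mul_mem_iff_of_index_two hi, Subgroup.mul_mem_iff_of_index_two hi,
          inv_mem_iff, inv_mem_iff]
      exact key
  haveI : IsMulCommutative (P : Subgroup G) :=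
    ⟨⟨fun a b => Subtype.ext (hab a a.2 b b.2)⟩⟩
  set N := normalizer ((P : Subgroup G) : Set G) with hN
  -- elements of `P` fixed by the normaliser are trivial
  have hfix : ∀ z ∈ (P : Subgroup G), (∀ n ∈ N, n * z = z * n) → z = 1 := by
    intro z hz hn
    have key : ∀ (k : ℕ) (g₀ : G), g₀⁻¹ * z ^ k * g₀ ∈ (P : Subgroup G) →
        g₀⁻¹ * z ^ k * g₀ = z ^ k := by
      intro k g₀ hk
      obtain ⟨n, hn', he⟩ := Sylow.conj_eq_normalizer_conj_of_mem P (z ^ k) g₀
        (pow_mem hz k) hk
      rw [he, mul_assoc, ← (Commute.pow_right (hn n hn') k).eq, inv_mul_cancel_left]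
    let f : G →* (P : Subgroup G) :=
      @MonoidHom.transfer G _ (P : Subgroup G) _ { (inferInstance : Group (P : Subgroup G)) with
        mul_comm := fun a b => Subtype.ext (hab a a.2 b b.2) } (MonoidHom.id _) inferInstance
    have hf : (f z : G) = z ^ (P : Subgroup G).index := by
      exact congrArg Subtype.val (@MonoidHom.transfer_eq_pow G _ (P : Subgroup G) _
        { (inferInstance : Group (P : Subgroup G)) with
          mul_comm := fun a b => Subtype.ext (hab a a.2 b b.2) } (MonoidHom.id _) inferInstance z key)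
    rcases IsSimpleGroup.eq_bot_or_eq_top_of_normal f.ker (MonoidHom.normal_ker f) with hb | ht
    · exfalso
      exact hns (Group.isSolvable_of_comm fun a b => (MonoidHom.ker_eq_bot_iff f).1 hb
        (Subtype.ext (by rw [map_mul, map_mul]; exact hab _ (f a).2 _ (f b).2)))
    · have h1 : f z = 1 := MonoidHom.mem_ker.1 (ht ▸ mem_top z)
      rw [h1, OneMemClass.coe_one] at hf
      obtain ⟨j, hj⟩ := pElem_of_mem P.2 hz
      rw [← orderOf_eq_one_iff]
      refine Nat.eq_one_of_dvd_coprimes (a := orderOf z) (b := (P : Subgroup G).index) ?_ dvd_rfl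
        (orderOf_dvd_of_pow_eq_one hf.symm)
      rw [hj]
      exact (Nat.prime_two.coprime_iff_not_dvd.2 P.not_dvd_index).pow_left j
  -- an element of `P`
  obtain ⟨⟨z, hz⟩, hzo⟩ := exists_prime_orderOf_dvd_card' (G := (P : Subgroup G)) 2
    (P.dvd_card_of_dvd_card h2)
  rw [orderOf_mk] at hzo
  have hz1 : z ≠ 1 := fun e => by rw [e, orderOf_one] at hzo; omega
  apply hz1
  rw [← mem_bot, ← hZ]
  refine mem_center_of_forall fun x => ?_
  obtain ⟨g, H, hHP, hH, hcomm⟩ := exists_half_centralized h P x
  -- some `N`-conjugate of `z` lies in `H`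
  suffices hn : ∃ n ∈ N, n * z * n⁻¹ ∈ H by
    obtain ⟨n, -, hn⟩ := hn
    refine ⟨g * n, ?_⟩
    have hc := hcomm _ hn
    calc (g * n)⁻¹ * x * (g * n) * z = n⁻¹ * (g⁻¹ * x * g * (n * z * n⁻¹)) * n := by group
      _ = n⁻¹ * (n * z * n⁻¹ * (g⁻¹ * x * g)) * n := by rw [hc]
      _ = z * ((g * n)⁻¹ * x * (g * n)) := by group
  rcases (Nat.dvd_prime Nat.prime_two).1 hH with h1 | h1
  · exact ⟨1, one_mem N, by simpa using relIndex_eq_one.1 h1 hz⟩
  by_contra hcon
  push Not at hcon
  have hi : (H.subgroupOf (P : Subgroup G)).index = 2 := h1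
  haveI : Fintype N := Fintype.ofFinite N
  haveI : Fintype (P : Subgroup G) := Fintype.ofFinite _
  let ev : N → (P : Subgroup G) := fun n =>
    ⟨(n : G) * z * (n : G)⁻¹, (mem_normalizer_iff.1 n.2 z).1 hz⟩
  let O : Finset (P : Subgroup G) := Finset.univ.image ev
  have hOout : ∀ o ∈ O, o ∉ H.subgroupOf (P : Subgroup G) := by
    intro o ho
    obtain ⟨n, -, rfl⟩ := Finset.mem_image.1 ho
    exact hcon n n.2
  have hOodd : Odd O.card := by
    let C := centralizer ({(z : G)} : Set G)
    have hcard : O.card = (C.subgroupOf N).index := by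
      have e1 := card_conj_mul_card_centralizer N z
      have e2 := (C.subgroupOf N).card_mul_index
      have e3 : Nat.card ↥(N ⊓ C) = Nat.card (C.subgroupOf N) := by
        rw [inf_comm, ← inf_subgroupOf_right]
        exact Nat.card_congr (subgroupOfEquivOfLe inf_le_right).symm.toEquiv
      have e4 : O.card = Nat.card {g : G // ∃ s ∈ N, g = s * z * s⁻¹} := by
        rw [← Nat.card_eq_finsetCard]
        refine Nat.card_congr
          { toFun := fun o => ⟨(o.1 : G), by
              obtain ⟨n, -, hn⟩ := Finset.mem_image.1 o.2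
              exact ⟨n, n.2, (congrArg Subtype.val hn).symm⟩⟩
            invFun := fun w => ⟨⟨w.1, by
              obtain ⟨n, hn, he⟩ := w.2
              rw [he]; exact (mem_normalizer_iff.1 hn z).1 hz⟩, by
              obtain ⟨n, hn, he⟩ := w.2
              exact Finset.mem_image.2 ⟨⟨n, hn⟩, Finset.mem_univ _, Subtype.ext he.symm⟩⟩
            left_inv := fun o => rfl
            right_inv := fun w => rfl }
      rw [e3, ← e4] at e1
      exact Nat.eq_of_mul_eq_mul_right Nat.card_pos (e1.trans (e2.symm.trans (mul_comm _ _)))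
    rw [hcard]
    have hd : (C.subgroupOf N).index ∣ ((P : Subgroup G).subgroupOf N).index := by
      refine index_dvd_of_le fun p hp => ?_
      exact mem_centralizer_singleton_iff.2 (hab _ hp _ hz)
    refine Nat.odd_iff.2 ?_
    by_contra hev
    refine P.not_dvd_index ((dvd_trans ?_ hd).trans ?_)
    · omega
    · exact relIndex_dvd_index_of_le le_normalizer
  letI : CommGroup (P : Subgroup G) :=
    { (inferInstance : Group (P : Subgroup G)) with mul_comm := fun a b => Subtype.ext (hab a a.2 b b.2) }
  have hprodout : ∀ s : Finset (P : Subgroup G), (∀ o ∈ s, o ∉ H.subgroupOf (P : Subgroup G)) →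
      (∏ o ∈ s, o ∈ H.subgroupOf (P : Subgroup G) ↔ Even s.card) := by
    intro s
    induction s using Finset.induction_on with
    | empty => simp [Subgroup.one_mem]
    | insert a s ha ih =>
      intro hs
      have h1 := ih (fun o ho => hs o (Finset.mem_insert_of_mem ho))
      have h2 := hs a (Finset.mem_insert_self a s)
      rw [Finset.prod_insert ha, Subgroup.mul_mem_iff_of_index_two hi, h1,
        Finset.card_insert_of_notMem ha, Nat.even_add_one]
      tauto
  set q := ∏ o ∈ O, o with hq
  have hqfix : ∀ n ∈ N, n * (q : G) = (q : G) * n := by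
    intro n hn
    let φ : (P : Subgroup G) →* (P : Subgroup G) := MonoidHom.mk'
      (fun o => ⟨n * o * n⁻¹, (mem_normalizer_iff.1 hn o).1 o.2⟩)
      fun a b => Subtype.ext (by
        show n * ((a : G) * b) * n⁻¹ = n * a * n⁻¹ * (n * b * n⁻¹)
        group)
    have hφ : Function.Injective φ := fun a b hab' => by
      have : n * (a : G) * n⁻¹ = n * (b : G) * n⁻¹ := congrArg Subtype.val hab'
      exact Subtype.ext (mul_left_cancel (mul_right_cancel this))
    have himg : O.image φ = O := by
      refine Finset.eq_of_subset_of_card_le ?_ (by rw [Finset.card_image_of_injective _ hφ])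
      intro o ho
      obtain ⟨o', ho', rfl⟩ := Finset.mem_image.1 ho
      obtain ⟨m, -, rfl⟩ := Finset.mem_image.1 ho'
      refine Finset.mem_image.2 ⟨⟨n, hn⟩ * m, Finset.mem_univ _, Subtype.ext ?_⟩
      show n * (m : G) * z * (n * (m : G))⁻¹ = n * ((m : G) * z * (m : G)⁻¹) * n⁻¹
      group
    have hq' : φ q = q := by
      rw [hq, map_prod]
      conv_rhs => rw [← himg]
      rw [Finset.prod_image (fun a _ b _ hab' => hφ hab')]
    exact mul_inv_eq_iff_eq_mul.1 (congrArg Subtype.val hq')
  have hq1 : q = 1 := Subtype.ext (hfix q q.2 hqfix)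
  have := (hprodout O hOout).1 (by rw [← hq, hq1]; exact one_mem _)
  exact Nat.not_even_iff_odd.2 hOodd this

/-- A finite group in which no class size is divisible by four is solvable. -/
theorem isSolvable_of_not_four
    (hodd : ∀ (X : Type u) [Group X] [Finite X], Odd (Nat.card X) → Group.IsSolvable X) :
    ∀ (n : ℕ) (G : Type u) [Group G] [Finite G], Nat.card G = n →
      (∀ x : G, ¬ 4 ∣ (centralizer ({x} : Set G)).index) → Group.IsSolvable G := by
  intro n
  induction n using Nat.strong_induction_on with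
  | _ n ih =>
    intro G _ _ hn h
    rcases subsingleton_or_nontrivial G with hs | hnt
    · infer_instance
    by_cases hsimple : IsSimpleGroup G
    · exact isSolvable_of_simple_not_four (hodd G) h
    obtain ⟨N, hNn, hNb, hNt⟩ : ∃ N : Subgroup G, N.Normal ∧ N ≠ ⊥ ∧ N ≠ ⊤ := by
      by_contra hcon
      push Not at hcon
      exact hsimple ⟨fun N hN => or_iff_not_imp_left.2 fun hb => hcon N hN hb⟩
    haveI := hNn
    have hlt : Nat.card N < n := by
      rw [← hn]
      exact lt_of_le_of_ne (Nat.le_of_dvd Nat.card_pos N.card_subgroup_dvd_card)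
        fun e => hNt (eq_top_of_card_eq N e)
    have hlt' : Nat.card (G ⧸ N) < n := by
      rw [← hn, card_eq_card_quotient_mul_card_subgroup N]
      exact lt_mul_of_one_lt_right Nat.card_pos ((one_lt_card_iff_ne_bot N).2 hNb)
    haveI : Group.IsSolvable N := ih _ hlt N rfl fun x hx =>
      h x (hx.trans (ClassSize.index_centralizer_normal_dvd N x))
    haveI : Group.IsSolvable (G ⧸ N) := ih _ hlt' (G ⧸ N) rfl fun x hx => by
      obtain ⟨g, rfl⟩ := QuotientGroup.mk'_surjective N x
      exact h g (hx.trans (ClassSize.index_centralizer_map_dvd _ (QuotientGroup.mk'_surjective N) g))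
    exact (Group.isSolvable_iff_subgroup_quotient N).2 ⟨inferInstance, inferInstance⟩

end Cfsg.Agent.FGSev
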