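import Cfsg.Agent.FGSev.TIHall
import Cfsg.Agent.PGroup.Basic
import Cfsg.Agent.SolvStruct.KegelWielandt
import Cfsg.Agent.S0519
import Cfsg.Agent.Lib.ClassSize
import Mathlib

/-!
Groups of automorphisms of abelian groups of coprime order all of whose orbits have `p`-power size.
-/

namespace Cfsg.Agent.FGSev

open Subgroup
open scoped commutatorElement

universe u

variable {V : Type u} [CommGroup V] [Finite V]

/-- The automorphisms in `A` fixing `v`. -/
def fixer (A : Subgroup (MulAut V)) (v : V) : Subgroup A where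
  carrier := {g | (g : MulAut V) v = v}
  one_mem' := rfl
  mul_mem' {a b} ha hb := by
    show (a : MulAut V) ((b : MulAut V) v) = v
    rw [hb, ha]
  inv_mem' {a} ha := by
    show (a : MulAut V).symm v = v
    conv_lhs => rw [← ha]
    exact (a : MulAut V).symm_apply_apply v

theorem mem_fixer {A : Subgroup (MulAut V)} {v : V} {g : A} :
    g ∈ fixer A v ↔ (g : MulAut V) v = v := Iff.rfl

theorem eq_one_of_perfect_comm {A B : Type*} [Group A] [Group B]
    (hp : _root_.commutator A = ⊤) (f : A →* B) (hB : ∀ a b : A, f a * f b = f b * f a) (g : A) :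
    f g = 1 := by
  have hle : (⊤ : Subgroup A) ≤ f.ker := by
    rw [← hp, _root_.commutator_def, commutator_le]
    intro a _ b _
    rw [MonoidHom.mem_ker, map_commutatorElement, commutatorElement_eq_one_iff_mul_comm]
    exact hB a b
  exact MonoidHom.mem_ker.1 (hle (mem_top g))

theorem exists_involutive {V : Type u} [CommGroup V] {t : MulAut V} (ht : t * t = 1) (v : V) :
    t (t v * v⁻¹) = (t v * v⁻¹)⁻¹ := by
  rw [map_mul, map_inv, show t (t v) = v from congrArg (fun g : MulAut V => g v) ht, mul_inv_rev,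
    inv_inv]

section finite_orbit

variable (A : Subgroup (MulAut V))

theorem ncard_orbit (v : V) :
    Nat.card (Set.range fun g : A => (g : MulAut V) v) = (fixer A v).index := by
  refine (Nat.card_congr ?_).symm
  refine Equiv.ofBijective (fun x => Quotient.liftOn' x (fun g =>
    (⟨(g : MulAut V) v, ⟨g, rfl⟩⟩ : Set.range fun g : A => (g : MulAut V) v)) ?_) ⟨?_, ?_⟩
  · intro a b hab
    rw [QuotientGroup.leftRel_apply, mem_fixer] at hab
    have h : (a : MulAut V).symm ((b : MulAut V) v) = v := hab
    exact Subtype.ext ((congrArg (a : MulAut V) h).symm.trans ((a : MulAut V).apply_symm_apply _))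
  · intro x y
    induction x using Quotient.inductionOn' with
    | h a =>
      induction y using Quotient.inductionOn' with
      | h b =>
        intro h
        have h' : (a : MulAut V) v = (b : MulAut V) v := congrArg Subtype.val h
        refine Quotient.sound' ?_
        rw [QuotientGroup.leftRel_apply, mem_fixer]
        show (a : MulAut V).symm ((b : MulAut V) v) = v
        rw [← h', MulEquiv.symm_apply_apply]
  · rintro ⟨_, g, rfl⟩
    exact ⟨QuotientGroup.mk g, rfl⟩

variable {q : ℕ} [hq : Fact q.Prime] (hV : IsPGroup q V) (hcop : (Nat.card A).Coprime q)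

include hV in
theorem eq_one_of_inv_eq_self (hq2 : q ≠ 2) {v : V} (h : v⁻¹ = v) : v = 1 := by
  obtain ⟨k, hk⟩ := IsPGroup.iff_orderOf.1 hV v
  have h2 : v ^ 2 = 1 := by rw [pow_two]; nth_rw 1 [← h]; exact inv_mul_cancel v
  exact orderOf_eq_one_iff.1 (Nat.eq_one_of_dvd_coprimes
    (((Nat.coprime_primes hq.out Nat.prime_two).2 hq2).pow_left k) (dvd_of_eq hk)
    (orderOf_dvd_of_pow_eq_one h2))

include hV hcop in
/-- For odd `p` there is no involution. -/
theorem odd_card_of_orbits {p : ℕ} (hp2 : Odd p)
    (horb : ∀ v : V, ∃ k, (fixer A v).index = p ^ k) : Odd (Nat.card A) := by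
  classical
  by_contra hev
  rw [Nat.not_odd_iff_even, even_iff_two_dvd] at hev
  have hq2 : q ≠ 2 := fun e => hq.out.one_lt.ne'
    (Nat.eq_one_of_dvd_coprimes hcop (e ▸ hev) dvd_rfl)
  haveI : Fact (Nat.Prime 2) := ⟨Nat.prime_two⟩
  obtain ⟨t, ht⟩ := exists_prime_orderOf_dvd_card' 2 hev
  have ht2 : (t : MulAut V) * t = 1 := by
    have := pow_orderOf_eq_one t
    rw [ht, pow_two] at this
    exact congrArg Subtype.val this
  obtain ⟨v, hv⟩ : ∃ v : V, (t : MulAut V) v ≠ v := by
    by_contra hcon
    push Not at hcon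
    have : t = 1 := Subtype.ext (MulEquiv.ext hcon)
    rw [this, orderOf_one] at ht
    omega
  set w := (t : MulAut V) v * v⁻¹ with hw
  have hw1 : w ≠ 1 := fun e => hv (mul_inv_eq_one.1 e)
  have htw : (t : MulAut V) w = w⁻¹ := exists_involutive ht2 v
  -- inversion is a fixed-point-free involution of the orbit
  let O := Set.range fun g : A => (g : MulAut V) w
  haveI : Fintype O := Fintype.ofFinite O
  let f : Equiv.Perm O :=
    { toFun := fun x => ⟨(x : V)⁻¹, by
        obtain ⟨g, hg⟩ := x.2
        refine ⟨g * t, ?_⟩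
        show (g : MulAut V) ((t : MulAut V) w) = (x : V)⁻¹
        rw [htw, map_inv]
        exact congrArg Inv.inv hg⟩
      invFun := fun x => ⟨(x : V)⁻¹, by
        obtain ⟨g, hg⟩ := x.2
        refine ⟨g * t, ?_⟩
        show (g : MulAut V) ((t : MulAut V) w) = (x : V)⁻¹
        rw [htw, map_inv]
        exact congrArg Inv.inv hg⟩
      left_inv := fun x => Subtype.ext (inv_inv _)
      right_inv := fun x => Subtype.ext (inv_inv _) }
  obtain ⟨k, hk⟩ := horb w
  have hodd : ¬ 2 ∣ Fintype.card O := by
    rw [← Nat.card_eq_fintype_card, ncard_orbit A w, hk]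
    exact (hp2.pow).not_two_dvd_nat
  obtain ⟨x, hx⟩ := Equiv.Perm.exists_fixed_point_of_prime (p := 2) (n := 1) hodd (σ := f)
    (Equiv.ext fun x => Subtype.ext (inv_inv _))
  obtain ⟨g, hg⟩ := x.2
  have h1 : (x : V) = 1 := eq_one_of_inv_eq_self hV hq2 (congrArg Subtype.val hx)
  rw [h1] at hg
  exact hw1 ((g : MulAut V).injective (hg.trans (map_one _).symm))

end finite_orbit

/-- The centraliser of a vector in a plane is commutative. -/
theorem fixer_comm_of_card_le {q : ℕ} [hq : Fact q.Prime] {A : Subgroup (MulAut V)}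
    (hcop : (Nat.card A).Coprime q) (hexp : ∀ v : V, v ^ q = 1) (hcard : Nat.card V ≤ q ^ 2)
    {v : V} (hv : v ≠ 1) : ∀ a ∈ fixer A v, ∀ b ∈ fixer A v, a * b = b * a := by
  classical
  set L := zpowers v with hL
  have hv0 : orderOf v = q := orderOf_eq_prime (hexp v) hv
  have hidx : L.index ∣ q := by
    have hVp : IsPGroup q V := fun u => ⟨1, by rw [pow_one]; exact hexp u⟩
    obtain ⟨k, hk⟩ := IsPGroup.iff_card.1 hVp
    have e := L.card_mul_index
    rw [hL, Nat.card_zpowers, hv0, hk] at e
    rw [hk] at hcard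
    have hk2 := (Nat.pow_le_pow_iff_right hq.out.one_lt).1 hcard
    rcases Nat.eq_zero_or_pos k with h0 | h0
    · exfalso
      rw [h0, pow_zero] at e
      exact hq.out.ne_one (Nat.eq_one_of_mul_eq_one_right e)
    · have he : L.index = q ^ (k - 1) := by
        refine Nat.eq_of_mul_eq_mul_left hq.out.pos (e.trans ?_)
        rw [← pow_succ', Nat.sub_add_cancel h0]
      rw [he]
      calc q ^ (k - 1) ∣ q ^ 1 := pow_dvd_pow q (by omega)
        _ = q := pow_one q
  have hcyc : IsCyclic (V ⧸ L) := by
    rcases (Nat.dvd_prime hq.out).1 hidx with h | h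
    · haveI : Subsingleton (V ⧸ L) := (Nat.card_eq_one_iff_unique.1 h).1
      infer_instance
    · exact isCyclic_of_prime_card (p := q) h
  have hpres : ∀ a ∈ fixer A v, L.map ((a : A) : MulAut V).toMonoidHom = L := by
    intro a ha
    rw [hL, MonoidHom.map_zpowers]
    show zpowers (((a : A) : MulAut V) v) = zpowers v
    rw [ha]
  -- the action on the quotient is faithful
  have hfaith : ∀ a ∈ fixer A v, (∀ u, ((a : A) : MulAut V) u * u⁻¹ ∈ L) → a = 1 := by
    intro a ha hu
    apply Subtype.ext
    apply MulEquiv.ext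
    intro u
    show ((a : A) : MulAut V) u = u
    set d := ((a : A) : MulAut V) u * u⁻¹ with hd
    have hdfix : ((a : A) : MulAut V) d = d := by
      obtain ⟨i, hi⟩ := hu u
      rw [show d = v ^ i from hi.symm, map_zpow, mem_fixer.1 ha]
    have key : ∀ k : ℕ, (((a : A) : MulAut V) ^ k) u = d ^ k * u := by
      intro k
      induction k with
      | zero => simp
      | succ k ih =>
        have hd' : ((a : A) : MulAut V) u = d * u := by rw [hd, inv_mul_cancel_right]
        rw [pow_succ', MulAut.mul_apply, ih, map_mul, map_pow, hdfix, pow_succ, mul_assoc]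
        congr 1
    have h1 := key (Nat.card A)
    rw [← SubmonoidClass.coe_pow, pow_card_eq_one'] at h1
    have h2 : d ^ Nat.card A = 1 := by simpa using h1.symm
    have h3 : d = 1 := orderOf_eq_one_iff.1 (Nat.eq_one_of_dvd_coprimes hcop
      (orderOf_dvd_of_pow_eq_one h2) (orderOf_dvd_of_pow_eq_one (hexp d)))
    rw [hd, mul_inv_eq_one] at h3
    exact h3
  intro a ha b hb
  rw [← commutatorElement_eq_one_iff_mul_comm]
  refine hfaith _ ?_ ?_
  · exact (fixer A v).mul_mem ((fixer A v).mul_mem ((fixer A v).mul_mem ha hb) ((fixer A v).inv_mem ha))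
      ((fixer A v).inv_mem hb)
  intro u
  -- automorphisms of a cyclic group commute
  let π : fixer A v →* MulAut (V ⧸ L) := MonoidHom.mk'
    (fun g => QuotientGroup.congr L L ((g : A) : MulAut V) (hpres g g.2))
    fun g h => MulEquiv.ext fun y => by
      obtain ⟨y, rfl⟩ := QuotientGroup.mk_surjective y
      rfl
  have hcomm : π ⟨a, ha⟩ * π ⟨b, hb⟩ = π ⟨b, hb⟩ * π ⟨a, ha⟩ := by
    obtain ⟨γ, hγ⟩ := hcyc.exists_generator
    apply MulEquiv.ext
    intro y
    obtain ⟨i, rfl⟩ := hγ y
    obtain ⟨j, hj⟩ := hγ (π ⟨a, ha⟩ γ)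
    obtain ⟨l, hl⟩ := hγ (π ⟨b, hb⟩ γ)
    simp only [MulAut.mul_apply, map_zpow]
    rw [← hj, ← hl, map_zpow, map_zpow, ← hj, ← hl, ← zpow_mul, ← zpow_mul, ← zpow_mul, ← zpow_mul]
    congr 1
    ring
  have h1 : π ⁅(⟨a, ha⟩ : fixer A v), ⟨b, hb⟩⁆ = 1 := by
    rw [map_commutatorElement, commutatorElement_eq_one_iff_mul_comm.2 hcomm]
  have h2 := congrArg (fun g : MulAut (V ⧸ L) => g (QuotientGroup.mk u)) h1
  have h3 := (QuotientGroup.eq (s := L)).1 h2
  have h4 := L.inv_mem h3
  rw [mul_inv_rev, inv_inv, mul_comm] at h4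
  exact h4

/-- Two translates of a subspace cannot be preserved by a perfect group. -/
theorem false_of_two_blocks {A : Subgroup (MulAut V)} (hperf : _root_.commutator A = ⊤)
    (hirr : ∀ W : Subgroup V, (∀ g : A, ∀ w ∈ W, (g : MulAut V) w ∈ W) → W = ⊥ ∨ W = ⊤)
    (W W' : Subgroup V) (hne : W ≠ ⊥) (htop : W ≠ ⊤) (hc : Nat.card W' = Nat.card W)
    (hinv : ∀ g : A, ∀ w, (w ∈ W ∨ w ∈ W') → ((g : MulAut V) w ∈ W ∨ (g : MulAut V) w ∈ W')) :
    False := by
  classical
  have hsplit : ∀ (g : A) (X : Subgroup V), Nat.card X = Nat.card W →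
      (∀ x ∈ X, x ∈ W ∨ x ∈ W') →
      (X.map (g : MulAut V).toMonoidHom = W ∨ X.map (g : MulAut V).toMonoidHom = W') := by
    intro g X hX hsub
    set Y := X.map (g : MulAut V).toMonoidHom
    have hY : Nat.card Y = Nat.card W :=
      (card_map_of_injective (g : MulAut V).injective).trans hX
    have hYsub : ∀ y ∈ Y, y ∈ W ∨ y ∈ W' := by
      rintro _ ⟨x, hx, rfl⟩
      exact hinv g x (hsub x hx)
    by_cases h1 : Y ≤ W
    · exact Or.inl (eq_of_le_of_card_ge h1 hY.ge)
    by_cases h2 : Y ≤ W'
    · exact Or.inr (eq_of_le_of_card_ge h2 (hY.trans hc.symm).ge)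
    exfalso
    obtain ⟨y, hy, hy1⟩ := SetLike.not_le_iff_exists.1 h1
    obtain ⟨z, hz, hz2⟩ := SetLike.not_le_iff_exists.1 h2
    have hy2 : y ∈ W' := (hYsub y hy).resolve_left hy1
    have hz1 : z ∈ W := (hYsub z hz).resolve_right hz2
    rcases hYsub _ (Y.mul_mem hy hz) with h | h
    · exact hy1 (by simpa using W.mul_mem h (W.inv_mem hz1))
    · exact hz2 (by simpa [← mul_assoc] using W'.mul_mem (W'.inv_mem hy2) h)
  -- the stabiliser of `W` has index at most two
  let f : A → Bool := fun g => decide (W.map (g : MulAut V).toMonoidHom = W)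
  have hW : ∀ g : A, W.map (g : MulAut V).toMonoidHom = W := by
    intro g
    by_contra hg
    have hWW' : W' ≠ W := fun e => hg ((hsplit g W rfl fun x hx => Or.inl hx).elim id fun h => h.trans e)
    have hmap : ∀ a b : A, W.map ((a * b : A) : MulAut V).toMonoidHom =
        (W.map (b : MulAut V).toMonoidHom).map (a : MulAut V).toMonoidHom := by
      intro a b
      rw [map_map]
      rfl
    let φ : A →* Equiv.Perm ({W, W'} : Set (Subgroup V)) := MonoidHom.mk'
      (fun a => Equiv.ofBijective (fun X => ⟨X.1.map (a : MulAut V).toMonoidHom, by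
          obtain ⟨X, rfl | rfl⟩ := X
          · rcases hsplit a X rfl (fun x hx => Or.inl hx) with h | h
            · exact Or.inl h
            · exact Or.inr h
          · rcases hsplit a X hc (fun x hx => Or.inr hx) with h | h
            · exact Or.inl h
            · exact Or.inr h⟩)
        (Finite.injective_iff_bijective.1 fun X Y h => Subtype.ext
          (map_injective (f := (a : MulAut V).toMonoidHom) (a : MulAut V).injective
            (congrArg Subtype.val h))))
      fun a b => Equiv.ext fun X => Subtype.ext (by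
        show X.1.map ((a * b : A) : MulAut V).toMonoidHom = (X.1.map _).map _
        rw [map_map]
        rfl)
    have hcard : Nat.card ({W, W'} : Set (Subgroup V)) = 2 := by
      rw [Nat.card_coe_set_eq, Set.ncard_pair hWW'.symm]
    have hcomm : ∀ a b : A, φ a * φ b = φ b * φ a := by
      intro a b
      have hc2 : Nat.card (Equiv.Perm ({W, W'} : Set (Subgroup V))) = 2 := by
        rw [Nat.card_perm, hcard]; rfl
      haveI : Fact (Nat.Prime 2) := ⟨Nat.prime_two⟩
      haveI := isCyclic_of_prime_card hc2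
      exact IsCyclic.commutative.is_comm.comm _ _
    have h1 := eq_one_of_perfect_comm hperf φ hcomm g
    exact hg (congrArg Subtype.val (congrArg (fun σ : Equiv.Perm ({W, W'} : Set (Subgroup V)) =>
      σ ⟨W, Or.inl rfl⟩) h1))
  rcases hirr W (fun g w hw => by
    have : (g : MulAut V) w ∈ W.map (g : MulAut V).toMonoidHom := ⟨w, hw, rfl⟩
    rwa [hW g] at this) with h | h
  · exact hne h
  · exact htop h

/-- A cyclic irreducible group inverted up to index two lives in dimension at most two. -/
theorem card_le_sq_of_inverted {q : ℕ} [hq : Fact q.Prime] (hq2 : q ≠ 2) [Nontrivial V]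
    (hexp : ∀ v : V, v ^ q = 1) (a t : MulAut V) (e : ℕ) (he : orderOf a = 2 ^ e)
    (hinv : t * (a * a) * t⁻¹ = (a * a)⁻¹)
    (hirr : ∀ W : Subgroup V, (∀ w ∈ W, a w ∈ W) → W = ⊥ ∨ W = ⊤) :
    Nat.card V ≤ q ^ 2 := by
  classical
  let E : MulAut V → AddMonoid.End (Additive V) := fun g => MonoidHom.toAdditive g.toMonoidHom
  have Emul : ∀ g h : MulAut V, E (g * h) = E g * E h := fun g h => rfl
  have Eone : E 1 = 1 := rfl
  have Epow : ∀ (g : MulAut V) (k : ℕ), E (g ^ k) = E g ^ k := by
    intro g k
    induction k with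
    | zero => rw [pow_zero, pow_zero, Eone]
    | succ k ih => rw [pow_succ, pow_succ, Emul, ih]
  have Einj : Function.Injective E := fun g h hgh => MulEquiv.ext fun v =>
    congrArg Additive.toMul (DFunLike.congr_fun hgh (Additive.ofMul v))
  obtain ⟨S, hS⟩ : ∃ S : Subring (AddMonoid.End (Additive V)),
      S = Subring.closure ({E a} : Set (AddMonoid.End (Additive V))) := ⟨_, rfl⟩
  have hcom : ∀ x ∈ S, ∀ y ∈ S, x * y = y * x := fun x hx y hy => by
    have h := Subring.isMulCommutative_closure (s := ({E a} : Set (AddMonoid.End (Additive V))))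
      (by rintro _ rfl _ rfl; rfl)
    exact congrArg Subtype.val (h.is_comm.comm ⟨x, hS ▸ hx⟩ ⟨y, hS ▸ hy⟩)
  letI : CommRing S :=
    { (inferInstance : Ring S) with mul_comm := fun x y => Subtype.ext (hcom x x.2 y y.2) }
  haveI : Finite (AddMonoid.End (Additive V)) :=
    Finite.of_injective (fun f : AddMonoid.End (Additive V) => (f : Additive V → Additive V))
      DFunLike.coe_injective
  have hEaS : E a ∈ S := hS ▸ Subring.subset_closure rfl
  have hcommS : ∀ s ∈ S, s * E a = E a * s := fun s hs =>
    congrArg Subtype.val (mul_comm (⟨s, hs⟩ : S) ⟨E a, hEaS⟩)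
  obtain ⟨v₀, hv₀⟩ := exists_ne (1 : V)
  -- nonzero members of `S` are injective
  have hker : ∀ s ∈ S, s ≠ 0 → ∀ x, s x = 0 → x = 0 := by
    intro s hs hs0 x hx
    let W : Subgroup V :=
      { carrier := {v | s (Additive.ofMul v) = 0}
        one_mem' := map_zero s
        mul_mem' := fun {u w} hu hw => by
          show s (Additive.ofMul (u * w)) = 0
          rw [ofMul_mul, map_add, hu, hw, add_zero]
        inv_mem' := fun {u} hu => by
          show s (Additive.ofMul u⁻¹) = 0
          rw [ofMul_inv, map_neg, hu, neg_zero] }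
    rcases hirr W (fun w hw => by
      show s (E a (Additive.ofMul w)) = 0
      have := DFunLike.congr_fun (hcommS s hs) (Additive.ofMul w)
      refine this.trans ?_
      show E a (s (Additive.ofMul w)) = 0
      rw [show s (Additive.ofMul w) = 0 from hw, map_zero]) with h | h
    · have : Additive.toMul x ∈ W := hx
      rw [h, mem_bot] at this
      exact this
    · exfalso
      refine hs0 (AddMonoidHom.ext fun y => ?_)
      have : Additive.toMul y ∈ W := h ▸ mem_top _
      exact this
  haveI : NoZeroDivisors S := ⟨fun {s u} h => by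
    by_contra hsu
    push Not at hsu
    refine hsu.2 (Subtype.ext (AddMonoidHom.ext fun y => ?_))
    refine hker s s.2 (fun e0 => hsu.1 (Subtype.ext e0)) _ ?_
    exact DFunLike.congr_fun (congrArg Subtype.val h) y⟩
  haveI : Nontrivial S := ⟨⟨0, 1, fun h => hv₀ (by
    have := DFunLike.congr_fun (congrArg Subtype.val h) (Additive.ofMul v₀)
    exact (congrArg Additive.toMul this).symm)⟩⟩
  haveI : IsDomain S := NoZeroDivisors.to_isDomain S
  have hqS : (q : S) = 0 := by
    apply Subtype.ext
    refine AddMonoidHom.ext fun y => ?_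
    show ((q : S) : AddMonoid.End (Additive V)) y = 0
    rw [SubringClass.coe_natCast, AddMonoid.End.natCast_apply]
    exact hexp (Additive.toMul y)
  haveI : CharP S q := (CharP.charP_iff_prime_eq_zero hq.out).2 hqS
  -- `V` is one-dimensional over `S`
  let ev : S →+ Additive V :=
    { toFun := fun s => (s : AddMonoid.End (Additive V)) (Additive.ofMul v₀)
      map_zero' := rfl
      map_add' := fun s u => rfl }
  have hevinj : Function.Injective ev := by
    rw [injective_iff_map_eq_zero]
    intro s hs
    by_contra hs0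
    exact hv₀ (congrArg Additive.toMul
      (hker s s.2 (fun e0 => hs0 (Subtype.ext e0)) (Additive.ofMul v₀) hs))
  have hevsurj : Function.Surjective ev := by
    let W : Subgroup V :=
      { carrier := {v | Additive.ofMul v ∈ ev.range}
        one_mem' := ev.range.zero_mem
        mul_mem' := fun {u w} hu hw => ev.range.add_mem hu hw
        inv_mem' := fun {u} hu => ev.range.neg_mem hu }
    rcases hirr W (fun w hw => by
      obtain ⟨s, hs⟩ := hw
      refine ⟨⟨E a, hEaS⟩ * s, ?_⟩
      show E a ((s : AddMonoid.End (Additive V)) (Additive.ofMul v₀)) = Additive.ofMul (a w)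
      rw [show (s : AddMonoid.End (Additive V)) (Additive.ofMul v₀) = Additive.ofMul w from hs]
      rfl) with h | h
    · exfalso
      have : v₀ ∈ W := ⟨1, rfl⟩
      rw [h, mem_bot] at this
      exact hv₀ this
    · intro y
      have : Additive.toMul y ∈ W := h ▸ mem_top _
      exact this
  have hcardS : Nat.card V = Nat.card S :=
    (Nat.card_eq_of_bijective ev ⟨hevinj, hevsurj⟩).symm
  rw [hcardS]
  haveI : Fintype S := Fintype.ofFinite S
  have hroots : ∀ k : ℕ, 1 < k → ∀ T : Finset S, (∀ s ∈ T, s ^ k = s) → T.card ≤ k := by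
    intro k hk T hT
    set f : Polynomial S := Polynomial.X ^ k - Polynomial.X with hf
    have hdeg : f.natDegree = k := by
      rw [hf, Polynomial.natDegree_sub_eq_left_of_natDegree_lt (by simpa using hk),
        Polynomial.natDegree_X_pow]
    have hf0 : f ≠ 0 := fun e => by
      rw [e, Polynomial.natDegree_zero] at hdeg
      omega
    calc T.card ≤ f.natDegree := Polynomial.card_le_degree_of_subset_roots (Multiset.subset_iff.2
          fun s hs => (Polynomial.mem_roots hf0).2 (by
            simp [hf, Polynomial.IsRoot, hT s hs]))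
      _ = k := hdeg
  have hq21 : 1 < q ^ 2 := Nat.one_lt_pow two_ne_zero hq.out.one_lt
  set A₀ : S := ⟨E a, hEaS⟩ with hA₀
  by_cases hcase : A₀ ^ q ^ 2 = A₀
  · have hall : ∀ s : S, s ^ q ^ 2 = s := by
      have hle : S ≤ (RingHom.eqLocus (iterateFrobenius S q 2) (RingHom.id S)).map S.subtype := by
        conv_lhs => rw [hS]
        rw [Subring.closure_le, Set.singleton_subset_iff]
        exact ⟨A₀, by show iterateFrobenius S q 2 A₀ = A₀; rw [iterateFrobenius_def]; exact hcase,
          rfl⟩
      intro s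
      obtain ⟨u, hu, hus⟩ := hle s.2
      obtain rfl : u = s := Subtype.ext hus
      have : iterateFrobenius S q 2 u = u := hu
      rwa [iterateFrobenius_def] at this
    have := hroots (q ^ 2) hq21 Finset.univ fun s _ => hall s
    rwa [Finset.card_univ, ← Nat.card_eq_fintype_card] at this
  exfalso
  set m := (q ^ 2 - 1).factorization 2 with hm
  have hq1 : q ^ 2 - 1 ≠ 0 := by omega
  have hme : m < e := by
    by_contra hle
    push Not at hle
    apply hcase
    have hd : orderOf a ∣ q ^ 2 - 1 :=
      he ▸ (pow_dvd_pow 2 hle).trans (Nat.ordProj_dvd _ _)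
    obtain ⟨c, hc⟩ := hd
    apply Subtype.ext
    show E a ^ q ^ 2 = E a
    rw [show q ^ 2 = orderOf a * c + 1 by omega, pow_succ, pow_mul, ← Epow, pow_orderOf_eq_one,
      Eone, one_pow, one_mul]
  set k := 2 ^ (e - m - 1) with hk
  set b := (a * a) ^ k with hb
  have hbo : orderOf b = 2 ^ m := by
    rw [hb, ← pow_two, ← pow_mul, hk, ← pow_succ', show e - m - 1 + 1 = e - m by omega,
      orderOf_pow' a (pow_ne_zero _ two_ne_zero), he,
      Nat.gcd_eq_right (pow_dvd_pow 2 (Nat.sub_le e m)), Nat.pow_div (Nat.sub_le e m) two_pos]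
    congr 1
    omega
  have hbt : t * b * t⁻¹ = b⁻¹ := by rw [hb, ← conj_pow, hinv, inv_pow]
  set B : S := A₀ ^ (2 * k) with hB
  have hBb : (B : AddMonoid.End (Additive V)) = E b := by
    rw [hB, hb, ← pow_two, ← pow_mul, Epow]
    rfl
  have hbq : b ^ (q ^ 2) = b := by
    have hd : orderOf b ∣ q ^ 2 - 1 := hbo ▸ Nat.ordProj_dvd _ _
    obtain ⟨c, hc⟩ := hd
    rw [show q ^ 2 = orderOf b * c + 1 by omega, pow_succ, pow_mul, pow_orderOf_eq_one, one_pow,
      one_mul]
  have hBq : B ^ q ^ 2 = B := by
    apply Subtype.ext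
    rw [SubmonoidClass.coe_pow, hBb, ← Epow, hbq]
  -- coefficients of the minimal polynomial are in the prime field
  have hprime : ∀ s : S, s ^ q = s → ∃ i : ℕ, s = i := by
    intro s hs
    by_contra hcon
    push Not at hcon
    let T : Finset S := (Finset.range q).image (fun i : ℕ => (i : S))
    have hTc : T.card = q := by
      rw [Finset.card_image_of_injOn, Finset.card_range]
      intro i hi j hj hij
      exact CharP.natCast_injOn_Iio S q (Finset.mem_range.1 hi) (Finset.mem_range.1 hj) hij
    have hsT : s ∉ T := fun h => by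
      obtain ⟨i, -, hi⟩ := Finset.mem_image.1 h
      exact hcon i hi.symm
    have := hroots q hq.out.one_lt (insert s T) fun x hx => by
      rcases Finset.mem_insert.1 hx with rfl | hx
      · exact hs
      · obtain ⟨i, -, rfl⟩ := Finset.mem_image.1 hx
        exact frobenius_def q (i : S) ▸ map_natCast (frobenius S q) i
    rw [Finset.card_insert_of_notMem hsT, hTc] at this
    omega
  have hBqq : (B ^ q) ^ q = B := by rw [← pow_mul, ← pow_two, hBq]
  obtain ⟨i, hi⟩ := hprime (B + B ^ q) (by rw [add_pow_char, hBqq, add_comm])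
  obtain ⟨j, hj⟩ := hprime (B * B ^ q) (by rw [mul_pow, hBqq, mul_comm])
  -- apply conjugation by `t`
  let c : AddMonoid.End (Additive V) → AddMonoid.End (Additive V) := fun x => E t * x * E t⁻¹
  have htt : E t⁻¹ * E t = 1 := by rw [← Emul, inv_mul_cancel, Eone]
  have hmul : ∀ x y, c (x * y) = c x * c y := fun x y => by
    show E t * (x * y) * E t⁻¹ = (E t * x * E t⁻¹) * (E t * y * E t⁻¹)
    rw [show E t * x * E t⁻¹ * (E t * y * E t⁻¹) = E t * x * (E t⁻¹ * E t) * y * E t⁻¹ by
      simp only [mul_assoc], htt, mul_one]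
    simp only [mul_assoc]
  have hadd : ∀ x y, c (x + y) = c x + c y := fun x y => by
    show E t * (x + y) * E t⁻¹ = _
    rw [mul_add, add_mul]
  have hnat : ∀ n : ℕ, c n = n := fun n => by
    show E t * n * E t⁻¹ = n
    rw [← (Nat.cast_commute n (E t)).eq, mul_assoc, ← Emul, mul_inv_cancel, Eone, mul_one]
  have hBinv : B ^ (2 ^ m - 1) * B = 1 := by
    apply Subtype.ext
    rw [← pow_succ, Nat.sub_add_cancel Nat.one_le_two_pow, SubmonoidClass.coe_pow, hBb, ← Epow,
      ← hbo, pow_orderOf_eq_one, Eone]
    rfl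
  set B' := B ^ (2 ^ m - 1) with hB'
  have hB'b : (B' : AddMonoid.End (Additive V)) = E b⁻¹ := by
    rw [hB', SubmonoidClass.coe_pow, hBb, ← Epow]
    congr 1
    refine eq_inv_of_mul_eq_one_left ?_
    rw [← pow_succ, Nat.sub_add_cancel Nat.one_le_two_pow, ← hbo, pow_orderOf_eq_one]
  have hcB : c (B : AddMonoid.End (Additive V)) = (B' : AddMonoid.End (Additive V)) := by
    rw [hBb, hB'b, ← hbt, Emul, Emul]
  have hquad : B' * B' + (j : S) = (i : S) * B' := by
    have h0 : B * B + (j : S) = (i : S) * B := by rw [← hi, ← hj]; ring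
    have h1 := congrArg (fun z : S => c (z : AddMonoid.End (Additive V))) h0
    simp only [Subring.coe_add, Subring.coe_mul, SubringClass.coe_natCast, hadd, hmul, hnat, hcB] at h1
    apply Subtype.ext
    simpa using h1
  have hfac : (B' - B) * (B' - B ^ q) = 0 := by
    rw [← hi, ← hj] at hquad
    linear_combination hquad
  have hnot : ∀ u : S, (u : AddMonoid.End (Additive V)) = E b⁻¹ → ∀ r : ℕ, u = B ^ r →
      b⁻¹ = b ^ r := fun u hu r hr => by
    apply Einj
    rw [← hu, hr, SubmonoidClass.coe_pow, hBb, ← Epow]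
  have hm3 : 3 ≤ m := by
    have h8 : 2 ^ 3 ∣ q ^ 2 - 1 := by
      obtain ⟨r, hr⟩ := hq.out.odd_of_ne_two hq2
      obtain ⟨s, hs⟩ := Nat.even_mul_succ_self r
      refine ⟨s, ?_⟩
      have e1 : q ^ 2 = 4 * (r * (r + 1)) + 1 := by rw [hr]; ring
      omega
    exact (Nat.prime_two.pow_dvd_iff_le_factorization hq1).1 h8
  rcases mul_eq_zero.1 hfac with h | h
  · have h1 := hnot B' hB'b 1 (by rw [pow_one]; exact sub_eq_zero.1 h)
    have h2 : orderOf b ∣ 2 := orderOf_dvd_of_pow_eq_one (by
      rw [pow_two]; nth_rw 1 [← pow_one b, ← h1]; exact inv_mul_cancel b)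
    rw [hbo] at h2
    have h3 := (Nat.pow_dvd_pow_iff_le_right (by norm_num : 1 < 2)).1 (h2.trans (pow_one 2).symm.dvd)
    omega
  · have h1 := hnot B' hB'b q (sub_eq_zero.1 h)
    have h2 : orderOf b ∣ q + 1 := orderOf_dvd_of_pow_eq_one (by
      rw [pow_succ, ← h1, inv_mul_cancel])
    rw [hbo] at h2
    have h3 : 2 ^ (m + 1) ∣ q ^ 2 - 1 := by
      have h4 : 2 ∣ q - 1 := by
        obtain ⟨r, hr⟩ := hq.out.odd_of_ne_two hq2
        exact ⟨r, by omega⟩
      rw [show q ^ 2 - 1 = (q + 1) * (q - 1) by rw [← Nat.sq_sub_sq, one_pow], pow_succ]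
      exact Nat.mul_dvd_mul h2 h4
    exact absurd ((Nat.prime_two.pow_dvd_iff_le_factorization hq1).1 h3) (by omega)

/-- A 2-group whose normal abelian subgroups are cyclic has an index-two cyclic part inverted
outside. -/
theorem exists_inverted {P : Type u} [Group P] [Finite P] (hP : IsPGroup 2 P) (hnc : ¬ IsCyclic P)
    (hn : ∀ A : Subgroup P, A.Normal → IsMulCommutative A → IsCyclic A) :
    ∃ a t : P, (zpowers a).index = 2 ∧ t * (a * a) * t⁻¹ = (a * a)⁻¹ := by
  haveI : Fact (Nat.Prime 2) := ⟨Nat.prime_two⟩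
  have hquat : ∀ n : ℕ, ∀ _ : P ≃* QuaternionGroup n,
      ∃ a t : P, (zpowers a).index = 2 ∧ t * (a * a) * t⁻¹ = (a * a)⁻¹ := by
    intro n e
    haveI : NeZero n := ⟨by
      rintro rfl
      haveI : Finite (QuaternionGroup 0) := Finite.of_equiv P e.toEquiv
      haveI : Finite (ZMod (2 * 0)) := Finite.of_injective
        (fun i => (QuaternionGroup.a i : QuaternionGroup 0)) fun i j h => QuaternionGroup.a.inj h
      haveI : Infinite (ZMod (2 * 0)) := inferInstanceAs (Infinite ℤ)
      exact not_finite (ZMod (2 * 0))⟩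
    refine ⟨e.symm (.a 1), e.symm (.xa 0), ?_, ?_⟩
    · refine Nat.eq_of_mul_eq_mul_left (orderOf_pos (e.symm (QuaternionGroup.a 1))) ?_
      rw [← Nat.card_zpowers, card_mul_index, Nat.card_zpowers, MulEquiv.orderOf_eq,
        QuaternionGroup.orderOf_a_one, Nat.card_congr e.toEquiv, Nat.card_eq_fintype_card,
        QuaternionGroup.card]
      ring
    · rw [← map_mul, ← map_inv, ← map_mul, ← map_inv, ← map_mul]
      congr 1
      apply mul_inv_eq_iff_eq_mul.2
      apply eq_inv_mul_of_mul_eq
      simp
  by_cases hm : ∃ B : Subgroup P, IsMulCommutative B ∧ ¬ IsCyclic B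
  · rcases (Cfsg.Agent.S0519.result 2 hP hn hm).2 with ⟨n, ⟨e⟩⟩ | ⟨n, hn8, ⟨e⟩⟩ | ⟨n, hn3, hc, x, y, hx, -, hxy⟩
    · exact hquat n e
    · refine ⟨e.symm (.r 1), e.symm (.sr 0), ?_, ?_⟩
      · refine Nat.eq_of_mul_eq_mul_left (orderOf_pos (e.symm (DihedralGroup.r 1))) ?_
        rw [← Nat.card_zpowers, card_mul_index, Nat.card_zpowers, MulEquiv.orderOf_eq,
          DihedralGroup.orderOf_r_one, Nat.card_congr e.toEquiv, DihedralGroup.nat_card]
        ring
      · rw [← map_mul, ← map_inv, ← map_mul, ← map_inv, ← map_mul]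
        congr 1
        apply mul_inv_eq_iff_eq_mul.2
        apply eq_inv_mul_of_mul_eq
        simp
    · refine ⟨x, y, ?_, ?_⟩
      · refine Nat.eq_of_mul_eq_mul_left (orderOf_pos x) ?_
        rw [← Nat.card_zpowers, card_mul_index, Nat.card_zpowers, hc, hx, pow_succ]
      · rw [show y * (x * x) * y⁻¹ = (y * x * y⁻¹) * (y * x * y⁻¹) by group, hxy, ← pow_add,
          ← pow_two]
        refine eq_inv_of_mul_eq_one_left ?_
        rw [← pow_add, ← orderOf_dvd_iff_pow_eq_one, hx]
        refine dvd_of_eq ?_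
        have h1 : 2 ^ n = 2 * 2 ^ (n - 1) := by rw [← pow_succ']; congr 1; omega
        have h2 : 1 ≤ 2 ^ (n - 1) := Nat.one_le_two_pow
        omega
  · push Not at hm
    rcases cyclic_or_quaternion_of_abelian_cyclic hP hm with h | ⟨-, n, ⟨e⟩⟩
    · exact absurd h hnc
    · exact hquat (2 ^ n) e

/-- A perfect group with 2-power orbits acts trivially. -/
theorem perfect_trivial {q : ℕ} [hq : Fact q.Prime] :
    ∀ (n : ℕ) (V : Type u) [CommGroup V] [Finite V] (B : Type u) [Group B] [Finite B]
      (φ : B →* MulAut V), Nat.card V = n → _root_.commutator B = ⊤ → IsPGroup q V →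
      (Nat.card B).Coprime q → (∀ v : V, ∃ k, (fixer φ.range v).index = 2 ^ k) →
      ∀ b : B, φ b = 1 := by
  intro n
  induction n using Nat.strong_induction_on with
  | _ n ih =>
  intro V _ _ B _ _ φ hn hperf hV hcop horb
  classical
  haveI : Fact (Nat.Prime 2) := ⟨Nat.prime_two⟩
  by_contra hnt
  push Not at hnt
  obtain ⟨b₀, hb₀⟩ := hnt
  set A := φ.range with hA
  have hA1 : A ≠ ⊥ := fun e => hb₀ (mem_bot.1 (e ▸ ⟨b₀, rfl⟩ : φ b₀ ∈ (⊥ : Subgroup (MulAut V))))
  have hperfA : _root_.commutator A = ⊤ := by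
    have hs := φ.rangeRestrict_surjective
    rw [_root_.commutator_def, ← map_top_of_surjective φ.rangeRestrict hs, ← map_commutator,
      ← _root_.commutator_def, hperf]
  have hcopA : (Nat.card A).Coprime q := hcop.coprime_dvd_left (card_range_dvd φ)
  haveI : Nontrivial A := (nontrivial_iff_ne_bot A).2 hA1
  -- `V` is irreducible
  have hirr : ∀ W : Subgroup V, (∀ g : A, ∀ w ∈ W, (g : MulAut V) w ∈ W) → W = ⊥ ∨ W = ⊤ := by
    intro W hW
    by_contra hcon
    push Not at hcon
    have hWmap : ∀ g : A, W.map (g : MulAut V).toMonoidHom = W := fun g =>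
      eq_of_le_of_card_ge (by rintro _ ⟨w, hw, rfl⟩; exact hW g w hw)
        (card_map_of_injective (g : MulAut V).injective).ge
    let ρ : A →* MulAut W := MonoidHom.mk'
      (fun g => ((g : MulAut V).subgroupMap W).trans (MulEquiv.subgroupCongr (hWmap g)))
      fun g g' => MulEquiv.ext fun w => Subtype.ext rfl
    let σ : A →* MulAut (V ⧸ W) := MonoidHom.mk'
      (fun g => QuotientGroup.congr W W (g : MulAut V) (hWmap g))
      fun g g' => MulEquiv.ext fun y => by
        obtain ⟨y, rfl⟩ := QuotientGroup.mk_surjective y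
        rfl
    have hlift : ∀ {X : Type u} [CommGroup X] (τ : A →* MulAut X) (v : V) (x : X),
        (∀ g : A, (g : MulAut V) v = v → τ g x = x) → ∃ k, (fixer τ.range x).index = 2 ^ k := by
      intro X _ τ v x hx
      obtain ⟨k, hk⟩ := horb v
      have h1 : ((fixer τ.range x).comap τ.rangeRestrict).index = (fixer τ.range x).index :=
        index_comap_of_surjective _ τ.rangeRestrict_surjective
      have hle : fixer A v ≤ (fixer τ.range x).comap τ.rangeRestrict := fun g hg => hx g hg
      have h2 := index_dvd_of_le hle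
      rw [h1, hk] at h2
      obtain ⟨i, -, hi⟩ := (Nat.dvd_prime_pow Nat.prime_two).1 h2
      exact ⟨i, hi⟩
    have hltW : Nat.card W < n := by
      rw [← hn]
      exact lt_of_le_of_ne (Nat.le_of_dvd Nat.card_pos W.card_subgroup_dvd_card)
        fun e => hcon.2 (eq_top_of_card_eq W e)
    have hltQ : Nat.card (V ⧸ W) < n := by
      rw [← hn, card_eq_card_quotient_mul_card_subgroup W]
      exact lt_mul_of_one_lt_right Nat.card_pos ((one_lt_card_iff_ne_bot _).2 hcon.1)
    have h1 := ih _ hltW W A ρ rfl hperfA (hV.to_subgroup W) hcopA fun w =>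
      hlift ρ (w : V) w fun g hg => Subtype.ext hg
    have h2 := ih _ hltQ (V ⧸ W) A σ rfl hperfA (hV.to_quotient W) hcopA fun y => by
      obtain ⟨v, rfl⟩ := QuotientGroup.mk_surjective y
      exact hlift σ v _ fun g hg => congrArg (QuotientGroup.mk (s := W)) hg
    -- the group stabilising the series is abelian
    have hfix : ∀ g : A, ∀ w ∈ W, (g : MulAut V) w = w := fun g w hw =>
      (congrArg Subtype.val (DFunLike.congr_fun (h1 g) ⟨w, hw⟩) :)
    have hd : ∀ g : A, ∀ v : V, v⁻¹ * (g : MulAut V) v ∈ W := fun g v =>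
      (QuotientGroup.eq (s := W)).1 (DFunLike.congr_fun (h2 g) (QuotientGroup.mk v)).symm
    have hcomm : ∀ g g' : A, A.subtype g * A.subtype g' = A.subtype g' * A.subtype g := fun g g' =>
      MulEquiv.ext fun v => by
        show (g : MulAut V) ((g' : MulAut V) v) = (g' : MulAut V) ((g : MulAut V) v)
        have e1 : (g : MulAut V) ((g' : MulAut V) v) =
            (g : MulAut V) v * (v⁻¹ * (g' : MulAut V) v) := by
          conv_rhs => rw [← hfix g _ (hd g' v), ← map_mul, mul_inv_cancel_left]
        have e2 : (g' : MulAut V) ((g : MulAut V) v) =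
            (g' : MulAut V) v * (v⁻¹ * (g : MulAut V) v) := by
          conv_rhs => rw [← hfix g' _ (hd g v), ← map_mul, mul_inv_cancel_left]
        rw [e1, e2]
        simp only [mul_assoc, mul_comm, mul_left_comm]
    exact hb₀ (eq_one_of_perfect_comm hperfA A.subtype hcomm ⟨φ b₀, b₀, rfl⟩)
  -- a Sylow 2-subgroup is transitive on every orbit
  obtain ⟨P⟩ : Nonempty (Sylow 2 A) := inferInstance
  have hprod : ∀ (v : V) (g : A), ∃ x ∈ (P : Subgroup A), ∃ y ∈ fixer A v, g = x * y := by
    intro v
    obtain ⟨k, hk⟩ := horb v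
    have hc : (P : Subgroup A).index.Coprime (fixer A v).index := by
      rw [hk]
      exact ((Nat.prime_two.coprime_iff_not_dvd.2 P.not_dvd_index).pow_left k).symm
    intro g
    obtain ⟨x, hx, y, hy, e⟩ := ClassSize.mul_eq_univ_of_coprime_index hc g
    exact ⟨x, hx, y, hy, e.symm⟩
  have horbP : ∀ (g : A) (v : V), ∃ x ∈ (P : Subgroup A), (g : MulAut V) v = (x : MulAut V) v := by
    intro g v
    obtain ⟨x, hx, y, hy, rfl⟩ := hprod v g
    refine ⟨x, hx, ?_⟩
    show (x : MulAut V) ((y : MulAut V) v) = _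
    rw [mem_fixer.1 hy]
  have hirrP : ∀ W : Subgroup V, (∀ x ∈ (P : Subgroup A), ∀ w ∈ W, (x : MulAut V) w ∈ W) →
      W = ⊥ ∨ W = ⊤ := fun W hW => hirr W fun g w hw => by
    obtain ⟨x, hx, e⟩ := horbP g w
    rw [e]; exact hW x hx w hw
  -- subgroups of index two of `P` are irreducible
  have hblocks : ∀ M : Subgroup (P : Subgroup A), M.index = 2 → ∀ W : Subgroup V,
      (∀ x : (P : Subgroup A), x ∈ M → ∀ w ∈ W, ((x : A) : MulAut V) w ∈ W) → W = ⊥ ∨ W = ⊤ := by
    intro M hM W hW
    by_contra hcon
    push Not at hcon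
    obtain ⟨t, ht⟩ := SetLike.exists_not_mem_of_ne_top M (fun e => by rw [e, index_top] at hM; omega)
    refine false_of_two_blocks hperfA hirr W (W.map ((t : A) : MulAut V).toMonoidHom) hcon.1 hcon.2
      (card_map_of_injective ((t : A) : MulAut V).injective) fun g w hw => ?_
    obtain ⟨x, hx, e⟩ := horbP g w
    rw [e]
    set x' : (P : Subgroup A) := ⟨x, hx⟩
    rcases hw with hw | ⟨u, hu, rfl⟩
    · by_cases hxM : x' ∈ M
      · exact Or.inl (hW x' hxM w hw)
      · right
        have h1 : t⁻¹ * x' ∈ M := by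
          rw [mul_mem_iff_of_index_two hM, inv_mem_iff]
          exact iff_of_false ht hxM
        refine ⟨_, hW _ h1 w hw, ?_⟩
        show ((t : A) : MulAut V) (((t : A) : MulAut V).symm ((x : MulAut V) w)) = _
        rw [MulEquiv.apply_symm_apply]
    · by_cases hxM : x' ∈ M
      · right
        have h1 : t⁻¹ * x' * t ∈ M := by
          have := (normal_of_index_eq_two hM).conj_mem x' hxM t⁻¹
          simpa using this
        refine ⟨_, hW _ h1 u hu, ?_⟩
        show ((t : A) : MulAut V) (((t : A) : MulAut V).symm ((x : MulAut V) (((t : A) : MulAut V) u))) = _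
        rw [MulEquiv.apply_symm_apply]
        rfl
      · left
        have h1 : x' * t ∈ M := by
          rw [mul_mem_iff_of_index_two hM]
          exact iff_of_false hxM ht
        exact hW _ h1 u hu
  -- exponent `q`
  have hVnt : Nontrivial V := by
    by_contra h
    rw [not_nontrivial_iff_subsingleton] at h
    exact hb₀ (MulEquiv.ext fun v => Subsingleton.elim _ _)
  have hexp : ∀ v : V, v ^ q = 1 := by
    let W : Subgroup V := (powMonoidHom q : V →* V).ker
    rcases hirr W (fun g w hw => by
      show (g : MulAut V) w ^ q = 1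
      rw [← map_pow, show w ^ q = 1 from hw, map_one]) with h | h
    · exfalso
      obtain ⟨k, hk⟩ := IsPGroup.iff_card.1 hV
      have hd : q ∣ Nat.card V := by
        rw [hk]
        refine dvd_pow_self q fun e => ?_
        rw [e, pow_zero] at hk
        exact (Finite.one_lt_card (α := V)).ne' hk
      obtain ⟨v, hv⟩ := exists_prime_orderOf_dvd_card' q hd
      have : v ∈ W := by show v ^ q = 1; rw [← hv, pow_orderOf_eq_one]
      rw [h, mem_bot] at this
      rw [this, orderOf_one] at hv
      exact hq.out.ne_one hv.symm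
    · intro v
      exact (h ▸ mem_top v : v ∈ W)
  have h2A : 2 ∣ Nat.card A := by
    by_contra h2
    have hb : ∀ x ∈ (P : Subgroup A), x = 1 := fun x hx => by
      have : (P : Subgroup A) = ⊥ := card_eq_one.1 (by
        rw [P.card_eq_multiplicity, Nat.factorization_eq_zero_of_not_dvd h2, pow_zero])
      exact mem_bot.1 (this ▸ hx)
    obtain ⟨g, hg⟩ := exists_ne (1 : A)
    refine hg (Subtype.ext (MulEquiv.ext fun v => ?_))
    obtain ⟨x, hx, e⟩ := horbP g v
    rw [e, hb x hx]
  have hq2 : q ≠ 2 := fun e =>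
    hq.out.one_lt.ne' (Nat.eq_one_of_dvd_coprimes hcopA (e ▸ h2A) dvd_rfl)
  have hnc : ¬ IsCyclic (P : Subgroup A) := by
    intro hc
    have hmin : (Nat.card A).minFac = 2 :=
      (Nat.minFac_eq_two_iff _).2 h2A
    have hcomp := IsCyclic.isComplement' (P := P) hmin hc
    have h1 := eq_one_of_perfect_comm hperfA (MonoidHom.transferSylow P
      (hc.normalizer_le_centralizer hmin)) fun a b => Subtype.ext (by
        haveI := hc
        exact congrArg Subtype.val ((IsCyclic.commutative (α := (P : Subgroup A))).is_comm.comm _ _))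
    have hk : (MonoidHom.transferSylow P (hc.normalizer_le_centralizer hmin)).ker = ⊤ :=
      eq_top_iff.2 fun g _ => MonoidHom.mem_ker.2 (h1 g)
    rw [hk] at hcomp
    have hb := hcomp.disjoint.eq_bot
    rw [top_inf_eq] at hb
    exact absurd (P.dvd_card_of_dvd_card h2A) (by rw [hb, card_bot]; omega)
  -- normal abelian subgroups of `P` are cyclic
  have hn' : ∀ X : Subgroup (P : Subgroup A), X.Normal → IsMulCommutative X → IsCyclic X := by
    intro X hX hXc
    by_contra hXn
    haveI := hX
    -- central involutions act as inversion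
    have hz : ∀ z : (P : Subgroup A), z ∈ center (P : Subgroup A) → orderOf z = 2 →
        ∀ v, ((z : A) : MulAut V) v = v⁻¹ := by
      intro z hz hz2 v
      have ht2 : ((z : A) : MulAut V) * ((z : A) : MulAut V) = 1 := by
        have := pow_orderOf_eq_one z
        rw [hz2, pow_two] at this
        exact congrArg (fun w : (P : Subgroup A) => ((w : A) : MulAut V)) this
      let W : Subgroup V :=
        { carrier := {u | ((z : A) : MulAut V) u = u}
          one_mem' := map_one _
          mul_mem' := fun {u w} hu hw => by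
            show ((z : A) : MulAut V) (u * w) = u * w
            rw [map_mul, hu, hw]
          inv_mem' := fun {u} hu => by
            show ((z : A) : MulAut V) u⁻¹ = u⁻¹
            rw [map_inv, hu] }
      rcases hirrP W (fun x hx w hw => by
        show ((z : A) : MulAut V) ((x : MulAut V) w) = _
        have := congrArg (fun y : (P : Subgroup A) => ((y : A) : MulAut V) w)
          (mem_center_iff.1 hz ⟨x, hx⟩)
        refine (this.symm.trans ?_)
        show (x : MulAut V) (((z : A) : MulAut V) w) = _
        rw [show ((z : A) : MulAut V) w = w from hw]) with h | h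
      · have hm : ((z : A) : MulAut V) v * v ∈ W := by
          show ((z : A) : MulAut V) (_ * v) = _
          rw [map_mul, show ((z : A) : MulAut V) (((z : A) : MulAut V) v) = v from
            congrArg (fun g : MulAut V => g v) ht2, mul_comm]
        rw [h, mem_bot] at hm
        exact eq_inv_of_mul_eq_one_left hm
      · exfalso
        have : z = 1 := Subtype.ext (Subtype.ext (MulEquiv.ext fun u => (h ▸ mem_top u : u ∈ W)))
        rw [this, orderOf_one] at hz2
        omega
    have huniq : ∀ z z' : (P : Subgroup A), z ∈ center (P : Subgroup A) → orderOf z = 2 →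
        z' ∈ center (P : Subgroup A) → orderOf z' = 2 → z = z' := fun z z' h1 h2 h3 h4 =>
      Subtype.ext (Subtype.ext (MulEquiv.ext fun v => by rw [hz z h1 h2 v, hz z' h3 h4 v]))
    -- the elements of order at most two in `X`
    let Ω : Subgroup (P : Subgroup A) :=
      { carrier := {x | x ∈ X ∧ x * x = 1}
        one_mem' := ⟨X.one_mem, mul_one 1⟩
        mul_mem' := fun {x y} hx hy => ⟨X.mul_mem hx.1 hy.1, by
          have hc : y * x = x * y := congrArg Subtype.val (hXc.is_comm.comm ⟨y, hy.1⟩ ⟨x, hx.1⟩)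
          calc x * y * (x * y) = x * (y * x) * y := by group
            _ = x * (x * y) * y := by rw [hc]
            _ = (x * x) * (y * y) := by group
            _ = 1 := by rw [hx.2, hy.2, mul_one]⟩
        inv_mem' := fun {x} hx => ⟨X.inv_mem hx.1, by rw [← mul_inv_rev, hx.2, inv_one]⟩ }
    haveI : Ω.Normal := ⟨fun x hx g => ⟨hX.conj_mem x hx.1 g, by
      calc g * x * g⁻¹ * (g * x * g⁻¹) = g * (x * x) * g⁻¹ := by group
        _ = 1 := by rw [hx.2, mul_one, mul_inv_cancel]⟩⟩
    have hX1 : X ≠ ⊥ := fun e => hXn (e ▸ inferInstance)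
    have hΩ4 : 2 ^ 2 ≤ Nat.card Ω := by
      by_contra hlt
      apply hXn
      have hmono : ∀ x : X, x ^ 2 = 1 → (x : (P : Subgroup A)) ∈ Ω := fun x hx =>
        ⟨x.2, by have := congrArg Subtype.val hx; simpa [pow_two] using this⟩
      refine PGroup.isCyclic_of_card_omega_le (p := 2) (P.2.to_subgroup X) hXc ?_
      by_contra hgt
      push Not at hgt
      have h3 : Nat.card {x : X // x ^ 2 = 1} ≤ Nat.card Ω :=
        Nat.card_le_card_of_injective (fun x => (⟨x.1, hmono x.1 x.2⟩ : Ω)) fun x y h =>
          Subtype.ext (Subtype.ext (congrArg (fun z : Ω => (z : (P : Subgroup A))) h :))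
      obtain ⟨j, hj⟩ := IsPGroup.iff_card.1 (P.2.to_subgroup Ω)
      rcases j with _ | _ | j
      · omega
      · omega
      · rw [hj, pow_succ, pow_succ] at hlt
        have := Nat.one_le_two_pow (n := j)
        omega
    obtain ⟨F, hFn, -, hFΩ, hF4⟩ := PGroup.exists_normal_card_eq (p := 2) P.2 (k := 2)
      (N := ⊥) (M := Ω) bot_le (by rw [card_bot]; norm_num) hΩ4
    haveI := hFn
    have hFo : ∀ x ∈ F, x ≠ 1 → orderOf x = 2 := fun x hx h1 =>
      orderOf_eq_prime (by rw [pow_two]; exact (hFΩ hx).2) h1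
    -- a noncentral involution in `F`
    obtain ⟨f, hf, hf1, hfc⟩ : ∃ f ∈ F, f ≠ 1 ∧ f ∉ center (P : Subgroup A) := by
      by_contra hcon
      push Not at hcon
      haveI : Fintype F := Fintype.ofFinite F
      obtain ⟨x, y, hx, hy, hxy⟩ : ∃ x y : F, x ≠ 1 ∧ y ≠ 1 ∧ x ≠ y := by
        have : 2 < Fintype.card F := by rw [← Nat.card_eq_fintype_card, hF4]; norm_num
        obtain ⟨a, b, c, hab, hac, hbc⟩ := Fintype.two_lt_card_iff.1 this
        by_cases ha : a = 1
        · exact ⟨b, c, fun e => hab (ha.trans e.symm), fun e => hac (ha.trans e.symm), hbc⟩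
        by_cases hb : b = 1
        · exact ⟨a, c, ha, fun e => hbc (hb.trans e.symm), hac⟩
        exact ⟨a, b, ha, hb, hab⟩
      have hx1 : (x : (P : Subgroup A)) ≠ 1 := fun e => hx (Subtype.ext e)
      have hy1 : (y : (P : Subgroup A)) ≠ 1 := fun e => hy (Subtype.ext e)
      exact hxy (Subtype.ext (huniq _ _ (hcon x x.2 hx1) (hFo _ x.2 hx1) (hcon y y.2 hy1)
        (hFo _ y.2 hy1)))
    set M := centralizer ({f} : Set (P : Subgroup A)) with hM
    have hMi : M.index = 2 := by
      have hne1 : M.index ≠ 1 := fun e => hfc (by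
        exact (centralizer_eq_top_iff_subset.1 (index_eq_one.1 e)) rfl)
      obtain ⟨k, hk⟩ := P.2.index M
      have hle : M.index < 4 := by
        rw [hM, ← ClassSize.ncard_range_conj f]
        have hsub : (Set.range fun x : (P : Subgroup A) => x * f * x⁻¹) ⊆ (F : Set (P : Subgroup A)) \ {1} := by
          rintro _ ⟨x, rfl⟩
          exact ⟨hFn.conj_mem f hf x, fun e => hf1 (conj_eq_one_iff.1 e)⟩
        have h4 : (F : Set (P : Subgroup A)).ncard = 4 := by
          rw [← Nat.card_coe_set_eq]; exact hF4
        have h5 := Set.ncard_diff_singleton_of_mem (a := (1 : (P : Subgroup A))) (s := (F : Set _)) F.one_mem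
        have := Set.ncard_le_ncard hsub (Set.toFinite _)
        omega
      rcases k with _ | _ | k
      · rw [pow_zero] at hk; exact absurd hk hne1
      · simpa using hk
      · rw [hk, pow_succ, pow_succ] at hle
        have := Nat.one_le_two_pow (n := k)
        omega
    have hf2 : ((f : A) : MulAut V) * ((f : A) : MulAut V) = 1 := by
      have := pow_orderOf_eq_one f
      rw [hFo f hf hf1, pow_two] at this
      exact congrArg (fun w : (P : Subgroup A) => ((w : A) : MulAut V)) this
    let W : Subgroup V :=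
      { carrier := {u | ((f : A) : MulAut V) u = u}
        one_mem' := map_one _
        mul_mem' := fun {u w} hu hw => by
          show ((f : A) : MulAut V) (u * w) = u * w
          rw [map_mul, hu, hw]
        inv_mem' := fun {u} hu => by
          show ((f : A) : MulAut V) u⁻¹ = u⁻¹
          rw [map_inv, hu] }
    rcases hblocks M hMi W (fun x hx w hw => by
      show ((f : A) : MulAut V) (((x : A) : MulAut V) w) = _
      have := congrArg (fun y : (P : Subgroup A) => ((y : A) : MulAut V) w)
        (mem_centralizer_singleton_iff.1 hx)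
      refine (this.symm.trans ?_)
      show ((x : A) : MulAut V) (((f : A) : MulAut V) w) = _
      rw [show ((f : A) : MulAut V) w = w from hw]) with h | h
    · -- `f` inverts everything, so it is central
      apply hfc
      have hfi : ∀ v, ((f : A) : MulAut V) v = v⁻¹ := fun v => by
        have hm : ((f : A) : MulAut V) v * v ∈ W := by
          show ((f : A) : MulAut V) (_ * v) = _
          rw [map_mul, show ((f : A) : MulAut V) (((f : A) : MulAut V) v) = v from
            congrArg (fun g : MulAut V => g v) hf2, mul_comm]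
        rw [h, mem_bot] at hm
        exact eq_inv_of_mul_eq_one_left hm
      rw [mem_center_iff]
      intro x
      refine Subtype.ext (Subtype.ext (MulEquiv.ext fun v => ?_))
      show ((x : A) : MulAut V) (((f : A) : MulAut V) v) = ((f : A) : MulAut V) (((x : A) : MulAut V) v)
      rw [hfi, hfi, map_inv]
    · exact hf1 (Subtype.ext (Subtype.ext (MulEquiv.ext fun u => (h ▸ mem_top u : u ∈ W))))
  obtain ⟨a, t, hai, hinv⟩ := exists_inverted P.2 hnc hn'
  obtain ⟨e, he⟩ := IsPGroup.iff_orderOf.1 P.2 a
  let ι : (P : Subgroup A) →* MulAut V := A.subtype.comp (P : Subgroup A).subtype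
  have hιinj : Function.Injective ι := A.subtype_injective.comp (P : Subgroup A).subtype_injective
  have hle := card_le_sq_of_inverted hq2 hexp (ι a) (ι t) e
    (by rw [orderOf_injective ι hιinj, he])
    (by rw [← map_mul, ← map_inv, ← map_mul, ← map_mul, ← map_inv, hinv])
    fun W hW => hblocks _ hai W fun x hx w hw => by
      obtain ⟨i, rfl⟩ := mem_powers_iff_mem_zpowers.2 hx
      show ι (a ^ i) w ∈ W
      clear hx
      induction i with
      | zero => simpa using hw
      | succ i ih => rw [pow_succ', map_mul, MulAut.mul_apply]; exact hW _ ih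
  -- a product of an abelian and a nilpotent group is soluble
  obtain ⟨v, hv⟩ := exists_ne (1 : V)
  have hcomm := fixer_comm_of_card_le hcopA hexp hle hv
  haveI : Group.IsSolvable A := by
    refine SolvStruct.isSolvable_of_nilpotent_product (H := (P : Subgroup A)) (K := fixer A v)
      P.2.isNilpotent ?_ (hprod v)
    letI : CommGroup (fixer A v) := { (inferInstance : Group (fixer A v)) with
      mul_comm := fun a b => Subtype.ext (hcomm a a.2 b b.2) }
    infer_instance
  exact (Group.IsSolvable.commutator_lt_top_of_nontrivial A).ne hperfA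

/-- Orbits of `p`-power size force solubility. -/
theorem isSolvable_of_orbits
    (hodd : ∀ (X : Type u) [Group X] [Finite X], Odd (Nat.card X) → Group.IsSolvable X)
    {q : ℕ} [Fact q.Prime] (hV : IsPGroup q V) (A : Subgroup (MulAut V))
    (hcop : (Nat.card A).Coprime q) {p : ℕ} (hp : p.Prime)
    (horb : ∀ v : V, ∃ k, (fixer A v).index = p ^ k) : Group.IsSolvable A := by
  classical
  rcases hp.eq_two_or_odd' with rfl | hp2
  swap
  · exact hodd A (odd_card_of_orbits A hV hcop hp2 horb)
  obtain ⟨n, hn⟩ := derivedSeries_stable A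
  set D := derivedSeries A n with hD
  have hperf : _root_.commutator D = ⊤ := by
    refine Subgroup.map_injective D.subtype_injective ?_
    rw [_root_.commutator_def, map_commutator, ← MonoidHom.range_eq_map, range_subtype]
    exact hn (n + 1) (Nat.le_succ n)
  refine ⟨n, eq_bot_iff.2 fun d hd => ?_⟩
  let φ : D →* MulAut V := A.subtype.comp D.subtype
  have horbD : ∀ v : V, ∃ k, (fixer φ.range v).index = 2 ^ k := by
    intro v
    obtain ⟨k, hk⟩ := horb v
    have h1 : ((fixer φ.range v).comap φ.rangeRestrict).index = (fixer φ.range v).index :=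
      index_comap_of_surjective _ φ.rangeRestrict_surjective
    have h2 : (fixer φ.range v).comap φ.rangeRestrict = (fixer A v).subgroupOf D := rfl
    have h3 := ClassSize.relIndex_dvd_index_of_normal_left D (fixer A v)
    rw [hk] at h3
    obtain ⟨i, -, hi⟩ := (Nat.dvd_prime_pow Nat.prime_two).1 h3
    exact ⟨i, by rw [← h1, h2]; exact hi⟩
  have h := perfect_trivial _ V D φ rfl hperf hV
    (hcop.coprime_dvd_left D.card_subgroup_dvd_card) horbD ⟨d, hd⟩
  exact Subgroup.mem_bot.2 (Subtype.ext h)
where
  derivedSeries_stable (A : Subgroup (MulAut V)) :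
      ∃ n, ∀ m, n ≤ m → derivedSeries A m = derivedSeries A n := by
    classical
    have hex : ∃ c, ∃ n, Nat.card (derivedSeries A n) = c := ⟨_, 0, rfl⟩
    obtain ⟨n, hn⟩ := Nat.find_spec hex
    exact ⟨n, fun m hm => eq_of_le_of_card_ge (derivedSeries_antitone A hm)
      (hn.trans_le (Nat.find_min' hex ⟨m, rfl⟩))⟩

end Cfsg.Agent.FGSev
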