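import Mathlib
import Cfsg.Agent.Lib.Element
import Cfsg.Agent.FGSev.PElem

set_option autoImplicit false

/-! The number of classes of `π`-elements is at most the `π`-part of the order. -/

namespace Cfsg.Agent.FGSev

open Cfsg.Agent

theorem card_piClasses_le (s : Finset ℕ) (hs : ∀ q ∈ s, q.Prime) :
    ∀ (G : Type*) [Group G] [Finite G],
      Nat.card {C : ConjClasses G // ∀ q : ℕ, q.Prime → (∃ g : G, ConjClasses.mk g = C ∧ q ∣ orderOf g) → q ∈ s} ≤
        ∏ q ∈ s, q ^ (Nat.card G).factorization q := by
  classical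
  induction s using Finset.induction with
  | empty =>
    intro G _ _
    rw [Finset.prod_empty]
    haveI : Subsingleton {C : ConjClasses G // ∀ q : ℕ, q.Prime → (∃ g : G, ConjClasses.mk g = C ∧ q ∣ orderOf g) → q ∈ (∅ : Finset ℕ)} := by
      have : ∀ C : {C : ConjClasses G // ∀ q : ℕ, q.Prime → (∃ g : G, ConjClasses.mk g = C ∧ q ∣ orderOf g) → q ∈ (∅ : Finset ℕ)}, C.1 = ConjClasses.mk 1 := by
        intro C
        obtain ⟨g, hg⟩ := ConjClasses.exists_rep C.1
        rw [← hg]
        by_contra hne
        have h1 : orderOf g ≠ 1 := fun h => hne (by rw [orderOf_eq_one_iff.mp h])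
        obtain ⟨q, hq, hqd⟩ := Nat.exists_prime_and_dvd h1
        simpa using C.2 q hq ⟨g, hg, hqd⟩
      exact ⟨fun a b => Subtype.ext ((this a).trans (this b).symm)⟩
    exact Finite.card_le_one_iff_subsingleton.mpr this
  | @insert p s hps ih =>
    intro G _ _
    have hp : p.Prime := hs p (Finset.mem_insert_self _ _)
    haveI := Fact.mk hp
    specialize ih (fun q hq => hs q (Finset.mem_insert_of_mem hq))
    let P : Sylow p G := default
    haveI : Fintype (P : Subgroup G) := Fintype.ofFinite _
    let S : Type _ := {C : ConjClasses G // ∀ q : ℕ, q.Prime → (∃ g : G, ConjClasses.mk g = C ∧ q ∣ orderOf g) → q ∈ insert p s}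
    let T : ↥(P : Subgroup G) → Type _ := fun x =>
      {C : ConjClasses (Subgroup.centralizer ({(x : G)} : Set G)) // ∀ q : ℕ, q.Prime →
        (∃ g : Subgroup.centralizer ({(x : G)} : Set G), ConjClasses.mk g = C ∧ q ∣ orderOf g) → q ∈ s}
    -- every class has a representative with `p`-part in `P`
    have hrep : ∀ C : S, ∃ g : G, ConjClasses.mk g = C.1 ∧ Element.pPart p g ∈ (P : Subgroup G) := by
      intro C
      obtain ⟨g, hg⟩ := ConjClasses.exists_rep C.1
      obtain ⟨y, hy⟩ := pElem_conj_mem P (g := Element.pPart p g)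
        ⟨_, Element.orderOf_pPart_eq_pow hp g⟩
      refine ⟨y⁻¹ * g * y, ?_, ?_⟩
      · rw [← hg, ConjClasses.mk_eq_mk_iff_isConj, isConj_iff]
        exact ⟨y, by group⟩
      · have := (Element.pPart_conj hp y⁻¹ g).1
        rw [inv_inv] at this
        rwa [this]
    choose r hr hrP using hrep
    have hrC : ∀ C : S, Element.pComplPart p (r C) ∈
        Subgroup.centralizer ({((⟨_, hrP C⟩ : (P : Subgroup G)) : G)} : Set G) := fun C =>
      Subgroup.mem_centralizer_singleton_iff.mpr (Element.commute_pPart_pComplPart p (r C)).eq.symm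
    have hrT : ∀ C : S, ∀ q : ℕ, q.Prime →
        (∃ g : Subgroup.centralizer ({((⟨_, hrP C⟩ : (P : Subgroup G)) : G)} : Set G),
          ConjClasses.mk g = ConjClasses.mk ⟨_, hrC C⟩ ∧ q ∣ orderOf g) → q ∈ s := by
      rintro C q hq ⟨g, hg, hqd⟩
      obtain ⟨c, hc⟩ := isConj_iff.mp (ConjClasses.mk_eq_mk_iff_isConj.mp hg)
      have hord : orderOf g = orderOf (Element.pComplPart p (r C)) := by
        have h1 := orderOf_injective (MulAut.conj c).toMonoidHom (MulAut.conj c).injective g
        rw [← h1, show (MulAut.conj c).toMonoidHom g = c * g * c⁻¹ from rfl, hc, Subgroup.orderOf_mk]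
      rw [hord] at hqd
      have hmem := C.2 q hq ⟨r C, hr C, hqd.trans
        (orderOf_dvd_of_mem_zpowers (Element.pComplPart_mem_zpowers p (r C)))⟩
      rcases Finset.mem_insert.mp hmem with rfl | h
      · exact absurd hqd ((Nat.Prime.coprime_iff_not_dvd hq).mp
          (Element.coprime_orderOf_pComplPart hq (r C)).symm)
      · exact h
    let f : S → (x : ↥(P : Subgroup G)) × T x := fun C =>
      ⟨⟨_, hrP C⟩, ⟨ConjClasses.mk ⟨_, hrC C⟩, hrT C⟩⟩
    -- the class is recovered from its image
    let g : (x : ↥(P : Subgroup G)) × T x → ConjClasses G := fun z =>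
      ConjClasses.map (MonoidHom.id G) (ConjClasses.mk
        ((z.1 : G) * ((Classical.choose (ConjClasses.exists_rep z.2.1) :
          Subgroup.centralizer ({(z.1 : G)} : Set G)) : G)))
    have hgf : ∀ C : S, g (f C) = C.1 := by
      intro C
      show ConjClasses.mk _ = _
      rw [← hr C, ConjClasses.mk_eq_mk_iff_isConj, isConj_iff]
      have hspec := Classical.choose_spec (ConjClasses.exists_rep (f C).2.1)
      generalize Classical.choose (ConjClasses.exists_rep (f C).2.1) = w at hspec ⊢
      obtain ⟨c, hc⟩ := isConj_iff.mp (ConjClasses.mk_eq_mk_iff_isConj.mp hspec)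
      refine ⟨(c : G), ?_⟩
      have hc' : (c : G) * (w : G) * (c : G)⁻¹ = Element.pComplPart p (r C) := congrArg Subtype.val hc
      have hcx : (c : G) * Element.pPart p (r C) = Element.pPart p (r C) * (c : G) :=
        Subgroup.mem_centralizer_singleton_iff.mp c.2
      show (c : G) * (Element.pPart p (r C) * (w : G)) * (c : G)⁻¹ = r C
      rw [← mul_assoc, hcx, mul_assoc (Element.pPart p (r C)), mul_assoc (Element.pPart p (r C)), hc',
        Element.pPart_mul_pComplPart]
    have hf : Function.Injective f := fun C D h => Subtype.ext (by rw [← hgf C, h, hgf D])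
    refine (Nat.card_le_card_of_injective f hf).trans ?_
    rw [Nat.card_sigma, Finset.prod_insert hps, ← P.card_eq_multiplicity]
    refine (Finset.sum_le_card_nsmul _ _ (∏ q ∈ s, q ^ (Nat.card G).factorization q) fun x _ => ?_).trans ?_
    · refine (ih (Subgroup.centralizer ({(x : G)} : Set G))).trans (Finset.prod_le_prod' fun q hq => ?_)
      exact Nat.pow_le_pow_right (hs q (Finset.mem_insert_of_mem hq)).pos
        ((Nat.factorization_le_iff_dvd Nat.card_pos.ne' Nat.card_pos.ne').mpr
          (Subgroup.card_subgroup_dvd_card _) q)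
    · rw [smul_eq_mul, Finset.card_univ, ← Nat.card_eq_fintype_card]

end Cfsg.Agent.FGSev
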