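import Cfsg.Agent.FGSev.PPowerOrbits
import Cfsg.Agent.FGSev.PPowerIndex
import Cfsg.Agent.FGS75.Kazarin
import Cfsg.Agent.PSolv.HallHigman
import Cfsg.Agent.Cores.Fitting
import Cfsg.Agent.Coprime.Action
import Cfsg.Agent.Signalizer.Functor
import Cfsg.Agent.Lib.ClassSize
import Mathlib

/-!
Elements of `q`-power order all of whose classes have prime power size.
-/

set_option autoImplicit false

namespace Cfsg.Agent.FGSev

open Subgroup
open scoped commutatorElement

universe u

variable {G : Type u} [Group G] [Finite G] {q : ℕ} [hq : Fact q.Prime]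

/-- All `q`-elements have prime power class size. -/
def QBaerHyp (q : ℕ) (G : Type*) [Group G] : Prop :=
  ∀ x : G, (∃ k : ℕ, orderOf x = q ^ k) →
    ∃ (r : ℕ) (a : ℕ), r.Prime ∧ (centralizer ({x} : Set G)).index = r ^ a

theorem qbaer_solvable_normal (h : QBaerHyp q G) :
    ∃ M : Subgroup G, M.Normal ∧ Group.IsSolvable M ∧
      ∀ x : G, (∃ k : ℕ, orderOf x = q ^ k) → x ∈ M := by
  let S := {N : Subgroup G // N.Normal ∧ Group.IsSolvable N}
  haveI : Nonempty S := ⟨⟨⊥, inferInstance, inferInstance⟩⟩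
  obtain ⟨⟨M, hMn, hMs⟩, hM⟩ := Finite.exists_max (fun N : S => Nat.card N.1)
  refine ⟨M, hMn, hMs, fun x hx => ?_⟩
  obtain ⟨r, a, hr, hidx⟩ := h x hx
  have hs := FGS75.kazarin (Nat.card G) le_rfl x hr hidx
  haveI := hMn
  have hle : Nat.card (M ⊔ normalClosure {x} : Subgroup G) ≤ Nat.card M :=
    hM ⟨M ⊔ normalClosure {x}, inferInstance,
      Signalizer.isSolvable_sup (le_top.trans (normalizer_eq_top M).ge) hMs hs⟩
  have heq := eq_of_le_of_card_ge (le_sup_left : M ≤ M ⊔ normalClosure {x}) hle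
  rw [heq]
  exact mem_sup_right (subset_normalClosure rfl)

theorem qbaer_isPSolvable (h : QBaerHyp q G) : IsPSolvable q G := by
  obtain ⟨M, hMn, hMs, hM⟩ := qbaer_solvable_normal h
  obtain ⟨Q⟩ : Nonempty (Sylow q G) := inferInstance
  refine PSolv.isPSolvable_of_extension M (PSolv.isPSolvable_of_isSolvable hMs)
    (PSolv.isPSolvable_of_coprime ?_)
  rw [← index_eq_card]
  have hQM : (Q : Subgroup G) ≤ M := fun x hx => hM x (pElem_of_mem Q.2 hx)
  exact ((hq.out.coprime_iff_not_dvd.2 Q.not_dvd_index).symm).coprime_dvd_left (index_dvd_of_le hQM)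

/-- An element with class size prime to `q` commutes with a full Sylow `q`-subgroup. -/
theorem exists_sylow_le_centralizer {x : G}
    (hx : ¬ q ∣ (centralizer ({x} : Set G)).index) :
    ∃ P : Sylow q G, (P : Subgroup G) ≤ centralizer ({x} : Set G) := by
  set C := centralizer ({x} : Set G)
  obtain ⟨S⟩ : Nonempty (Sylow q C) := inferInstance
  refine ⟨Sylow.ofCard ((S : Subgroup C).map C.subtype) ?_, map_subtype_le _⟩
  rw [card_map_of_injective C.subtype_injective, S.card_eq_multiplicity, ← C.card_mul_index,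
    Nat.factorization_mul Nat.card_pos.ne' index_ne_zero_of_finite, Finsupp.add_apply,
    Nat.factorization_eq_zero_of_not_dvd hx, add_zero]

theorem not_dvd_of_pow {x : G} {r a : ℕ} (hr : r.Prime) (hrq : r ≠ q)
    (h : (centralizer ({x} : Set G)).index = r ^ a) :
    ¬ q ∣ (centralizer ({x} : Set G)).index := fun hd =>
  hrq ((Nat.prime_dvd_prime_iff_eq hq.out hr).1 (hq.out.dvd_of_dvd_pow (h ▸ hd))).symm

theorem qbaer_mem_pPrimePCore (h : QBaerHyp q G) {x : G} (hx : ∃ k : ℕ, orderOf x = q ^ k) :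
    x ∈ pPrimePCore q G := by
  obtain ⟨r, a, hr, hidx⟩ := h x hx
  by_cases hrq : r = q
  · subst hrq
    exact PSolv.pCore_le_pPrimePCore (mem_pCore_of_index_pow hx hidx)
  · obtain ⟨P, hP⟩ := exists_sylow_le_centralizer (not_dvd_of_pow hr hrq hidx)
    set π := QuotientGroup.mk' (pPrimeCore q G)
    refine mem_comap.2 (PSolv.centralizer_pCore_le
      (PSolv.isPSolvable_quotient (qbaer_isPSolvable h) _) (PSolv.pPrimeCore_quotient_eq_bot q G) ?_)
    intro y hy
    have hy' := PSolv.pCore_le_sylow (P.mapSurjective (QuotientGroup.mk'_surjective (pPrimeCore q G))) hy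
    obtain ⟨u, hu, rfl⟩ := hy'
    rw [← map_mul, ← map_mul]
    exact congrArg π (mem_centralizer_singleton_iff.1 (hP hu))

theorem qbaer_sylow_le (h : QBaerHyp q G) (Q : Sylow q G) : (Q : Subgroup G) ≤ pPrimePCore q G :=
  fun _ hx => qbaer_mem_pPrimePCore h (pElem_of_mem Q.2 hx)

theorem qbaer_pLength (h : QBaerHyp q G) :
    ∃ K L : Subgroup G, K.Normal ∧ L.Normal ∧ K ≤ L ∧ (Nat.card K).Coprime q ∧
      (∃ m : ℕ, K.relIndex L = q ^ m) ∧ L.index.Coprime q := by
  obtain ⟨Q⟩ : Nonempty (Sylow q G) := inferInstance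
  refine ⟨pPrimeCore q G, pPrimePCore q G, pPrimeCore_normal q G, PSolv.pPrimePCore_normal q G,
    PSolv.pPrimeCore_le_pPrimePCore, PSolv.coprime_card_pPrimeCore q G, ?_, ?_⟩
  · rw [← PSolv.card_map_mk_eq_relIndex, PSolv.map_pPrimePCore]
    exact IsPGroup.iff_card.1 (PSolv.isPGroup_pCore q _)
  · exact ((hq.out.coprime_iff_not_dvd.2 Q.not_dvd_index).symm).coprime_dvd_left
      (index_dvd_of_le (qbaer_sylow_le h Q))

theorem map_sylow_eq_pCore (h : QBaerHyp q G) (Q : Sylow q G) :
    (Q : Subgroup G).map (QuotientGroup.mk' (pPrimeCore q G)) = pCore q (G ⧸ pPrimeCore q G) := by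
  refine le_antisymm ?_
    (PSolv.pCore_le_sylow (Q.mapSurjective (QuotientGroup.mk'_surjective (pPrimeCore q G))))
  rw [map_le_iff_le_comap]
  exact qbaer_sylow_le h Q

theorem sylow_inf_pPrimeCore (Q : Sylow q G) : (Q : Subgroup G) ⊓ pPrimeCore q G = ⊥ := by
  refine PSolv.inf_eq_bot_of_coprime_card ?_
  rw [Q.card_eq_multiplicity]
  exact ((PSolv.coprime_card_pPrimeCore q G).symm).pow_left _

/-- In a Sylow subgroup, an element with class size prime to `q` is central. -/
theorem qbaer_central (h : QBaerHyp q G) (Q : Sylow q G) {x : G} (hxQ : x ∈ (Q : Subgroup G))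
    (hx : ¬ q ∣ (centralizer ({x} : Set G)).index) {y : G} (hy : y ∈ (Q : Subgroup G)) :
    x * y = y * x := by
  obtain ⟨P, hP⟩ := exists_sylow_le_centralizer hx
  set π := QuotientGroup.mk' (pPrimeCore q G)
  have hyP : π y ∈ (P : Subgroup G).map π := by
    rw [map_sylow_eq_pCore h P, ← map_sylow_eq_pCore h Q]
    exact mem_map_of_mem π hy
  obtain ⟨u, hu, hue⟩ := hyP
  have h1 : π (x * y) = π (y * x) := by
    rw [map_mul, map_mul, ← hue, ← map_mul, ← map_mul]
    exact congrArg π (mem_centralizer_singleton_iff.1 (hP hu)).symm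
  have h2 : (x * y)⁻¹ * (y * x) ∈ (Q : Subgroup G) ⊓ pPrimeCore q G :=
    ⟨(Q : Subgroup G).mul_mem ((Q : Subgroup G).inv_mem ((Q : Subgroup G).mul_mem hxQ hy))
      ((Q : Subgroup G).mul_mem hy hxQ), QuotientGroup.eq.1 h1⟩
  rw [sylow_inf_pPrimeCore Q, mem_bot] at h2
  exact inv_mul_eq_one.1 h2

/-- For a nonabelian Sylow subgroup all classes have `q`-power size and `Q` is a direct factor. -/
theorem qbaer_nonabelian (h : QBaerHyp q G) (Q : Sylow q G)
    (hnc : ¬ IsMulCommutative (Q : Subgroup G)) :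
    (∀ x : G, (∃ k : ℕ, orderOf x = q ^ k) → ∃ a : ℕ, (centralizer ({x} : Set G)).index = q ^ a) ∧
    (Q : Subgroup G).Normal ∧ ∃ N : Subgroup G, N.Normal ∧ N.IsComplement' (Q : Subgroup G) := by
  classical
  let Z : Subgroup (Q : Subgroup G) := center _
  have hZne : Z ≠ ⊤ := fun e => hnc ⟨⟨fun a b =>
    (mem_center_iff.1 (show a ∈ center (Q : Subgroup G) from ((eq_top_iff' _).1 e a)) b).symm⟩⟩
  have hnz : ∀ x : (Q : Subgroup G), x ∉ Z → ∃ a : ℕ, (centralizer ({(x : G)} : Set G)).index = q ^ a := by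
    intro x hx
    obtain ⟨r, a, hr, hidx⟩ := h x (pElem_of_mem Q.2 x.2)
    by_cases hrq : r = q
    · exact ⟨a, hrq ▸ hidx⟩
    · exact absurd (mem_center_iff.2 fun y => Subtype.ext
        (qbaer_central h Q x.2 (not_dvd_of_pow hr hrq hidx) y.2).symm) hx
  -- the noncentral elements generate
  have hgen : ∀ X : Subgroup (Q : Subgroup G), (∀ x, x ∉ Z → x ∈ X) → X = ⊤ := by
    intro X hX
    obtain ⟨x₀, hx₀⟩ := SetLike.exists_not_mem_of_ne_top Z hZne
    refine eq_top_iff.2 fun x _ => ?_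
    by_cases hx : x ∈ Z
    · have h1 : x * x₀ ∉ Z := fun hh => hx₀ ((Z.mul_mem_cancel_left hx).1 hh)
      have := X.mul_mem (hX _ h1) (X.inv_mem (hX x₀ hx₀))
      simpa using this
    · exact hX x hx
  have hQle : (Q : Subgroup G) ≤ pCore q G := by
    have h1 := hgen ((pCore q G).subgroupOf (Q : Subgroup G)) fun x hx => by
      obtain ⟨a, ha⟩ := hnz x hx
      exact mem_pCore_of_index_pow (pElem_of_mem Q.2 x.2) ha
    rwa [subgroupOf_eq_top] at h1
  have hQeq : (Q : Subgroup G) = pCore q G := le_antisymm hQle (PSolv.pCore_le_sylow Q)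
  have hQn : (Q : Subgroup G).Normal := hQeq ▸ pCore_normal q G
  haveI := hQn
  -- elements of order prime to `q` centralise `Q`
  have hcent : ∀ (ℓ : ℕ), ℓ.Prime → ℓ ≠ q → ∀ g : G, (∃ k : ℕ, orderOf g = ℓ ^ k) →
      g ∈ centralizer ((Q : Subgroup G) : Set G) := by
    intro ℓ hℓ hℓq g hg
    haveI : Fact ℓ.Prime := ⟨hℓ⟩
    let X : Subgroup (Q : Subgroup G) := (centralizer ({g} : Set G)).subgroupOf (Q : Subgroup G)
    -- `X` meets every noncentral class
    have hmeet : ∀ x : (Q : Subgroup G), x ∉ Z → ∃ u : (Q : Subgroup G), u * x * u⁻¹ ∈ X := by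
      intro x hx
      obtain ⟨a, ha⟩ := hnz x hx
      set T : Set G := Set.range fun z : G => z * (x : G) * z⁻¹ with hT
      let A := zpowers g
      letI : MulAction A T :=
        { smul := fun z t => ⟨(z : G) * t * (z : G)⁻¹, by
            obtain ⟨w, hw⟩ := t.2
            exact ⟨(z : G) * w, by rw [← hw]; group⟩⟩
          one_smul := fun t => Subtype.ext (by show (1 : G) * t * (1 : G)⁻¹ = t; group)
          mul_smul := fun z w t => Subtype.ext (by
            show ((z : G) * w) * t * ((z : G) * w)⁻¹ = z * (w * t * (w : G)⁻¹) * (z : G)⁻¹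
            group) }
      have hAp : IsPGroup ℓ A := (pElem_iff_isPGroup ℓ g).1 hg
      have hnd : ¬ ℓ ∣ Nat.card T := by
        rw [Nat.card_coe_set_eq, hT, ClassSize.ncard_range_conj, ha]
        exact fun hd => hℓq ((Nat.prime_dvd_prime_iff_eq hℓ hq.out).1 (hℓ.dvd_of_dvd_pow hd))
      obtain ⟨⟨t, w, hw⟩, ht⟩ := hAp.nonempty_fixed_point_of_prime_not_dvd_card T hnd
      have hfix : g * t * g⁻¹ = t := congrArg Subtype.val (ht ⟨g, mem_zpowers g⟩)
      obtain ⟨u, hu, hue⟩ := exists_sylow_conj_eq ha Q w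
      refine ⟨⟨u, hu⟩, ?_⟩
      show u * (x : G) * u⁻¹ ∈ centralizer ({g} : Set G)
      rw [← hue, show w * (x : G) * w⁻¹ = t from hw, mem_centralizer_singleton_iff]
      calc t * g = (g * t * g⁻¹) * g := by rw [hfix]
        _ = g * t := by group
    have hXZ : X ⊔ Z = ⊤ := eq_top_of_forall_conj_mem _ fun x => by
      by_cases hx : x ∈ Z
      · exact ⟨1, mem_sup_right (by simpa using hx)⟩
      · obtain ⟨u, hu⟩ := hmeet x hx
        exact ⟨u⁻¹, mem_sup_left (by simpa using hu)⟩
    haveI : X.Normal := by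
      rw [← normalizer_eq_top_iff, eq_top_iff, ← hXZ]
      exact sup_le Subgroup.le_normalizer ((center_le_centralizer _).trans
        (centralizer_le_normalizer _))
    have hX := hgen X fun x hx => by
      obtain ⟨u, hu⟩ := hmeet x hx
      have := (inferInstance : X.Normal).conj_mem _ hu u⁻¹
      simpa [mul_assoc] using this
    rw [mem_centralizer_iff]
    intro y hy
    have : (⟨y, hy⟩ : (Q : Subgroup G)) ∈ X := hX ▸ mem_top _
    exact mem_centralizer_singleton_iff.1 this
  set C := centralizer ((Q : Subgroup G) : Set G) with hC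
  obtain ⟨H, hH⟩ := exists_right_complement'_of_coprime (N := (Q : Subgroup G))
    Q.card_coprime_index
  have hHcard : Nat.card H = (Q : Subgroup G).index := hH.symm.index_eq_card.symm
  have hHC : H ≤ C := by
    rw [← relIndex_eq_one]
    by_contra hne
    obtain ⟨ℓ, hℓ, hℓd⟩ := Nat.exists_prime_and_dvd hne
    haveI : Fact ℓ.Prime := ⟨hℓ⟩
    have hℓH : ℓ ∣ Nat.card H := hℓd.trans (relIndex_dvd_card C H)
    have hℓq : ℓ ≠ q := fun e => Q.not_dvd_index (hHcard ▸ e ▸ hℓH)
    obtain ⟨S⟩ : Nonempty (Sylow ℓ G) := inferInstance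
    have hSC : (S : Subgroup G) ≤ C := fun g hg => hcent ℓ hℓ hℓq g (pElem_of_mem S.2 hg)
    exact S.not_dvd_index ((hℓd.trans (relIndex_dvd_index_of_normal C H)).trans
      (index_dvd_of_le hSC))
  refine ⟨?_, hQn, H, ?_, hH.symm⟩
  · intro x hx
    obtain ⟨y, hy⟩ := pElem_conj_mem Q hx
    rw [← ClassSize.index_centralizer_conj y⁻¹ x, inv_inv]
    have hle : H ≤ centralizer ({y⁻¹ * x * y} : Set G) := fun g hg =>
      mem_centralizer_singleton_iff.2 ((mem_centralizer_iff.1 (hHC hg)) _ hy).symm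
    have h1 := index_dvd_of_le hle
    rw [hH.index_eq_card] at h1
    obtain ⟨k, hk⟩ := IsPGroup.iff_card.1 Q.2
    rw [hk] at h1
    obtain ⟨i, -, hi⟩ := (Nat.dvd_prime_pow hq.out).1 h1
    exact ⟨i, hi⟩
  · rw [← normalizer_eq_top_iff, eq_top_iff, ← hH.sup_eq_top]
    refine sup_le ?_ Subgroup.le_normalizer
    intro g hg
    refine centralizer_le_normalizer _ ?_
    rw [mem_centralizer_iff]
    intro y hy
    exact ((mem_centralizer_iff.1 (hHC hy)) g hg).symm

/-- Two noncentral commuting `q`-elements whose class sizes are powers of different primes. -/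
theorem false_of_two_primes (h : QBaerHyp q G) {x y : G} (hxy : Commute x y)
    (hy : ∃ k : ℕ, orderOf y = q ^ k) (hxyq : ∃ k : ℕ, orderOf (x * y) = q ^ k)
    {r s a b : ℕ} (hr : r.Prime) (hs : s.Prime) (hrs : r ≠ s) (hrq : r ≠ q)
    (hx : (centralizer ({x} : Set G)).index = r ^ a) (hy' : (centralizer ({y} : Set G)).index = s ^ b)
    (hb : b ≠ 0) (hle : ∃ c, (centralizer ({x * y} : Set G)).index = r ^ c) : False := by
  classical
  obtain ⟨c, hc⟩ := hle
  have hcop : ∀ i, (r ^ i).Coprime (s ^ b) := fun i =>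
    ((Nat.coprime_primes hr hs).2 hrs).pow _ _
  set Cx := centralizer ({x} : Set G)
  set Cy := centralizer ({y} : Set G)
  -- every pair of conjugates is conjugate to `(x, y)`
  have hpair : ∀ g w : G, ∃ z : G, z * x * z⁻¹ = g * x * g⁻¹ ∧ z * y * z⁻¹ = w * y * w⁻¹ := by
    intro g w
    obtain ⟨u, hu, v, hv, huv⟩ := ClassSize.mul_eq_univ_of_coprime_index
      (A := Cx) (B := Cy) (by rw [hx, hy']; exact hcop a) (g⁻¹ * w)
    refine ⟨g * u, ?_, ?_⟩
    · calc g * u * x * (g * u)⁻¹ = g * (u * x) * u⁻¹ * g⁻¹ := by group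
        _ = g * x * g⁻¹ := by rw [mem_centralizer_singleton_iff.1 hu]; group
    · have hw : w = g * u * v := by rw [mul_assoc, huv, mul_inv_cancel_left]
      calc g * u * y * (g * u)⁻¹ = g * u * (y * v) * v⁻¹ * (g * u)⁻¹ := by group
        _ = w * y * w⁻¹ := by rw [← mem_centralizer_singleton_iff.1 hv, hw]; group
  set Tx : Set G := Set.range fun z : G => z * x * z⁻¹ with hTx
  set T : Set G := Set.range fun z : G => z * (x * y) * z⁻¹ with hT
  have htrans : ∀ w : G, T = (fun t => t * (w * y * w⁻¹)) '' Tx := by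
    intro w
    have hsub : (fun t => t * (w * y * w⁻¹)) '' Tx ⊆ T := by
      rintro _ ⟨_, ⟨g, rfl⟩, rfl⟩
      obtain ⟨z, h1, h2⟩ := hpair g w
      refine ⟨z, ?_⟩
      show z * (x * y) * z⁻¹ = g * x * g⁻¹ * (w * y * w⁻¹)
      rw [← h1, ← h2]
      group
    refine (Set.Subset.antisymm hsub ?_).symm
    rintro _ ⟨g, rfl⟩
    obtain ⟨u, hu, v, hv, huv⟩ := ClassSize.mul_eq_univ_of_coprime_index
      (A := Cy) (B := centralizer ({x * y} : Set G)) (by rw [hc, hy']; exact (hcop c).symm)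
      (w⁻¹ * g)
    refine ⟨(w * u) * x * (w * u)⁻¹, ⟨w * u, rfl⟩, ?_⟩
    have hg : g = w * u * v := by rw [mul_assoc, huv, mul_inv_cancel_left]
    show w * u * x * (w * u)⁻¹ * (w * y * w⁻¹) = g * (x * y) * g⁻¹
    calc w * u * x * (w * u)⁻¹ * (w * y * w⁻¹) = w * u * x * u⁻¹ * (y * u) * u⁻¹ * w⁻¹ := by group
      _ = w * u * (x * y) * v * v⁻¹ * u⁻¹ * w⁻¹ := by
        rw [← mem_centralizer_singleton_iff.1 hu]; group
      _ = w * u * (v * (x * y)) * v⁻¹ * u⁻¹ * w⁻¹ := by
        rw [mem_centralizer_singleton_iff.1 hv]; group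
      _ = g * (x * y) * g⁻¹ := by rw [hg]; group
  -- the commutators with `y` translate the class of `x`
  let D : Set G := Set.range fun g : G => g * y * g⁻¹ * y⁻¹
  let N := closure D
  have hNn : N.Normal := by
    refine ⟨fun n hn g => ?_⟩
    have hm : N.map (MulAut.conj g).toMonoidHom ≤ N := by
      rw [MonoidHom.map_closure, closure_le]
      rintro _ ⟨_, ⟨w, rfl⟩, rfl⟩
      have h1 := N.mul_mem (subset_closure ⟨g * w, rfl⟩ : g * w * y * (g * w)⁻¹ * y⁻¹ ∈ N)
        (N.inv_mem (subset_closure ⟨g, rfl⟩ : g * y * g⁻¹ * y⁻¹ ∈ N))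
      refine Set.mem_of_eq_of_mem ?_ h1
      show g * (w * y * w⁻¹ * y⁻¹) * g⁻¹ = _
      group
    exact hm ⟨n, hn, rfl⟩
  haveI := hNn
  have hstab : ∀ n ∈ N, ∀ t ∈ Tx, t * n ∈ Tx := by
    have hgenr : ∀ g : G, ∀ t ∈ Tx, t * (g * y * g⁻¹ * y⁻¹) ∈ Tx := by
      intro g t ht
      have h1 : t * (g * y * g⁻¹) ∈ (fun t => t * ((1 : G) * y * (1 : G)⁻¹)) '' Tx := by
        rw [← htrans 1, htrans g]
        exact ⟨t, ht, rfl⟩
      obtain ⟨t', ht', e⟩ := h1
      have e' : t * (g * y * g⁻¹ * y⁻¹) = t' := by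
        rw [← mul_assoc t, ← e]
        group
      exact e' ▸ ht'
    intro n hn
    induction hn using closure_induction with
    | mem n hn => obtain ⟨g, rfl⟩ := hn; exact hgenr g
    | one => intro t ht; rwa [mul_one]
    | mul n m _ _ h1 h2 => intro t ht; rw [← mul_assoc]; exact h2 _ (h1 t ht)
    | inv n _ h1 =>
      intro t ht
      have hinj : Function.Injective (fun z : Tx => (⟨(z : G) * n, h1 z z.2⟩ : Tx)) :=
        fun z z' e => Subtype.ext (mul_right_cancel (congrArg Subtype.val e))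
      obtain ⟨z, hz⟩ := (Finite.injective_iff_surjective.1 hinj) ⟨t, ht⟩
      have e : (z : G) * n = t := congrArg Subtype.val hz
      rw [← e, mul_inv_cancel_right]
      exact z.2
  -- so `N` is an `r`-group
  have hNr : Nat.card N ∣ r ^ a := by
    have hTc : Nat.card Tx = r ^ a := by
      rw [Nat.card_coe_set_eq, hTx, ClassSize.ncard_range_conj]; exact hx
    letI : MulAction N Tx :=
      { smul := fun n t => ⟨(t : G) * (n : G)⁻¹, hstab _ (N.inv_mem n.2) t t.2⟩
        one_smul := fun t => Subtype.ext (by show (t : G) * (1 : G)⁻¹ = t; group)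
        mul_smul := fun n m t => Subtype.ext (by
          show (t : G) * ((n : G) * m)⁻¹ = (t : G) * (m : G)⁻¹ * (n : G)⁻¹
          group) }
    haveI : Fintype (MulAction.orbitRel.Quotient N Tx) := Fintype.ofFinite _
    rw [← hTc, Nat.card_congr (MulAction.selfEquivSigmaOrbits N Tx), Nat.card_sigma]
    refine Finset.dvd_sum fun o _ => ?_
    have h1 := MulAction.index_stabilizer N o.out
    have h2 : MulAction.stabilizer N o.out = ⊥ := by
      refine (eq_bot_iff_forall _).2 fun n hn => ?_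
      have := congrArg Subtype.val hn
      exact Subtype.ext (by simpa using (show (o.out : G) * (n : G)⁻¹ = o.out from this))
    rw [h2, index_bot] at h1
    rw [h1, Nat.card_coe_set_eq]
  -- and `y` centralises it
  have hNy : N ≤ Cy := by
    rw [← relIndex_eq_one]
    exact Nat.eq_one_of_dvd_coprimes (hcop a) ((relIndex_dvd_card Cy N).trans hNr)
      (hy' ▸ ClassSize.relIndex_dvd_index_of_normal_left N Cy)
  have hb1 : Cy.index = 1 := by
    rw [index_eq_one, eq_top_iff]
    intro g _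
    rw [mem_centralizer_singleton_iff]
    set n := g * y * g⁻¹ * y⁻¹ with hn
    have hnN : n ∈ N := subset_closure ⟨g, rfl⟩
    have hcm : n * y = y * n := mem_centralizer_singleton_iff.1 (hNy hnN)
    have hgy : g * y * g⁻¹ = n * y := by rw [hn, inv_mul_cancel_right]
    have hc' : Commute (g * y * g⁻¹) y⁻¹ := by
      rw [hgy]; exact ((show Commute n y from hcm).mul_left (Commute.refl y)).inv_right
    obtain ⟨k, hk⟩ := hy
    have hpow : n ^ q ^ k = 1 := by
      have h1 : (g * y * g⁻¹) ^ q ^ k = 1 := by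
        rw [← MulAut.conj_apply, ← map_pow, ← hk, pow_orderOf_eq_one, map_one]
      rw [hn, hc'.mul_pow, h1, inv_pow, ← hk, pow_orderOf_eq_one, inv_one, one_mul]
    have hn1 : n = 1 := orderOf_eq_one_iff.1 (Nat.eq_one_of_dvd_coprimes
      (((Nat.coprime_primes hq.out hr).2 (Ne.symm hrq)).pow k a)
      (orderOf_dvd_of_pow_eq_one hpow) (((orderOf_dvd_natCard (⟨n, hnN⟩ : N))).trans hNr |>
        (orderOf_mk (H := N) n hnN ▸ ·)))
    rw [hn1, one_mul] at hgy
    calc g * y = g * y * g⁻¹ * g := by group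
      _ = y * g := by rw [hgy]
  rw [hb1] at hy'
  exact (Nat.one_lt_pow hb hs.one_lt).ne hy'

/-- One prime serves for all `q`-elements. -/
theorem qbaer_prime (h : QBaerHyp q G) (Q : Sylow q G) (hc : IsMulCommutative (Q : Subgroup G)) :
    ∃ p : ℕ, p.Prime ∧ p ≠ q ∧
      ∀ x : G, (∃ k : ℕ, orderOf x = q ^ k) → ∃ a : ℕ, (centralizer ({x} : Set G)).index = p ^ a := by
  classical
  have hnd : ∀ x ∈ (Q : Subgroup G), ¬ q ∣ (centralizer ({x} : Set G)).index := fun x hx hd => by
    have hle : (Q : Subgroup G) ≤ centralizer ({x} : Set G) := fun y hy =>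
      mem_centralizer_singleton_iff.2 (congrArg Subtype.val (hc.is_comm.comm ⟨y, hy⟩ ⟨x, hx⟩))
    exact Q.not_dvd_index (hd.trans (index_dvd_of_le hle))
  suffices key : ∃ p : ℕ, p.Prime ∧ p ≠ q ∧ ∀ x ∈ (Q : Subgroup G),
      ∃ a : ℕ, (centralizer ({x} : Set G)).index = p ^ a by
    obtain ⟨p, hp, hpq, hall⟩ := key
    refine ⟨p, hp, hpq, fun x hx => ?_⟩
    obtain ⟨y, hy⟩ := pElem_conj_mem Q hx
    rw [← ClassSize.index_centralizer_conj y⁻¹ x, inv_inv]
    exact hall _ hy
  by_cases hall : ∀ x ∈ (Q : Subgroup G), (centralizer ({x} : Set G)).index = 1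
  · refine if h2 : q = 2 then ⟨3, Nat.prime_three, by omega, fun x hx => ⟨0, hall x hx⟩⟩
      else ⟨2, Nat.prime_two, Ne.symm h2, fun x hx => ⟨0, hall x hx⟩⟩
  push Not at hall
  obtain ⟨x, hxQ, hx1⟩ := hall
  obtain ⟨r, a, hr, hx⟩ := h x (pElem_of_mem Q.2 hxQ)
  have ha : a ≠ 0 := fun e => hx1 (by rw [hx, e, pow_zero])
  have hrq : r ≠ q := fun e => hnd x hxQ (by rw [hx, e]; exact dvd_pow_self q ha)
  refine ⟨r, hr, hrq, fun y hyQ => ?_⟩
  obtain ⟨s, b, hs, hy⟩ := h y (pElem_of_mem Q.2 hyQ)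
  by_cases hb : b = 0
  · exact ⟨0, by rw [hy, hb, pow_zero, pow_zero]⟩
  by_cases hrs : r = s
  · exact ⟨b, by rw [hy, hrs]⟩
  exfalso
  have hsq : s ≠ q := fun e => hnd y hyQ (by rw [hy, e]; exact dvd_pow_self q hb)
  have hcomm : Commute x y := congrArg Subtype.val (hc.is_comm.comm ⟨x, hxQ⟩ ⟨y, hyQ⟩)
  have hxy := pElem_of_mem Q.2 (mul_mem hxQ hyQ)
  obtain ⟨t, c, ht, hxyi⟩ := h (x * y) hxy
  -- the class size of the product divides the product of the class sizes
  have hdvd : (centralizer ({x * y} : Set G)).index ∣ r ^ a * s ^ b := by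
    set A := centralizer ({x} : Set G)
    set B := centralizer ({y} : Set G)
    have hle : A ⊓ B ≤ centralizer ({x * y} : Set G) := fun g hg => by
      rw [mem_centralizer_singleton_iff]
      exact ((show Commute g x from mem_centralizer_singleton_iff.1 hg.1).mul_right
        (mem_centralizer_singleton_iff.1 hg.2))
    refine (index_dvd_of_le hle).trans ?_
    have h1 : (A ⊓ B).index = A.index * B.index := by
      refine le_antisymm index_inf_le (Nat.le_of_dvd (Nat.pos_of_ne_zero index_ne_zero_of_finite) ?_)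
      exact Nat.Coprime.mul_dvd_of_dvd_of_dvd
        (by rw [hx, hy]; exact ((Nat.coprime_primes hr hs).2 hrs).pow a b)
        (index_dvd_of_le inf_le_left) (index_dvd_of_le inf_le_right)
    rw [h1, hx, hy]
  rcases Nat.eq_zero_or_pos c with hc0 | hc0
  · exact false_of_two_primes h hcomm (pElem_of_mem Q.2 hyQ) hxy hr hs hrs hrq hx hy hb
      ⟨0, by rw [hxyi, hc0, pow_zero, pow_zero]⟩
  have htd : t ∣ r ^ a * s ^ b := (dvd_pow_self t hc0.ne').trans (hxyi ▸ hdvd)
  rcases ht.dvd_mul.1 htd with htr | hts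
  · obtain rfl := (Nat.prime_dvd_prime_iff_eq ht hr).1 (ht.dvd_of_dvd_pow htr)
    exact false_of_two_primes h hcomm (pElem_of_mem Q.2 hyQ) hxy hr hs hrs hrq hx hy hb ⟨c, hxyi⟩
  · obtain rfl := (Nat.prime_dvd_prime_iff_eq ht hs).1 (ht.dvd_of_dvd_pow hts)
    exact false_of_two_primes h hcomm.symm (pElem_of_mem Q.2 hxQ) (hcomm.eq ▸ hxy) hs hr
      (Ne.symm hrs) hsq hy hx ha ⟨c, hcomm.eq ▸ hxyi⟩

/-- A soluble normal subgroup of order prime to `q` is moved only inside the `p`-core. -/
theorem commutator_le_pCore_of_index {p : ℕ} (hp : p.Prime) (Q W : Subgroup G) [W.Normal]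
    [Group.IsSolvable W] (hcop : (Nat.card Q).Coprime (Nat.card W))
    (hidx : ∀ x ∈ Q, ∃ a : ℕ, (centralizer ({x} : Set G)).index = p ^ a) :
    ⁅W, Q⁆ ≤ pCore p G := by
  haveI : Fact p.Prime := ⟨hp⟩
  set π := QuotientGroup.mk' (pCore p G) with hπ
  have hsurj : Function.Surjective π := QuotientGroup.mk'_surjective _
  set W' := W.map π with hW'
  set Q' := Q.map π with hQ'
  haveI : W'.Normal := Normal.map inferInstance π hsurj
  haveI hW's : Group.IsSolvable W' :=
    Group.isSolvable_of_surjective (π.subgroupMap_surjective W)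
  suffices key : ⁅W', Q'⁆ = ⊥ by
    rw [← Subgroup.map_commutator, Subgroup.map_eq_bot_iff, hπ, QuotientGroup.ker_mk'] at key
    exact key
  set F := (fittingSubgroup W').map W'.subtype with hF
  haveI hFn : F.Normal := by
    haveI : (fittingSubgroup W').Characteristic :=
      characteristic_iff_map_le.2 fun e => (Cores.map_fittingSubgroup_equiv e).le
    exact ConjAct.normal_of_characteristic_of_normal
  have hFle : F ≤ W' := map_subtype_le _
  -- `Q'` centralises the Fitting subgroup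
  have hQF : F ≤ centralizer (Q' : Set (G ⧸ pCore p G)) := by
    rw [hF, Cores.fittingSubgroup_eq_iSup_pCore, Subgroup.map_iSup]
    refine iSup_le fun ℓ => ?_
    haveI : Fact (ℓ : ℕ).Prime := ⟨ℓ.2⟩
    set N := (pCore (ℓ : ℕ) W').map W'.subtype with hN
    haveI hNn : N.Normal := PSolv.map_subtype_normal (PSolv.pCore_characteristic _ W')
    have hNp : IsPGroup (ℓ : ℕ) N := (PSolv.isPGroup_pCore _ W').map _
    by_cases hℓp : (ℓ : ℕ) = p
    · have : N ≤ pCore p (G ⧸ pCore p G) := PSolv.le_pCore hNn (hℓp ▸ hNp)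
      rw [PSolv.pCore_quotient_eq_bot, le_bot_iff] at this
      rw [this]
      exact bot_le
    intro n hn
    rw [mem_centralizer_iff]
    rintro _ ⟨x, hx, rfl⟩
    obtain ⟨a, ha⟩ := hidx x hx
    have hle : N ≤ centralizer ({π x} : Set (G ⧸ pCore p G)) := by
      rw [← relIndex_eq_one]
      obtain ⟨k, hk⟩ := IsPGroup.iff_card.1 hNp
      refine Nat.eq_one_of_dvd_coprimes (((Nat.coprime_primes ℓ.2 hp).2 hℓp).pow k a)
        (hk ▸ relIndex_dvd_card _ N) ?_
      refine (ClassSize.relIndex_dvd_index_of_normal_left N _).trans ?_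
      have h1 : (centralizer ({x} : Set G)).map π ≤ centralizer ({π x} : Set (G ⧸ pCore p G)) := by
        rintro _ ⟨g, hg, rfl⟩
        rw [mem_centralizer_singleton_iff, ← map_mul, mem_centralizer_singleton_iff.1 hg, map_mul]
      exact (index_dvd_of_le h1).trans (ha ▸ index_map_dvd _ hsurj)
    exact (mem_centralizer_singleton_iff.1 (hle hn)).symm
  have hcopq : (Nat.card Q').Coprime (Nat.card W') :=
    (hcop.coprime_dvd_left (card_map_dvd _ _)).coprime_dvd_right (card_map_dvd _ _)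
  -- three subgroups
  have h3 : ⁅⁅Q', W'⁆, F⁆ = ⊥ := by
    refine commutator_commutator_eq_bot_of_rotate ?_ ?_
    · rw [commutator_eq_bot_iff_le_centralizer]
      exact (commutator_le_right W' F).trans hQF
    · have : ⁅F, Q'⁆ = ⊥ := commutator_eq_bot_iff_le_centralizer.2 hQF
      rw [this, commutator_bot_left]
  have hXF : ⁅W', Q'⁆ ≤ F := by
    intro z hz
    have hzW : z ∈ W' := commutator_le_left W' Q' hz
    have h4 : (⟨z, hzW⟩ : W') ∈ centralizer (fittingSubgroup W' : Set W') := by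
      rw [mem_centralizer_iff]
      intro w hw
      rw [commutator_eq_bot_iff_le_centralizer, commutator_comm] at h3
      exact Subtype.ext (mem_centralizer_iff.1 (h3 hz) (w : G ⧸ pCore p G) ⟨w, hw, rfl⟩)
    exact ⟨_, Cores.centralizer_fittingSubgroup_le h4, rfl⟩
  have h5 : ⁅⁅W', Q'⁆, Q'⁆ = ⊥ := commutator_eq_bot_iff_le_centralizer.2 (hXF.trans hQF)
  have h6 := Coprime.le_centralizer_of_commutator_commutator_eq_bot
    (le_top.trans (normalizer_eq_top W').ge) hcopq h5
  rw [commutator_comm]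
  exact commutator_eq_bot_iff_le_centralizer.2 h6

theorem qbaer_sup_normal (h : QBaerHyp q G) (Q : Sylow q G) {p : ℕ} (hp : p.Prime)
    (hidx : ∀ x : G, (∃ k : ℕ, orderOf x = q ^ k) → ∃ a : ℕ, (centralizer ({x} : Set G)).index = p ^ a) :
    (pCore p G ⊔ (Q : Subgroup G)).Normal := by
  haveI : Fact p.Prime := ⟨hp⟩
  set K := pPrimeCore q G
  haveI : K.Normal := pPrimeCore_normal q G
  haveI := pCore_normal p G
  obtain ⟨M, hMn, hMs, hM⟩ := qbaer_solvable_normal h
  have hcop : (Nat.card (Q : Subgroup G)).Coprime (Nat.card K) := by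
    rw [Q.card_eq_multiplicity]
    exact ((PSolv.coprime_card_pPrimeCore q G).symm).pow_left _
  haveI : (K ⊓ M).Normal := normal_inf_normal K M
  haveI : Group.IsSolvable (K ⊓ M : Subgroup G) := Coprime.isSolvable_of_le inf_le_right hMs
  have hKQ : ⁅K, (Q : Subgroup G)⁆ ≤ pCore p G := by
    rw [← Coprime.commutator_commutator_eq (le_top.trans (normalizer_eq_top K).ge) hcop]
    refine (commutator_mono ?_ le_rfl).trans (commutator_le_pCore_of_index hp (Q : Subgroup G) (K ⊓ M)
      (hcop.coprime_dvd_right (card_dvd_of_le inf_le_left))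
      fun x hx => hidx x (pElem_of_mem Q.2 hx))
    refine le_inf (commutator_le_left _ _) ((commutator_mono le_rfl ?_).trans (commutator_le_right K M))
    exact fun x hx => hM x (pElem_of_mem Q.2 hx)
  set R := pCore p G ⊔ (Q : Subgroup G)
  have hKR : K ≤ normalizer (R : Set G) := by
    intro k hk
    have hmem : ∀ k ∈ K, ∀ x ∈ R, k * x * k⁻¹ ∈ R := by
      intro k hk x hx
      have hP : R ≤ R.comap (MulAut.conj k).toMonoidHom := by
        refine sup_le (fun u hu => mem_sup_left ((pCore_normal p G).conj_mem u hu k))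
          fun u hu => ?_
        show k * u * k⁻¹ ∈ R
        have h1 : ⁅k, u⁆ ∈ R := mem_sup_left (hKQ (commutator_mem_commutator hk hu))
        have h2 := R.mul_mem h1 (mem_sup_right hu : u ∈ R)
        rwa [commutatorElement_def, inv_mul_cancel_right] at h2
      exact hP hx
    rw [mem_normalizer_iff]
    intro x
    refine ⟨hmem k hk x, fun hx => ?_⟩
    have := hmem k⁻¹ (K.inv_mem hk) _ hx
    simpa [mul_assoc] using this
  have hNR : normalizer ((Q : Subgroup G) : Set G) ≤ normalizer (R : Set G) := by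
    intro g hg
    rw [mem_normalizer_iff_map_conj_eq] at hg ⊢
    show R.map _ = R
    rw [Subgroup.map_sup]
    congr 1
    exact normal_iff_map_conj_eq.1 (pCore_normal p G) g
  have hLle : pPrimePCore q G ≤ normalizer (R : Set G) := by
    intro l hl
    have : QuotientGroup.mk' K l ∈ (Q : Subgroup G).map (QuotientGroup.mk' K) := by
      rw [map_sylow_eq_pCore h Q]; exact hl
    obtain ⟨u, hu, hue⟩ := this
    have h1 : u⁻¹ * l ∈ K := QuotientGroup.eq.1 hue
    have h2 := mul_mem (Subgroup.le_normalizer (mem_sup_right hu : u ∈ R)) (hKR h1)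
    rwa [mul_inv_cancel_left] at h2
  haveI := PSolv.pPrimePCore_normal q G
  have hfr := Sylow.normalizer_sup_eq_top' Q (qbaer_sylow_le h Q)
  rw [← normalizer_eq_top_iff, eq_top_iff, ← hfr]
  exact sup_le hNR hLle

theorem qbaer_quotient_solvable
    (hodd : ∀ (X : Type u) [Group X] [Finite X], Odd (Nat.card X) → Group.IsSolvable X)
    (h : QBaerHyp q G) (Q : Sylow q G) (hc : IsMulCommutative (Q : Subgroup G)) {p : ℕ} (hp : p.Prime)
    (hidx : ∀ x : G, (∃ k : ℕ, orderOf x = q ^ k) → ∃ a : ℕ, (centralizer ({x} : Set G)).index = p ^ a)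
    [(pPrimeCore q G).Normal] :
    Group.IsSolvable (G ⧸ pPrimeCore q G) := by
  set K := pPrimeCore q G
  set π := QuotientGroup.mk' K
  set V := (Q : Subgroup G).map π with hV
  have hVeq : V = pCore q (G ⧸ K) := map_sylow_eq_pCore h Q
  haveI hVn : V.Normal := hVeq ▸ pCore_normal q _
  have hVc : ∀ a b : V, a * b = b * a := by
    rintro ⟨_, a, ha, rfl⟩ ⟨_, b, hb, rfl⟩
    refine Subtype.ext ?_
    show π a * π b = π b * π a
    rw [← map_mul, ← map_mul]
    exact congrArg π (congrArg Subtype.val (hc.is_comm.comm ⟨a, ha⟩ ⟨b, hb⟩))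
  letI : CommGroup V := { (inferInstance : Group V) with mul_comm := hVc }
  let φ : G ⧸ K →* MulAut V := MulAut.conjNormal
  have hker : φ.ker ≤ V := by
    intro g hg
    rw [hVeq]
    refine PSolv.centralizer_pCore_le (PSolv.isPSolvable_quotient (qbaer_isPSolvable h) K)
      (PSolv.pPrimeCore_quotient_eq_bot q G) ?_
    rw [mem_centralizer_iff]
    intro v hv
    have hv' : v ∈ V := hVeq ▸ hv
    have h1 := congrArg Subtype.val (DFunLike.congr_fun (MonoidHom.mem_ker.1 hg) ⟨v, hv'⟩)
    rw [MulAut.conjNormal_apply] at h1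
    change g * v * g⁻¹ = v at h1
    calc v * g = g * v * g⁻¹ * g := by rw [h1]
      _ = g * v := by group
  have hkers : Group.IsSolvable φ.ker := by
    haveI : Group.IsSolvable V := inferInstance
    exact Coprime.isSolvable_of_le hker inferInstance
  have hVk : V ≤ φ.ker := by
    intro v hv
    refine MonoidHom.mem_ker.2 (MulEquiv.ext fun w => Subtype.ext ?_)
    rw [MulAut.conjNormal_apply]
    show v * (w : G ⧸ K) * v⁻¹ = w
    rw [show v * (w : G ⧸ K) = w * v from congrArg Subtype.val (hVc ⟨v, hv⟩ w), mul_inv_cancel_right]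
  have hcop : (Nat.card φ.range).Coprime q := by
    rw [← index_ker]
    refine Nat.Coprime.coprime_dvd_left (index_dvd_of_le hVk) ?_
    refine (hq.out.coprime_iff_not_dvd.2 ?_).symm
    exact (Q.mapSurjective (QuotientGroup.mk'_surjective K)).not_dvd_index
  have hsolA : Group.IsSolvable φ.range := by
    refine isSolvable_of_orbits hodd (V := V) (Q.2.map π) φ.range hcop hp fun v => ?_
    obtain ⟨x, hx, hxv⟩ := v.2
    obtain ⟨a, ha⟩ := hidx x (pElem_of_mem Q.2 hx)
    have h1 : ((fixer φ.range v).comap φ.rangeRestrict).index = (fixer φ.range v).index :=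
      index_comap_of_surjective _ φ.rangeRestrict_surjective
    have hle : (centralizer ({x} : Set G)).map π ≤ (fixer φ.range v).comap φ.rangeRestrict := by
      rintro _ ⟨g, hg, rfl⟩
      refine Subtype.ext ?_
      show π g * (v : G ⧸ K) * (π g)⁻¹ = v
      rw [← hxv, ← map_inv, ← map_mul, ← map_mul, mem_centralizer_singleton_iff.1 hg,
        mul_inv_cancel_right]
    have h2 := ha ▸ (index_dvd_of_le hle).trans (index_map_dvd _ (QuotientGroup.mk'_surjective K))
    rw [h1] at h2
    obtain ⟨i, -, hi⟩ := (Nat.dvd_prime_pow hp).1 h2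
    exact ⟨i, hi⟩
  haveI := hkers
  haveI := hsolA
  exact Group.isSolvable_of_ker_le_range φ.ker.subtype φ.rangeRestrict (by simp)

end Cfsg.Agent.FGSev
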