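import Cfsg.Agent.Lib.ClassSize
import Cfsg.Agent.Lib.MinimalNormal
import Cfsg.Agent.Cores.Fitting
import Cfsg.Agent.Supersolv.Props
import Cfsg.Agent.PGroup.Basic
import Cfsg.Agent.SolvStruct.Huppert
import Mathlib

/-!
Finite soluble groups in which the elements of prime power order have square-free class sizes.
-/

namespace Cfsg.Agent.FGSev

open Subgroup
open scoped commutatorElement

variable {G : Type*} [Group G]

/-- Elements of prime power order have square-free class sizes. -/
def SqPP (G : Type*) [Group G] : Prop :=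
  ∀ x : G, (∃ (r : ℕ) (k : ℕ), r.Prime ∧ orderOf x = r ^ k) →
    Squarefree (centralizer ({x} : Set G)).index

theorem sqpp_of_sq (h : ∀ x : G, Squarefree (centralizer ({x} : Set G)).index) : SqPP G :=
  fun x _ => h x

theorem exists_ppow_of_mem [Finite G] {p : ℕ} (hp : p.Prime) {P : Subgroup G} (hP : IsPGroup p P)
    {x : G} (hx : x ∈ P) : ∃ (r : ℕ) (k : ℕ), r.Prime ∧ orderOf x = r ^ k := by
  haveI : Fact p.Prime := ⟨hp⟩
  obtain ⟨k, hk⟩ := IsPGroup.iff_orderOf.1 hP ⟨x, hx⟩
  exact ⟨p, k, hp, by rw [← hk, orderOf_mk]⟩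

theorem sqpp_quotient [Finite G] (h : SqPP G) (N : Subgroup G) [N.Normal] : SqPP (G ⧸ N) := by
  rintro x ⟨r, k, hr, hk⟩
  haveI : Fact r.Prime := ⟨hr⟩
  obtain ⟨g, rfl⟩ := QuotientGroup.mk'_surjective N x
  -- a power of `g` prime to `r` splits off
  set n := orderOf g with hn
  obtain ⟨m, hm, hnm⟩ : ∃ m, ¬ r ∣ m ∧ n = r ^ n.factorization r * m :=
    ⟨n / r ^ n.factorization r, Nat.not_dvd_ordCompl hr (orderOf_pos g).ne',
      (Nat.ordProj_mul_ordCompl_eq_self n r).symm⟩
  have hgm : orderOf (g ^ m) = r ^ n.factorization r := by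
    rw [orderOf_pow' g (fun e => hm (by rw [e]; exact dvd_zero r)), ← hn]
    conv_lhs => rw [hnm]
    rw [Nat.gcd_eq_right (dvd_mul_left m _), Nat.mul_div_cancel]
    exact Nat.pos_of_ne_zero fun e => hm (by rw [e]; exact dvd_zero r)
  have hcop : (orderOf (QuotientGroup.mk' N g)).Coprime m := by
    rw [hk]
    exact (hr.coprime_iff_not_dvd.2 hm).pow_left k
  obtain ⟨a, ha⟩ := exists_pow_eq_self_of_coprime hcop.symm
  refine (h (g ^ m) ⟨r, _, hr, hgm⟩).squarefree_of_dvd ?_
  refine dvd_trans ?_ (ClassSize.index_centralizer_map_dvd _ (QuotientGroup.mk'_surjective N) (g ^ m))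
  refine index_dvd_of_le fun c hc => ?_
  rw [map_pow, mem_centralizer_singleton_iff] at hc
  rw [mem_centralizer_singleton_iff]
  have : Commute c ((QuotientGroup.mk' N g) ^ m) := hc
  have h2 := this.pow_right a
  rwa [ha] at h2

/-- A centraliser meets a normal `p`-subgroup in a subgroup of index dividing `p`. -/
theorem relIndex_centralizer_dvd_prime [Finite G] {p : ℕ} (hp : p.Prime) {P : Subgroup G}
    (hP : IsPGroup p P) [P.Normal] {x : G} (hx : Squarefree (centralizer ({x} : Set G)).index) :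
    (centralizer ({x} : Set G)).relIndex P ∣ p := by
  haveI : Fact p.Prime := ⟨hp⟩
  have h1 := ClassSize.relIndex_dvd_index_of_normal_left P (centralizer ({x} : Set G))
  obtain ⟨k, hk⟩ := hP.index ((centralizer ({x} : Set G)).subgroupOf P)
  have hk' : (centralizer ({x} : Set G)).relIndex P = p ^ k := hk
  rw [hk'] at h1 ⊢
  rcases Nat.lt_or_ge k 2 with h2 | h2
  · calc p ^ k ∣ p ^ 1 := pow_dvd_pow p (by omega)
      _ = p := pow_one p
  · exfalso
    have h3 : p * p ∣ (centralizer ({x} : Set G)).index :=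
      ((pow_two p).symm ▸ pow_dvd_pow p h2).trans h1
    exact hp.not_isUnit (hx p h3)

/-- A subgroup of index dividing `p` in a `p`-group is normal and contains the commutators. -/
theorem commutator_le_of_relIndex_dvd {p : ℕ} [Fact p.Prime] [Finite G] {P C : Subgroup G}
    (hP : IsPGroup p P) (hC : C.relIndex P ∣ p) {a b : G} (ha : a ∈ P) (hb : b ∈ P) :
    ⁅a, b⁆ ∈ C := by
  have hmem : ⁅(⟨a, ha⟩ : P), ⟨b, hb⟩⁆ ∈ C.subgroupOf P := by
    rcases (Nat.dvd_prime Fact.out).1 hC with h1 | h1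
    · rw [index_eq_one.1 (show (C.subgroupOf P).index = 1 from h1)]
      exact mem_top _
    · have hi : (C.subgroupOf P).index = p := h1
      haveI : (C.subgroupOf P).Normal := by
        apply Subgroup.normal_of_index_eq_minFac_card
        rw [hi]
        obtain ⟨n, hn⟩ := IsPGroup.iff_card.1 hP
        have hd : p ∣ Nat.card P := hi ▸ index_dvd_card _
        rw [hn] at hd ⊢
        rcases Nat.eq_zero_or_pos n with hn0 | hn0
        · rw [hn0, pow_zero, Nat.dvd_one] at hd
          exact absurd hd (Fact.out : p.Prime).ne_one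
        · exact (Nat.Prime.pow_minFac Fact.out hn0.ne').symm
      haveI : IsCyclic (P ⧸ C.subgroupOf P) := isCyclic_of_prime_card (p := p) (by rw [← hi]; rfl)
      rw [← QuotientGroup.eq_one_iff, ← QuotientGroup.mk'_apply, map_commutatorElement,
        commutatorElement_eq_one_iff_mul_comm]
      exact IsCyclic.commutative.is_comm.comm _ _
  simpa [commutatorElement_def, mem_subgroupOf] using hmem

/-- The commutation map with `x` on `P`, when its values are central in `P`. -/
def commMap (P : Subgroup G) (x : G)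
    (hc : ∀ v ∈ P, ∀ w ∈ P, (x * v * x⁻¹ * v⁻¹) * w = w * (x * v * x⁻¹ * v⁻¹)) : P →* G :=
  MonoidHom.mk' (fun v => x * (v : G) * x⁻¹ * (v : G)⁻¹) fun u v => by
    have h := hc v v.2 u u.2
    calc x * ((u : G) * v) * x⁻¹ * ((u : G) * v)⁻¹
        = (x * u * x⁻¹) * (x * v * x⁻¹ * (v : G)⁻¹) * (u : G)⁻¹ := by group
      _ = (x * u * x⁻¹ * (u : G)⁻¹) * ((u : G) * (x * v * x⁻¹ * (v : G)⁻¹)) * (u : G)⁻¹ := by group
      _ = (x * u * x⁻¹ * (u : G)⁻¹) * ((x * v * x⁻¹ * (v : G)⁻¹) * u) * (u : G)⁻¹ := by rw [← h]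
      _ = (x * u * x⁻¹ * (u : G)⁻¹) * (x * v * x⁻¹ * (v : G)⁻¹) := by group

theorem mem_ker_commMap (P : Subgroup G) (x : G) (hc) (v : P) :
    v ∈ (commMap P x hc).ker ↔ (v : G) ∈ centralizer ({x} : Set G) := by
  rw [MonoidHom.mem_ker, mem_centralizer_singleton_iff]
  show x * (v : G) * x⁻¹ * (v : G)⁻¹ = 1 ↔ _
  rw [mul_inv_eq_one, mul_inv_eq_iff_eq_mul]
  exact eq_comm

theorem card_range_commMap (P : Subgroup G) (x : G) (hc) :
    Nat.card (commMap P x hc).range = (centralizer ({x} : Set G)).relIndex P := by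
  rw [← Subgroup.index_ker, Subgroup.relIndex]
  congr 1
  exact Subgroup.ext fun v => mem_ker_commMap P x hc v

theorem orderOf_coprime_of_mem [Finite G] {p : ℕ} (hp : p.Prime) {P : Subgroup G}
    (hP : IsPGroup p P) {n : ℕ} (hn : n.Coprime p) {d : G} (hd : d ∈ P) :
    (orderOf d).Coprime n := by
  haveI : Fact p.Prime := ⟨hp⟩
  obtain ⟨k, hk⟩ := IsPGroup.iff_orderOf.1 hP ⟨d, hd⟩
  rw [orderOf_mk] at hk
  rw [hk]
  exact hn.symm.pow_left k

/-- A fixed commutator with an element of order coprime to its own is trivial. -/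
theorem eq_one_of_fixed_commutator {x v d : G} (hd : d = x * v * x⁻¹ * v⁻¹) (hfix : x * d = d * x)
    (hcop : (orderOf d).Coprime (orderOf x)) : d = 1 := by
  have h1 : x * v * x⁻¹ = d * v := by rw [hd]; group
  have key : ∀ k : ℕ, x ^ k * v * (x ^ k)⁻¹ = d ^ k * v := by
    intro k
    induction k with
    | zero => simp
    | succ k ih =>
      have hc : x * d ^ k = d ^ k * x := (Commute.pow_right hfix k).eq
      calc x ^ (k + 1) * v * (x ^ (k + 1))⁻¹ = x * (x ^ k * v * (x ^ k)⁻¹) * x⁻¹ := by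
            rw [pow_succ', mul_inv_rev]; group
        _ = x * (d ^ k * v) * x⁻¹ := by rw [ih]
        _ = (x * d ^ k) * v * x⁻¹ := by group
        _ = d ^ k * (x * v * x⁻¹) := by rw [hc]; group
        _ = d ^ (k + 1) * v := by rw [h1, pow_succ]; group
  have h2 := key (orderOf x)
  rw [pow_orderOf_eq_one, one_mul, inv_one, mul_one] at h2
  exact orderOf_eq_one_iff.1 (Nat.eq_one_of_dvd_coprimes hcop dvd_rfl
    (orderOf_dvd_of_pow_eq_one (right_eq_mul.1 h2)))

/-- Coprime action with centraliser of index at most `p`: the commutators are central. -/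
theorem commutator_central_of_coprime [Finite G] {p : ℕ} (hp : p.Prime) {P : Subgroup G}
    (hP : IsPGroup p P) [P.Normal] {x : G} (hx : (orderOf x).Coprime p)
    (hi : (centralizer ({x} : Set G)).relIndex P ∣ p) :
    ∀ v ∈ P, ∀ w ∈ P, (x * v * x⁻¹ * v⁻¹) * w = w * (x * v * x⁻¹ * v⁻¹) := by
  haveI : Fact p.Prime := ⟨hp⟩
  intro v hv
  set d := x * v * x⁻¹ * v⁻¹ with hd
  have hdP : d ∈ P := mul_mem (‹P.Normal›.conj_mem v hv x) (inv_mem hv)
  have hdc : ∀ c ∈ P, c ∈ centralizer ({x} : Set G) → d * c = c * d := by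
    intro c hcP hc
    rw [mem_centralizer_singleton_iff] at hc
    -- the conjugate of `c` by `v` also centralises `x`
    have hw : v⁻¹ * c * v ∈ centralizer ({x} : Set G) := by
      have h1 := commutator_le_of_relIndex_dvd hP hi (inv_mem hv) hcP
      have h2 : v⁻¹ * c * v = ⁅v⁻¹, c⁆ * c := by rw [commutatorElement_def]; group
      rw [h2]
      exact mul_mem h1 (mem_centralizer_singleton_iff.2 hc)
    rw [mem_centralizer_singleton_iff] at hw
    rw [← mul_inv_eq_iff_eq_mul]
    calc d * c * d⁻¹ = x * v * (x⁻¹ * ((v⁻¹ * c * v) * x)) * v⁻¹ * x⁻¹ := by rw [hd]; group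
      _ = x * v * (x⁻¹ * (x * (v⁻¹ * c * v))) * v⁻¹ * x⁻¹ := by rw [hw]
      _ = x * c * x⁻¹ := by group
      _ = c := by rw [← hc]; group
  intro w hw
  by_cases hdC : d ∈ centralizer ({x} : Set G)
  · have : d = 1 := eq_one_of_fixed_commutator rfl (mem_centralizer_singleton_iff.1 hdC).symm
      (orderOf_coprime_of_mem hp hP hx hdP)
    simp [this]
  -- the centraliser of `d` in `P` is bigger than that of `x`
  have hi' : ((centralizer ({x} : Set G)).subgroupOf P).index = p := by
    rcases (Nat.dvd_prime hp).1 hi with h1 | h1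
    · exact absurd (relIndex_eq_one.1 h1 hdP) hdC
    · exact h1
  have hlt : (centralizer ({x} : Set G)).subgroupOf P < (centralizer ({d} : Set G)).subgroupOf P := by
    refine lt_of_le_of_ne (fun c hc => mem_centralizer_singleton_iff.2 (hdc c c.2 hc).symm) ?_
    intro e
    apply hdC
    have h1 : (⟨d, hdP⟩ : P) ∈ (centralizer ({d} : Set G)).subgroupOf P :=
      mem_centralizer_singleton_iff.2 rfl
    rw [← e] at h1
    exact h1
  have htop : (centralizer ({d} : Set G)).subgroupOf P = ⊤ := by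
    rw [← index_eq_one]
    rcases (Nat.dvd_prime hp).1 (hi' ▸ index_dvd_of_le hlt.le) with h1 | h1
    · exact h1
    · exact absurd (index_strictAnti hlt) (by rw [h1, hi']; exact lt_irrefl p)
  exact (mem_centralizer_singleton_iff.1 (subgroupOf_eq_top.1 htop hw)).symm

/-- An element not centralising a normal `p`-subgroup, with orders coprime, already moves a
central element of that subgroup. -/
theorem exists_central_not_commute [Finite G] {p : ℕ} (hp : p.Prime) {P : Subgroup G}
    (hP : IsPGroup p P) [P.Normal] {x : G} (hx : (orderOf x).Coprime p)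
    (hi : (centralizer ({x} : Set G)).relIndex P ∣ p) (hne : ¬ P ≤ centralizer ({x} : Set G)) :
    ∃ d ∈ P, (∀ w ∈ P, d * w = w * d) ∧ d ∉ centralizer ({x} : Set G) := by
  obtain ⟨v, hv, hvx⟩ := SetLike.not_le_iff_exists.1 hne
  refine ⟨x * v * x⁻¹ * v⁻¹, mul_mem (‹P.Normal›.conj_mem v hv x) (inv_mem hv),
    commutator_central_of_coprime hp hP hx hi v hv, fun hdC => hvx ?_⟩
  have h1 := eq_one_of_fixed_commutator rfl (mem_centralizer_singleton_iff.1 hdC).symm
    (orderOf_coprime_of_mem hp hP hx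
      (mul_mem (‹P.Normal›.conj_mem v hv x) (inv_mem hv)))
  rw [mul_inv_eq_one, mul_inv_eq_iff_eq_mul] at h1
  exact mem_centralizer_singleton_iff.2 h1.symm

/-- A `p`-group in which all centralisers have index dividing `p` has derived subgroup of order
dividing `p`, and it is central. -/
theorem commutator_small_of_breadth_one [Finite G] {p : ℕ} (hp : p.Prime) {P : Subgroup G}
    (hP : IsPGroup p P) (hi : ∀ x ∈ P, (centralizer ({x} : Set G)).relIndex P ∣ p) :
    Nat.card (⁅P, P⁆ : Subgroup G) ∣ p ∧ ⁅P, P⁆ ≤ centralizer (P : Set G) := by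
  haveI : Fact p.Prime := ⟨hp⟩
  have hcent : ∀ a ∈ P, ∀ b ∈ P, ∀ w ∈ P, ⁅a, b⁆ * w = w * ⁅a, b⁆ := fun a ha b hb w hw =>
    mem_centralizer_singleton_iff.1 (commutator_le_of_relIndex_dvd hP (hi w hw) ha hb)
  refine ⟨?_, commutator_le.2 fun a ha b hb => mem_centralizer_iff.2 fun w hw =>
    (hcent a ha b hb w hw).symm⟩
  by_cases hab : ∀ a ∈ P, P ≤ centralizer ({a} : Set G)
  · have : (⁅P, P⁆ : Subgroup G) = ⊥ := by
      rw [eq_bot_iff, commutator_le]
      intro a ha b hb
      rw [mem_bot, commutatorElement_eq_one_iff_mul_comm]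
      exact (mem_centralizer_singleton_iff.1 (hab a ha hb)).symm
    rw [this, card_bot]
    exact one_dvd p
  push Not at hab
  obtain ⟨x, hx, hxP⟩ := hab
  have hc : ∀ y, y ∈ P → ∀ v ∈ P, ∀ w ∈ P,
      (y * v * y⁻¹ * v⁻¹) * w = w * (y * v * y⁻¹ * v⁻¹) := fun y hy v hv w hw => by
    rw [← commutatorElement_def]; exact hcent y hy v hv w hw
  let R : ∀ y, y ∈ P → Subgroup G := fun y hy => (commMap P y (hc y hy)).range
  have hRp : ∀ y (hy : y ∈ P), ¬ P ≤ centralizer ({y} : Set G) → Nat.card (R y hy) = p := by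
    intro y hy hyP
    rcases (Nat.dvd_prime hp).1 (hi y hy) with h1 | h1
    · exact absurd (relIndex_eq_one.1 h1) hyP
    · exact (card_range_commMap P y (hc y hy)).trans h1
  have hRmem : ∀ y (hy : y ∈ P) z, z ∈ P → ⁅y, z⁆ ∈ R y hy := fun y hy z hz =>
    ⟨⟨z, hz⟩, (commutatorElement_def y z).symm⟩
  -- two of these groups with nontrivial common element coincide
  have heq : ∀ y (hy : y ∈ P) z (hz : z ∈ P), ⁅y, z⁆ ≠ 1 → R y hy = R z hz := by
    intro y hy z hz hne
    have hy' : ¬ P ≤ centralizer ({y} : Set G) := fun hle => hne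
      (commutatorElement_eq_one_iff_mul_comm.2 (mem_centralizer_singleton_iff.1 (hle hz)).symm)
    have hz' : ¬ P ≤ centralizer ({z} : Set G) := fun hle => hne
      (commutatorElement_eq_one_iff_mul_comm.2 (mem_centralizer_singleton_iff.1 (hle hy)))
    have h1 : (zpowers ⁅y, z⁆ : Subgroup G) ≤ R y hy := zpowers_le.2 (hRmem y hy z hz)
    have h2 : (zpowers ⁅y, z⁆ : Subgroup G) ≤ R z hz := by
      rw [zpowers_le, ← inv_mem_iff, commutatorElement_inv]
      exact hRmem z hz y hy
    have h0 : 1 < Nat.card (zpowers ⁅y, z⁆ : Subgroup G) :=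
      (one_lt_card_iff_ne_bot _).2 (fun e => hne (zpowers_eq_bot.1 e))
    have hfull : ∀ (K : Subgroup G), Nat.card K = p → zpowers ⁅y, z⁆ ≤ K → zpowers ⁅y, z⁆ = K := by
      intro K hK hle
      refine eq_of_le_of_card_ge hle ?_
      rcases (Nat.dvd_prime hp).1 (hK ▸ card_dvd_of_le hle) with h3 | h3 <;> omega
    rw [← hfull _ (hRp y hy hy') h1, hfull _ (hRp z hz hz') h2]
  refine dvd_trans (card_dvd_of_le (commutator_le.2 fun a ha b hb => ?_)) (hRp x hx hxP).dvd
  by_cases hne : ⁅a, b⁆ = 1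
  · rw [hne]; exact one_mem _
  -- find an element commuting neither with `a` nor with `x`
  obtain ⟨z, hz, hza, hzx⟩ : ∃ z ∈ P, ⁅a, z⁆ ≠ 1 ∧ ⁅x, z⁆ ≠ 1 := by
    obtain ⟨c, hc1, hc2⟩ := SetLike.not_le_iff_exists.1 hxP
    have hxc : ⁅x, c⁆ ≠ 1 := fun e => hc2
      (mem_centralizer_singleton_iff.2 (commutatorElement_eq_one_iff_mul_comm.1 e).symm)
    by_cases hac : ⁅a, c⁆ = 1
    · by_cases hxb : ⁅x, b⁆ = 1
      · refine ⟨c * b, mul_mem hc1 hb, ?_, ?_⟩
        · intro e
          rw [commutatorElement_eq_one_iff_mul_comm] at e hac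
          refine hne (commutatorElement_eq_one_iff_mul_comm.2 (mul_left_cancel (a := c) ?_))
          rw [← mul_assoc, ← mul_assoc, ← e, ← hac, mul_assoc]
        · intro e
          rw [commutatorElement_eq_one_iff_mul_comm] at e hxb
          refine hxc (commutatorElement_eq_one_iff_mul_comm.2 (mul_right_cancel (b := b) ?_))
          rw [mul_assoc, mul_assoc, e, mul_assoc, hxb]
      · exact ⟨b, hb, hne, hxb⟩
    · exact ⟨c, hc1, hac, hxc⟩
  rw [heq x hx z hz hzx, ← heq a ha z hz hza]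
  exact hRmem a ha b hb

end Cfsg.Agent.FGSev
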