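import Cfsg.Agent.FGSev.SquareFreeStructure

/-!
The Fitting quotient and the derived subgroups when the class sizes are square-free.
-/

namespace Cfsg.Agent.FGSev

open Subgroup
open scoped commutatorElement

universe u

variable {G : Type u} [Group G] [Finite G]

theorem squarefree_of_forall_prime {n : ℕ} (h : ∀ p : ℕ, p.Prime → ¬ p * p ∣ n) : Squarefree n :=
  Nat.squarefree_iff_prime_squarefree.2 h

theorem commutator_le_fitting [Group.IsSolvable G] (h : SqPP G) :
    _root_.commutator G ≤ Cfsg.fittingSubgroup G :=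
  Cores.le_fittingSubgroup inferInstance (Supersolv.commutator_nilpotent (supersolvable_of_sqpp h))

theorem pCore_commute {p r : ℕ} [Fact p.Prime] [Fact r.Prime] (hpr : p ≠ r) {a b : G}
    (ha : a ∈ Cfsg.pCore p G) (hb : b ∈ Cfsg.pCore r G) : a * b = b * a := by
  refine commute_of_normal_of_disjoint (Cfsg.pCore p G) (Cfsg.pCore r G) inferInstance inferInstance
    ?_ a b ha hb
  exact IsPGroup.disjoint_of_ne p r hpr _ _ Cores.pCore_isPGroup Cores.pCore_isPGroup

/-- Orbits of size at most `q` of an abelian action on an abelian group come from one kernel. -/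
theorem relIndex_centralizer_dvd_of_orbits {q : ℕ} (hq : q.Prime) (U Q : Subgroup G) [U.Normal]
    (hU : ∀ a ∈ U, ∀ b ∈ U, a * b = b * a)
    (hQ : ∀ a ∈ Q, ∀ b ∈ Q, ⁅a, b⁆ ∈ centralizer (U : Set G))
    (hcop : ∀ a ∈ Q, ∀ u ∈ U, (orderOf u).Coprime (orderOf a))
    (hi : ∀ u ∈ U, (centralizer ({u} : Set G)).relIndex Q ∣ q) :
    (centralizer (U : Set G)).relIndex Q ∣ q := by
  set S : G → Subgroup G := fun u => centralizer ({u} : Set G) with hS
  have hSm : ∀ {a u}, a ∈ S u ↔ a * u = u * a := fun {a u} => mem_centralizer_singleton_iff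
  by_cases hall : ∀ u ∈ U, Q ≤ S u
  · have : (centralizer (U : Set G)).relIndex Q = 1 := relIndex_eq_one.2 fun a ha =>
      mem_centralizer_iff.2 fun u hu => (hSm.1 (hall u hu ha)).symm
    rw [this]; exact one_dvd q
  push Not at hall
  obtain ⟨v, hv, hvQ⟩ := hall
  refine dvd_trans (index_dvd_of_le ?_) (hi v hv)
  intro a ha
  refine mem_centralizer_iff.2 fun w hw => ?_
  by_contra hne
  have ha' : (a : G) ∈ S v := ha
  have haw : (a : G) ∉ S w := fun h' => hne (hSm.1 h').symm
  have hidx : ∀ u ∈ U, ∀ b ∈ Q, b ∉ S u → ((S u).subgroupOf Q).index = q := fun u hu b hb hbu =>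
    ((Nat.dvd_prime hq).1 (hi u hu)).resolve_left fun e => hbu (relIndex_eq_one.1 e hb)
  obtain ⟨b0, hb0, hb0v⟩ := SetLike.not_le_iff_exists.1 hvQ
  -- an element fixing `w` but not `v`
  obtain ⟨b, hbw, hbv⟩ : ∃ b : Q, (b : G) ∈ S w ∧ (b : G) ∉ S v := by
    by_contra hcon
    push Not at hcon
    have hle : (S w).subgroupOf Q ≤ (S v).subgroupOf Q := fun b hb => hcon b hb
    have hlt : (S w).subgroupOf Q < (S v).subgroupOf Q :=
      lt_of_le_of_ne hle fun e => haw (by
        have : a ∈ (S v).subgroupOf Q := ha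
        rw [← e] at this
        exact this)
    have := index_strictAnti hlt
    rw [hidx w hw a a.2 haw, hidx v hv b0 hb0 hb0v] at this
    exact lt_irrefl q this
  let c : G → G → G := fun x u => x * u * x⁻¹ * u⁻¹
  have hcU : ∀ x, ∀ u ∈ U, c x u ∈ U := fun x u hu =>
    mul_mem (‹U.Normal›.conj_mem u hu x) (inv_mem hu)
  have hc1 : ∀ x u, c x u = 1 ↔ x ∈ S u := fun x u => by
    show x * u * x⁻¹ * u⁻¹ = 1 ↔ _
    rw [mul_inv_eq_one, mul_inv_eq_iff_eq_mul, hSm]
  have hcf : ∀ x ∈ Q, ∀ u ∈ U, x ∈ S (c x u) → x ∈ S u := fun x hx u hu hxc =>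
    (hc1 x u).1 (eq_one_of_fixed_commutator rfl (hSm.1 hxc) (hcop x hx _ (hcU x u hu)))
  -- elements fixing `u` fix its commutator with a member of `Q`
  have htr : ∀ x ∈ Q, ∀ y ∈ Q, ∀ u ∈ U, y ∈ S u → y ∈ S (c x u) := by
    intro x hx y hy u hu hyu
    rw [hSm] at hyu ⊢
    have he : ⁅y, x⁆ * (x * u * x⁻¹) = (x * u * x⁻¹) * ⁅y, x⁆ :=
      (mem_centralizer_iff.1 (hQ y hy x hx) _ (‹U.Normal›.conj_mem u hu x)).symm
    have hyu' : y * u⁻¹ = u⁻¹ * y := ((show Commute y u from hyu).inv_right).eq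
    simp only [c]
    calc y * (x * u * x⁻¹ * u⁻¹)
        = ⁅y, x⁆ * x * (y * u) * x⁻¹ * (x * y⁻¹ * x⁻¹) * ⁅y, x⁆⁻¹ * y * u⁻¹ := by
          rw [commutatorElement_def]; group
      _ = ⁅y, x⁆ * x * (u * y) * x⁻¹ * (x * y⁻¹ * x⁻¹) * ⁅y, x⁆⁻¹ * y * u⁻¹ := by rw [hyu]
      _ = (⁅y, x⁆ * (x * u * x⁻¹)) * ⁅y, x⁆⁻¹ * (y * u⁻¹) := by group
      _ = ((x * u * x⁻¹) * ⁅y, x⁆) * ⁅y, x⁆⁻¹ * (u⁻¹ * y) := by rw [he, hyu']
      _ = x * u * x⁻¹ * u⁻¹ * y := by group
  have hhom : ∀ x, ∀ s ∈ U, ∀ t ∈ U, c x (s * t) = c x s * c x t := by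
    intro x s hs t ht
    simp only [c]
    calc x * (s * t) * x⁻¹ * (s * t)⁻¹
        = (x * s * x⁻¹) * (x * t * x⁻¹ * t⁻¹) * s⁻¹ := by group
      _ = (x * s * x⁻¹) * ((x * t * x⁻¹ * t⁻¹) * s⁻¹) := mul_assoc _ _ _
      _ = (x * s * x⁻¹) * (s⁻¹ * (x * t * x⁻¹ * t⁻¹)) := by
        rw [show (x * t * x⁻¹ * t⁻¹) * s⁻¹ = s⁻¹ * (x * t * x⁻¹ * t⁻¹) from
          hU _ (hcU x t ht) _ (inv_mem hs)]
      _ = (x * s * x⁻¹ * s⁻¹) * (x * t * x⁻¹ * t⁻¹) := by group
  set w' := c (a : G) w with hw'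
  set v' := c (b : G) v with hv'
  have hw'U : w' ∈ U := hcU _ w hw
  have hv'U : v' ∈ U := hcU _ v hv
  have hav' : (a : G) ∈ S v' := htr b b.2 a a.2 v hv ha'
  have hbw' : (b : G) ∈ S w' := htr a a.2 b b.2 w hw hbw
  have haw' : (a : G) ∉ S w' := fun h' => haw (hcf a a.2 w hw h')
  have hbv' : (b : G) ∉ S v' := fun h' => hbv (hcf b b.2 v hv h')
  have hu : v' * w' ∈ U := mul_mem hv'U hw'U
  have hau : (a : G) ∉ S (v' * w') := fun h' => by
    rw [← hc1, hhom _ v' hv'U w' hw'U, (hc1 _ _).2 hav', one_mul, hc1] at h'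
    exact haw' h'
  -- whatever fixes the product fixes both factors
  have hsplit : ∀ y ∈ Q, y ∈ S (v' * w') → y ∈ S v' ∧ y ∈ S w' := by
    intro y hy hyu
    have hA : y ∈ S (c a (v' * w')) := htr a a.2 y hy _ hu hyu
    rw [hhom _ v' hv'U w' hw'U, (hc1 _ _).2 hav', one_mul] at hA
    -- the fixer of `c a w'` has index `q` and contains that of `w'`
    have hle : (S w').subgroupOf Q ≤ (S (c a w')).subgroupOf Q := fun z hz =>
      htr a a.2 z z.2 w' hw'U hz
    have heq : (S w').subgroupOf Q = (S (c a w')).subgroupOf Q := by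
      by_contra hne'
      have := index_strictAnti (lt_of_le_of_ne hle hne')
      rw [hidx w' hw'U a a.2 haw', hidx _ (hcU _ w' hw'U) a a.2
        (fun h' => haw' (hcf a a.2 w' hw'U h'))] at this
      exact lt_irrefl q this
    have hyw : y ∈ S w' := by
      have : (⟨y, hy⟩ : Q) ∈ (S (c a w')).subgroupOf Q := hA
      rw [← heq] at this
      exact this
    refine ⟨?_, hyw⟩
    rw [hSm] at hyu hyw ⊢
    refine mul_right_cancel (b := w') ?_
    calc y * v' * w' = y * (v' * w') := mul_assoc _ _ _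
      _ = v' * w' * y := hyu
      _ = v' * (w' * y) := mul_assoc _ _ _
      _ = v' * (y * w') := by rw [hyw]
      _ = v' * y * w' := (mul_assoc _ _ _).symm
  have hlt : (S (v' * w')).subgroupOf Q < (S v').subgroupOf Q := by
    refine lt_of_le_of_ne (fun z hz => (hsplit z z.2 hz).1) fun e => hau ?_
    have : a ∈ (S v').subgroupOf Q := hav'
    rw [← e] at this
    exact this
  have := index_strictAnti hlt
  rw [hidx v' hv'U b b.2 hbv', hidx _ hu a a.2 hau] at this
  exact lt_irrefl q this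

/-- A `q`-element centralising the centres of the other Fitting parts lies in the Fitting subgroup. -/
theorem mem_fitting_of_centralize [Group.IsSolvable G] (h : SqPP G) {q : ℕ} [Fact q.Prime] {x : G}
    (hx : ∃ k, orderOf x = q ^ k)
    (hc : ∀ p : ℕ, p.Prime → p ≠ q → ∀ d ∈ Cfsg.pCore p G,
      (∀ w ∈ Cfsg.pCore p G, d * w = w * d) → x * d = d * x) :
    x ∈ Cfsg.fittingSubgroup G := by
  set F := Cfsg.fittingSubgroup G with hF
  have hxP : ∀ p : ℕ, p.Prime → p ≠ q → Cfsg.pCore p G ≤ centralizer ({x} : Set G) := by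
    intro p hp hpq
    haveI : Fact p.Prime := ⟨hp⟩
    by_contra hne
    obtain ⟨k, hk⟩ := hx
    have hsq := h x ⟨q, k, Fact.out, hk⟩
    obtain ⟨d, hd, hdc, hdx⟩ := exists_central_not_commute hp (Cores.pCore_isPGroup (p := p) (G := G))
      (x := x) (hk ▸ ((Nat.coprime_primes Fact.out hp).2 hpq.symm).pow_left k)
      (relIndex_centralizer_dvd_prime hp Cores.pCore_isPGroup hsq) hne
    exact hdx (mem_centralizer_singleton_iff.2 (hc p hp hpq d hd hdc).symm)
  set L := Cfsg.pCore q G ⊔ zpowers x with hL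
  set W := F ⊔ zpowers x with hW
  have hWn : W.Normal := Normal.of_commutator_le G ((commutator_le_fitting h).trans le_sup_left)
  have hxz : IsPGroup q (zpowers x) := by
    obtain ⟨k, hk⟩ := hx
    exact IsPGroup.of_card (n := k) (by rw [Nat.card_zpowers, hk])
  have hLq : IsPGroup q L := IsPGroup.to_sup_of_normal_left Cores.pCore_isPGroup hxz
  have hLW : L ≤ W := sup_le_sup_right Cores.pCore_le_fittingSubgroup _
  have hWL : W ≤ normalizer (L : Set G) := by
    refine sup_le ?_ (le_trans le_sup_right le_normalizer)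
    rw [hF, Cores.fittingSubgroup_eq_iSup_pCore]
    refine iSup_le fun p => ?_
    haveI : Fact (p : ℕ).Prime := ⟨p.2⟩
    rcases eq_or_ne (p : ℕ) q with hp | hp
    · rw [hp]; exact le_sup_left.trans le_normalizer
    · intro w hw
      refine centralizer_le_normalizer _ (mem_centralizer_iff.2 fun v hv => ?_)
      have hle : L ≤ centralizer ({w} : Set G) := by
        refine sup_le (fun t ht => mem_centralizer_singleton_iff.2 (pCore_commute (Ne.symm hp) ht hw)) ?_
        rw [zpowers_le]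
        exact mem_centralizer_singleton_iff.2 (mem_centralizer_singleton_iff.1 (hxP p p.2 hp hw)).symm
      exact mem_centralizer_singleton_iff.1 (hle hv)
  haveI : (L.subgroupOf W).Normal := normal_subgroupOf_iff_le_normalizer hLW |>.2 hWL
  haveI := hWn
  have h1 : L.subgroupOf W ≤ Cfsg.pCore q W :=
    Cores.le_pCore inferInstance (hLq.comap_subtype)
  have h2 : L ≤ Cfsg.pCore q G := by
    rw [← map_subgroupOf_eq_of_le hLW]
    exact (map_mono h1).trans Cores.map_subtype_pCore_le
  exact Cores.pCore_le_fittingSubgroup (h2 (le_sup_right (a := Cfsg.pCore q G) (mem_zpowers x)))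

/-- A central element of the Fitting subgroup is fixed by a subgroup of index at most `q` in each
Sylow `q`-subgroup. -/
theorem relIndex_fixer_dvd [Group.IsSolvable G] (h : SqPP G) {q : ℕ} [Fact q.Prime] (Q : Sylow q G)
    {u : G} (hu : u ∈ centralizer (Cfsg.fittingSubgroup G : Set G))
    (hsq : Squarefree (centralizer ({u} : Set G)).index) :
    (centralizer ({u} : Set G)).relIndex (Q : Subgroup G) ∣ q := by
  set F := Cfsg.fittingSubgroup G
  set C := centralizer ({u} : Set G)
  have hFC : F ≤ C := fun f hf => mem_centralizer_singleton_iff.2 (mem_centralizer_iff.1 hu f hf)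
  haveI hHn : (F ⊔ (Q : Subgroup G)).Normal :=
    Normal.of_commutator_le G ((commutator_le_fitting h).trans le_sup_left)
  set π := QuotientGroup.mk' F
  have hC : C = (C.map π).comap π := (comap_map_eq_self (by rwa [QuotientGroup.ker_mk'])).symm
  have hmap : (F ⊔ (Q : Subgroup G)).map π = (Q : Subgroup G).map π := by
    rw [Subgroup.map_sup, show F.map π = ⊥ from (Subgroup.map_eq_bot_iff F).2 (by rw [QuotientGroup.ker_mk']),
      bot_sup_eq]
  have h1 : C.relIndex (F ⊔ (Q : Subgroup G)) = C.relIndex (Q : Subgroup G) := by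
    rw [hC, relIndex_comap, relIndex_comap, hmap]
  have h2 : C.relIndex (Q : Subgroup G) ∣ C.index :=
    h1 ▸ ClassSize.relIndex_dvd_index_of_normal_left _ C
  obtain ⟨k, hk⟩ := Q.2.index (C.subgroupOf (Q : Subgroup G))
  have hk' : C.relIndex (Q : Subgroup G) = q ^ k := hk
  rw [hk'] at h2 ⊢
  rcases Nat.lt_or_ge k 2 with h3 | h3
  · calc q ^ k ∣ q ^ 1 := pow_dvd_pow q (by omega)
      _ = q := pow_one q
  · exact absurd (hsq q (((pow_two q).symm ▸ pow_dvd_pow q h3).trans h2))
      (Fact.out : q.Prime).not_isUnit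

/-- The part of the centre of the Fitting subgroup used in the orbit argument. -/
theorem relIndex_centralizer_central_dvd [Group.IsSolvable G] (h : SqPP G) {q : ℕ} [Fact q.Prime]
    (Q : Sylow q G) (U : Subgroup G) [U.Normal] (hUF : U ≤ Cfsg.fittingSubgroup G)
    (hUC : U ≤ centralizer (Cfsg.fittingSubgroup G : Set G)) (hUq : (Nat.card U).Coprime q)
    (hsq : ∀ u ∈ U, Squarefree (centralizer ({u} : Set G)).index) :
    (centralizer (U : Set G)).relIndex (Q : Subgroup G) ∣ q := by
  refine relIndex_centralizer_dvd_of_orbits Fact.out U Q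
    (fun a ha b hb => (mem_centralizer_iff.1 (hUC hb) a (hUF ha)))
    (fun a ha b hb => ?_) (fun a ha u hu => ?_) (fun u hu => relIndex_fixer_dvd h Q (hUC hu) (hsq u hu))
  · refine mem_centralizer_iff.2 fun u hu => ?_
    exact (mem_centralizer_iff.1 (hUC hu) _
      (commutator_le_fitting h (commutator_mem_commutator (mem_top a) (mem_top b)))).symm
  · obtain ⟨k, hk⟩ := IsPGroup.iff_orderOf.1 Q.2 ⟨a, ha⟩
    rw [orderOf_mk] at hk
    rw [hk]
    exact (hUq.coprime_dvd_left (orderOf_dvd_natCard U hu)).pow_right k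

/-- The Fitting quotient has square-free exponent. -/
theorem pow_mem_fitting [Group.IsSolvable G] (h : SqPP G) {q : ℕ} [Fact q.Prime] {x : G}
    (hx : ∃ k, orderOf x = q ^ k) : x ^ q ∈ Cfsg.fittingSubgroup G := by
  obtain ⟨k, hk⟩ := hx
  obtain ⟨Q, hQ⟩ := (IsPGroup.of_card (p := q) (n := k)
    (show Nat.card (zpowers x) = q ^ k by rw [Nat.card_zpowers, hk])).exists_le_sylow
  have hxQ : x ∈ (Q : Subgroup G) := hQ (mem_zpowers x)
  refine mem_fitting_of_centralize (q := q) h ?_ fun p hp hpq d hd hdc => ?_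
  · obtain ⟨j, hj⟩ := IsPGroup.iff_orderOf.1 Q.2 ⟨x ^ q, pow_mem hxQ q⟩
    exact ⟨j, by rw [← hj, orderOf_mk]⟩
  haveI : Fact p.Prime := ⟨hp⟩
  set U := Cfsg.pCore p G ⊓ centralizer (Cfsg.fittingSubgroup G : Set G) with hU
  haveI : (centralizer (Cfsg.fittingSubgroup G : Set G)).Normal := normal_centralizer
  haveI : U.Normal := normal_inf_normal _ _
  have hUq : (Nat.card U).Coprime q := by
    obtain ⟨j, hj⟩ := IsPGroup.iff_card.1 (Cores.pCore_isPGroup (p := p) (G := G))
    refine Nat.Coprime.coprime_dvd_left (card_dvd_of_le inf_le_left) ?_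
    rw [hj]
    exact ((Nat.coprime_primes hp Fact.out).2 hpq).pow_left j
  have hi := relIndex_centralizer_central_dvd h Q U (inf_le_left.trans (Cores.pCore_le_fittingSubgroup (p := p)))
    inf_le_right hUq fun u hu => h u (exists_ppow_of_mem hp Cores.pCore_isPGroup hu.1)
  haveI : (centralizer (U : Set G)).Normal := normal_centralizer
  have hxU : x ^ q ∈ centralizer (U : Set G) := by
    have h1 : (⟨x, hxQ⟩ : (Q : Subgroup G)) ^ q ∈ (centralizer (U : Set G)).subgroupOf Q := by
      obtain ⟨m, hm⟩ := hi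
      have h2 := pow_mem (pow_index_mem ((centralizer (U : Set G)).subgroupOf (Q : Subgroup G))
        (⟨x, hxQ⟩ : (Q : Subgroup G))) m
      rw [← pow_mul] at h2
      exact (congrArg ((⟨x, hxQ⟩ : (Q : Subgroup G)) ^ ·) hm) ▸ h2
    simpa [mem_subgroupOf] using h1
  have hdU : d ∈ U := by
    refine ⟨hd, ?_⟩
    show d ∈ centralizer (Cfsg.fittingSubgroup G : Set G)
    rw [mem_centralizer_iff]
    intro f hf
    have hle : Cfsg.fittingSubgroup G ≤ centralizer ({d} : Set G) := by
      rw [Cores.fittingSubgroup_eq_iSup_pCore]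
      refine iSup_le fun r => ?_
      haveI : Fact (r : ℕ).Prime := ⟨r.2⟩
      intro w hw
      rcases eq_or_ne (r : ℕ) p with hr | hr
      · exact mem_centralizer_singleton_iff.2 (hdc w (hr ▸ hw)).symm
      · exact mem_centralizer_singleton_iff.2 (pCore_commute hr hw hd)
    exact mem_centralizer_singleton_iff.1 (hle hf)
  exact (mem_centralizer_iff.1 hxU d hdU).symm

/-- The Fitting quotient is abelian of square-free exponent. -/
theorem fitting_quotient_of_sqpp [Group.IsSolvable G] (h : SqPP G) :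
    ∀ _hn : (Cfsg.fittingSubgroup G).Normal, IsMulCommutative (G ⧸ Cfsg.fittingSubgroup G) ∧
      Squarefree (Monoid.exponent (G ⧸ Cfsg.fittingSubgroup G)) := by
  intro _
  refine ⟨Normal.quotient_commutative_iff_commutator_le.2 (commutator_le_fitting h),
    squarefree_of_forall_prime fun q hq hd => ?_⟩
  haveI : Fact q.Prime := ⟨hq⟩
  set e := Monoid.exponent (G ⧸ Cfsg.fittingSubgroup G)
  have he : e ≠ 0 := Monoid.exponent_ne_zero_of_finite
  obtain ⟨y, hy⟩ := hq.exists_orderOf_eq_pow_factorization_exponent (G ⧸ Cfsg.fittingSubgroup G)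
  obtain ⟨g, rfl⟩ := QuotientGroup.mk'_surjective (Cfsg.fittingSubgroup G) y
  have h2 : 2 ≤ e.factorization q :=
    (hq.pow_dvd_iff_le_factorization he).1 (by rwa [pow_two])
  -- split off the `q`-part of `g`
  set n := orderOf g with hn
  set m := n / q ^ n.factorization q with hm
  have hmq : ¬ q ∣ m := Nat.not_dvd_ordCompl hq (orderOf_pos g).ne'
  have hgm : ∃ k, orderOf (g ^ m) = q ^ k := by
    refine ⟨n.factorization q, ?_⟩
    have hnm : q ^ n.factorization q * m = n := Nat.ordProj_mul_ordCompl_eq_self n q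
    rw [orderOf_pow' g (fun e' => hmq (by rw [e']; exact dvd_zero q)), ← hn]
    conv_lhs => rw [← hnm]
    rw [Nat.gcd_eq_right (dvd_mul_left m _), Nat.mul_div_cancel]
    exact Nat.pos_of_ne_zero fun e' => hmq (by rw [e']; exact dvd_zero q)
  have h3 : (QuotientGroup.mk' (Cfsg.fittingSubgroup G) g) ^ (m * q) = 1 := by
    rw [pow_mul, ← map_pow, ← map_pow, QuotientGroup.mk'_apply, QuotientGroup.eq_one_iff]
    exact pow_mem_fitting h hgm
  have h4 := orderOf_dvd_of_pow_eq_one h3
  rw [hy] at h4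
  have h5 : (q ^ e.factorization q).Coprime m := (hq.coprime_iff_not_dvd.2 hmq).pow_left _
  have h6 := Nat.le_of_dvd hq.pos ((h5.dvd_mul_left).1 h4)
  have h7 : q < q ^ 2 := by
    rw [pow_two]; exact lt_mul_of_one_lt_left hq.pos hq.one_lt
  exact absurd ((Nat.pow_le_pow_right hq.pos h2).trans h6) (not_le.2 h7)

/-- The Fitting subgroup has central derived subgroup of square-free order. -/
theorem fitting_commutator_of_sqpp [Group.IsSolvable G] (h : SqPP G) :
    Squarefree (Nat.card (⁅Cfsg.fittingSubgroup G, Cfsg.fittingSubgroup G⁆ : Subgroup G)) ∧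
      ⁅Cfsg.fittingSubgroup G, Cfsg.fittingSubgroup G⁆ ≤
        centralizer (Cfsg.fittingSubgroup G : Set G) := by
  set F := Cfsg.fittingSubgroup G with hF
  have hFeq : F = ⨆ p : Nat.Primes, Cfsg.pCore (p : ℕ) G := Cores.fittingSubgroup_eq_iSup_pCore
  let D : Nat.Primes → Subgroup G := fun p => ⁅Cfsg.pCore (p : ℕ) G, Cfsg.pCore (p : ℕ) G⁆
  have hD : ∀ p : Nat.Primes, Nat.card (D p) ∣ p ∧ D p ≤ centralizer (Cfsg.pCore (p : ℕ) G : Set G) := by
    intro p
    haveI : Fact (p : ℕ).Prime := ⟨p.2⟩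
    exact commutator_small_of_breadth_one p.2 Cores.pCore_isPGroup fun x hx =>
      relIndex_centralizer_dvd_prime p.2 Cores.pCore_isPGroup
        (h x (exists_ppow_of_mem p.2 Cores.pCore_isPGroup hx))
  set M := ⨆ p : Nat.Primes, D p with hMdef
  haveI hDn : ∀ p, (D p).Normal := fun p => commutator_normal _ _
  haveI : M.Normal := iSup_normal _
  have hFM : ⁅F, F⁆ ≤ M := by
    set π := QuotientGroup.mk' M
    rw [← QuotientGroup.ker_mk' M, ← Subgroup.map_eq_bot_iff, map_commutator,
      commutator_eq_bot_iff_le_centralizer]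
    have hpair : ∀ p r : Nat.Primes,
        (Cfsg.pCore (r : ℕ) G).map π ≤ centralizer ((Cfsg.pCore (p : ℕ) G).map π : Set (G ⧸ M)) := by
      intro p r
      haveI : Fact (p : ℕ).Prime := ⟨p.2⟩
      haveI : Fact (r : ℕ).Prime := ⟨r.2⟩
      rw [← commutator_eq_bot_iff_le_centralizer, ← map_commutator, Subgroup.map_eq_bot_iff,
        QuotientGroup.ker_mk']
      rcases eq_or_ne p r with e | hne
      · subst e; exact le_iSup D p
      · rw [commutator_le]
        intro a ha b hb
        rw [commutatorElement_eq_one_iff_mul_comm.2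
          (pCore_commute (fun e => hne (Subtype.ext e.symm)) ha hb)]
        exact one_mem _
    rw [hFeq, Subgroup.map_iSup]
    refine iSup_le fun r => ?_
    rw [le_centralizer_iff]
    exact iSup_le fun p => hpair r p
  have hMC : M ≤ centralizer (F : Set G) := by
    rw [le_centralizer_iff, hFeq]
    refine iSup_le fun r => ?_
    rw [le_centralizer_iff]
    refine iSup_le fun p => ?_
    rcases eq_or_ne p r with e | hne
    · subst e; exact (hD p).2
    · haveI : Fact (p : ℕ).Prime := ⟨p.2⟩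
      haveI : Fact (r : ℕ).Prime := ⟨r.2⟩
      intro a ha
      exact mem_centralizer_iff.2 fun b hb => pCore_commute (fun e => hne (Subtype.ext e.symm)) hb
        (commutator_le_right _ _ ha)
  refine ⟨squarefree_of_forall_prime fun p hp hd => ?_, hFM.trans hMC⟩
  haveI : Fact p.Prime := ⟨hp⟩
  have hle : M ≤ D ⟨p, hp⟩ ⊔ Cfsg.pPrimeCore p G := by
    refine iSup_le fun r => ?_
    rcases eq_or_ne r ⟨p, hp⟩ with e | hne
    · subst e; exact le_sup_left
    · refine le_sup_of_le_right ((commutator_le_right _ _).trans ?_)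
      haveI : Fact (r : ℕ).Prime := ⟨r.2⟩
      refine Cores.le_pPrimeCore inferInstance ?_
      obtain ⟨j, hj⟩ := IsPGroup.iff_card.1 (Cores.pCore_isPGroup (p := (r : ℕ)) (G := G))
      rw [hj]
      exact ((Nat.coprime_primes r.2 hp).2 fun e => hne (Subtype.ext e)).pow_left j
  have h1 := (hd.trans (card_dvd_of_le (hFM.trans hle))).trans (Cores.card_sup_dvd_mul _ _)
  have hc : (p * p).Coprime (Nat.card (Cfsg.pPrimeCore p G)) :=
    Nat.Coprime.mul_left Cores.pPrimeCore_coprime.symm Cores.pPrimeCore_coprime.symm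
  exact absurd (Nat.le_of_dvd hp.pos ((hc.dvd_mul_right.1 h1).trans (hD ⟨p, hp⟩).1))
    (not_le.2 (lt_mul_of_one_lt_left hp.pos hp.one_lt))

/-- The third derived subgroup is trivial. -/
theorem derivedSeries_three_of_sqpp [Group.IsSolvable G] (h : SqPP G) : derivedSeries G 3 = ⊥ := by
  obtain ⟨-, hc⟩ := fitting_commutator_of_sqpp h
  set F := Cfsg.fittingSubgroup G
  have h1 : derivedSeries G 1 ≤ F := by
    rw [derivedSeries_one]; exact commutator_le_fitting h
  have h2 : derivedSeries G 2 ≤ ⁅F, F⁆ := commutator_mono h1 h1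
  rw [eq_bot_iff]
  refine (commutator_mono h2 h2).trans ?_
  rw [le_bot_iff, commutator_eq_bot_iff_le_centralizer]
  exact hc.trans (centralizer_le (SetLike.coe_subset_coe.2 (commutator_le_right F F)))

end Cfsg.Agent.FGSev
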