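import Cfsg.Agent.FGSev.SquareFreeFitting

/-!
The structure of a soluble group in which all class sizes are square-free.
-/

namespace Cfsg.Agent.FGSev

open Subgroup
open scoped commutatorElement

universe u

variable {G : Type u} [Group G] [Finite G]

theorem sq_quotient (h : ∀ x : G, Squarefree (centralizer ({x} : Set G)).index)
    (N : Subgroup G) [N.Normal] : ∀ x : G ⧸ N, Squarefree (centralizer ({x} : Set (G ⧸ N))).index := by
  intro x
  obtain ⟨g, rfl⟩ := QuotientGroup.mk'_surjective N x
  exact (h g).squarefree_of_dvd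
    (ClassSize.index_centralizer_map_dvd _ (QuotientGroup.mk'_surjective N) g)

/-- The Fitting subgroup has square-free index. -/
theorem index_fitting_squarefree [Group.IsSolvable G]
    (h : ∀ x : G, Squarefree (centralizer ({x} : Set G)).index) :
    Squarefree (Cfsg.fittingSubgroup G).index := by
  refine squarefree_of_forall_prime fun q hq hd => ?_
  haveI : Fact q.Prime := ⟨hq⟩
  obtain ⟨Q⟩ : Nonempty (Sylow q G) := inferInstance
  set F := Cfsg.fittingSubgroup G
  set U := F ⊓ centralizer (F : Set G) ⊓ Cfsg.pPrimeCore q G with hU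
  haveI : (centralizer (F : Set G)).Normal := normal_centralizer
  haveI : (F ⊓ centralizer (F : Set G)).Normal := normal_inf_normal _ _
  haveI : U.Normal := normal_inf_normal _ _
  have hi := relIndex_centralizer_central_dvd (sqpp_of_sq h) Q U (inf_le_left.trans inf_le_left)
    (inf_le_left.trans inf_le_right)
    (Cores.pPrimeCore_coprime.coprime_dvd_left (card_dvd_of_le inf_le_right)) fun u _ => h u
  have hle : centralizer (U : Set G) ⊓ (Q : Subgroup G) ≤ F := by
    rintro x ⟨hxC, hxQ⟩
    refine mem_fitting_of_centralize (sqpp_of_sq h) (q := q) ?_ fun p hp hpq d hd hdc => ?_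
    · obtain ⟨k, hk⟩ := IsPGroup.iff_orderOf.1 Q.2 ⟨x, hxQ⟩
      exact ⟨k, by rw [← hk, orderOf_mk]⟩
    haveI : Fact p.Prime := ⟨hp⟩
    refine (mem_centralizer_iff.1 hxC d ⟨⟨Cores.pCore_le_fittingSubgroup hd, ?_⟩, ?_⟩).symm
    · show d ∈ centralizer (F : Set G)
      rw [mem_centralizer_iff]
      intro f hf
      have hle : F ≤ centralizer ({d} : Set G) := by
        rw [show F = ⨆ p : Nat.Primes, Cfsg.pCore (p : ℕ) G from Cores.fittingSubgroup_eq_iSup_pCore]
        refine iSup_le fun r => ?_
        haveI : Fact (r : ℕ).Prime := ⟨r.2⟩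
        intro w hw
        rcases eq_or_ne (r : ℕ) p with hr | hr
        · exact mem_centralizer_singleton_iff.2 (hdc w (hr ▸ hw)).symm
        · exact mem_centralizer_singleton_iff.2 (pCore_commute hr hw hd)
      exact mem_centralizer_singleton_iff.1 (hle hf)
    · refine Cores.le_pPrimeCore inferInstance ?_ hd
      obtain ⟨j, hj⟩ := IsPGroup.iff_card.1 (Cores.pCore_isPGroup (p := p) (G := G))
      rw [hj]
      exact ((Nat.coprime_primes hp hq).2 hpq).pow_left j
  have hrel : F.relIndex (Q : Subgroup G) ∣ q := by
    refine dvd_trans ?_ hi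
    refine index_dvd_of_le fun x hx => ?_
    exact hle ⟨hx, x.2⟩
  -- compare the `q`-parts
  have e1 : Nat.card (F.subgroupOf (Q : Subgroup G)) * F.relIndex (Q : Subgroup G) =
      Nat.card (Q : Subgroup G) := (F.subgroupOf (Q : Subgroup G)).card_mul_index
  have e2 : Nat.card (F.subgroupOf (Q : Subgroup G)) ∣ Nat.card F :=
    card_dvd_of_injective (Subgroup.inclusion (fun x hx => hx.1 : F ⊓ (Q : Subgroup G) ≤ F) |>.comp
      ((MonoidHom.codRestrict ((Q : Subgroup G).subtype.comp (F.subgroupOf (Q : Subgroup G)).subtype)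
        (F ⊓ (Q : Subgroup G)) fun z => ⟨z.2, z.1.2⟩))) (fun a b hab => by
          apply Subtype.ext
          apply Subtype.ext
          exact congrArg (fun z : F => (z : G)) hab)
  have e3 : q ^ 2 * Nat.card F ∣ Nat.card G := by
    rw [← F.index_mul_card, pow_two]; exact Nat.mul_dvd_mul_right hd _
  have e4 : (Nat.card F).factorization q + 2 ≤ (Nat.card G).factorization q := by
    have := (Nat.factorization_le_iff_dvd (mul_pos (pow_pos hq.pos 2) Nat.card_pos).ne'
      Nat.card_pos.ne').2 e3 q
    rw [Nat.factorization_mul (pow_pos hq.pos 2).ne' Nat.card_pos.ne', Finsupp.add_apply,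
      hq.factorization_pow, Finsupp.single_eq_same] at this
    omega
  have e5 : (Nat.card (Q : Subgroup G)).factorization q = (Nat.card G).factorization q := by
    rw [Q.card_eq_multiplicity, hq.factorization_pow, Finsupp.single_eq_same]
  have e6 : (Nat.card (Q : Subgroup G)).factorization q ≤ (Nat.card F).factorization q + 1 := by
    rw [← e1, Nat.factorization_mul Nat.card_pos.ne' (show F.relIndex (Q : Subgroup G) ≠ 0 from
      index_ne_zero_of_finite), Finsupp.add_apply]
    refine Nat.add_le_add ((Nat.factorization_le_iff_dvd Nat.card_pos.ne' Nat.card_pos.ne').2 e2 q) ?_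
    have := (Nat.factorization_le_iff_dvd (show F.relIndex (Q : Subgroup G) ≠ 0 from
      index_ne_zero_of_finite) hq.ne_zero).2 hrel q
    rwa [hq.factorization, Finsupp.single_eq_same] at this
  omega

/-- The Fitting quotient is cyclic. -/
theorem fitting_quotient_cyclic [Group.IsSolvable G]
    (h : ∀ x : G, Squarefree (centralizer ({x} : Set G)).index) :
    IsCyclic (G ⧸ Cfsg.fittingSubgroup G) := by
  haveI : IsMulCommutative (G ⧸ Cfsg.fittingSubgroup G) :=
    (fitting_quotient_of_sqpp (sqpp_of_sq h) inferInstance).1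
  haveI : IsZGroup (G ⧸ Cfsg.fittingSubgroup G) :=
    IsZGroup.of_squarefree (index_fitting_squarefree h)
  exact isCyclic_iff_commutative_and_zgroup (G ⧸ Cfsg.fittingSubgroup G)
where
  isCyclic_iff_commutative_and_zgroup (X : Type u) [Group X] [Finite X] [IsMulCommutative X]
      [IsZGroup X] : IsCyclic X := by
    haveI : Group.IsNilpotent X := by
      letI : CommGroup X := { (inferInstance : Group X) with
        mul_comm := fun a b => IsMulCommutative.is_comm.comm a b }
      infer_instance
    infer_instance

/-- The case of trivial `p'`-core: the derived subgroup has order dividing `p`. -/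
theorem card_commutator_dvd_of_pPrimeCore_eq_bot [Group.IsSolvable G]
    (h : ∀ x : G, Squarefree (centralizer ({x} : Set G)).index) {p : ℕ} [hp : Fact p.Prime]
    (hO : Cfsg.pPrimeCore p G = ⊥) : Nat.card (_root_.commutator G) ∣ p := by
  set P := Cfsg.pCore p G with hP
  have hPp : IsPGroup p P := Cores.pCore_isPGroup
  have hF : Cfsg.fittingSubgroup G = P := by
    rw [Cores.fittingSubgroup_eq_iSup_pCore]
    refine le_antisymm (iSup_le fun r => ?_) (le_iSup (fun r : Nat.Primes => Cfsg.pCore (r : ℕ) G) ⟨p, hp.out⟩)
    rcases eq_or_ne (r : ℕ) p with e | hne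
    · rw [e]
    · haveI : Fact (r : ℕ).Prime := ⟨r.2⟩
      refine le_of_le_of_eq (Cores.le_pPrimeCore inferInstance ?_) hO |>.trans bot_le
      obtain ⟨j, hj⟩ := IsPGroup.iff_card.1 (Cores.pCore_isPGroup (p := (r : ℕ)) (G := G))
      rw [hj]
      exact ((Nat.coprime_primes r.2 hp.out).2 hne).pow_left j
  have hCP : centralizer (P : Set G) ≤ P := by
    have := Cores.centralizer_fittingSubgroup_le (G := G)
    rwa [hF] at this
  have hsq : ∀ x : G, (centralizer ({x} : Set G)).relIndex P ∣ p := fun x =>
    relIndex_centralizer_dvd_prime hp.out hPp (h x)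
  by_cases hall : P = ⊤
  · have h1 := (commutator_small_of_breadth_one hp.out hPp fun x _ => hsq x).1
    rw [hall] at h1
    exact h1
  -- an element of prime order `q ≠ p` outside `P`
  have hidx : P.index ≠ 1 := fun e => hall (index_eq_one.1 e)
  obtain ⟨x, hxP, hxc⟩ : ∃ x : G, x ∉ P ∧ (orderOf x).Coprime p := by
    by_contra hcon
    push Not at hcon
    apply hall
    have hG : IsPGroup p G := by
      refine IsPGroup.of_card (n := (Nat.card G).primeFactorsList.length) ?_
      refine Nat.eq_prime_pow_of_unique_prime_dvd Nat.card_pos.ne' fun {r} hr hrd => ?_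
      by_contra hne
      haveI : Fact r.Prime := ⟨hr⟩
      obtain ⟨y, hy⟩ := exists_prime_orderOf_dvd_card' r hrd
      have hyc : (orderOf y).Coprime p := hy ▸ (Nat.coprime_primes hr hp.out).2 hne
      by_cases hyP : y ∈ P
      · have h1 := orderOf_coprime_of_mem hp.out hPp hyc hyP
        rw [hy, Nat.coprime_self] at h1
        exact hr.ne_one h1
      · exact hcon y hyP hyc
    exact Cores.pCore_eq_top_of_isPGroup hG
  have hxne : ¬ P ≤ centralizer ({x} : Set G) := fun hle => hxP (hCP
    (mem_centralizer_iff.2 fun v hv => mem_centralizer_singleton_iff.1 (hle hv)))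
  -- the centraliser of `x` in `P` is central
  have hxi : ((centralizer ({x} : Set G)).subgroupOf P).index = p :=
    ((Nat.dvd_prime hp.out).1 (hsq x)).resolve_left fun e => hxne (relIndex_eq_one.1 e)
  obtain ⟨d, hdP, hdc, hdx⟩ := exists_central_not_commute hp.out hPp hxc (hsq x) hxne
  have hCc : ∀ c ∈ P, c ∈ centralizer ({x} : Set G) → ∀ w ∈ P, c * w = w * c := by
    intro c hcP hcx
    rw [mem_centralizer_singleton_iff] at hcx
    have hcomm : Commute c x := hcx
    have hle1 : centralizer ({c * x} : Set G) ≤ centralizer ({x} : Set G) := by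
      intro g hg
      rw [mem_centralizer_singleton_iff] at hg ⊢
      have hg' : Commute g (c * x) := hg
      have h2 := hg'.pow_right (orderOf c)
      rw [hcomm.mul_pow, pow_orderOf_eq_one, one_mul] at h2
      obtain ⟨m, hm⟩ := exists_pow_eq_self_of_coprime
        (orderOf_coprime_of_mem hp.out hPp hxc hcP)
      have h3 := h2.pow_right m
      rwa [hm] at h3
    have hle2 : centralizer ({c * x} : Set G) ≤ centralizer ({c} : Set G) := by
      intro g hg
      have hgx : Commute g x := mem_centralizer_singleton_iff.1 (hle1 hg)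
      rw [mem_centralizer_singleton_iff] at hg ⊢
      have h2 := (show Commute g (c * x) from hg).mul_right hgx.inv_right
      rwa [mul_inv_cancel_right] at h2
    have hle : (centralizer ({c * x} : Set G)).subgroupOf P ≤ (centralizer ({x} : Set G)).subgroupOf P :=
      fun z hz => hle1 hz
    have heq : (centralizer ({c * x} : Set G)).subgroupOf P = (centralizer ({x} : Set G)).subgroupOf P := by
      by_contra hne
      have h1 := index_strictAnti (lt_of_le_of_ne hle hne)
      rw [hxi] at h1
      exact absurd (Nat.le_of_dvd hp.out.pos (hsq (c * x))) (not_le.2 h1)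
    -- so the centraliser of `c` contains that of `x` and the central element `d`
    have hlt : (centralizer ({x} : Set G)).subgroupOf P < (centralizer ({c} : Set G)).subgroupOf P := by
      refine lt_of_le_of_ne (fun z hz => ?_) fun e => hdx ?_
      · rw [← heq] at hz
        exact hle2 hz
      · have : (⟨d, hdP⟩ : P) ∈ (centralizer ({c} : Set G)).subgroupOf P :=
          mem_centralizer_singleton_iff.2 (hdc c hcP)
        rw [← e] at this
        exact this
    have htop : (centralizer ({c} : Set G)).subgroupOf P = ⊤ := by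
      rw [← index_eq_one]
      rcases (Nat.dvd_prime hp.out).1 (hsq c) with h1 | h1
      · exact h1
      · exact absurd (index_strictAnti hlt)
          (by rw [hxi, show ((centralizer ({c} : Set G)).subgroupOf P).index = p from h1]; exact lt_irrefl p)
    intro w hw
    exact (mem_centralizer_singleton_iff.1 (subgroupOf_eq_top.1 htop hw)).symm
  have hab : ∀ v ∈ P, ∀ w ∈ P, v * w = w * v := by
    intro v hv w hw
    have hlt : (centralizer ({x} : Set G)).subgroupOf P < (centralizer ({v} : Set G)).subgroupOf P := by
      refine lt_of_le_of_ne (fun c hc => mem_centralizer_singleton_iff.2 (hCc c c.2 hc v hv)) fun e => hdx ?_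
      have : (⟨d, hdP⟩ : P) ∈ (centralizer ({v} : Set G)).subgroupOf P :=
        mem_centralizer_singleton_iff.2 (hdc v hv)
      rw [← e] at this
      exact this
    have htop : (centralizer ({v} : Set G)).subgroupOf P = ⊤ := by
      rw [← index_eq_one]
      rcases (Nat.dvd_prime hp.out).1 (hsq v) with h1 | h1
      · exact h1
      · exact absurd (index_strictAnti hlt)
          (by rw [hxi, show ((centralizer ({v} : Set G)).subgroupOf P).index = p from h1]; exact lt_irrefl p)
    exact (mem_centralizer_singleton_iff.1 (subgroupOf_eq_top.1 htop hw)).symm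
  -- a generator of the cyclic Fitting quotient
  have hcyc : IsCyclic (G ⧸ P) := by
    haveI := fitting_quotient_cyclic h
    exact isCyclic_of_surjective (QuotientGroup.quotientMulEquivOfEq hF).toMonoidHom
      (QuotientGroup.quotientMulEquivOfEq hF).surjective
  obtain ⟨γ, hγ⟩ := hcyc.exists_generator
  obtain ⟨g, rfl⟩ := QuotientGroup.mk'_surjective P γ
  let f := commMap P g fun v hv w hw =>
    hab _ (mul_mem ((inferInstance : P.Normal).conj_mem v hv g) (inv_mem hv)) w hw
  set R := f.range with hR
  have hRP : R ≤ P := by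
    rintro _ ⟨v, rfl⟩
    exact mul_mem ((inferInstance : P.Normal).conj_mem v v.2 g) (inv_mem v.2)
  have hdec : ∀ a : G, ∃ (k : ℤ) (v : G), v ∈ P ∧ a = g ^ k * v := by
    intro a
    obtain ⟨k, hk⟩ := hγ (QuotientGroup.mk' P a)
    refine ⟨k, (g ^ k)⁻¹ * a, ?_, by group⟩
    rw [← QuotientGroup.eq_one_iff, ← QuotientGroup.mk'_apply, map_mul, map_inv, map_zpow]
    exact inv_mul_eq_one.2 hk
  haveI hRn : R.Normal := by
    have hgR : g ∈ normalizer (R : Set G) := by
      have key : ∀ r ∈ R, g * r * g⁻¹ ∈ R := by
        rintro _ ⟨v, rfl⟩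
        refine ⟨⟨g * v * g⁻¹, (inferInstance : P.Normal).conj_mem v v.2 g⟩, ?_⟩
        show g * (g * (v : G) * g⁻¹) * g⁻¹ * (g * (v : G) * g⁻¹)⁻¹ =
          g * (g * (v : G) * g⁻¹ * (v : G)⁻¹) * g⁻¹
        group
      rw [mem_normalizer_iff]
      intro r
      refine ⟨key r, fun hr => ?_⟩
      have hpow : ∀ n : ℕ, ∀ r ∈ R, g ^ n * r * (g ^ n)⁻¹ ∈ R := by
        intro n
        induction n with
        | zero => simp
        | succ n ih =>
          intro r hr
          rw [show g ^ (n + 1) * r * (g ^ (n + 1))⁻¹ = g * (g ^ n * r * (g ^ n)⁻¹) * g⁻¹ by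
            rw [pow_succ', mul_inv_rev]; group]
          exact key _ (ih r hr)
      have := hpow (orderOf g - 1) _ hr
      have e : g ^ (orderOf g - 1) = g⁻¹ := eq_inv_of_mul_eq_one_left (by
        rw [← pow_succ, Nat.sub_add_cancel (orderOf_pos g), pow_orderOf_eq_one])
      rw [e, inv_inv] at this
      simpa [mul_assoc] using this
    refine normalizer_eq_top_iff.1 (top_le_iff.1 fun a _ => ?_)
    obtain ⟨k, v, hv, rfl⟩ := hdec a
    refine mul_mem (zpow_mem hgR k) (centralizer_le_normalizer _ ?_)
    exact mem_centralizer_iff.2 fun r hr => hab r (hRP hr) v hv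
  refine dvd_trans (card_dvd_of_le (K := R) ?_)
    ((show Nat.card R = (centralizer ({g} : Set G)).relIndex P from card_range_commMap P g _).dvd.trans
      (hsq g))
  refine Normal.quotient_commutative_iff_commutator_le.1 ⟨⟨?_⟩⟩
  set π := QuotientGroup.mk' R
  have hgv : ∀ v ∈ P, Commute (π g) (π v) := by
    intro v hv
    show π g * π v = π v * π g
    rw [← commutatorElement_eq_one_iff_mul_comm, ← map_commutatorElement, QuotientGroup.mk'_apply,
      QuotientGroup.eq_one_iff, commutatorElement_def]
    exact ⟨⟨v, hv⟩, rfl⟩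
  intro a b
  obtain ⟨a, rfl⟩ := QuotientGroup.mk'_surjective R a
  obtain ⟨b, rfl⟩ := QuotientGroup.mk'_surjective R b
  obtain ⟨i, v, hv, rfl⟩ := hdec a
  obtain ⟨j, w, hw, rfl⟩ := hdec b
  rw [map_mul, map_mul, map_zpow, map_zpow]
  have c1 : Commute (π g ^ i) (π g ^ j) := Commute.zpow_zpow (Commute.refl _) i j
  have c2 : Commute (π g ^ i) (π w) := (hgv w hw).zpow_left i
  have c3 : Commute (π v) (π g ^ j) := ((hgv v hv).zpow_left j).symm
  have c4 : Commute (π v) (π w) := Commute.map (hab v hv w hw) π
  exact ((c1.mul_right c2).mul_left (c3.mul_right c4)).eq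

/-- The derived subgroup is cyclic of square-free order. -/
theorem commutator_cyclic [Group.IsSolvable G]
    (h : ∀ x : G, Squarefree (centralizer ({x} : Set G)).index) :
    IsCyclic (_root_.commutator G) ∧ Squarefree (Nat.card (_root_.commutator G)) := by
  have hsf : Squarefree (Nat.card (_root_.commutator G)) := by
    refine squarefree_of_forall_prime fun p hp hd => ?_
    haveI : Fact p.Prime := ⟨hp⟩
    set K := Cfsg.pPrimeCore p G
    set π := QuotientGroup.mk' K
    have h1 := card_commutator_dvd_of_pPrimeCore_eq_bot (sq_quotient h K) (p := p)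
      Cores.pPrimeCore_quotient_pPrimeCore_eq_bot
    have hmap : (_root_.commutator G).map π = _root_.commutator (G ⧸ K) := by
      rw [_root_.commutator_def, _root_.commutator_def, map_commutator,
        map_top_of_surjective _ (QuotientGroup.mk'_surjective K)]
    set S := (_root_.commutator G)
    have h2 : Nat.card S ∣ Nat.card (S.map π) * Nat.card K := by
      have e := (π.domRestrict S).ker.index_mul_card
      rw [Subgroup.index_ker, MonoidHom.domRestrict_range] at e
      rw [← e]
      refine Nat.mul_dvd_mul_left _ ?_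
      rw [MonoidHom.ker_domRestrict, QuotientGroup.ker_mk']
      refine Dvd.dvd.trans (dvd_of_eq ?_) (card_dvd_of_le (inf_le_left (a := K) (b := S)))
      rw [← inf_subgroupOf_right]
      exact Nat.card_congr (subgroupOfEquivOfLe inf_le_right).toEquiv
    rw [hmap] at h2
    have hc : (p * p).Coprime (Nat.card K) :=
      Nat.Coprime.mul_left Cores.pPrimeCore_coprime.symm Cores.pPrimeCore_coprime.symm
    exact absurd (Nat.le_of_dvd hp.pos ((hc.dvd_mul_right.1 (hd.trans h2)).trans h1))
      (not_le.2 (lt_mul_of_one_lt_left hp.pos hp.one_lt))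
  refine ⟨?_, hsf⟩
  haveI := Supersolv.commutator_nilpotent (supersolvable_of_sqpp (sqpp_of_sq h))
  haveI : IsZGroup (_root_.commutator G) := IsZGroup.of_squarefree hsf
  infer_instance

/-- The Fitting subgroup has class at most two. -/
theorem upperCentralSeries_fitting_two [Group.IsSolvable G] (h : SqPP G) :
    Subgroup.upperCentralSeries ↥(Cfsg.fittingSubgroup G) 2 = ⊤ := by
  obtain ⟨-, hc⟩ := fitting_commutator_of_sqpp h
  set F := Cfsg.fittingSubgroup G
  rw [eq_top_iff]
  intro x _
  rw [Subgroup.mem_upperCentralSeries_succ_iff]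
  intro y
  rw [Subgroup.upperCentralSeries_one, mem_center_iff]
  intro z
  apply Subtype.ext
  have h1 : (x : G) * y * (x : G)⁻¹ * (y : G)⁻¹ ∈ centralizer (F : Set G) := by
    rw [← commutatorElement_def]
    exact hc (commutator_mem_commutator x.2 y.2)
  simpa [commutatorElement_def, mul_assoc] using mem_centralizer_iff.1 h1 z z.2

end Cfsg.Agent.FGSev
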