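import Cfsg.Agent.FGSev.SquareFree

/-!
Supersolubility and Fitting structure from square-free class sizes.
-/

namespace Cfsg.Agent.FGSev

open Subgroup
open scoped commutatorElement

universe u

/-- In the primitive case the socle has prime order. -/
theorem card_prime_of_sqpp_primitive {G : Type u} [Group G] [Finite G] [Group.IsSolvable G]
    (h : SqPP G) (M : Subgroup G) (hM : IsCoatom M) (hcore : M.normalCore = ⊥) :
    M.index.Prime := by
  classical
  haveI : Nontrivial G := by
    by_contra hn
    rw [not_nontrivial_iff_subsingleton] at hn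
    exact hM.1 (Subsingleton.elim _ _)
  by_cases hMb : M = ⊥
  · subst hMb
    rw [index_bot]
    obtain ⟨p, hp, hpd⟩ := Nat.exists_prime_and_dvd (Finite.one_lt_card (α := G)).ne'
    haveI : Fact p.Prime := ⟨hp⟩
    obtain ⟨y, hy⟩ := exists_prime_orderOf_dvd_card' p hpd
    have : zpowers y = (⊤ : Subgroup G) := hM.2 _ (bot_lt_iff_ne_bot.2 fun e => by
      rw [zpowers_eq_bot] at e
      rw [e, orderOf_one] at hy
      exact hp.ne_one hy.symm)
    rw [← Nat.card_congr topEquiv.toEquiv, ← this, Nat.card_zpowers, hy]
    exact hp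
  obtain ⟨N, hNn, hNne, hNmin⟩ := MinNormal.exists_minimal_normal (G := G)
  haveI := hNn
  obtain ⟨hNab, p, hp, -, hNp⟩ := MinNormal.elementary_abelian N hNne hNmin
  haveI : Fact p.Prime := ⟨hp⟩
  have hNM : ¬ N ≤ M := fun hle => hNne (le_bot_iff.1 (hcore ▸ normal_le_normalCore.2 hle))
  have htop : M ⊔ N = ⊤ := hM.2 _ (lt_of_le_of_ne le_sup_left fun e => hNM (e ▸ le_sup_right))
  have hcomm : ∀ a ∈ N, ∀ b ∈ N, a * b = b * a := fun a ha b hb =>
    congrArg Subtype.val (hNab.is_comm.comm (⟨a, ha⟩ : N) ⟨b, hb⟩)
  -- subgroups normalised by `M` and centralised by `N` are normal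
  have hnormal : ∀ X : Subgroup G, M ≤ normalizer (X : Set G) → N ≤ normalizer (X : Set G) →
      X.Normal := fun X h1 h2 => normalizer_eq_top_iff.1 (top_le_iff.1 (htop ▸ sup_le h1 h2))
  have hdisj : M ⊓ N = ⊥ := by
    have : (M ⊓ N).Normal := by
      refine hnormal _ ?_ ?_
      · intro m hm
        rw [mem_normalizer_iff]
        intro v
        constructor
        · rintro ⟨h1, h2⟩
          exact ⟨M.mul_mem (M.mul_mem hm h1) (M.inv_mem hm), hNn.conj_mem v h2 m⟩
        · rintro ⟨h1, h2⟩
          refine ⟨?_, ?_⟩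
          · have := M.mul_mem (M.mul_mem (M.inv_mem hm) h1) hm
            simpa [mul_assoc] using this
          · have := hNn.conj_mem _ h2 m⁻¹
            simpa [mul_assoc] using this
      · intro a ha
        rw [mem_normalizer_iff]
        intro v
        constructor
        · rintro ⟨h1, h2⟩
          rw [hcomm a ha v h2, mul_inv_cancel_right]
          exact ⟨h1, h2⟩
        · rintro ⟨h1, h2⟩
          have h3 : v ∈ N := by
            have := hNn.conj_mem _ h2 a⁻¹
            simpa [mul_assoc] using this
          rw [hcomm a ha v h3, mul_inv_cancel_right] at h1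
          exact ⟨h1, h3⟩
    exact le_bot_iff.1 (hcore ▸ normal_le_normalCore.2 inf_le_left)
  have hindex : M.index = Nat.card N := by
    have h3 := Coprime.card_sup_of_disjoint (A := M) (K := N) le_normalizer_of_normal hdisj
    rw [htop, card_top, ← M.card_mul_index] at h3
    exact Nat.eq_of_mul_eq_mul_left Nat.card_pos h3
  -- a minimal normal subgroup of `M`
  haveI : Nontrivial M := (nontrivial_iff_ne_bot M).2 hMb
  obtain ⟨R', hR'n, hR'ne, hR'min⟩ := MinNormal.exists_minimal_normal (G := M)
  haveI := hR'n
  obtain ⟨hR'ab, r, hr, -, hR'r⟩ := MinNormal.elementary_abelian R' hR'ne hR'min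
  haveI : Fact r.Prime := ⟨hr⟩
  set R := R'.map M.subtype with hR
  have hRr : IsPGroup r R := hR'r.map _
  have hRM : R ≤ M := map_subtype_le _
  have hRne : R ≠ ⊥ := fun e => hR'ne ((map_eq_bot_iff_of_injective _ M.subtype_injective).1 e)
  have hRab : ∀ a ∈ R, ∀ b ∈ R, a * b = b * a := by
    rintro _ ⟨a, ha, rfl⟩ _ ⟨b, hb, rfl⟩
    exact congrArg (fun z : R' => ((z : M) : G)) (hR'ab.is_comm.comm ⟨a, ha⟩ ⟨b, hb⟩)
  have hMR : M ≤ normalizer (R : Set G) := by
    have := le_normalizer_map (H := R') M.subtype
    refine le_trans ?_ this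
    rw [normalizer_eq_top_iff.2 hR'n, ← MonoidHom.range_eq_map, range_subtype]
  set Z := N ⊓ centralizer (R : Set G) with hZ
  have hZb : Z = ⊥ := by
    have hZn : Z.Normal := by
      refine hnormal _ ?_ ?_
      · intro m hm
        rw [mem_normalizer_iff]
        have key : ∀ m : G, m ∈ M → ∀ v ∈ Z, m * v * m⁻¹ ∈ Z := by
          rintro m hm v ⟨h1, h2⟩
          refine ⟨hNn.conj_mem v h1 m, mem_centralizer_iff.2 fun a ha => ?_⟩
          have ha' : m⁻¹ * a * m ∈ (R : Subgroup G) := by
            have := (mem_normalizer_iff.1 (inv_mem (hMR hm)) a).1 ha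
            simpa using this
          have h4 := mem_centralizer_iff.1 h2 _ ha'
          calc a * (m * v * m⁻¹) = m * ((m⁻¹ * a * m) * v) * m⁻¹ := by group
            _ = m * (v * (m⁻¹ * a * m)) * m⁻¹ := by rw [h4]
            _ = m * v * m⁻¹ * a := by group
        intro v
        refine ⟨key m hm v, fun hv => ?_⟩
        have := key m⁻¹ (inv_mem hm) _ hv
        simpa [mul_assoc] using this
      · intro a ha
        rw [mem_normalizer_iff]
        intro v
        constructor
        · intro hv
          rw [hcomm a ha v hv.1, mul_inv_cancel_right]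
          exact hv
        · intro hv
          have h3 : v ∈ N := by
            have := hNn.conj_mem _ hv.1 a⁻¹
            simpa [mul_assoc] using this
          rw [hcomm a ha v h3, mul_inv_cancel_right] at hv
          exact hv
    rcases hNmin Z hZn inf_le_left with h1 | h1
    · exact h1
    exfalso
    have hRn : R.Normal := by
      refine hnormal _ hMR fun a ha => ?_
      rw [mem_normalizer_iff]
      have hac : ∀ v ∈ R, v * a = a * v := fun v hv =>
        mem_centralizer_iff.1 ((h1.symm ▸ ha : a ∈ Z).2) v hv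
      intro v
      constructor
      · intro hv
        rw [← hac v hv, mul_inv_cancel_right]
        exact hv
      · intro hv
        have e : a * v * a⁻¹ = v := by
          have h5 := hac _ hv
          have h6 : a * v = a * (a * v * a⁻¹) := by rw [← h5]; group
          exact (mul_left_cancel h6).symm
        rwa [e] at hv
    exact hRne (le_bot_iff.1 (hcore ▸ normal_le_normalCore.2 hRM))
  have hrp : r ≠ p := by
    rintro rfl
    have hW : IsPGroup r (N ⊔ R : Subgroup G) := IsPGroup.to_sup_of_normal_left hNp hRr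
    haveI : (N.subgroupOf (N ⊔ R)).Normal := inferInstance
    have hne' : N.subgroupOf (N ⊔ R) ≠ ⊥ := by
      rw [Ne, subgroupOf_eq_bot]
      exact fun hd => hNne (disjoint_self.1 (hd.mono_right le_sup_left))
    refine PGroup.inf_center_ne_bot hW (N.subgroupOf (N ⊔ R)) hne' (eq_bot_iff.2 ?_)
    rintro ⟨v, hv⟩ ⟨h1, h2⟩
    have : v ∈ Z := ⟨h1, mem_centralizer_iff.2 fun a ha =>
      congrArg Subtype.val (mem_center_iff.1 h2 ⟨a, le_sup_right (a := N) ha⟩)⟩
    rw [hZb, mem_bot] at this
    exact mem_bot.2 (Subtype.ext this)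
  have hcopR : ∀ x ∈ R, (orderOf x).Coprime p := fun x hx =>
    orderOf_coprime_of_mem hr hRr ((Nat.coprime_primes hp hr).2 (Ne.symm hrp)) hx
  have hsq : ∀ x ∈ R, (centralizer ({x} : Set G)).relIndex N ∣ p := fun x hx =>
    relIndex_centralizer_dvd_prime hp hNp (h x (exists_ppow_of_mem hr hRr hx))
  let c : G → G → G := fun x v => x * v * x⁻¹ * v⁻¹
  have hcN : ∀ x, ∀ v ∈ N, c x v ∈ N := fun x v hv => mul_mem (hNn.conj_mem v hv x) (inv_mem hv)
  have hc1 : ∀ x v, c x v = 1 ↔ x * v = v * x := fun x v => by
    show x * v * x⁻¹ * v⁻¹ = 1 ↔ _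
    rw [mul_inv_eq_one, mul_inv_eq_iff_eq_mul]
  -- commuting elements of `R` fix the commutators of each other
  have hfix : ∀ x ∈ R, ∀ y ∈ R, ∀ v, c y v = 1 → c y (c x v) = 1 := by
    intro x hx y hy v hyv
    rw [hc1] at hyv ⊢
    have hxy := hRab x hx y hy
    simp only [c]
    calc y * (x * v * x⁻¹ * v⁻¹) = (y * x) * v * x⁻¹ * v⁻¹ := by group
      _ = x * (y * v) * x⁻¹ * v⁻¹ := by rw [← hxy]; group
      _ = x * v * (y * x⁻¹) * v⁻¹ := by rw [hyv]; group
      _ = x * v * (x⁻¹ * y) * v⁻¹ := by rw [(Commute.inv_right (show Commute y x from hxy.symm)).eq]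
      _ = x * v * x⁻¹ * (y * v⁻¹) := by group
      _ = x * v * x⁻¹ * v⁻¹ * y := by
          rw [(Commute.inv_right (show Commute y v from hyv)).eq]; group
  have hfp : ∀ x ∈ R, ∀ v ∈ N, c x (c x v) = 1 → c x v = 1 := fun x hx v hv h1 =>
    eq_one_of_fixed_commutator rfl ((hc1 _ _).1 h1)
      (orderOf_coprime_of_mem hp hNp (hcopR x hx) (hcN x v hv))
  obtain ⟨⟨x, hx⟩, hx1'⟩ := ne_bot_iff_exists_ne_one.1 hRne
  have hx1 : x ≠ 1 := fun e => hx1' (Subtype.ext e)
  -- `x` is nontrivial on `N`
  have hxN : ¬ N ≤ centralizer ({x} : Set G) := by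
    intro hle
    have hCn : (M ⊓ centralizer (N : Set G)).Normal := by
      refine hnormal _ ?_ ?_
      · intro m hm
        have key : ∀ m ∈ M, ∀ v ∈ M ⊓ centralizer (N : Set G),
            m * v * m⁻¹ ∈ M ⊓ centralizer (N : Set G) := fun m hm v hv =>
          ⟨M.mul_mem (M.mul_mem hm hv.1) (M.inv_mem hm),
            (normal_centralizer : (centralizer (N : Set G)).Normal).conj_mem v hv.2 m⟩
        rw [mem_normalizer_iff]
        intro v
        refine ⟨key m hm v, fun hv => ?_⟩
        have := key m⁻¹ (M.inv_mem hm) _ hv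
        simpa [mul_assoc] using this
      · intro a ha
        rw [mem_normalizer_iff]
        intro v
        constructor
        · intro hv
          rw [mem_centralizer_iff.1 hv.2 a ha, mul_inv_cancel_right]
          exact hv
        · intro hv
          have h5 := mem_centralizer_iff.1 hv.2 a ha
          have h6 : a * v = a * (a * v * a⁻¹) := by rw [h5]; group
          rw [← mul_left_cancel h6] at hv
          exact hv
    have hxm : x ∈ M ⊓ centralizer (N : Set G) := ⟨hRM hx, mem_centralizer_iff.2 fun v hv =>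
      mem_centralizer_singleton_iff.1 (hle hv)⟩
    rw [le_bot_iff.1 (hcore ▸ normal_le_normalCore.2 (inf_le_left (b := centralizer (N : Set G)))
      : M ⊓ centralizer (N : Set G) ≤ ⊥)] at hxm
    exact hx1 (mem_bot.1 hxm)
  have hxi : (centralizer ({x} : Set G)).relIndex N = p :=
    ((Nat.dvd_prime hp).1 (hsq x hx)).resolve_left fun e => hxN (relIndex_eq_one.1 e)
  -- all elements of `R` fix the centraliser of `x`
  have hsub : ∀ y ∈ R, N ⊓ centralizer ({x} : Set G) ≤ centralizer ({y} : Set G) := by
    intro y hy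
    by_cases hyN : N ≤ centralizer ({y} : Set G)
    · exact inf_le_left.trans hyN
    have hyi : (centralizer ({y} : Set G)).relIndex N = p :=
      ((Nat.dvd_prime hp).1 (hsq y hy)).resolve_left fun e => hyN (relIndex_eq_one.1 e)
    -- the centraliser of `x * y` lies in both centralisers
    have hxy : ∀ n ∈ N, n ∈ centralizer ({x * y} : Set G) →
        ∀ (hn : ¬ (n ∈ centralizer ({x} : Set G) ∧ n ∈ centralizer ({y} : Set G))),
        N ⊓ centralizer ({x} : Set G) ≤ centralizer ({y} : Set G) := by
      intro n hn hnc hnn v hv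
      by_contra hvy
      -- `c y v` is a nontrivial commutator fixed by `x`
      apply hnn
      have hcomb : c x (c y n) * (c y n) * c x n = 1 := by
        have h1 : c (x * y) n = 1 := (hc1 _ _).2 (mem_centralizer_singleton_iff.1 hnc).symm
        have h2 : c (x * y) n = c x (c y n) * (c y n) * c x n := by
          simp only [c]
          have hn' : c x n * c y n = c y n * c x n := hcomm _ (hcN x n hn) _ (hcN y n hn)
          simp only [c] at hn'
          calc x * y * n * (x * y)⁻¹ * n⁻¹
              = (x * (y * n * y⁻¹ * n⁻¹) * x⁻¹) * (x * n * x⁻¹ * n⁻¹) := by group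
            _ = _ := by group
        rw [← h2, h1]
      -- commutators with `y` are fixed by `x`
      let f := commMap N y fun a ha b hb => hcomm _ (hcN y a ha) b hb
      have hrange : Nat.card f.range = p := (card_range_commMap _ _ _).trans hyi
      have hcv : c y v ≠ 1 := fun e => hvy (mem_centralizer_singleton_iff.2 ((hc1 _ _).1 e).symm)
      have hxfix : ∀ m : N, f m ∈ centralizer ({x} : Set G) := by
        have h0 : zpowers (c y v) = f.range := by
          refine eq_of_le_of_card_ge (zpowers_le.2 ⟨⟨v, hv.1⟩, rfl⟩) ?_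
          rw [hrange, Nat.card_zpowers]
          have hd : orderOf (c y v) ∣ p := hrange ▸ orderOf_dvd_natCard (f.range) (x := c y v) ⟨⟨v, hv.1⟩, rfl⟩
          rcases (Nat.dvd_prime hp).1 hd with h3 | h3
          · exact absurd (orderOf_eq_one_iff.1 h3) hcv
          · exact h3.ge
        intro m
        have : f m ∈ zpowers (c y v) := h0 ▸ ⟨m, rfl⟩
        refine zpowers_le.2 ?_ this
        refine mem_centralizer_singleton_iff.2 ((hc1 _ _).1 ?_).symm
        exact hfix y hy x hx v ((hc1 _ _).2 (mem_centralizer_singleton_iff.1 hv.2).symm)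
      have h3 : c x (c y n) = 1 :=
        (hc1 _ _).2 (mem_centralizer_singleton_iff.1 (hxfix ⟨n, hn⟩)).symm
      rw [h3, one_mul] at hcomb
      have h4 : c x n = 1 := by
        refine hfp x hx n hn ?_
        rw [eq_inv_of_mul_eq_one_right hcomb, hc1]
        exact (Commute.inv_right (show Commute x (c y n) from (hc1 _ _).1 h3)).eq
      rw [h4, mul_one] at hcomb
      exact ⟨mem_centralizer_singleton_iff.2 ((hc1 _ _).1 h4).symm,
        mem_centralizer_singleton_iff.2 ((hc1 _ _).1 hcomb).symm⟩
    by_contra hnot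
    -- so the centraliser of `x * y` has index at least `p ^ 2`
    have hK : ∀ n ∈ N, n ∈ centralizer ({x * y} : Set G) →
        n ∈ centralizer ({x} : Set G) ∧ n ∈ centralizer ({y} : Set G) :=
      fun n hn hnc => not_not.1 fun hnn => hnot (hxy n hn hnc hnn)
    have hlt : (centralizer ({x * y} : Set G)).subgroupOf N < (centralizer ({x} : Set G)).subgroupOf N := by
      refine lt_of_le_of_ne (fun n hn => (hK n n.2 hn).1) fun e => hnot ?_
      intro v hv
      have : (⟨v, hv.1⟩ : N) ∈ (centralizer ({x} : Set G)).subgroupOf N := hv.2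
      rw [← e] at this
      exact (hK v hv.1 this).2
    have h1 := index_strictAnti hlt
    rw [show ((centralizer ({x} : Set G)).subgroupOf N).index = p from hxi] at h1
    exact absurd (Nat.le_of_dvd hp.pos (hsq (x * y) (mul_mem hx hy))) (not_le.2 h1)
  have hH : N ⊓ centralizer ({x} : Set G) = ⊥ := by
    rw [eq_bot_iff, ← hZb]
    exact le_inf inf_le_left fun v hv => mem_centralizer_iff.2 fun a ha =>
      (mem_centralizer_singleton_iff.1 (hsub a ha hv)).symm
  rw [hindex]
  have : Nat.card N = p := by
    rw [← hxi, Subgroup.relIndex, subgroupOf_eq_bot.2 (disjoint_iff.2 (by rw [inf_comm]; exact hH)),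
      index_bot]
  rw [this]
  exact hp

theorem coatom_index_prime_of_sqpp :
    ∀ (n : ℕ) (G : Type u) [Group G] [Finite G], Nat.card G = n → Group.IsSolvable G → SqPP G →
      ∀ M : Subgroup G, IsCoatom M → M.index.Prime := by
  intro n
  induction n using Nat.strong_induction_on with
  | _ n ih =>
    intro G _ _ hn hs h M hM
    by_cases hK : M.normalCore = ⊥
    · exact card_prime_of_sqpp_primitive h M hM hK
    have hKM : M.normalCore ≤ M := M.normalCore_le
    have hf := QuotientGroup.mk'_surjective M.normalCore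
    have hlt : Nat.card (G ⧸ M.normalCore) < n := by
      rw [← hn, card_eq_card_quotient_mul_card_subgroup M.normalCore]
      exact lt_mul_of_one_lt_right Nat.card_pos ((one_lt_card_iff_ne_bot _).2 hK)
    have hker : (QuotientGroup.mk' M.normalCore).ker ≤ M := by rwa [QuotientGroup.ker_mk']
    rw [← M.index_map_eq hf hker]
    refine ih _ hlt _ rfl inferInstance (sqpp_quotient h _) _ ⟨?_, ?_⟩
    · intro h1
      have := congrArg (Subgroup.comap (QuotientGroup.mk' M.normalCore)) h1
      rw [comap_map_eq_self hker, comap_top] at this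
      exact hM.1 this
    · intro B hB
      have h1 : M < B.comap (QuotientGroup.mk' M.normalCore) := by
        exact (comap_map_eq_self hker).symm.trans_lt
          (lt_of_le_of_ne (comap_mono hB.le) fun e => hB.ne (comap_injective hf e))
      rw [← map_comap_eq_self_of_surjective hf B, hM.2 _ h1, map_top_of_surjective _ hf]

/-- A soluble group with square-free classes of elements of prime power order is supersoluble. -/
theorem supersolvable_of_sqpp {G : Type u} [Group G] [Finite G] [hs : Group.IsSolvable G]
    (h : SqPP G) : Cfsg.IsSupersolvable G :=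
  SolvStruct.huppert_aux _ G rfl (coatom_index_prime_of_sqpp _ G rfl hs h)

end Cfsg.Agent.FGSev
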