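import Cfsg.Agent.FGSev.TIHall
import Cfsg.Agent.Cores.Fitting
import Cfsg.Agent.PermP.ZassCore
import Mathlib

/-!
Automorphism groups of soluble groups all of whose abelian subgroups are cyclic.
-/

namespace Cfsg.Agent.FGSev

open Subgroup
open scoped commutatorElement

universe u

/-- A group with a cyclic subgroup holding all squares, with two cosets, has soluble
automorphism group. -/
theorem isSolvable_mulAut_of_two_gen {P : Type u} [Group P] [Finite P] (a x : P)
    (hsq : ∀ g : P, g * g ∈ zpowers a) (hcov : ∀ g : P, ∃ k : ℤ, g = a ^ k ∨ g = x * a ^ k) :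
    Group.IsSolvable (MulAut P) := by
  classical
  set S : Subgroup P := closure (Set.range fun g : P => g * g) with hS
  haveI hSn : S.Normal := by
    refine ⟨fun v hv g => ?_⟩
    induction hv using closure_induction with
    | mem v hv =>
      obtain ⟨w, rfl⟩ := hv
      exact subset_closure ⟨g * w * g⁻¹, by group⟩
    | one => simp
    | mul v w _ _ h1 h2 => simpa [mul_assoc] using mul_mem h1 h2
    | inv v _ h1 => simpa [mul_assoc] using inv_mem h1
  have hSa : S ≤ zpowers a := (closure_le _).2 (by rintro _ ⟨g, rfl⟩; exact hsq g)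
  have hchar : ∀ (α : MulAut P), ∀ v ∈ S, α v ∈ S := by
    intro α v hv
    induction hv using closure_induction with
    | mem v hv =>
      obtain ⟨w, rfl⟩ := hv
      exact subset_closure ⟨α w, (map_mul α w w).symm⟩
    | one => simp
    | mul v w _ _ h1 h2 => simpa using mul_mem h1 h2
    | inv v _ h1 => simpa using inv_mem h1
  have hX : Nat.card (P ⧸ S) ≤ 4 := by
    let f : Bool × Bool → P ⧸ S := fun t =>
      QuotientGroup.mk ((if t.1 then x else 1) * (if t.2 then a else 1))
    have hf : Function.Surjective f := by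
      intro y
      obtain ⟨g, rfl⟩ := QuotientGroup.mk_surjective y
      have hpow : ∀ k : ℤ, ∀ c : P, (QuotientGroup.mk (c * a ^ k) : P ⧸ S) =
          QuotientGroup.mk (c * (if decide (k % 2 = 1) then a else 1)) := by
        intro k c
        rw [QuotientGroup.eq]
        have haS : a * a ∈ S := subset_closure ⟨a, rfl⟩
        rcases Int.emod_two_eq_zero_or_one k with h | h
        · have e : a ^ k = (a * a) ^ (k / 2) := by
            rw [show a * a = a ^ (2 : ℤ) by rw [zpow_two], ← zpow_mul]
            congr 1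
            omega
          simp only [h]
          simpa [e] using inv_mem (zpow_mem haS (k / 2))
        · have e : a ^ k = (a * a) ^ (k / 2) * a := by
            rw [show a * a = a ^ (2 : ℤ) by rw [zpow_two], ← zpow_mul, ← zpow_add_one]
            congr 1
            omega
          simp only [h, decide_true, if_true]
          have h2 := hSn.conj_mem _ (inv_mem (zpow_mem haS (k / 2))) a⁻¹
          have h3 : (c * a ^ k)⁻¹ * (c * a) = a⁻¹ * ((a * a) ^ (k / 2))⁻¹ * a := by rw [e]; group
          rw [h3]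
          simpa using h2
      obtain ⟨k, rfl | rfl⟩ := hcov g
      · refine ⟨(false, decide (k % 2 = 1)), ?_⟩
        have := hpow k 1
        rw [one_mul] at this
        simp only [f]
        exact this.symm
      · exact ⟨(true, decide (k % 2 = 1)), (hpow k x).symm⟩
    have := Nat.card_le_card_of_surjective f hf
    simpa using this
  haveI := PermP.Zass.solvable_perm_le_four hX
  let π : MulAut P →* Equiv.Perm (P ⧸ S) :=
    MonoidHom.mk' (fun α => (QuotientGroup.congr S S α (by
        refine le_antisymm (by rintro _ ⟨v, hv, rfl⟩; exact hchar α v hv) fun v hv => ?_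
        exact ⟨α.symm v, hchar α.symm v hv, α.apply_symm_apply v⟩)).toEquiv)
      fun α β => Equiv.ext fun y => by
        obtain ⟨g, rfl⟩ := QuotientGroup.mk_surjective y
        rfl
  -- the kernel is metabelian
  have hker : ∀ α ∈ π.ker, ∀ g : P, g⁻¹ * α g ∈ S := by
    intro α hα g
    have h := congrArg (fun e : Equiv.Perm (P ⧸ S) => e (QuotientGroup.mk g)) (MonoidHom.mem_ker.1 hα)
    have h' : (QuotientGroup.mk (α g) : P ⧸ S) = QuotientGroup.mk g := h
    exact QuotientGroup.eq.1 h'.symm
  have hka : ∀ α ∈ π.ker, ∃ k : ℤ, α a = a ^ k := by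
    intro α hα
    obtain ⟨k, hk⟩ := hSa (hker α hα a)
    exact ⟨1 + k, by rw [zpow_add, zpow_one]; simp only at hk; rw [hk, mul_inv_cancel_left]⟩
  have hfix : ∀ α ∈ π.ker, ∀ β ∈ π.ker, ⁅α, β⁆ a = a := by
    intro α hα β hβ
    obtain ⟨i, hi⟩ := hka α hα
    obtain ⟨j, hj⟩ := hka β hβ
    have hab : α (β a) = β (α a) := by
      rw [hj, map_zpow, hi, map_zpow, hj, ← zpow_mul, ← zpow_mul, mul_comm]
    obtain ⟨i', hi'⟩ := hka α⁻¹ (inv_mem hα)
    obtain ⟨j', hj'⟩ := hka β⁻¹ (inv_mem hβ)
    have hab' : α⁻¹ (β⁻¹ a) = β⁻¹ (α⁻¹ a) := by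
      rw [hj', map_zpow, hi', map_zpow, hj', ← zpow_mul, ← zpow_mul, mul_comm]
    show α (β (α⁻¹ (β⁻¹ a))) = a
    rw [hab']
    simp
  haveI : Group.IsSolvable π.range := inferInstance
  haveI : Group.IsSolvable π.ker := by
    refine ⟨2, ?_⟩
    rw [eq_bot_iff]
    refine commutator_le.2 fun α hα β hβ => ?_
    rw [derivedSeries_one] at hα hβ
    have hstep : ∀ γ ∈ _root_.commutator π.ker, (γ : MulAut P) a = a := by
      intro γ hγ
      rw [_root_.commutator_eq_closure] at hγ
      induction hγ using closure_induction with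
      | mem γ hγ =>
        obtain ⟨γ₁, γ₂, rfl⟩ := hγ
        exact hfix γ₁ γ₁.2 γ₂ γ₂.2
      | one => rfl
      | mul γ δ _ _ h1 h2 =>
        show (γ : MulAut P) ((δ : MulAut P) a) = a
        rw [h2, h1]
      | inv γ _ h1 =>
        show (γ : MulAut P).symm a = a
        conv_lhs => rw [← h1]
        exact (γ : MulAut P).symm_apply_apply a
    have ha := hstep α hα
    have hb := hstep β hβ
    rw [mem_bot, commutatorElement_eq_one_iff_mul_comm]
    apply Subtype.ext
    apply MulEquiv.ext
    intro g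
    show (α : MulAut P) ((β : MulAut P) g) = (β : MulAut P) ((α : MulAut P) g)
    obtain ⟨i, hi⟩ := hSa (hker α α.2 x)
    obtain ⟨j, hj⟩ := hSa (hker β β.2 x)
    simp only at hi hj
    have hax : (α : MulAut P) x = x * a ^ i := by rw [hi, mul_inv_cancel_left]
    have hbx : (β : MulAut P) x = x * a ^ j := by rw [hj, mul_inv_cancel_left]
    obtain ⟨k, rfl | rfl⟩ := hcov g
    · simp [map_zpow, ha, hb]
    · simp only [map_mul, map_zpow, ha, hb, hax, hbx, mul_assoc, ← zpow_add]
      congr 2
      omega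
  exact Group.isSolvable_of_ker_le_range (G := MulAut P) π.ker.subtype π.rangeRestrict (by
    rw [MonoidHom.ker_rangeRestrict, Subgroup.range_subtype])

theorem isSolvable_mulAut_of_cyclic {P : Type u} [Group P] [Finite P] [IsCyclic P] :
    Group.IsSolvable (MulAut P) := by
  obtain ⟨a, ha⟩ := IsCyclic.exists_generator (α := P)
  refine isSolvable_mulAut_of_two_gen a 1 (fun g => ha (g * g)) fun g => ?_
  obtain ⟨k, rfl⟩ := ha g
  exact ⟨k, Or.inl rfl⟩

theorem isSolvable_mulAut_quaternion {P : Type u} [Group P] [Finite P] {n : ℕ} [NeZero n]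
    (e : P ≃* QuaternionGroup n) : Group.IsSolvable (MulAut P) := by
  refine isSolvable_mulAut_of_two_gen (e.symm (.a 1)) (e.symm (.xa 0)) (fun g => ?_) fun g => ?_
  · obtain ⟨h, rfl⟩ := e.symm.surjective g
    suffices hs : ∃ k : ℤ, (QuaternionGroup.a 1 : QuaternionGroup n) ^ k = h * h by
      obtain ⟨k, hk⟩ := hs
      exact mem_zpowers_iff.2 ⟨k, by rw [← map_zpow, hk, map_mul]⟩
    cases h with
    | a i =>
      rw [QuaternionGroup.a_mul_a]
      exact ⟨((i + i).val : ℤ), by rw [zpow_natCast, QuaternionGroup.a_one_pow, ZMod.natCast_zmod_val]⟩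
    | xa i =>
      rw [QuaternionGroup.xa_mul_xa, add_sub_cancel_right]
      exact ⟨(n : ℤ), by simp [QuaternionGroup.a_one_pow]⟩
  · obtain ⟨h, rfl⟩ := e.symm.surjective g
    cases h with
    | a i =>
      refine ⟨(i.val : ℤ), Or.inl ?_⟩
      rw [zpow_natCast, ← map_pow, QuaternionGroup.a_one_pow, ZMod.natCast_zmod_val]
    | xa i =>
      refine ⟨(i.val : ℤ), Or.inr ?_⟩
      rw [zpow_natCast, ← map_pow, ← map_mul, QuaternionGroup.a_one_pow, ZMod.natCast_zmod_val,
        QuaternionGroup.xa_mul_a, zero_add]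

/-- With abelian subgroups cyclic, the `p`-cores have soluble automorphism groups. -/
theorem isSolvable_mulAut_pGroup {P : Type u} [Group P] [Finite P] {p : ℕ} [Fact p.Prime]
    (hP : IsPGroup p P) (hab : ∀ A : Subgroup P, IsMulCommutative A → IsCyclic A) :
    Group.IsSolvable (MulAut P) := by
  rcases cyclic_or_quaternion_of_abelian_cyclic hP hab with h | ⟨-, n, ⟨e⟩⟩
  · exact isSolvable_mulAut_of_cyclic
  · haveI : NeZero (2 ^ n) := ⟨(pow_pos (by norm_num) n).ne'⟩
    exact isSolvable_mulAut_quaternion e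

theorem abelian_cyclic_subgroup {H : Type u} [Group H]
    (hab : ∀ A : Subgroup H, IsMulCommutative A → IsCyclic A) (K : Subgroup H) :
    ∀ A : Subgroup K, IsMulCommutative A → IsCyclic A := by
  intro A hA
  haveI : IsMulCommutative (A.map K.subtype) := inferInstance
  haveI := hab (A.map K.subtype) inferInstance
  exact isCyclic_of_surjective _ (A.equivMapOfInjective K.subtype K.subtype_injective).symm.surjective

/-- A soluble group with all abelian subgroups cyclic has a soluble automorphism group. -/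
theorem isSolvable_mulAut_of_abelian_cyclic {H : Type u} [Group H] [Finite H] [Group.IsSolvable H]
    (hab : ∀ A : Subgroup H, IsMulCommutative A → IsCyclic A) :
    Group.IsSolvable (MulAut H) := by
  classical
  set F := Cfsg.fittingSubgroup H with hF
  let r : ∀ p : ℕ, MulAut H →* MulAut (Cfsg.pCore p H) := fun p =>
    MonoidHom.mk' (fun α => (α.subgroupMap (Cfsg.pCore p H)).trans
      (MulEquiv.subgroupCongr (Cores.map_pCore_equiv α)))
      fun α β => MulEquiv.ext fun g => Subtype.ext rfl
  have hlev : ∀ s : Finset ℕ, (∀ p ∈ s, p.Prime) → ∃ n : ℕ, ∀ α ∈ derivedSeries (MulAut H) n,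
      ∀ p ∈ s, ∀ g ∈ Cfsg.pCore p H, α g = g := by
    intro s
    induction s using Finset.induction_on with
    | empty => intro _; exact ⟨0, fun α _ p hp => absurd hp (Finset.notMem_empty p)⟩
    | insert q s _ ih =>
      intro hs
      obtain ⟨n, hn⟩ := ih fun p hp => hs p (Finset.mem_insert_of_mem hp)
      haveI : Fact q.Prime := ⟨hs q (Finset.mem_insert_self q s)⟩
      haveI := isSolvable_mulAut_pGroup (Cores.pCore_isPGroup (p := q) (G := H))
        (abelian_cyclic_subgroup hab (Cfsg.pCore q H))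
      obtain ⟨m, hm⟩ := (inferInstance : Group.IsSolvable (MulAut (Cfsg.pCore q H))).solvable
      refine ⟨max n m, fun α hα p hp g hg => ?_⟩
      rcases Finset.mem_insert.1 hp with rfl | hp
      · have h1 : r p α ∈ derivedSeries (MulAut (Cfsg.pCore p H)) m :=
          map_derivedSeries_le_derivedSeries (r p) m
            ⟨α, derivedSeries_antitone _ (le_max_right n m) hα, rfl⟩
        rw [hm, mem_bot] at h1
        exact congrArg Subtype.val (congrArg (fun β : MulAut (Cfsg.pCore p H) => β ⟨g, hg⟩) h1)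
      · exact hn α (derivedSeries_antitone _ (le_max_left n m) hα) p hp g hg
  obtain ⟨n, hn⟩ := hlev (Nat.card H).primeFactors fun p hp => Nat.prime_of_mem_primeFactors hp
  refine ⟨n + 1, ?_⟩
  rw [eq_bot_iff, derivedSeries_succ, commutator_le]
  intro α hα β hβ
  -- the fixed elements contain the Fitting subgroup
  have hfix : ∀ γ ∈ derivedSeries (MulAut H) n, ∀ f ∈ F, γ f = f := by
    intro γ hγ f hf
    let Fx : Subgroup H := MonoidHom.eqLocus (γ : H →* H) (MonoidHom.id H)
    have hle : F ≤ Fx := by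
      rw [hF, Cores.fittingSubgroup_eq_iSup_pCore]
      refine iSup_le fun p => ?_
      intro g hg
      by_cases hp : (p : ℕ) ∣ Nat.card H
      · exact hn γ hγ p (Nat.mem_primeFactors.2 ⟨p.2, hp, Nat.card_pos.ne'⟩) g hg
      · haveI : Fact (p : ℕ).Prime := ⟨p.2⟩
        obtain ⟨k, hk⟩ := IsPGroup.iff_orderOf.1 (Cores.pCore_isPGroup (p := (p : ℕ)) (G := H)) ⟨g, hg⟩
        rw [orderOf_mk] at hk
        have : g = 1 := by
          rcases Nat.eq_zero_or_pos k with h0 | h0
          · rw [h0, pow_zero, orderOf_eq_one_iff] at hk; exact hk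
          · exact absurd ((dvd_pow_self (p : ℕ) h0.ne').trans (hk ▸ orderOf_dvd_natCard g)) hp
        rw [this]; exact Fx.one_mem
    exact hle hf
  have hdelta : ∀ γ ∈ derivedSeries (MulAut H) n, ∀ h : H, h⁻¹ * γ h ∈ F ⊓ centralizer (F : Set H) := by
    intro γ hγ h
    have hc : h⁻¹ * γ h ∈ centralizer (F : Set H) := by
      rw [mem_centralizer_iff]
      intro f hf
      have h1 := hfix γ hγ _ ((inferInstance : F.Normal).conj_mem f hf h)
      rw [map_mul, map_mul, map_inv, hfix γ hγ f hf] at h1
      calc f * (h⁻¹ * γ h) = h⁻¹ * (h * f * h⁻¹) * γ h := by group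
        _ = h⁻¹ * (γ h * f * (γ h)⁻¹) * γ h := by rw [h1]
        _ = h⁻¹ * γ h * f := by group
    exact ⟨Cores.centralizer_fittingSubgroup_le hc, hc⟩
  rw [mem_bot, commutatorElement_eq_one_iff_mul_comm]
  apply MulEquiv.ext
  intro h
  show α (β h) = β (α h)
  have ha := hdelta α hα h
  have hb := hdelta β hβ h
  have e1 : α h = h * (h⁻¹ * α h) := by group
  have e2 : β h = h * (h⁻¹ * β h) := by group
  have e3 : α (β h) = h * (h⁻¹ * α h) * (h⁻¹ * β h) := by
    conv_lhs => rw [e2, map_mul, hfix α hα _ hb.1, e1]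
  have e4 : β (α h) = h * (h⁻¹ * β h) * (h⁻¹ * α h) := by
    conv_lhs => rw [e1, map_mul, hfix β hβ _ ha.1, e2]
  rw [e3, e4, mul_assoc, mem_centralizer_iff.1 hb.2 _ ha.1, ← mul_assoc]

end Cfsg.Agent.FGSev
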