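import Cfsg.Agent.FGSev.TIAut
import Cfsg.Agent.S0201
import Cfsg.Agent.S3359
import Cfsg.Agent.Coprime.Action

/-!
Solubility in the TI Hall situation: `H` is soluble unless it contains `SL(2,5)`.
-/

namespace Cfsg.Agent.FGSev

open Subgroup
open scoped commutatorElement Pointwise

universe u

abbrev SLFive : Type := Matrix.SpecialLinearGroup (Fin 2) (ZMod 5)

def slA : SLFive := ⟨!![1, 1; 0, 1], by decide⟩

def slB : SLFive := ⟨!![1, 0; 1, 1], by decide⟩

def slD : SLFive := ⟨!![2, 0; 0, 3], by decide⟩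

theorem slD_eq : slD = slA * slA * (slB * slB) * (slA * slA) *
    ((slA * slA) * (slA * slA) * slB * ((slA * slA) * (slA * slA))) := by decide +kernel

theorem slA_eq : slA = ⁅slD, slA * slA⁆ := by rw [commutatorElement_def]; decide +kernel

theorem slB_eq : slB = ⁅slD, slB * slB⁆ := by rw [commutatorElement_def]; decide +kernel

theorem slA_ne_one : slA ≠ 1 := by decide +kernel

theorem not_isSolvable_sl_five : ¬ Group.IsSolvable SLFive := by
  let x : SLFive := slA
  let y : SLFive := slB
  let d : SLFive := slD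
  have h : ∀ n, x ∈ derivedSeries SLFive n ∧ y ∈ derivedSeries SLFive n := by
    intro n
    induction n with
    | zero => exact ⟨mem_top _, mem_top _⟩
    | succ n ih =>
      have hd : d ∈ derivedSeries SLFive n := by
        rw [show d = _ from slD_eq]
        exact mul_mem (mul_mem (mul_mem (mul_mem ih.1 ih.1) (mul_mem ih.2 ih.2)) (mul_mem ih.1 ih.1))
          (mul_mem (mul_mem (mul_mem (mul_mem ih.1 ih.1) (mul_mem ih.1 ih.1)) ih.2)
            (mul_mem (mul_mem ih.1 ih.1) (mul_mem ih.1 ih.1)))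
      rw [derivedSeries_succ]
      constructor
      · rw [show x = _ from slA_eq]
        exact commutator_mem_commutator hd (mul_mem ih.1 ih.1)
      · rw [show y = _ from slB_eq]
        exact commutator_mem_commutator hd (mul_mem ih.2 ih.2)
  rintro ⟨n, hn⟩
  have h1 := (h n).1
  rw [hn, mem_bot] at h1
  exact slA_ne_one h1

/-- A nonsoluble group with abelian subgroups cyclic has a nontrivial Fitting subgroup. -/
theorem exists_pCore_ne_bot_of_abelian_cyclic {H : Type u} [Group H] [Finite H]
    (hab : ∀ A : Subgroup H, IsMulCommutative A → IsCyclic A) (hns : ¬ Group.IsSolvable H) :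
    ∃ r : ℕ, r.Prime ∧ Cfsg.pCore r H ≠ ⊥ := by
  classical
  haveI : Fact (Nat.Prime 2) := ⟨Nat.prime_two⟩
  obtain ⟨S⟩ : Nonempty (Sylow 2 H) := inferInstance
  rcases cyclic_or_quaternion_of_abelian_cyclic S.2 (abelian_cyclic_subgroup hab (S : Subgroup H))
    with hc | ⟨-, n, ⟨e⟩⟩
  · exfalso
    haveI : IsZGroup H := ⟨fun p hp P => by
      haveI := Fact.mk hp
      rcases cyclic_or_quaternion_of_abelian_cyclic P.2 (abelian_cyclic_subgroup hab (P : Subgroup H))
        with h | ⟨rfl, -⟩
      · exact h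
      · haveI := hc
        exact isCyclic_of_surjective _ (Sylow.equiv S P).surjective⟩
    exact hns inferInstance
  cases n with
  | zero =>
    exfalso
    haveI : IsZGroup H := ⟨fun p hp P => by
      haveI := Fact.mk hp
      rcases cyclic_or_quaternion_of_abelian_cyclic P.2 (abelian_cyclic_subgroup hab (P : Subgroup H))
        with h | ⟨rfl, -⟩
      · exact h
      · haveI : IsCyclic (QuaternionGroup (2 ^ 0)) := by
          rw [pow_zero]; exact QuaternionGroup.quaternionGroup_one_isCyclic
        haveI : IsCyclic (S : Subgroup H) := isCyclic_of_surjective _ e.symm.surjective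
        exact isCyclic_of_surjective _ (Sylow.equiv S P).surjective⟩
    exact hns inferInstance
  | succ n =>
    by_cases hO : Cfsg.pPrimeCore 2 H = ⊥
    · refine ⟨2, Nat.prime_two, fun h2 => ?_⟩
      have hodd : ∀ N : Subgroup H, N.Normal → Odd (Nat.card N) → N = ⊥ := fun N hN hN2 =>
        le_bot_iff.1 (hO ▸ Cores.le_pPrimeCore hN (Nat.coprime_comm.1
          (Nat.prime_two.coprime_iff_not_dvd.2 hN2.not_two_dvd_nat)))
      have hc := Cfsg.Agent.S0201.result S n e hodd
      have hle : center H ≤ Cfsg.pCore 2 H :=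
        Cores.le_pCore inferInstance (IsPGroup.of_card (n := 1) (by rw [hc, pow_one]))
      rw [h2, le_bot_iff] at hle
      rw [hle, card_bot] at hc
      omega
    · haveI : IsZGroup (Cfsg.pPrimeCore 2 H) := ⟨fun p hp P => by
        haveI := Fact.mk hp
        rcases cyclic_or_quaternion_of_abelian_cyclic P.2
          (abelian_cyclic_subgroup (abelian_cyclic_subgroup hab (Cfsg.pPrimeCore 2 H)) (P : Subgroup _))
          with h | ⟨rfl, -⟩
        · exact h
        · have h1 : (P : Subgroup (Cfsg.pPrimeCore 2 H)) = ⊥ := by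
            refine card_eq_one.1 ?_
            rw [P.card_eq_multiplicity, Nat.factorization_eq_zero_of_not_dvd
              Cores.not_dvd_card_pPrimeCore, pow_zero]
          rw [h1]; infer_instance⟩
      haveI : Nontrivial (Cfsg.pPrimeCore 2 H) := (nontrivial_iff_ne_bot _).2 hO
      obtain ⟨r, hr, hne⟩ := Cores.exists_pCore_ne_bot (G := Cfsg.pPrimeCore 2 H)
      exact ⟨r, hr, fun h => hne ((map_eq_bot_iff_of_injective _ (Subgroup.subtype_injective _)).1
        (le_bot_iff.1 (h ▸ Cores.map_subtype_pCore_le)))⟩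

variable {G : Type u} [Group G] [Finite G] {H O : Subgroup G}

theorem abelian_cyclic_of_ti (hTI : Cfsg.IsTISubset (H : Set G))
    (hOc : (Nat.card O).Coprime (Nat.card H)) [O.Normal] (hON : ¬ O ≤ normalizer (H : Set G)) :
    ∀ A : Subgroup H, IsMulCommutative A → IsCyclic A := by
  intro A hA
  haveI : IsMulCommutative (A.map H.subtype) := inferInstance
  haveI := isCyclic_of_abelian_le hTI hOc hON (A.map H.subtype) (map_subtype_le A)
  exact isCyclic_of_surjective _ (A.equivMapOfInjective H.subtype H.subtype_injective).symm.surjective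

omit [Finite G] in
/-- Frobenius complements are preserved by isomorphisms. -/
theorem isFrobeniusComplement_map {Γ L : Type*} [Group Γ] [Group L] (ψ : Γ ≃* L) {C₀ : Subgroup Γ}
    (hC : Cfsg.IsFrobeniusComplement C₀) : Cfsg.IsFrobeniusComplement (C₀.map ψ.toMonoidHom) := by
  refine ⟨?_, ?_, ?_⟩
  · exact fun e => hC.1 ((map_eq_bot_iff_of_injective _ ψ.injective).1 e)
  · intro e
    refine hC.2.1 (Subgroup.map_injective (f := ψ.toMonoidHom) ψ.injective ?_)
    rw [e, map_top_of_surjective ψ.toMonoidHom ψ.surjective]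
  · intro g hg
    obtain ⟨g, rfl⟩ := ψ.surjective g
    rw [eq_bot_iff]
    rintro z ⟨⟨k, hk, rfl⟩, hz⟩
    change ψ k ∈ MulAut.conj (ψ g) • C₀.map ψ.toMonoidHom at hz
    rw [mem_pointwise_smul_iff_inv_smul_mem] at hz
    obtain ⟨l, hl, hle⟩ := hz
    have hk' : k ∈ C₀ ⊓ MulAut.conj g • C₀ := by
      refine ⟨hk, ?_⟩
      show k ∈ MulAut.conj g • C₀
      rw [mem_pointwise_smul_iff_inv_smul_mem]
      have : l = (MulAut.conj g)⁻¹ • k := ψ.injective (by
        refine hle.trans ?_
        simp [MulAut.smul_def, MulAut.conj_inv_apply, map_mul, map_inv])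
      exact this ▸ hl
    rw [hC.2.2 g (fun hgC => hg ⟨g, hgC, rfl⟩), mem_bot] at hk'
    rw [mem_bot, hk', map_one]

/-- `H` with a nontrivial normal `r`-subgroup is a Frobenius complement. -/
theorem exists_frobenius_of_ti (hTI : Cfsg.IsTISubset (H : Set G))
    (hOc : (Nat.card O).Coprime (Nat.card H)) [hOn : O.Normal] (hON : ¬ O ≤ normalizer (H : Set G))
    {r : ℕ} [Fact r.Prime] (hr : Cfsg.pCore r H ≠ ⊥) :
    ∃ (L : Type) (_ : Group L) (_ : Finite L) (C : Subgroup L),
      Cfsg.IsFrobeniusComplement C ∧ Nonempty (H ≃* C) := by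
  classical
  have hOH : O ⊓ H = ⊥ := inf_eq_bot_of_coprime hOc
  set R := (Cfsg.pCore r H).map H.subtype with hR
  have hRr : IsPGroup r R := Cores.pCore_isPGroup.map _
  have hRH : R ≤ H := map_subtype_le _
  have hRne : R ≠ ⊥ := fun e => hr ((map_eq_bot_iff_of_injective _ H.subtype_injective).1 e)
  have hRn : H ≤ normalizer (R : Set G) := by
    refine le_trans ?_ (le_normalizer_map (H := Cfsg.pCore r H) H.subtype)
    rw [normalizer_eq_top_iff.2 inferInstance, ← MonoidHom.range_eq_map, range_subtype]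
  set D := O ⊓ centralizer (H : Set G) with hD
  -- the fixed points of every nontrivial element are the same
  have hDel : ∀ h ∈ H, h ≠ 1 → ∀ g ∈ O, g * h = h * g → g ∈ D := by
    intro h hh h1 g hg hc
    have hgN := mem_normalizer_of_commute_ti hTI hh h1 hc
    refine ⟨hg, mem_centralizer_iff.2 fun v hv => ?_⟩
    have h2 : g * v * g⁻¹ * v⁻¹ ∈ O ⊓ H := ⟨by
      have := mul_mem hg (hOn.conj_mem _ (inv_mem hg) v)
      simpa [mul_assoc] using this,
      H.mul_mem ((mem_normalizer_iff.1 hgN v).1 hv) (H.inv_mem hv)⟩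
    rw [hOH, mem_bot] at h2
    exact (commutatorElement_eq_one_iff_mul_comm.1 h2).symm
  have hDR : O ⊓ centralizer (R : Set G) ≤ D := by
    intro g hg
    obtain ⟨⟨a, ha⟩, ha1⟩ := ne_bot_iff_exists_ne_one.1 hRne
    exact hDel a (hRH ha) (fun e => ha1 (Subtype.ext e)) g hg.1 (mem_centralizer_iff.1 hg.2 a ha).symm
  -- a prime at which the fixed points are small
  have hDlt : Nat.card D < Nat.card O := by
    refine lt_of_le_of_ne (Nat.le_of_dvd Nat.card_pos (card_dvd_of_le inf_le_left)) fun e => hON ?_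
    rw [← eq_of_le_of_card_ge (inf_le_left (a := O) (b := centralizer (H : Set G))) e.ge]
    exact inf_le_right.trans (centralizer_le_normalizer _)
  obtain ⟨q, hq, hqD⟩ : ∃ q : ℕ, q.Prime ∧
      (Nat.card D).factorization q < (Nat.card O).factorization q := by
    by_contra hcon
    push Not at hcon
    refine absurd (Nat.le_of_dvd Nat.card_pos ((Nat.factorization_le_iff_dvd Nat.card_pos.ne'
      Nat.card_pos.ne').1 fun q => ?_)) (not_le.2 hDlt)
    by_cases hq : q.Prime
    · exact hcon q hq
    · rw [Nat.factorization_eq_zero_of_not_prime _ hq]; exact Nat.zero_le _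
  haveI := Fact.mk hq
  haveI : Group.IsNilpotent R := hRr.isNilpotent
  have hRO : R ≤ normalizer (O : Set G) := by rw [normalizer_eq_top]; exact le_top
  have hcopR : (Nat.card R).Coprime (Nat.card O) := hOc.symm.coprime_dvd_left (card_dvd_of_le hRH)
  obtain ⟨P, hP⟩ := Coprime.exists_invariant_sylow q hRO hcopR (Or.inl inferInstance)
  set Pm := (P : Subgroup O).map O.subtype with hPm
  have hPO : Pm ≤ O := map_subtype_le _
  have hPp : IsPGroup q Pm := P.2.map _
  have hPD : ¬ Pm ≤ D := by
    intro hle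
    have h1 := card_dvd_of_le hle
    rw [hPm, Coprime.card_sylow_map] at h1
    exact absurd ((hq.pow_dvd_iff_le_factorization Nat.card_pos.ne').1 h1) (not_le.2 hqD)
  -- all of `H` normalises it
  have hHP : H ≤ normalizer (Pm : Set G) := by
    intro k hk
    have hkP : MulAut.conj k • Pm ≤ O := (Coprime.conj_smul_mono hPO k).trans
      (Coprime.conj_smul_eq_self_iff.2 (by rw [normalizer_eq_top]; exact mem_top k)).le
    obtain ⟨P', hP'⟩ := Coprime.exists_sylow_map_eq hkP
      (by rw [Coprime.card_conj_smul, hPm, Coprime.card_sylow_map])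
    have hRP' : R ≤ normalizer ((P' : Subgroup O).map O.subtype : Set G) := by
      rw [hP', ← Coprime.conj_smul_normalizer]
      refine le_trans (le_of_eq ?_) (Coprime.conj_smul_mono hP k)
      exact (Coprime.conj_smul_eq_self_iff.2 (hRn hk)).symm
    obtain ⟨c, hc, hcP⟩ := Coprime.exists_centralizer_conj_sylow hRO hcopR (Or.inl inferInstance)
      P P' hP hRP'
    rw [hP', ← hPm] at hcP
    have hcD : c ∈ D := hDR hc
    have hcomm : Commute c⁻¹ k :=
      (show Commute c k from (mem_centralizer_iff.1 hcD.2 k hk).symm).inv_left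
    have hm : c⁻¹ * k ∈ normalizer (Pm : Set G) := by
      rw [← Coprime.conj_smul_eq_self_iff, ← Coprime.conj_smul_conj_smul, ← hcP,
        Coprime.conj_smul_conj_smul]
      simp
    have h1 := pow_mem hm (orderOf c)
    rw [hcomm.mul_pow, inv_pow, pow_orderOf_eq_one, inv_one, one_mul] at h1
    obtain ⟨j, hj⟩ := exists_pow_eq_self_of_coprime (x := k)
      ((hOc.coprime_dvd_left (O.orderOf_dvd_natCard hc.1)).coprime_dvd_right
        (H.orderOf_dvd_natCard hk))
    rw [← hj]
    exact pow_mem h1 j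
  set E := Pm ⊓ D with hE
  set W := Pm ⊓ normalizer (E : Set G) with hW
  have hHD : H ≤ centralizer (D : Set G) := fun h hh => mem_centralizer_iff.2 fun d hd =>
    (mem_centralizer_iff.1 hd.2 h hh).symm
  have hHE : H ≤ centralizer (E : Set G) := hHD.trans (centralizer_le inf_le_right)
  have hEW : E ≤ W := le_inf inf_le_left le_normalizer
  have hHW : H ≤ normalizer (W : Set G) :=
    (le_inf hHP ((hHE.trans (centralizer_le_normalizer _)).trans le_normalizer)).trans
      inf_normalizer_le_normalizer_inf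
  have hWE : ¬ W ≤ E := by
    intro hle
    haveI : Group.IsNilpotent Pm := hPp.isNilpotent
    have hlt : E.subgroupOf Pm < ⊤ := by
      rw [lt_top_iff_ne_top]
      exact fun e => hPD ((subgroupOf_eq_top.1 e).trans inf_le_right)
    obtain ⟨w, hw, hwE⟩ := SetLike.exists_of_lt
      (Group.normalizerCondition_of_isNilpotent (G := Pm) _ hlt)
    refine hwE (hle ⟨w.2, ?_⟩)
    show (w : G) ∈ normalizer (E : Set G)
    rw [mem_normalizer_iff]
    intro v
    constructor <;> intro hv
    · exact (mem_normalizer_iff.1 hw ⟨v, hv.1⟩).1 hv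
    · have hvR : v ∈ Pm := by
        simpa [mul_assoc] using mul_mem (mul_mem (inv_mem w.2) hv.1) w.2
      exact (mem_normalizer_iff.1 hw ⟨v, hvR⟩).2 hv
  set Γ := W ⊔ H with hΓ
  have hΓE : Γ ≤ normalizer (E : Set G) :=
    sup_le inf_le_right (hHE.trans (centralizer_le_normalizer _))
  haveI : (E.subgroupOf Γ).Normal :=
    (normal_subgroupOf_iff_le_normalizer (hEW.trans le_sup_left)).2 hΓE
  let mk := QuotientGroup.mk' (E.subgroupOf Γ)
  set C₀ := (H.subgroupOf Γ).map mk with hC₀
  have hWH : ∀ v, v ∈ W → v ∈ H → v = 1 := fun v hv hv' => by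
    have : v ∈ O ⊓ H := ⟨hPO hv.1, hv'⟩
    rwa [hOH, mem_bot] at this
  have hEO : ∀ v, v ∈ E → v ∈ W := fun v hv => hEW hv
  have hinj : Function.Injective (mk.comp (Subgroup.inclusion (le_sup_right : H ≤ Γ))) := by
    rw [injective_iff_map_eq_one]
    intro h hh
    have h1 : (h : G) ∈ E := (QuotientGroup.eq_one_iff (N := E.subgroupOf Γ) _).1 hh
    exact Subtype.ext (hWH _ (hEO _ h1) h.2)
  have hdec : ∀ t : Γ, ∃ w ∈ W, ∃ h ∈ H, (t : G) = w * h := by
    intro t
    have : (t : G) ∈ W ⊔ H := t.2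
    rw [← SetLike.mem_coe, coe_mul_of_right_le_normalizer_left W H hHW] at this
    obtain ⟨w, hw, h, hh, e⟩ := Set.mem_mul.1 this
    exact ⟨w, hw, h, hh, e.symm⟩
  have hC : Cfsg.IsFrobeniusComplement C₀ := by
    refine ⟨fun e => ?_, fun e => ?_, fun g hg => ?_⟩
    · obtain ⟨⟨a, ha⟩, ha1⟩ := ne_bot_iff_exists_ne_one.1 hRne
      have h1 : mk ⟨a, (le_sup_right : H ≤ Γ) (hRH ha)⟩ ∈ C₀ := ⟨_, hRH ha, rfl⟩
      rw [e, mem_bot] at h1
      have : (⟨a, hRH ha⟩ : H) = 1 := hinj (by rw [map_one]; exact h1)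
      exact ha1 (Subtype.ext (congrArg (fun z : H => (z : G)) this))
    · apply hWE
      intro w hw
      have h1 : mk ⟨w, (le_sup_left : W ≤ Γ) hw⟩ ∈ C₀ := e ▸ mem_top _
      obtain ⟨h, hh, he⟩ := h1
      have h2 : (h : G)⁻¹ * w ∈ E := (QuotientGroup.eq (s := E.subgroupOf Γ)).1 he
      have h3 : (h : G) ∈ W := by
        have := W.mul_mem hw (W.inv_mem (hEO _ h2))
        simpa [mul_assoc] using this
      rw [hWH _ h3 hh] at h2
      simpa using h2
    · obtain ⟨t, rfl⟩ := QuotientGroup.mk'_surjective _ g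
      obtain ⟨w, hw, h, hh, ht⟩ := hdec t
      set w' : Γ := ⟨w, (le_sup_left : W ≤ Γ) hw⟩ with hw'
      set h' : Γ := ⟨h, (le_sup_right : H ≤ Γ) hh⟩ with hh'
      have ht' : t = w' * h' := Subtype.ext ht
      rw [eq_bot_iff]
      rintro z ⟨⟨k, hk, rfl⟩, hz⟩
      change mk k ∈ MulAut.conj (mk t) • C₀ at hz
      rw [mem_pointwise_smul_iff_inv_smul_mem] at hz
      obtain ⟨l, hl, hle⟩ := hz
      have hl' : mk k = mk t * mk l * (mk t)⁻¹ := by
        rw [hle]
        simp only [MulAut.smul_def, ← map_inv, MulAut.conj_apply, inv_inv]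
        group
        simp [mk]
      set l' : Γ := h' * l * h'⁻¹ with hl''
      have hl'H : (l' : G) ∈ H := H.mul_mem (H.mul_mem hh hl) (H.inv_mem hh)
      have hkl : mk k = mk w' * mk l' * (mk w')⁻¹ := by
        rw [hl', ht', hl'', map_mul, map_mul, map_mul, map_inv]; group
      -- the two elements of `H` agree
      have h4 : (k : G)⁻¹ * (w * l' * w⁻¹) ∈ E := by
        rw [← map_inv, ← map_mul, ← map_mul] at hkl
        exact (QuotientGroup.eq (s := E.subgroupOf Γ)).1 hkl
      have h5 : (k : G)⁻¹ * l' ∈ W := by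
        have hlw : (l' : G)⁻¹ * w * l' ∈ W := by
          have := (mem_normalizer_iff.1 (inv_mem (hHW hl'H)) w).1 hw
          simpa using this
        have e : (k : G)⁻¹ * l' = ((k : G)⁻¹ * (w * l' * w⁻¹)) * (w * ((l' : G)⁻¹ * w * l')⁻¹) := by
          group
        rw [e]
        exact W.mul_mem (hEO _ h4) (W.mul_mem hw (W.inv_mem hlw))
      have hkl' : (k : G) = l' := inv_mul_eq_one.1 (hWH _ h5 (H.mul_mem (H.inv_mem hk) hl'H))
      rw [mem_bot]
      by_contra hne
      have hk1 : (k : G) ≠ 1 := fun e => hne (by rw [show k = 1 from Subtype.ext e, map_one])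
      have hkl2 : k = l' := Subtype.ext hkl'
      rw [← hkl2] at hkl
      have hcm : Commute (mk w') (mk k) := mul_inv_eq_iff_eq_mul.1 hkl.symm
      apply hg
      suffices hwE : w ∈ E by
        have h1 : mk w' = 1 := (QuotientGroup.eq_one_iff _).2 hwE
        rw [show QuotientGroup.mk' (E.subgroupOf Γ) = mk from rfl, ht', map_mul, h1, one_mul]
        exact ⟨h', hh, rfl⟩
      have hfix : ∀ a ∈ zpowers (k : G), w⁻¹ * a * w * a⁻¹ ∈ E := by
        intro a ha
        obtain ⟨i, rfl⟩ := ha
        have h6 : mk (w'⁻¹ * k ^ i * w' * (k ^ i)⁻¹) = 1 := by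
          simp only [map_mul, map_inv, map_zpow]
          rw [mul_assoc _ (mk k ^ i) (mk w'), ← (hcm.zpow_right i).eq]
          group
        have h7 := (QuotientGroup.eq_one_iff _).1 h6
        simpa [mem_subgroupOf] using h7
      have hkN : zpowers (k : G) ≤ normalizer (E : Set G) :=
        zpowers_le.2 ((hHE.trans (centralizer_le_normalizer _)) hk)
      obtain ⟨c, hc, hcE⟩ := Coprime.exists_fixed_mem_coset (K := W) hkN
        ((hOc.symm.coprime_dvd_right (card_dvd_of_le ((hEW.trans inf_le_left).trans hPO))).coprime_dvd_left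
          (card_dvd_of_le (zpowers_le.2 hk))) (Or.inl inferInstance) hEW hw hfix
      have hcD : c ∈ D := hDel k hk hk1 c (hPO hc.1.1)
        (mem_centralizer_iff.1 hc.2 k (mem_zpowers _)).symm
      have h8 : w⁻¹ ∈ E := by
        have := E.mul_mem hcE (E.inv_mem (⟨hc.1.1, hcD⟩ : c ∈ E))
        simpa [mul_assoc] using this
      simpa using E.inv_mem h8
  let e₀ : H ≃* C₀ := (MonoidHom.ofInjective hinj).trans (MulEquiv.subgroupCongr (by
    rw [MonoidHom.range_comp, Subgroup.inclusion_range]))
  -- move to the lowest universe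
  let ψ : (↥Γ ⧸ E.subgroupOf Γ) ≃* Shrink.{0} (↥Γ ⧸ E.subgroupOf Γ) := Shrink.mulEquiv.symm
  exact ⟨Shrink.{0} (↥Γ ⧸ E.subgroupOf Γ), inferInstance, Finite.of_equiv _ ψ.toEquiv,
    C₀.map ψ.toMonoidHom, isFrobeniusComplement_map ψ hC,
    ⟨e₀.trans (C₀.equivMapOfInjective ψ.toMonoidHom ψ.injective)⟩⟩

/-- `H` is soluble unless it contains a copy of `SL(2,5)`. -/
theorem isSolvable_of_ti (hTI : Cfsg.IsTISubset (H : Set G))
    (hOc : (Nat.card O).Coprime (Nat.card H)) [O.Normal] (hON : ¬ O ≤ normalizer (H : Set G))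
    (hno : ∀ K : Subgroup G, K ≤ H → ¬ Nonempty (K ≃* SLFive)) : Group.IsSolvable H := by
  by_contra hns
  obtain ⟨r, hr, hrne⟩ :=
    exists_pCore_ne_bot_of_abelian_cyclic (abelian_cyclic_of_ti hTI hOc hON) hns
  haveI := Fact.mk hr
  obtain ⟨G₀, -, -, S, M, -, -, -, ⟨e⟩, -⟩ :=
    Cfsg.Agent.S3359.result (G := H) hns (exists_frobenius_of_ti hTI hOc hON hrne)
  exact hno (S.map H.subtype) (map_subtype_le S)
    ⟨(S.equivMapOfInjective H.subtype H.subtype_injective).symm.trans e⟩

/-- `G = O N_G(H)` is soluble when `O` and `H` are. -/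
theorem isSolvable_of_sup_normalizer (hOc : (Nat.card O).Coprime (Nat.card H)) [hOn : O.Normal]
    (hmax : ∀ K : Subgroup G, K.Normal → (Nat.card K).Coprime (Nat.card H) → K ≤ O)
    (hHall : (Nat.card H).Coprime H.index)
    (hON : O ⊔ normalizer (H : Set G) = ⊤)
    [Group.IsSolvable O] [Group.IsSolvable H]
    (hab : ∀ A : Subgroup H, IsMulCommutative A → IsCyclic A) : Group.IsSolvable G := by
  classical
  set N := normalizer (H : Set G) with hN
  set C := centralizer (H : Set G) with hC
  set π := QuotientGroup.mk' O with hπ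
  have hCN : C ≤ N := centralizer_le_normalizer _
  have hrelN : H.relIndex C ∣ H.relIndex N := by
    haveI : (H.subgroupOf N).Normal := normal_in_normalizer
    rw [← relIndex_subgroupOf (H := H) hCN]
    exact relIndex_dvd_index_of_normal _ _
  -- the Hall complement of `Z(H)` in the centraliser
  set Z := (H ⊓ C).subgroupOf C with hZ
  have hZc : ∀ z ∈ Z, ∀ c : C, c * z = z * c := fun z hz c =>
    Subtype.ext (mem_centralizer_iff.1 c.2 (z : G) hz.1).symm
  haveI hZn : Z.Normal := ⟨fun z hz c => by rwa [hZc z hz c, mul_inv_cancel_right]⟩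
  have hZH : Nat.card Z ∣ Nat.card H := by
    rw [hZ, Nat.card_congr (subgroupOfEquivOfLe inf_le_right).toEquiv]
    exact card_dvd_of_le inf_le_left
  have hZi : (Nat.card Z).Coprime Z.index := by
    refine (hHall.coprime_dvd_left hZH).coprime_dvd_right ?_
    have h1 : Z.index = H.relIndex C := by
      show (H ⊓ C).relIndex C = H.relIndex C
      exact inf_relIndex_right H C
    have h2 : H.relIndex C ∣ H.relIndex N := hrelN
    exact h1 ▸ h2.trans (relIndex_dvd_index_of_le le_normalizer)
  obtain ⟨K, hK⟩ := exists_right_complement'_of_coprime hZi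
  have hKi : Z.index = Nat.card K := hK.symm.index_eq_card
  haveI hKn : K.Normal := by
    rw [← normalizer_eq_top_iff, eq_top_iff, ← hK.sup_eq_top]
    refine sup_le (fun z hz => centralizer_le_normalizer _ ?_) le_normalizer
    exact mem_centralizer_iff.2 fun c _ => hZc z hz c
  set Kg := K.map C.subtype with hKg
  have hKco : (Nat.card Kg).Coprime (Nat.card H) := by
    rw [hKg, card_map_of_injective C.subtype_injective, ← hKi]
    have h1 : Z.index = H.relIndex C := inf_relIndex_right H C
    rw [h1]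
    exact (hHall.coprime_dvd_right
      (hrelN.trans (relIndex_dvd_index_of_le le_normalizer))).symm
  have hKidx : K.index = Nat.card Z := hK.index_eq_card
  have hNK : ∀ n ∈ N, ∀ k ∈ Kg, n * k * n⁻¹ ∈ Kg := by
    rintro n hn _ ⟨k, hk, rfl⟩
    have hmem : n * (k : G) * n⁻¹ ∈ C := by
      refine mem_centralizer_iff.2 fun v hv => ?_
      have hv' : n⁻¹ * v * n ∈ H := by
        have := (mem_normalizer_iff.1 (inv_mem hn) v).1 hv
        simpa using this
      have h4 := mem_centralizer_iff.1 k.2 _ hv'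
      calc v * (n * (k : G) * n⁻¹) = n * ((n⁻¹ * v * n) * k) * n⁻¹ := by group
        _ = n * ((k : G) * (n⁻¹ * v * n)) * n⁻¹ := by rw [h4]
        _ = n * (k : G) * n⁻¹ * v := by group
    refine ⟨⟨_, hmem⟩, Cfsg.Agent.Element.mem_of_coprime_index (N := K) ?_, rfl⟩
    rw [hKidx, orderOf_mk, ← MulAut.conj_apply, MulEquiv.orderOf_eq, Subgroup.orderOf_coe]
    exact (hKi ▸ hZi).symm.coprime_dvd_left (K.orderOf_dvd_natCard hk)
  have hKO : Kg ≤ O := by
    refine le_trans le_sup_right (hmax (O ⊔ Kg) ?_ ?_)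
    · rw [← normalizer_eq_top_iff, eq_top_iff, ← hON]
      refine sup_le (le_sup_left.trans le_normalizer) fun n hn => ?_
      have hk : ∀ n ∈ N, O ⊔ Kg ≤ (O ⊔ Kg).comap (MulAut.conj n).toMonoidHom := fun n hn =>
        sup_le (fun o ho => le_sup_left (b := Kg) (hOn.conj_mem o ho n))
          (fun k hk => le_sup_right (a := O) (hNK n hn k hk))
      rw [mem_normalizer_iff]
      intro v
      refine ⟨fun hv => hk n hn hv, fun hv => ?_⟩
      have h9 : n⁻¹ * (n * v * n⁻¹) * n⁻¹⁻¹ ∈ O ⊔ Kg := hk n⁻¹ (inv_mem hn) hv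
      simpa [mul_assoc] using h9
    · rw [sup_comm]
      exact Nat.Coprime.coprime_dvd_left (Cores.card_sup_dvd_mul Kg O) (hKco.mul_left hOc)
  -- the centraliser is soluble
  haveI : Group.IsSolvable C := by
    let f : C →* G ⧸ O := π.comp C.subtype
    have hker : Group.IsSolvable f.ker := by
      let i : f.ker →* O := MonoidHom.mk' (fun x => ⟨(x : C), (QuotientGroup.eq_one_iff _).1 x.2⟩)
        fun a b => rfl
      exact Group.isSolvable_of_isSolvable_injective (f := i) fun a b hab' =>
        Subtype.ext (Subtype.ext (congrArg (fun z : O => (z : G)) hab'))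
    have hrange : ∀ a b : C, f a * f b = f b * f a := by
      have hsur : ∀ a : C, ∃ z ∈ Z, f a = f z := by
        intro a
        obtain ⟨z, hz, k, hk, rfl⟩ := Subgroup.mem_sup_of_normal_right.1
          (hK.sup_eq_top ▸ mem_top a : a ∈ Z ⊔ K)
        refine ⟨z, hz, ?_⟩
        rw [map_mul, show f k = 1 from (QuotientGroup.eq_one_iff _).2 (hKO ⟨k, hk, rfl⟩), mul_one]
      intro a b
      obtain ⟨z, hz, ha⟩ := hsur a
      obtain ⟨w, -, hb⟩ := hsur b
      rw [ha, hb, ← map_mul, ← map_mul, hZc z hz w]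
    haveI : Group.IsSolvable f.range := Group.isSolvable_of_comm (by
      rintro ⟨_, a, rfl⟩ ⟨_, b, rfl⟩
      exact Subtype.ext (hrange a b))
    haveI := hker
    exact Group.isSolvable_of_ker_le_range (G := C) f.ker.subtype f.rangeRestrict (by
      rw [MonoidHom.ker_rangeRestrict, Subgroup.range_subtype])
  haveI : Group.IsSolvable N := by
    haveI := isSolvable_mulAut_of_abelian_cyclic hab
    refine Group.isSolvable_of_ker_le_range (G := N) (Subgroup.inclusion hCN)
      (normalizerMonoidHom H) ?_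
    rw [normalizerMonoidHom_ker, Subgroup.inclusion_range]
  refine Group.isSolvable_of_ker_le_range (G' := O) (G'' := G ⧸ O) O.subtype π ?_
    (hG'' := Group.isSolvable_of_surjective (f := π.comp N.subtype) ?_)
  · rw [hπ, QuotientGroup.ker_mk', Subgroup.range_subtype]
  · rw [← MonoidHom.range_eq_top, MonoidHom.range_comp, Subgroup.range_subtype]
    have h := congrArg (Subgroup.map π) hON
    rw [map_top_of_surjective _ (QuotientGroup.mk'_surjective O), Subgroup.map_sup,
      show O.map π = ⊥ from (Subgroup.map_eq_bot_iff O).2 (by rw [hπ, QuotientGroup.ker_mk']),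
      bot_sup_eq] at h
    exact h

end Cfsg.Agent.FGSev
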