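import Mathlib.NumberTheory.Bertrand
import Mathlib.NumberTheory.Primorial
import Mathlib.Data.Nat.Choose.Factorization
import Mathlib.Tactic.NormNum.Prime
import Mathlib.Data.Nat.Sqrt

/-!
A Bertrand postulate for two primes: for `n ≥ 9` the interval `(n, 2n]` contains two primes
differing by at least three.
-/

namespace Cfsg.Agent.FGSev

open Finset Nat

/-- If all primes of `(n, 2n]` lie within an interval of length two, `centralBinom n` is small. -/
theorem centralBinom_le_of_clustered_primes (n : ℕ) (hn : 3 ≤ n)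
    (hno : ∀ a b : ℕ, a.Prime → b.Prime → n < a → b ≤ 2 * n → b < a + 3) :
    centralBinom n ≤ (2 * n) ^ (sqrt (2 * n) + 3) * 4 ^ (2 * n / 3) := by
  have n2_pos : 1 ≤ 2 * n := by omega
  let f x := x ^ n.centralBinom.factorization x
  let S := {p ∈ Finset.range (2 * n + 1) | Nat.Prime p}
  have hS : ∏ x ∈ S, f x = n.centralBinom := by
    rw [← n.prod_pow_factorization_centralBinom]
    refine Finset.prod_filter_of_ne fun p _ h => ?_
    contrapose h; dsimp only [f]
    rw [factorization_eq_zero_of_not_prime n.centralBinom h, _root_.pow_zero]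
  rw [← hS, ← Finset.prod_filter_mul_prod_filter_not S (· ≤ sqrt (2 * n)),
    ← Finset.prod_filter_mul_prod_filter_not ({p ∈ S | ¬ p ≤ sqrt (2 * n)}) (· ≤ 2 * n / 3)]
  have h1 : ∏ x ∈ {p ∈ S | p ≤ sqrt (2 * n)}, f x ≤ (2 * n) ^ sqrt (2 * n) := by
    refine (Finset.prod_le_prod' fun p _ => (?_ : f p ≤ 2 * n)).trans ?_
    · exact pow_factorization_choose_le (by omega)
    rw [Finset.prod_const]
    refine pow_right_mono₀ n2_pos ?_
    refine (Finset.card_le_card (t := Finset.Icc 1 (sqrt (2 * n))) fun x hx => ?_).trans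
      (by rw [Nat.card_Icc, Nat.add_sub_cancel])
    obtain ⟨h1, h2⟩ := Finset.mem_filter.1 hx
    exact Finset.mem_Icc.mpr ⟨(Finset.mem_filter.1 h1).2.one_lt.le, h2⟩
  have h2 : ∏ x ∈ {p ∈ {p ∈ S | ¬ p ≤ sqrt (2 * n)} | p ≤ 2 * n / 3}, f x ≤ 4 ^ (2 * n / 3) := by
    refine le_trans ?_ (primorial_le_four_pow (2 * n / 3))
    refine (Finset.prod_le_prod' fun p hp => (?_ : f p ≤ p)).trans ?_
    · obtain ⟨h1, -⟩ := Finset.mem_filter.1 hp
      obtain ⟨h1, h2⟩ := Finset.mem_filter.1 h1
      refine (pow_right_mono₀ (Finset.mem_filter.1 h1).2.one_lt.le ?_).trans (pow_one p).le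
      exact Nat.factorization_choose_le_one (sqrt_lt'.mp <| not_le.1 h2)
    refine Finset.prod_le_prod_of_subset_of_one_le' (fun p hp => ?_) ?_
    · obtain ⟨h1, h3⟩ := Finset.mem_filter.1 hp
      exact Finset.mem_filter.2 ⟨Finset.mem_range.2 (by omega),
        (Finset.mem_filter.1 (Finset.mem_filter.1 h1).1).2⟩
    · exact fun p hp _ => (Finset.mem_filter.1 hp).2.one_lt.le
  have h3 : ∏ x ∈ {p ∈ {p ∈ S | ¬ p ≤ sqrt (2 * n)} | ¬ p ≤ 2 * n / 3}, f x ≤ (2 * n) ^ 3 := by
    rw [← Finset.prod_filter_of_ne (p := fun p => n < p) (fun p hp h => by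
      by_contra hpn
      apply h
      obtain ⟨-, h2⟩ := Finset.mem_filter.1 hp
      dsimp only [f]
      rw [Nat.factorization_centralBinom_of_two_mul_self_lt_three_mul (by omega) (by omega)
        (by omega), _root_.pow_zero])]
    refine (Finset.prod_le_prod' fun p _ => (?_ : f p ≤ 2 * n)).trans ?_
    · exact pow_factorization_choose_le (by omega)
    rw [Finset.prod_const]
    refine pow_right_mono₀ n2_pos ?_
    rcases Finset.eq_empty_or_nonempty
      {p ∈ {p ∈ {p ∈ S | ¬ p ≤ sqrt (2 * n)} | ¬ p ≤ 2 * n / 3} | n < p} with h | h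
    · rw [h]; simp
    · refine (Finset.card_le_card (t := Finset.Icc (Finset.min' _ h) (Finset.min' _ h + 2))
        fun x hx => ?_).trans (by rw [Nat.card_Icc]; omega)
      have hmem := Finset.min'_mem _ h
      have hle := Finset.min'_le _ x hx
      have hP : ∀ y ∈ {p ∈ {p ∈ {p ∈ S | ¬ p ≤ sqrt (2 * n)} | ¬ p ≤ 2 * n / 3} | n < p},
          y.Prime ∧ n < y ∧ y ≤ 2 * n := fun y hy => by
        simp only [S, Finset.mem_filter, Finset.mem_range] at hy
        exact ⟨hy.1.1.1.2, hy.2, by omega⟩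
      have := hno _ x (hP _ hmem).1 (hP _ hx).1 (hP _ hmem).2.1 (hP _ hx).2.2
      exact Finset.mem_Icc.2 ⟨hle, by omega⟩
  calc _ ≤ (2 * n) ^ sqrt (2 * n) * (4 ^ (2 * n / 3) * (2 * n) ^ 3) :=
        Nat.mul_le_mul h1 (Nat.mul_le_mul h2 h3)
    _ = _ := by ring

theorem sixteen_mul_add_le_two_pow {j : ℕ} (hj : 8 ≤ j) : 16 * j + 16 ≤ 2 ^ j := by
  induction j, hj using Nat.le_induction with
  | base => norm_num
  | succ k hk ih => rw [pow_succ]; omega

/-- Two primes at distance at least three in `(n, 2n]`, for large `n`. -/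
theorem exists_two_primes_of_large (n : ℕ) (hn : 8192 ≤ n) :
    ∃ a b : ℕ, a.Prime ∧ b.Prime ∧ n < a ∧ b ≤ 2 * n ∧ a + 3 ≤ b := by
  by_contra h
  push Not at h
  have h0 := Nat.four_pow_lt_mul_centralBinom n (by omega)
  have hcb := centralBinom_le_of_clustered_primes n (by omega) h
  set s := sqrt (2 * n) with hs
  set j := s / 16 with hj
  have hs1 : 128 ≤ s := Nat.le_sqrt.2 (by omega)
  have hj1 : 8 ≤ j := by omega
  have hpow := sixteen_mul_add_le_two_pow hj1
  have h4 : 2 * n ≤ 4 ^ j := by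
    rw [show (4 : ℕ) = 2 ^ 2 by norm_num, ← pow_mul, mul_comm 2 j, pow_mul, pow_two]
    have := Nat.lt_succ_sqrt (2 * n)
    rw [← hs] at this
    exact le_trans this.le (Nat.mul_le_mul (by omega) (by omega))
  have hexp : j * (s + 4) ≤ n - 2 * n / 3 := by
    have hsq := Nat.sqrt_le (2 * n)
    rw [← hs] at hsq
    have h16 : 16 * j ≤ s := by omega
    have : 6 * (j * (s + 4)) ≤ s * s := by nlinarith
    omega
  have hbig : n * n.centralBinom ≤ 4 ^ n :=
    calc n * n.centralBinom ≤ (2 * n) * ((2 * n) ^ (s + 3) * 4 ^ (2 * n / 3)) :=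
          Nat.mul_le_mul (by omega) hcb
      _ = (2 * n) ^ (s + 4) * 4 ^ (2 * n / 3) := by ring
      _ ≤ (4 ^ j) ^ (s + 4) * 4 ^ (2 * n / 3) :=
          Nat.mul_le_mul_right _ (Nat.pow_le_pow_left h4 _)
      _ ≤ 4 ^ (n - 2 * n / 3) * 4 ^ (2 * n / 3) := by
          rw [← pow_mul]; exact Nat.mul_le_mul_right _ (Nat.pow_le_pow_right (by norm_num) hexp)
      _ = 4 ^ n := by rw [← pow_add, Nat.sub_add_cancel (by omega)]
  omega

/-- For `n ≥ 9` the interval `(n, 2n]` contains two primes at distance at least three. -/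
theorem exists_two_primes (n : ℕ) (hn : 9 ≤ n) :
    ∃ a b : ℕ, a.Prime ∧ b.Prime ∧ n < a ∧ b ≤ 2 * n ∧ a + 3 ≤ b := by
  rcases Nat.lt_or_ge n 13 with h | h
  · exact ⟨13, 17, by norm_num, by norm_num, by omega, by omega, by omega⟩
  rcases Nat.lt_or_ge n 19 with h | h
  · exact ⟨19, 23, by norm_num, by norm_num, by omega, by omega, by omega⟩
  rcases Nat.lt_or_ge n 31 with h | h
  · exact ⟨31, 37, by norm_num, by norm_num, by omega, by omega, by omega⟩
  rcases Nat.lt_or_ge n 53 with h | h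
  · exact ⟨53, 59, by norm_num, by norm_num, by omega, by omega, by omega⟩
  rcases Nat.lt_or_ge n 97 with h | h
  · exact ⟨97, 101, by norm_num, by norm_num, by omega, by omega, by omega⟩
  rcases Nat.lt_or_ge n 181 with h | h
  · exact ⟨181, 191, by norm_num, by norm_num, by omega, by omega, by omega⟩
  rcases Nat.lt_or_ge n 353 with h | h
  · exact ⟨353, 359, by norm_num, by norm_num, by omega, by omega, by omega⟩
  rcases Nat.lt_or_ge n 691 with h | h
  · exact ⟨691, 701, by norm_num, by norm_num, by omega, by omega, by omega⟩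
  rcases Nat.lt_or_ge n 1373 with h | h
  · exact ⟨1373, 1381, by norm_num, by norm_num, by omega, by omega, by omega⟩
  rcases Nat.lt_or_ge n 2731 with h | h
  · exact ⟨2731, 2741, by norm_num, by norm_num, by omega, by omega, by omega⟩
  rcases Nat.lt_or_ge n 5443 with h | h
  · exact ⟨5443, 5449, by norm_num, by norm_num, by omega, by omega, by omega⟩
  rcases Nat.lt_or_ge n 8192 with h | h
  · exact ⟨10867, 10883, by norm_num, by norm_num, by omega, by omega, by omega⟩
  · exact exists_two_primes_of_large n h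

end Cfsg.Agent.FGSev
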