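import Cfsg.Agent.FGSev.TwoPrimeDegrees
import Cfsg.Agent.FGSev.TwoPrimeNumber

/-!
Two elements of large prime orders in an alternating group generate an alternating group.
-/

namespace Cfsg.Agent.FGSev

open MulAction Equiv Equiv.Perm
open scoped Pointwise

variable {α : Type*} [Fintype α] [DecidableEq α]

/-- The group generated by an element of order `p` and a cycle of order `q` whose supports are
large is transitive and primitive. -/
theorem isPreprimitive_closure_pair {x y : Perm α} {p q : ℕ} (hp : p.Prime) (hq : q.Prime)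
    (hxo : orderOf x = p) (hyc : y.IsCycle) (hys : y.support.card = q)
    (hpq : Fintype.card α < p + q) (hq2 : Fintype.card α < 2 * q)
    (hcover : ∀ z, x z ≠ z ∨ y z ≠ z) :
    IsPreprimitive (Subgroup.closure ({x, y} : Set (Perm α))) α := by
  set H := Subgroup.closure ({x, y} : Set (Perm α)) with hH
  have hxH : x ∈ H := Subgroup.subset_closure (Or.inl rfl)
  have hyH : y ∈ H := Subgroup.subset_closure (Or.inr rfl)
  obtain ⟨a, ha⟩ := Finset.card_pos.1 (show 0 < y.support.card from hys ▸ hq.pos)
  have hy_orbit : ∀ z ∈ y.support, z ∈ orbit H a := by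
    intro z hz
    obtain ⟨i, hi⟩ := hyc.sameCycle (Perm.mem_support.1 ha) (Perm.mem_support.1 hz)
    exact ⟨⟨y ^ i, H.zpow_mem hyH i⟩, hi⟩
  have horb : ∀ z, z ∈ orbit H a := by
    intro z
    by_cases hz : z ∈ y.support
    · exact hy_orbit z hz
    have hxz : x z ≠ z := (hcover z).resolve_right fun h => hz (Perm.mem_support.2 h)
    have hc := isCycle_cycleOf x hxz
    have hcs : (x.cycleOf z).support.card = p := by
      obtain ⟨k, hk⟩ := cycleType_prime_order (σ := x) (by rw [hxo]; exact hp)
      have hm : (x.cycleOf z).support.card ∈ x.cycleType := by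
        rw [cycleType_def, Multiset.mem_map]
        exact ⟨x.cycleOf z, cycleOf_mem_cycleFactorsFinset_iff.2 (Perm.mem_support.2 hxz), rfl⟩
      rw [hk, hxo] at hm
      exact Multiset.eq_of_mem_replicate hm
    obtain ⟨w, hw1, hw2⟩ : ∃ w ∈ (x.cycleOf z).support, w ∈ y.support := by
      by_contra hcon
      push Not at hcon
      have := Finset.card_union_of_disjoint (s := (x.cycleOf z).support) (t := y.support)
        (Finset.disjoint_left.2 hcon)
      have h2 := Finset.card_le_univ ((x.cycleOf z).support ∪ y.support)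
      omega
    obtain ⟨⟨i, hi⟩, -⟩ := mem_support_cycleOf_iff.1 hw1
    rw [← MulAction.orbit_eq_iff.2 (hy_orbit w hw2)]
    refine ⟨⟨x ^ (-i), H.zpow_mem hxH _⟩, ?_⟩
    show (x ^ (-i)) w = z
    rw [← hi, ← Perm.mul_apply, ← zpow_add, neg_add_cancel, zpow_zero, Perm.one_apply]
  haveI : IsPretransitive H α := ⟨fun u v => by
    obtain ⟨g, hg⟩ := horb u
    obtain ⟨g', hg'⟩ := horb v
    exact ⟨g' * g⁻¹, by rw [← hg, ← hg']; simp [mul_smul]⟩⟩
  refine IsPreprimitive.of_isTrivialBlock_base a fun {B} haB hB => ?_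
  let t : H := ⟨y, hyH⟩
  have hyo : orderOf y = q := by rw [hyc.orderOf, hys]
  by_cases hfix : t • B = B
  · right
    have hsub : (y.support : Set α) ⊆ B := by
      intro z hz
      obtain ⟨i, hi⟩ := hyc.sameCycle (Perm.mem_support.1 ha) (Perm.mem_support.1 hz)
      have hti : t ^ i • B = B := by
        have : t ∈ stabilizer H B := hfix
        exact zpow_mem this i
      rw [← hti]
      exact ⟨a, haB, hi⟩
    have hBq : q ≤ B.ncard := by
      rw [← hys, ← Set.ncard_coe_finset]
      exact Set.ncard_le_ncard hsub (Set.toFinite _)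
    obtain ⟨d, hd⟩ := hB.ncard_dvd_card ⟨a, haB⟩
    rw [Nat.card_eq_fintype_card] at hd
    have : d < 2 := by
      by_contra h
      have : B.ncard * 2 ≤ B.ncard * d := Nat.mul_le_mul_left _ (by omega)
      omega
    have hd1 : d = 1 := by
      interval_cases d
      · have := Fintype.card_pos_iff.2 ⟨a⟩; omega
      · rfl
    refine Set.eq_of_subset_of_ncard_le (Set.subset_univ B) ?_ (Set.toFinite _)
    rw [Set.ncard_univ, Nat.card_eq_fintype_card, hd, hd1, mul_one]
  · left
    have ht : orderOf t = q := by rw [Subgroup.orderOf_mk, hyo]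
    have hinj : ∀ i j : Fin q, t ^ (i : ℕ) • B = t ^ (j : ℕ) • B → i = j := by
      intro i j h
      by_contra hij
      apply hfix
      have hmem : (t ^ (i : ℕ))⁻¹ * t ^ (j : ℕ) ∈ stabilizer H B := by
        rw [mem_stabilizer_iff, mul_smul, ← h, inv_smul_smul]
      have hne : (t ^ (i : ℕ))⁻¹ * t ^ (j : ℕ) ≠ 1 := by
        rw [ne_eq, inv_mul_eq_one]
        intro e
        exact hij (Fin.ext (pow_injOn_Iio_orderOf (by rw [ht]; exact i.2) (by rw [ht]; exact j.2) e))
      have hle : Subgroup.zpowers ((t ^ (i : ℕ))⁻¹ * t ^ (j : ℕ)) ≤ Subgroup.zpowers t :=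
        Subgroup.zpowers_le.2 (mul_mem (inv_mem (pow_mem (Subgroup.mem_zpowers t) _))
          (pow_mem (Subgroup.mem_zpowers t) _))
      have hd := Subgroup.card_dvd_of_le hle
      rw [Nat.card_zpowers, Nat.card_zpowers, ht] at hd
      have ho := ((Nat.dvd_prime hq).1 hd).resolve_left fun e => hne (orderOf_eq_one_iff.1 e)
      have heq := Subgroup.eq_of_le_of_card_ge hle
        (by rw [Nat.card_zpowers, Nat.card_zpowers, ht, ho])
      obtain ⟨l, hl⟩ : t ∈ Subgroup.zpowers ((t ^ (i : ℕ))⁻¹ * t ^ (j : ℕ)) :=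
        heq ▸ Subgroup.mem_zpowers t
      rw [← hl]
      exact zpow_mem hmem l
    have hsum : q * B.ncard ≤ Nat.card α := by
      rw [← Set.ncard_univ]
      refine le_trans (le_of_eq ?_) (Set.ncard_le_ncard (Set.subset_univ
        (⋃ i : Fin q, t ^ (i : ℕ) • B)) (Set.toFinite _))
      rw [Set.ncard_iUnion_of_finite (fun i => Set.toFinite _)
        (fun i j hij => (hB.smul_eq_smul_or_disjoint _ _).resolve_left fun h => hij (hinj i j h)),
        finsum_eq_sum_of_fintype]
      simp [Set.ncard_smul_set, mul_comm]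
    rw [Nat.card_eq_fintype_card] at hsum
    refine Set.ncard_le_one_iff_subsingleton.1 ?_
    by_contra h
    have : q * 2 ≤ q * B.ncard := Nat.mul_le_mul_left _ (by omega)
    omega

/-- The core recognition lemma. -/
theorem exists_alternating_core {x y : Perm α} {p q : ℕ} (hp : p.Prime) (hq : q.Prime)
    (hxo : orderOf x = p) (hyc : y.IsCycle) (hys : y.support.card = q)
    (hxA : x ∈ alternatingGroup α) (hyA : y ∈ alternatingGroup α)
    (hd : Fintype.card α ≤ 2 * p) (hdq : q ≤ Fintype.card α) (hpq : p < q)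
    (hx2 : x.support.card = 2 * p → Fintype.card α = 2 * p)
    (hcases : (p + 3 ≤ q ∧ (x.support.card < 2 * p ∨ q + 3 ≤ 2 * p)) ∨
      (p = 3 ∧ q = 5) ∨ (p = 5 ∧ q = 7) ∨ (p = 11 ∧ q = 13 ∧ x.support.card < 2 * p))
    (hcover : ∀ z, x z ≠ z ∨ y z ≠ z) :
    ∃ d : ℕ, 5 ≤ d ∧
      Nonempty (Subgroup.closure ({x, y} : Set (Perm α)) ≃* alternatingGroup (Fin d)) := by
  have hprim := isPreprimitive_closure_pair hp hq hxo hyc hys (by omega) (by omega) hcover
  set H := Subgroup.closure ({x, y} : Set (Perm α)) with hH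
  have hxH : x ∈ H := Subgroup.subset_closure (Or.inl rfl)
  have hyH : y ∈ H := Subgroup.subset_closure (Or.inr rfl)
  have hHA : H ≤ alternatingGroup α := by
    rw [hH, Subgroup.closure_le]
    rintro z (rfl | rfl) <;> assumption
  have hq5 : 5 ≤ q := by
    have := hp.two_le
    rcases hcases with h | h | h | h <;> omega
  have done : alternatingGroup α ≤ H → ∃ d : ℕ, 5 ≤ d ∧
      Nonempty (H ≃* alternatingGroup (Fin d)) := fun h =>
    ⟨Fintype.card α, by omega, ⟨(MulEquiv.subgroupCongr (le_antisymm hHA h)).trans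
      (Equiv.altCongrHom (Fintype.equivFin α))⟩⟩
  -- `x` is a cycle or covers everything
  have hxs : (x.IsCycle ∧ x.support.card = p) ∨ x.support.card = 2 * p := by
    obtain ⟨k, hk⟩ := cycleType_prime_order (σ := x) (by rw [hxo]; exact hp)
    rw [hxo] at hk
    have h1 : x.support.card = p * (k + 1) := by
      rw [← sum_cycleType, hk, Multiset.sum_replicate, smul_eq_mul, mul_comm]
    have h2 := Finset.card_le_univ x.support
    rcases Nat.eq_zero_or_pos k with rfl | hk0
    · exact Or.inl ⟨card_cycleType_eq_one.1 (by rw [hk, Multiset.card_replicate]), by omega⟩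
    · right
      have : p * 2 ≤ p * (k + 1) := Nat.mul_le_mul_left _ (by omega)
      omega
  have jy : q + 3 ≤ Fintype.card α → alternatingGroup α ≤ H := fun h =>
    PermP.alternatingGroup_le_of_primeCycle H hprim hq h hyc hys hyH
  have jx : x.IsCycle → x.support.card = p → p + 3 ≤ Fintype.card α → alternatingGroup α ≤ H :=
    fun hc hs h => PermP.alternatingGroup_le_of_primeCycle H hprim hp h hc hs hxH
  rcases hcases with ⟨hgap, hdouble⟩ | ⟨rfl, rfl⟩ | ⟨rfl, rfl⟩ | ⟨rfl, rfl, hx11⟩
  · rcases hxs with ⟨hc, hs⟩ | hs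
    · exact done (jx hc hs (by omega))
    · exact done (jy (by have := hx2 hs; omega))
  · rcases hxs with ⟨hc, hs⟩ | hs
    · exact done (alternatingGroup_le_of_isPreprimitive_of_isThreeCycle_mem hprim
        (card_support_eq_three_iff.1 hs) hxH)
    · have hyo : orderOf y = 5 := by rw [hyc.orderOf, hys]
      rcases alt_six H hHA (by have := hx2 hs; omega) hyo hyH with h | h
      · exact done h
      · exact ⟨5, le_rfl, h⟩
  · rcases hxs with ⟨hc, hs⟩ | hs
    · rcases eq_or_lt_of_le hdq with h7 | h7
      · exact done (alt_le_seven H hprim hHA h7.symm hc hs hxH)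
      · exact done (jx hc hs (by omega))
    · exact done (jy (by have := hx2 hs; omega))
  · obtain ⟨hc, hs⟩ := hxs.resolve_right (by omega)
    rcases eq_or_lt_of_le hdq with h13 | h13
    · exact done (alt_le_thirteen H hprim hHA h13.symm hc hs hxH)
    · exact done (jx hc hs (by omega))

/-- Two elements of suitable prime orders generate an alternating group. -/
theorem exists_alternating_of_pair {x y : Perm α} {p q : ℕ} (hp : p.Prime) (hq : q.Prime)
    (hxA : x ∈ alternatingGroup α) (hyA : y ∈ alternatingGroup α)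
    (hxo : orderOf x = p) (hyo : orderOf y = q)
    (hd : Fintype.card α ≤ 2 * p) (hpq : p < q)
    (hcases : (p + 3 ≤ q ∧ (Fintype.card α < 2 * p ∨ q + 3 ≤ 2 * p)) ∨
      (p = 3 ∧ q = 5) ∨ (p = 5 ∧ q = 7) ∨ (p = 11 ∧ q = 13 ∧ Fintype.card α < 2 * p)) :
    ∃ d : ℕ, 5 ≤ d ∧
      Nonempty (Subgroup.closure ({x, y} : Set (Perm α)) ≃* alternatingGroup (Fin d)) := by
  have hU := Finset.card_le_univ (x.support ∪ y.support)
  have hxU := Finset.card_le_card (Finset.subset_union_left (s₁ := x.support) (s₂ := y.support))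
  have hyU := Finset.card_le_card (Finset.subset_union_right (s₁ := x.support) (s₂ := y.support))
  have hys := Finset.card_le_univ y.support
  have hyc : y.IsCycle := isCycle_of_prime_order (by rw [hyo]; exact hq) (by omega)
  let P : α → Prop := fun z => x z ≠ z ∨ y z ≠ z
  have hPU : ∀ z, P z ↔ z ∈ x.support ∪ y.support := fun z => by simp [P]
  have hPx : ∀ z, P (x z) ↔ P z := by
    intro z
    by_cases hz : x z = z
    · rw [hz]
    · exact iff_of_true (Or.inl fun e => hz (x.injective e)) (Or.inl hz)
  have hPy : ∀ z, P (y z) ↔ P z := by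
    intro z
    by_cases hz : y z = z
    · rw [hz]
    · exact iff_of_true (Or.inr fun e => hz (y.injective e)) (Or.inr hz)
  let x' : Perm {z // P z} := x.subtypePerm hPx
  let y' : Perm {z // P z} := y.subtypePerm hPy
  let ι : Perm {z // P z} →* Perm α := ofSubtype
  have hι : Function.Injective ι := ofSubtype_injective
  have hx' : ι x' = x := ofSubtype_subtypePerm _ fun z hz => Or.inl hz
  have hy' : ι y' = y := ofSubtype_subtypePerm _ fun z hz => Or.inr hz
  have hxo' : orderOf x' = p := by rw [← orderOf_injective ι hι, hx', hxo]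
  have hyo' : orderOf y' = q := by rw [← orderOf_injective ι hι, hy', hyo]
  have hsx : x'.support.card = x.support.card := by
    conv_rhs => rw [← hx']
    exact ((congrArg Finset.card (support_ofSubtype x')).trans (Finset.card_map _)).symm
  have hsy : y'.support.card = y.support.card := by
    conv_rhs => rw [← hy']
    exact ((congrArg Finset.card (support_ofSubtype y')).trans (Finset.card_map _)).symm
  have hcard : Fintype.card {z // P z} = (x.support ∪ y.support).card :=
    Fintype.card_of_subtype _ fun z => (hPU z).symm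
  have hyc' : y'.IsCycle := isCycle_of_prime_order (by rw [hyo']; exact hq) (by omega)
  have hys' : y'.support.card = q := by rw [← hyc'.orderOf, hyo']
  have hq5 : 5 ≤ q := by
    have := hp.two_le
    rcases hcases with h | h | h | h <;> omega
  obtain ⟨d, hd5, ⟨e⟩⟩ := exists_alternating_core hp hq hxo' hyc' hys'
    (by
      rw [mem_alternatingGroup, ← sign_ofSubtype]
      exact (congrArg Perm.sign hx').trans (mem_alternatingGroup.1 hxA))
    (by
      rw [mem_alternatingGroup, ← sign_ofSubtype]
      exact (congrArg Perm.sign hy').trans (mem_alternatingGroup.1 hyA))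
    (by omega) (by omega) hpq (fun h => by omega)
    (by rcases hcases with h | h | h | h <;> omega)
    (fun ⟨z, hz⟩ => by
      rcases hz with h | h
      · exact Or.inl fun e => h (congrArg Subtype.val e)
      · exact Or.inr fun e => h (congrArg Subtype.val e))
  refine ⟨d, hd5, ⟨?_⟩⟩
  have hmap : (Subgroup.closure ({x', y'} : Set (Perm {z // P z}))).map ι =
      Subgroup.closure ({x, y} : Set (Perm α)) := by
    rw [MonoidHom.map_closure, Set.image_insert_eq, Set.image_singleton, hx', hy']
  exact ((Subgroup.equivMapOfInjective _ ι hι).trans (MulEquiv.subgroupCongr hmap)).symm.trans e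

/-- The choice of the two primes. -/
theorem exists_prime_pair (m : ℕ) (hm : 5 ≤ m) :
    ∃ p q : ℕ, p.Prime ∧ q.Prime ∧ m ≤ 2 * p ∧ p < q ∧ q ≤ m ∧
      ((p + 3 ≤ q ∧ (m < 2 * p ∨ q + 3 ≤ 2 * p)) ∨
        (p = 3 ∧ q = 5) ∨ (p = 5 ∧ q = 7) ∨ (p = 11 ∧ q = 13 ∧ m < 2 * p)) := by
  rcases Nat.lt_or_ge m 18 with h | h
  · rcases Nat.lt_or_ge m 7 with h7 | h7
    · exact ⟨3, 5, by norm_num, by norm_num, by omega, by omega, by omega, by omega⟩
    rcases Nat.lt_or_ge m 11 with h11 | h11
    · exact ⟨5, 7, by norm_num, by norm_num, by omega, by omega, by omega, by omega⟩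
    rcases Nat.lt_or_ge m 15 with h15 | h15
    · exact ⟨7, 11, by norm_num, by norm_num, by omega, by omega, by omega, by omega⟩
    rcases Nat.lt_or_ge m 17 with h17 | h17
    · exact ⟨11, 13, by norm_num, by norm_num, by omega, by omega, by omega, by omega⟩
    · exact ⟨11, 17, by norm_num, by norm_num, by omega, by omega, by omega, by omega⟩
  · obtain ⟨a, b, ha, hb, hna, hbn, hab⟩ := exists_two_primes (m / 2) (by omega)
    exact ⟨a, b, ha, hb, by omega, by omega, by omega, Or.inl ⟨hab, Or.inl (by omega)⟩⟩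

end Cfsg.Agent.FGSev
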